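import Cfsg.Agent.Lib.Helper25.ChevCentK
import Cfsg.Agent.Lib.Helper24.CommFAll
import Cfsg.Agent.Lib.Helper24.ChevCard

set_option autoImplicit false

namespace Cfsg.Agent.Lib.Helper25

open Cfsg.Lie Matrix
open Cfsg.Agent.Lib.Helper24

/-! ### The centraliser of a root element `x_r(1)` commuting with `U`, in characteristic two -/

section

variable {F : Type*} [Field F]

/-- Root elements of distinct roots with non-zero parameter are distinct. -/
theorem x_root_inj (D : ChevalleyDatum)
    (hD : D ∈ [chevG2, chevB2, chevD4, chevF4, chevE6, chevE7, chevE8]) (r s : ℕ)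
    (hr : r < D.nroots) (hs : s < D.nroots) (c c' : F) (hc : c ≠ 0)
    (h : D.x F r c = D.x F s c') : r = s := by
  have hD' : D ∈ chevList := hD
  by_contra hne
  obtain ⟨i, hi, L, hL, hLr, -⟩ := orb_all D hD r hr
  obtain ⟨m, hmval, -⟩ := exists_nWordGL (F := F) D hD L hL
  have hp := simple_lt D hD' i hi
  have hpos := (upChk_all D hD i hi).1
  have hLr' : ∀ j ∈ L.reverse, j < D.rank := fun j hj => hL j (List.mem_reverse.1 hj)
  have hs'lt : wPi D L.reverse s < D.nroots := wPi_lt D hD L.reverse hLr' s hs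
  have hs's : wPi D L (wPi D L.reverse s) = s := wPi_reverse_cancel D hD L hL s hs
  have hs'ne : wPi D L.reverse s ≠ D.simple i := by
    intro e
    apply hne
    rw [← hLr, ← hs's, e]
  obtain ⟨y, hy⟩ := exists_xGL (F := F) D hD (D.simple i) hp
    (((wEta D L (D.simple i) : ℤ) : F) * c)
  have h1 : (m : Matrix D.Idx D.Idx F) *
      D.x F (D.simple i) (((wEta D L (D.simple i) : ℤ) : F) * c) =
      D.x F r c * (m : Matrix D.Idx D.Idx F) := by
    rw [hmval, nWordMat_conj D hD L hL _ hp, hLr, ← mul_assoc,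
      sign_sq (F := F) _ (wEta_cases D L (D.simple i)), one_mul]
  obtain ⟨y', hy'⟩ := exists_xGL (F := F) D hD (wPi D L.reverse s) hs'lt
    (((wEta D L (wPi D L.reverse s) : ℤ) : F) * c')
  have h2 : (m : Matrix D.Idx D.Idx F) *
      D.x F (wPi D L.reverse s) (((wEta D L (wPi D L.reverse s) : ℤ) : F) * c') =
      D.x F s c' * (m : Matrix D.Idx D.Idx F) := by
    rw [hmval, nWordMat_conj D hD L hL _ hs'lt, hs's, ← mul_assoc,
      sign_sq (F := F) _ (wEta_cases D L (wPi D L.reverse s)), one_mul]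
  have hyy' : y = y' := by
    have e1 : m * y = m * y' := by
      apply Units.ext
      rw [Units.val_mul, Units.val_mul, hy, hy', h1, h2, h]
    exact mul_left_cancel e1
  have hy1 : y ≠ 1 := by
    intro e
    have e2 : D.x F (D.simple i) (((wEta D L (D.simple i) : ℤ) : F) * c) = 1 := by
      rw [← hy, e, Units.val_one]
    refine x_ne_one D hD _ hp _ ?_ e2
    apply mul_ne_zero _ hc
    rcases wEta_cases D L (D.simple i) with h' | h' <;> rw [h'] <;> simp
  apply hy1
  have hyX : y ∈ D.rootSubgroup F (D.simple i) := Subgroup.subset_closure ⟨_, hy⟩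
  rcases (sign_facts D hD _ hs'lt).1 with hp' | hn'
  · have hyU : y ∈ Subgroup.closure (upSet F D (D.simple i)) := by
      rw [hyy']
      exact Subgroup.subset_closure ⟨wPi D L.reverse s, _, hp', hs'ne, hy'⟩
    have hmem : y ∈ Subgroup.closure (upSet F D (D.simple i)) ⊓ D.rootSubgroup F (D.simple i) :=
      Subgroup.mem_inf.2 ⟨hyU, hyX⟩
    rw [up_inf_rootSubgroup D hD i hi, Subgroup.mem_bot] at hmem
    exact hmem
  · have hyV : y ∈ D.negUnipotent F := by
      rw [hyy']
      exact Subgroup.subset_closure ⟨wPi D L.reverse s, _, hn', hy'⟩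
    have hyB : y ∈ D.borelSubgroup F :=
      Subgroup.mem_sup_left (Subgroup.subset_closure ⟨D.simple i, _, hpos, hy⟩)
    have hmem : y ∈ D.borelSubgroup F ⊓ D.negUnipotent F := Subgroup.mem_inf.2 ⟨hyB, hyV⟩
    rw [borel_inf_negUnipotent D hD', Subgroup.mem_bot] at hmem
    exact hmem

/-- In characteristic two the commutator word is trivial when all its coefficients are even. -/
theorem commWord_even_one [CharP F 2] (D : ChevalleyDatum) (r s : ℕ)
    (h : ∀ c ∈ D.commTerms r s, (2 : ℤ) ∣ c.2.1) (t u : F) :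
    D.wordMat F (D.commWord F r s t u) = 1 := by
  unfold ChevalleyDatum.commWord
  generalize D.commTerms r s = l at h
  induction l with
  | nil => exact wordMat_nil' D
  | cons c l ih =>
    rw [List.map_cons, wordMat_cons', ih (fun c' hc' => h c' (List.mem_cons_of_mem _ hc'))]
    have h0 : ((c.2.1 : ℤ) : F) = 0 := by
      rw [CharP.intCast_eq_zero_iff F 2]
      exact_mod_cast h c List.mem_cons_self
    simp only [h0, zero_mul]
    rw [Helper25.x_zero, Matrix.mul_one]

/-- Commuting root elements from the commutator formula, in characteristic two. -/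
theorem comm_of_even [CharP F 2] (D : ChevalleyDatum)
    (hD : D ∈ [chevG2, chevB2, chevD4, chevF4, chevE6, chevE7, chevE8]) (r s : ℕ)
    (hr : r < D.nroots) (hs : s < D.nroots) (hneg : s ≠ D.neg r)
    (hev : ∀ c ∈ D.commTerms r s, (2 : ℤ) ∣ c.2.1) (t u : F) :
    D.x F s u * D.x F r t = D.x F r t * D.x F s u := by
  have hD' : D ∈ chevList := hD
  by_cases hrs : s = r
  · rw [hrs, x_add D hD' r hr, x_add D hD' r hr, add_comm]
  · have h1 := comm_formula D hD' r s hr hs hrs hneg t u
    rw [commWord_even_one D r s hev, Matrix.mul_one] at h1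
    exact h1

theorem wordMat_flatMap_filter (D : ChevalleyDatum) (f : ℕ → List (ℕ × F)) (i₀ : ℕ)
    (h1 : D.wordMat F (f i₀) = 1) (l : List ℕ) :
    D.wordMat F (l.flatMap f) =
      D.wordMat F ((l.filter (fun k => decide (k ≠ i₀))).flatMap f) := by
  induction l with
  | nil => rfl
  | cons k l ih =>
    rw [List.flatMap_cons, wordMat_append, ih]
    by_cases hk : k = i₀
    · rw [List.filter_cons_of_neg (by simp [hk]), hk, h1, Matrix.one_mul]
    · rw [List.filter_cons_of_pos (by simp [hk]), List.flatMap_cons, wordMat_append]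

/-- An element of `H` commuting with `x_{r₀}(1)` lies in the group generated by the root
subgroups of a set of roots containing `±p_k` for all `k ≠ i₀`, if `r₀` pairs to `1` with the
`i₀`-th fundamental coroot and to `0` with the others. -/
theorem diag_mem_rootGen_of_commute (D : ChevalleyDatum)
    (hD : D ∈ [chevG2, chevB2, chevD4, chevF4, chevE6, chevE7, chevE8]) (r₀ : ℕ)
    (hr₀ : r₀ < D.nroots) (P : ℕ → Prop) (hP : ∀ r, P r → r < D.nroots) (i₀ : ℕ)
    (hi₀ : i₀ < D.rank) (hcart : D.cartan i₀ r₀ = 1)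
    (hoth : ∀ k < D.rank, k ≠ i₀ → D.cartan k r₀ = 0 ∧ P (D.neg (D.simple k)))
    (hpos : ∀ k < D.rank, P (D.simple k))
    (z : GL D.Idx F) (hz : (z : Matrix D.Idx D.Idx F) = D.x F r₀ 1) (h : GL D.Idx F)
    (hh : h ∈ D.diagonalSubgroup F) (hcomm : Commute z h) : h ∈ rootGen F D P := by
  have hD' : D ∈ chevList := hD
  obtain ⟨d, hd, hval⟩ := diagonalSubgroup_le_gradedTorus D hD' hh
  rw [← phi_range D hD'] at hh
  obtain ⟨c, rfl⟩ := hh
  -- the character value at `r₀` is `1`
  have hd1 : d r₀ = 1 := by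
    obtain ⟨z₂, hz₂⟩ := exists_xGL (F := F) D hD r₀ hr₀ (d r₀ * 1)
    have h1 : z₂ * phi D c = phi D c * z := by
      apply Units.ext
      rw [Units.val_mul, Units.val_mul, hz₂, hval, hz, torus_mul_x D d hd r₀ hr₀]
    rw [← hcomm.eq] at h1
    have h2 : z₂ = z := mul_right_cancel h1
    have h3 : D.x F r₀ (d r₀ * 1) = D.x F r₀ 1 := by rw [← hz₂, ← hz, h2]
    have h4 := x_inj D hD r₀ hr₀ _ _ h3
    rw [mul_one] at h4
    exact h4
  have hdt : d r₀ = tprod D (cext D c) r₀ := by
    have h1 : torus F D d = torus F D (tprod D (cext D c)) := by rw [← hval, phi_val]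
    have h2 := congrFun (congrFun h1 (Sum.inr ⟨r₀, hr₀⟩)) (Sum.inr ⟨r₀, hr₀⟩)
    unfold torus at h2
    rw [Matrix.diagonal_apply_eq, Matrix.diagonal_apply_eq] at h2
    exact h2
  have hc1 : c ⟨i₀, hi₀⟩ = 1 := by
    rw [hdt, tprod_cext] at hd1
    have h1 : (∏ i : Fin D.rank, c i ^ D.cartan i.val r₀ : Fˣ) = 1 := Units.val_eq_one.1 hd1
    rw [Finset.prod_eq_single (⟨i₀, hi₀⟩ : Fin D.rank)] at h1
    · simp only at h1
      rw [hcart, zpow_one] at h1
      exact h1
    · intro k _ hk
      have hk' : k.val ≠ i₀ := fun e => hk (Fin.ext e)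
      rw [(hoth k.val k.isLt hk').1, zpow_zero]
    · intro h0
      exact absurd (Finset.mem_univ _) h0
  have hcext1 : cext D c i₀ = 1 := by
    have h1 := cext_val D c ⟨i₀, hi₀⟩
    simp only at h1
    rw [h1, hc1, Units.val_one]
  have hp₀ := simple_lt D hD' i₀ hi₀
  have hw1 : D.wordMat F (D.hWord (D.simple i₀) (cext D c i₀)) = 1 := by
    rw [hcext1]
    have h1 := hMat_eq_torus (F := F) D hD' (D.simple i₀) hp₀ 1 one_ne_zero
    unfold ChevalleyDatum.hMat at h1
    rw [h1, ← torus_one (F := F) D]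
    apply torus_congr
    intro s _
    rw [_root_.one_zpow]
  have hval2 : ((phi D c : GL D.Idx F) : Matrix D.Idx D.Idx F) =
      D.wordMat F (((List.range D.rank).filter (fun k => decide (k ≠ i₀))).flatMap
        fun i => D.hWord (D.simple i) (cext D c i)) := by
    rw [phi_val, ← wordMat_simple_eq_torus D hD' (cext D c) (fun i _ => cext_ne_zero D c i),
      wordMat_flatMap_filter D (fun i => D.hWord (D.simple i) (cext D c i)) i₀ hw1]
  apply word_mem_closure D hD P _ ?_ (phi D c) hval2
  intro e he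
  rw [List.mem_flatMap] at he
  obtain ⟨k, hk, hek⟩ := he
  rw [List.mem_filter, List.mem_range] at hk
  obtain ⟨hkr, hki⟩ := hk
  have hki' : k ≠ i₀ := by simpa using hki
  unfold ChevalleyDatum.hWord ChevalleyDatum.nWord at hek
  simp only [List.cons_append, List.nil_append, List.mem_cons, List.not_mem_nil, or_false] at hek
  rcases hek with rfl | rfl | rfl | rfl | rfl | rfl
  · exact ⟨hpos k hkr, hP _ (hpos k hkr)⟩
  · exact ⟨(hoth k hkr hki').2, hP _ (hoth k hkr hki').2⟩
  · exact ⟨hpos k hkr, hP _ (hpos k hkr)⟩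
  · exact ⟨hpos k hkr, hP _ (hpos k hkr)⟩
  · exact ⟨(hoth k hkr hki').2, hP _ (hoth k hkr hki').2⟩
  · exact ⟨hpos k hkr, hP _ (hpos k hkr)⟩

/-- The table conditions for the centraliser of `x_{r₀}(1)` in characteristic two: `x_{r₀}`
commutes (modulo two) with the root elements of the positive roots and of the roots in `Js`;
a fundamental reflection fixing `r₀` has its negative fundamental root in `Js`; `r₀` pairs to
`1` with one fundamental coroot and to `0` with the others, whose negative roots are in `Js`. -/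
def centChk (D : ChevalleyDatum) (r₀ : ℕ) (Js : List ℕ) : Bool :=
  decide (r₀ < D.nroots) &&
  ((List.range D.nroots).all fun s =>
    !(decide (D.IsPosRoot s) || Js.contains s) || s == r₀ ||
      (s != D.neg r₀ && (D.commTerms r₀ s).all fun c => c.2.1 % 2 == 0)) &&
  (Js.all fun s => decide (s < D.nroots)) &&
  ((List.range D.rank).all fun i => D.reflectRoot i r₀ != r₀ || Js.contains (D.neg (D.simple i))) &&
  ((List.range D.rank).any fun i₀ => decide (D.cartan i₀ r₀ = 1) &&
    (List.range D.rank).all fun k => k == i₀ ||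
      (decide (D.cartan k r₀ = 0) && Js.contains (D.neg (D.simple k))))

theorem centChk_spec (D : ChevalleyDatum) (r₀ : ℕ) (Js : List ℕ) (h : centChk D r₀ Js = true) :
    r₀ < D.nroots ∧
    (∀ s, (D.IsPosRoot s ∨ s ∈ Js) → s < D.nroots ∧ (s ≠ r₀ → s ≠ D.neg r₀ ∧
      ∀ c ∈ D.commTerms r₀ s, (2 : ℤ) ∣ c.2.1)) ∧
    (∀ i < D.rank, D.reflectRoot i r₀ = r₀ → D.neg (D.simple i) ∈ Js) ∧
    ∃ i₀ < D.rank, D.cartan i₀ r₀ = 1 ∧
      ∀ k < D.rank, k ≠ i₀ → D.cartan k r₀ = 0 ∧ D.neg (D.simple k) ∈ Js := by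
  unfold centChk at h
  simp only [Bool.and_eq_true, decide_eq_true_eq, List.all_eq_true, List.mem_range,
    Bool.or_eq_true, Bool.not_eq_true', Bool.or_eq_false_iff, decide_eq_false_iff_not,
    List.contains_iff_mem, beq_iff_eq, bne_iff_ne, ne_eq, List.any_eq_true] at h
  obtain ⟨⟨⟨⟨h1, h2⟩, h3⟩, h4⟩, i₀, hi₀, h5, h6⟩ := h
  refine ⟨h1, ?_, ?_, i₀, hi₀, h5, ?_⟩
  · intro s hs
    have hsn : s < D.nroots := by
      rcases hs with hs | hs
      · exact hs.1
      · exact h3 s hs
    refine ⟨hsn, fun hne => ?_⟩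
    rcases h2 s hsn with h' | h'
    · rcases h' with h' | h'
      · exfalso
        rcases hs with hs | hs
        · exact h'.1 hs
        · have h7 : Js.contains s = true := List.contains_iff_mem.2 hs
          rw [h'.2] at h7
          exact Bool.false_ne_true h7
      · exact absurd h' hne
    · refine ⟨h'.1, fun c hc => ?_⟩
      exact Int.dvd_of_emod_eq_zero (h'.2 c hc)
  · intro i hi hrefl
    rcases h4 i hi with h' | h'
    · exact absurd hrefl h'
    · exact h'
  · intro k hk hne
    rcases h6 k hk with h' | h'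
    · exact absurd h' hne
    · exact h'

/-- The centraliser of `x_{r₀}(1)` in the Chevalley group, in characteristic two, for a root
`r₀` and a list `Js` of roots satisfying the table conditions `centChk`: it is generated by the
root subgroups of the positive roots and of the roots in `Js`. -/
theorem centralizer_root_elt [CharP F 2] (D : ChevalleyDatum)
    (hD : D ∈ [chevG2, chevB2, chevD4, chevF4, chevE6, chevE7, chevE8]) (r₀ : ℕ) (Js : List ℕ)
    (hchk : centChk D r₀ Js = true) (z : GL D.Idx F)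
    (hz : (z : Matrix D.Idx D.Idx F) = D.x F r₀ 1) :
    D.group F ⊓ Subgroup.centralizer {z} = rootGen F D (fun r => D.IsPosRoot r ∨ r ∈ Js) := by
  have hD' : D ∈ chevList := hD
  obtain ⟨hr₀, hb, hc, i₀, hi₀, hcart, hoth⟩ := centChk_spec D r₀ Js hchk
  have hP : ∀ r, (D.IsPosRoot r ∨ r ∈ Js) → r < D.nroots := fun r hr => (hb r hr).1
  have hcomm : ∀ s, (D.IsPosRoot s ∨ s ∈ Js) → ∀ t u : F,
      D.x F s u * D.x F r₀ t = D.x F r₀ t * D.x F s u := by
    intro s hs t u
    by_cases hne : s = r₀
    · rw [hne, x_add D hD' r₀ hr₀, x_add D hD' r₀ hr₀, add_comm]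
    · obtain ⟨h1, h2⟩ := (hb s hs).2 hne
      exact comm_of_even D hD r₀ s hr₀ (hb s hs).1 h1 h2 t u
  have hQcent : ∀ q ∈ rootGen F D (fun r => D.IsPosRoot r ∨ r ∈ Js), ∀ (y : GL D.Idx F) (t : F),
      (y : Matrix D.Idx D.Idx F) = D.x F r₀ t → q * y = y * q := by
    intro q hq y t hy
    have hle : rootGen F D (fun r => D.IsPosRoot r ∨ r ∈ Js) ≤ Subgroup.centralizer {y} := by
      unfold rootGen
      rw [Subgroup.closure_le]
      rintro g ⟨s, u, hsP, hg⟩
      rw [SetLike.mem_coe, Subgroup.mem_centralizer_iff]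
      intro y' hy'
      rw [Set.mem_singleton_iff] at hy'
      subst hy'
      apply Units.ext
      rw [Units.val_mul, Units.val_mul, hg, hy]
      exact (hcomm s hsP t u).symm
    exact (Subgroup.mem_centralizer_iff.1 (hle hq) y rfl).symm
  have hUQ : D.posUnipotent F ≤ rootGen F D (fun r => D.IsPosRoot r ∨ r ∈ Js) := by
    unfold ChevalleyDatum.posUnipotent rootGen
    apply Subgroup.closure_mono
    rintro g ⟨r, t, hr, hg⟩
    exact ⟨r, t, Or.inl hr, hg⟩
  have hHQ : D.diagonalSubgroup F ≤
      Subgroup.normalizer (rootGen F D (fun r => D.IsPosRoot r ∨ r ∈ Js) : Set (GL D.Idx F)) :=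
    diagonal_le_normalizer_rootGen D hD' _ hP
  have hHU : D.diagonalSubgroup F ≤ Subgroup.normalizer (D.posUnipotent F : Set (GL D.Idx F)) :=
    diagonal_le_normalizer_rootGen D hD' D.IsPosRoot (fun r hr => hr.1)
  apply le_antisymm
  · rintro g ⟨hgG, hgC⟩
    have hgz : g * z = z * g := (Subgroup.mem_centralizer_iff.1 hgC z rfl).symm
    obtain ⟨b, hb', n, hn, u', hu', rfl⟩ := bruhat_exists D hD g hgG
    obtain ⟨u, hu, h, hh, rfl⟩ := mem_sup_of_le_normalizer _ _ hHU _ hb'
    have hu'U : u' ∈ D.posUnipotent F := by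
      have hle : Subgroup.closure {x : GL D.Idx F | ∃ (r : ℕ) (t : F), D.IsPosRoot r ∧
          (D.rootSubgroup F r).map (MulAut.conj n).toMonoidHom ≤ D.negUnipotent F ∧
          (x : Matrix D.Idx D.Idx F) = D.x F r t} ≤ D.posUnipotent F := by
        unfold ChevalleyDatum.posUnipotent
        apply Subgroup.closure_mono
        rintro x ⟨r, t, hr, _, hx⟩
        exact ⟨r, t, hr, hx⟩
      exact hle hu'
    have hn'N : h * n ∈ D.monomialSubgroup F := mul_mem (Subgroup.mem_sup_left hh) hn
    have cz_u : Commute z u := (hQcent u (hUQ hu) z 1 hz).symm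
    have cz_u' : Commute z u' := (hQcent u' (hUQ hu'U) z 1 hz).symm
    have cz_g : Commute z (u * h * n * u') := hgz.symm
    have cz_n' : Commute z (h * n) := by
      have e : h * n = u⁻¹ * (u * h * n * u') * u'⁻¹ := by group
      rw [e]
      exact (cz_u.inv_right.mul_right cz_g).mul_right cz_u'.inv_right
    obtain ⟨L, hL, hact⟩ := monomial_act D hD (orb_all D hD) (h * n) hn'N
    obtain ⟨c, hc0, hcact⟩ := hact r₀ hr₀
    have h2 : ((h * n : GL D.Idx F) : Matrix D.Idx D.Idx F) * D.x F r₀ 1 =
        D.x F r₀ 1 * ((h * n : GL D.Idx F) : Matrix D.Idx D.Idx F) := by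
      rw [← hz, ← Units.val_mul, ← Units.val_mul, cz_n'.eq]
    have h3 : D.x F (wPi D L r₀) (c * 1) = D.x F r₀ 1 := by
      have e1 : D.x F (wPi D L r₀) (c * 1) * ((h * n : GL D.Idx F) : Matrix D.Idx D.Idx F) =
          D.x F r₀ 1 * ((h * n : GL D.Idx F) : Matrix D.Idx D.Idx F) := by rw [← hcact 1, h2]
      have e2 := congrArg (fun M => M * (((h * n)⁻¹ : GL D.Idx F) : Matrix D.Idx D.Idx F)) e1
      simp only [Matrix.mul_assoc] at e2
      rw [← Units.val_mul, mul_inv_cancel, Units.val_one, Matrix.mul_one, Matrix.mul_one] at e2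
      exact e2
    have hw : wPi D L r₀ = r₀ :=
      x_root_inj D hD _ _ (wPi_lt D hD L hL r₀ hr₀) hr₀ (c * 1) 1 (by simpa using hc0) h3
    rw [hw] at hcact
    have hn'Norm : h * n ∈ Subgroup.normalizer (D.rootSubgroup F r₀ : Set (GL D.Idx F)) := by
      unfold ChevalleyDatum.rootSubgroup
      apply mem_normalizer_closure
      · rintro g ⟨t, hg⟩
        apply Subgroup.subset_closure
        refine ⟨c * t, ?_⟩
        rw [Units.val_mul, Units.val_mul, hg, hcact t, Matrix.mul_assoc, ← Units.val_mul,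
          mul_inv_cancel, Units.val_one, Matrix.mul_one]
      · rintro g ⟨t, hg⟩
        apply Subgroup.subset_closure
        refine ⟨c⁻¹ * t, ?_⟩
        have e := hcact (c⁻¹ * t)
        rw [← mul_assoc, mul_inv_cancel₀ hc0, one_mul] at e
        rw [Units.val_mul, Units.val_mul, hg, Matrix.mul_assoc, ← e, ← Matrix.mul_assoc,
          ← Units.val_mul, inv_mul_cancel, Units.val_one, Matrix.one_mul]
    have hBN : D.borelSubgroup F ≤
        Subgroup.normalizer (D.rootSubgroup F r₀ : Set (GL D.Idx F)) := by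
      apply sup_le
      · intro x hx
        unfold ChevalleyDatum.rootSubgroup
        apply mem_normalizer_closure
        · rintro g ⟨t, hg⟩
          have e := hQcent x (hUQ hx) g t hg
          rw [e, mul_assoc, mul_inv_cancel, mul_one]
          exact Subgroup.subset_closure ⟨t, hg⟩
        · rintro g ⟨t, hg⟩
          have e := hQcent x (hUQ hx) g t hg
          rw [mul_assoc, ← e, ← mul_assoc, inv_mul_cancel, one_mul]
          exact Subgroup.subset_closure ⟨t, hg⟩
      · have h4 := diagonal_le_normalizer_rootGen (F := F) D hD' (fun r => r = r₀)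
          (fun r hr => hr ▸ hr₀)
        have e : rootGen F D (fun r => r = r₀) = D.rootSubgroup F r₀ := by
          unfold rootGen ChevalleyDatum.rootSubgroup
          congr 1
          ext g
          constructor
          · rintro ⟨r, t, rfl, hg⟩
            exact ⟨t, hg⟩
          · rintro ⟨t, hg⟩
            exact ⟨r₀, t, rfl, hg⟩
        rw [e] at h4
        exact h4
    have hMB : (chevBN (F := F) D hD).B ≤
        (Subgroup.normalizer (D.rootSubgroup F r₀ : Set (GL D.Idx F))).subgroupOf (D.group F) := by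
      intro x hx
      exact Subgroup.mem_subgroupOf.2 (hBN (Subgroup.mem_subgroupOf.1 hx))
    have hMeq := Cfsg.Agent.Lib.Helper8.eq_parabolic (chevBN (F := F) D hD) _ hMB
    have hn'G : h * n ∈ D.group F := monomialSubgroup_le_group D hD' hn'N
    have hn'M : (⟨h * n, hn'G⟩ : ↥(D.group F)) ∈
        (Subgroup.normalizer (D.rootSubgroup F r₀ : Set (GL D.Idx F))).subgroupOf (D.group F) :=
      Subgroup.mem_subgroupOf.2 hn'Norm
    rw [hMeq] at hn'M
    have hparT : (chevBN (F := F) D hD).parabolic {σ | σ ∈ (chevBN (F := F) D hD).S ∧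
        σ ∈ (Subgroup.normalizer (D.rootSubgroup F r₀ : Set (GL D.Idx F))).subgroupOf
          (D.group F)} ≤
        (rootGen F D (fun r => D.IsPosRoot r ∨ r ∈ Js) ⊔ D.diagonalSubgroup F).subgroupOf
          (D.group F) := by
      unfold Cfsg.BNPair.parabolic
      apply sup_le
      · intro x hx
        have hx' : (x : GL D.Idx F) ∈ D.borelSubgroup F := Subgroup.mem_subgroupOf.1 hx
        refine Subgroup.mem_subgroupOf.2 ?_
        exact (sup_le (le_trans hUQ le_sup_left) le_sup_right :
          D.borelSubgroup F ≤ _) hx'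
      · rw [Subgroup.closure_le]
        rintro σ ⟨⟨i, hi, hσ⟩, hσM⟩
        refine Subgroup.mem_subgroupOf.2 (Subgroup.mem_sup_left ?_)
        have hσN : (σ : GL D.Idx F) ∈
            Subgroup.normalizer (D.rootSubgroup F r₀ : Set (GL D.Idx F)) :=
          Subgroup.mem_subgroupOf.1 hσM
        have hrefl : D.reflectRoot i r₀ = r₀ := by
          have hzX : z ∈ D.rootSubgroup F r₀ := Subgroup.subset_closure ⟨1, hz⟩
          have h4 := ((Subgroup.mem_set_normalizer_iff.1 hσN) z).1 hzX
          obtain ⟨t, ht⟩ := mem_rootSubgroup D hD r₀ hr₀ _ h4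
          have h5 : D.x F (D.reflectRoot i r₀) (((nEta D i r₀ : ℤ) : F) * 1) = D.x F r₀ t := by
            rw [← ht, Units.val_mul, Units.val_mul, hσ, hz, n_simple_conj D hD i hi r₀ hr₀ 1,
              Matrix.mul_assoc, ← hσ, ← Units.val_mul, mul_inv_cancel, Units.val_one,
              Matrix.mul_one]
          exact x_root_inj D hD _ _ (reflectRoot_lt D hD i hi r₀ hr₀) hr₀ _ t
            (by rcases nEta_cases D i r₀ with h' | h' <;> rw [h'] <;> simp) h5
        have hJ := hc i hi hrefl
        have hp := simple_lt D hD' i hi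
        have hpos := (upChk_all D hD i hi).1
        apply word_mem_closure D hD (fun r => D.IsPosRoot r ∨ r ∈ Js)
          (D.nWord (D.simple i) (1 : F)) ?_ (σ : GL D.Idx F) hσ
        intro e he
        unfold ChevalleyDatum.nWord at he
        simp only [List.mem_cons, List.not_mem_nil, or_false] at he
        rcases he with rfl | rfl | rfl
        · exact ⟨Or.inl hpos, hp⟩
        · exact ⟨Or.inr hJ, hP _ (Or.inr hJ)⟩
        · exact ⟨Or.inl hpos, hp⟩
    have hn'T : h * n ∈ rootGen F D (fun r => D.IsPosRoot r ∨ r ∈ Js) ⊔ D.diagonalSubgroup F :=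
      Subgroup.mem_subgroupOf.1 (hparT hn'M)
    obtain ⟨q, hq, h₃, hh₃, e3⟩ := mem_sup_of_le_normalizer _ _ hHQ _ hn'T
    have cz_q : Commute z q := (hQcent q hq z 1 hz).symm
    have cz_h₃ : Commute z h₃ := by
      have e : h₃ = q⁻¹ * (h * n) := by
        rw [e3]
        group
      rw [e]
      exact cz_q.inv_right.mul_right cz_n'
    have hh₃Q : h₃ ∈ rootGen F D (fun r => D.IsPosRoot r ∨ r ∈ Js) :=
      diag_mem_rootGen_of_commute D hD r₀ hr₀ _ hP i₀ hi₀ hcart
        (fun k hk hne => ⟨(hoth k hk hne).1, Or.inr (hoth k hk hne).2⟩)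
        (fun k hk => Or.inl (upChk_all D hD k hk).1) z hz h₃ hh₃ cz_h₃
    have e4 : u * h * n * u' = u * (h * n) * u' := by group
    rw [e4, e3]
    exact mul_mem (mul_mem (hUQ hu) (mul_mem hq hh₃Q)) (hUQ hu'U)
  · intro g hg
    refine Subgroup.mem_inf.2 ⟨?_, ?_⟩
    · have hle : rootGen F D (fun r => D.IsPosRoot r ∨ r ∈ Js) ≤ D.group F := by
        unfold rootGen
        rw [Subgroup.closure_le]
        rintro x ⟨r, t, _, hx⟩
        exact mem_group_of_val_word D hD' x [(r, t)]
          (by rw [hx, wordMat_cons', wordMat_nil', Matrix.mul_one])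
      exact hle hg
    · rw [Subgroup.mem_centralizer_iff]
      intro y hy
      rw [Set.mem_singleton_iff] at hy
      subst hy
      exact (hQcent g hg y 1 hz).symm

/-- The group generated by the positive root subgroups and those of a list of roots. -/
theorem rootGen_pos_or_list (D : ChevalleyDatum) (Js : List ℕ) :
    rootGen F D (fun r => D.IsPosRoot r ∨ r ∈ Js) = D.posUnipotent F ⊔
      Subgroup.closure {g : GL D.Idx F | ∃ s ∈ Js, ∃ c : F,
        (g : Matrix D.Idx D.Idx F) = D.x F s c} := by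
  apply le_antisymm
  · unfold rootGen
    rw [Subgroup.closure_le]
    rintro g ⟨r, t, hr | hr, hg⟩
    · exact Subgroup.mem_sup_left (Subgroup.subset_closure ⟨r, t, hr, hg⟩)
    · exact Subgroup.mem_sup_right (Subgroup.subset_closure ⟨r, hr, t, hg⟩)
  · apply sup_le
    · unfold ChevalleyDatum.posUnipotent rootGen
      apply Subgroup.closure_mono
      rintro g ⟨r, t, hr, hg⟩
      exact ⟨r, t, Or.inl hr, hg⟩
    · unfold rootGen
      apply Subgroup.closure_mono
      rintro g ⟨s, hs, c, hg⟩
      exact ⟨s, c, Or.inr hs, hg⟩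

end

end Cfsg.Agent.Lib.Helper25
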