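import Cfsg.Agent.Lib.Helper25.ChevCent2

/-!
# Table checks for the centralisers of root involutions in characteristic two
-/

set_option autoImplicit false

namespace Cfsg.Agent.Lib.Helper25

open Cfsg Cfsg.Lie Cfsg.Agent.Lib.Helper24

theorem centChk_E6 : centChk chevE6 71 [15, 29, 32, 34, 35] = true := by decide +kernel

theorem centChk_E7 : centChk chevE7 125 [47, 52, 56, 59, 61, 62] = true := by decide +kernel

theorem centChk_E8 : centChk chevE8 239 [77, 98, 104, 109, 113, 116, 118] = true := by
  decide +kernel

theorem centChk_F4_long : centChk chevF4 47 [14, 20, 22] = true := by decide +kernel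

theorem centChk_F4_short : centChk chevF4 44 [20, 22, 23] = true := by decide +kernel

theorem centChk_G2_long : centChk chevG2 11 [4] = true := by decide +kernel

section

variable {F : Type*} [Field F]

/-- The group generated by the positive root subgroups and three further root subgroups. -/
theorem rootGen_pos_or_three (D : ChevalleyDatum) (a b c : ℕ) :
    rootGen F D (fun r => D.IsPosRoot r ∨ r ∈ [a, b, c]) =
      D.posUnipotent F ⊔ D.rootSubgroup F a ⊔ D.rootSubgroup F b ⊔ D.rootSubgroup F c := by
  apply le_antisymm
  · unfold rootGen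
    rw [Subgroup.closure_le]
    rintro g ⟨r, t, hr | hr, hg⟩
    · exact Subgroup.mem_sup_left (Subgroup.mem_sup_left (Subgroup.mem_sup_left
        (Subgroup.subset_closure ⟨r, t, hr, hg⟩)))
    · simp only [List.mem_cons, List.not_mem_nil, or_false] at hr
      rcases hr with rfl | rfl | rfl
      · exact Subgroup.mem_sup_left (Subgroup.mem_sup_left (Subgroup.mem_sup_right
          (Subgroup.subset_closure ⟨t, hg⟩)))
      · exact Subgroup.mem_sup_left (Subgroup.mem_sup_right
          (Subgroup.subset_closure ⟨t, hg⟩))
      · exact Subgroup.mem_sup_right (Subgroup.subset_closure ⟨t, hg⟩)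
  · refine sup_le (sup_le (sup_le ?_ ?_) ?_) ?_
    · unfold ChevalleyDatum.posUnipotent rootGen
      apply Subgroup.closure_mono
      rintro g ⟨r, t, hr, hg⟩
      exact ⟨r, t, Or.inl hr, hg⟩
    · unfold ChevalleyDatum.rootSubgroup rootGen
      apply Subgroup.closure_mono
      rintro g ⟨t, hg⟩
      exact ⟨a, t, Or.inr (by simp), hg⟩
    · unfold ChevalleyDatum.rootSubgroup rootGen
      apply Subgroup.closure_mono
      rintro g ⟨t, hg⟩
      exact ⟨b, t, Or.inr (by simp), hg⟩
    · unfold ChevalleyDatum.rootSubgroup rootGen
      apply Subgroup.closure_mono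
      rintro g ⟨t, hg⟩
      exact ⟨c, t, Or.inr (by simp), hg⟩

end

end Cfsg.Agent.Lib.Helper25
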