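import Cfsg.Agent.Lib.Helper25.ChevWordCoord

/-!
# Root elements of `F₄` in characteristic two: conjugation of the elements
`x₃₉ x₄₀ x₄₄ · x₄₅ x₄₆ x₄₇` by the unipotent group
-/

set_option autoImplicit false

namespace Cfsg.Agent.Lib.Helper25

open Cfsg.Lie Matrix
open Cfsg.Agent.Lib.Helper24

/-! ### Monoid identities -/

theorem conj_chain {M : Type*} [Monoid M] (a b T T' T'' : M) (h1 : a * T = T' * a)
    (h2 : b * T' = T'' * b) : (b * a) * T = T'' * (b * a) := by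
  rw [mul_assoc, h1, ← mul_assoc, h2, mul_assoc]

theorem conj_stepA {M : Type*} [Monoid M] (a A A' B : M) (h1 : a * A = A' * a)
    (h2 : Commute a B) : a * (A * B) = A' * B * a := by
  rw [← mul_assoc, h1, mul_assoc, h2.eq, ← mul_assoc]

theorem conj_stepB {M : Type*} [Monoid M] (a A B B' : M) (h1 : Commute a A)
    (h2 : a * B = B' * a) : a * (A * B) = A * B' * a := by
  rw [← mul_assoc, h1.eq, mul_assoc, h2, ← mul_assoc]

/-! ### Words of commuting root elements in characteristic two -/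

section

variable {F : Type*} [Field F]

theorem sum_ite_eq_zero (w : List (ℕ × F)) (g : ℕ × F → F) (q : ℕ)
    (h : ∀ p ∈ w, q = p.1 → g p = 0) :
    (w.map fun p => g p * (if q = p.1 then 1 else 0)).sum = 0 := by
  apply List.sum_eq_zero
  intro x hx
  rw [List.mem_map] at hx
  obtain ⟨p, hp, rfl⟩ := hx
  by_cases hq : q = p.1
  · rw [h p hp hq, zero_mul]
  · rw [if_neg hq, mul_zero]

theorem sum_ite_eq_single (w : List (ℕ × F)) (g : ℕ × F → F) (p₀ : ℕ × F) (hp₀ : p₀ ∈ w)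
    (hpw : w.Pairwise (fun p q => q.1 ≠ p.1)) :
    (w.map fun p => g p * (if p₀.1 = p.1 then 1 else 0)).sum = g p₀ := by
  induction w with
  | nil => simp at hp₀
  | cons p w ih =>
    rw [List.pairwise_cons] at hpw
    rw [List.map_cons, List.sum_cons]
    rcases List.mem_cons.1 hp₀ with rfl | hmem
    · rw [if_pos rfl, mul_one, sum_ite_eq_zero w g p₀.1 (fun p' hp' hq => absurd hq.symm
        (hpw.1 p' hp')), add_zero]
    · rw [if_neg (hpw.1 p₀ hmem), mul_zero, zero_add, ih hmem hpw.2]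

theorem wordGood_distinct (D : ChevalleyDatum) (w : List (ℕ × F)) (hw : WordGood D w) :
    w.Pairwise (fun p q => q.1 ≠ p.1) :=
  hw.2.imp (fun h => h.1)

theorem odd_cast_ne_zero [CharP F 2] (n : ℤ) (h : n % 2 = 1) : ((n : ℤ) : F) ≠ 0 := by
  intro h0
  have := (CharP.intCast_eq_zero_iff F 2 n).1 h0
  omega

/-- A root with non-zero coefficient in a word of commuting root elements occurs with non-zero
coefficient in any other such word with the same matrix (characteristic two). -/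
theorem word_support [CharP F 2] (D : ChevalleyDatum) (w w' : List (ℕ × F))
    (hw : WordGood D w) (hw' : WordGood D w') (h : D.wordMat F w = D.wordMat F w')
    (p : ℕ × F) (hp : p ∈ w) (hp0 : p.2 ≠ 0) (i : ℕ) (hi : i < D.rank)
    (hodd : D.cartan i p.1 % 2 = 1) : ∃ p' ∈ w', p'.1 = p.1 ∧ p'.2 ≠ 0 := by
  by_contra hcon
  have hcon' : ∀ p' ∈ w', p.1 = p'.1 → ((D.cartan i p'.1 : ℤ) : F) * p'.2 = 0 := by
    intro p' hp' hq
    by_contra hne
    apply hcon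
    refine ⟨p', hp', hq.symm, ?_⟩
    intro h0
    apply hne
    rw [h0, mul_zero]
  have e := congrArg (fun M => (M *ᵥ hv F D i) (Sum.inr ⟨p.1, hw.1 p hp⟩)) h
  rw [word_coord D w hw i hi, word_coord D w' hw' i hi,
    sum_ite_eq_single w (fun p => ((D.cartan i p.1 : ℤ) : F) * p.2) p hp
      (wordGood_distinct D w hw),
    sum_ite_eq_zero w' (fun p => ((D.cartan i p.1 : ℤ) : F) * p.2) p.1 hcon'] at e
  rw [neg_zero, neg_eq_zero] at e
  rcases mul_eq_zero.1 e with e' | e'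
  · exact odd_cast_ne_zero _ hodd e'
  · exact hp0 e'

/-- Coefficients of the same root in two words of commuting root elements with the same matrix
agree (characteristic two). -/
theorem word_coeff [CharP F 2] (D : ChevalleyDatum) (w w' : List (ℕ × F))
    (hw : WordGood D w) (hw' : WordGood D w') (h : D.wordMat F w = D.wordMat F w')
    (p : ℕ × F) (hp : p ∈ w) (p' : ℕ × F) (hp' : p' ∈ w') (hpp : p.1 = p'.1) (i : ℕ)
    (hi : i < D.rank) (hodd : D.cartan i p.1 % 2 = 1) : p.2 = p'.2 := by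
  have e := congrArg (fun M => (M *ᵥ hv F D i) (Sum.inr ⟨p.1, hw.1 p hp⟩)) h
  rw [word_coord D w hw i hi, word_coord D w' hw' i hi,
    sum_ite_eq_single w (fun p => ((D.cartan i p.1 : ℤ) : F) * p.2) p hp
      (wordGood_distinct D w hw)] at e
  have e2 : (w'.map fun q => (((D.cartan i q.1 : ℤ) : F) * q.2) *
      (if p.1 = q.1 then 1 else 0)).sum = ((D.cartan i p'.1 : ℤ) : F) * p'.2 := by
    rw [hpp]
    exact sum_ite_eq_single w' (fun p => ((D.cartan i p.1 : ℤ) : F) * p.2) p' hp'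
      (wordGood_distinct D w' hw')
  rw [e2, neg_inj, ← hpp] at e
  exact mul_left_cancel₀ (odd_cast_ne_zero _ hodd) e

end

/-! ### Root elements of `F₄` -/

/-- Evenness of the commutator constants of a pair of roots. -/
def evenChk (D : ChevalleyDatum) (r s : ℕ) : Bool :=
  decide (r < D.nroots) && decide (s < D.nroots) && decide (s ≠ D.neg r) &&
    (D.commTerms r s).all fun c => c.2.1 % 2 == 0

theorem evenChk_spec (D : ChevalleyDatum) (r s : ℕ) (h : evenChk D r s = true) :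
    r < D.nroots ∧ s < D.nroots ∧ s ≠ D.neg r ∧ ∀ c ∈ D.commTerms r s, (2 : ℤ) ∣ c.2.1 := by
  unfold evenChk at h
  simp only [Bool.and_eq_true, decide_eq_true_eq, List.all_eq_true, beq_iff_eq] at h
  obtain ⟨⟨⟨h1, h2⟩, h3⟩, h4⟩ := h
  exact ⟨h1, h2, h3, fun c hc => Int.dvd_of_emod_eq_zero (h4 c hc)⟩

section

variable {F : Type*} [Field F]

theorem f4c_mem : chevF4 ∈ chevList := by
  unfold chevList
  simp

/-- The root element `x_r(t)` of `F₄` as an invertible matrix. -/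
abbrev f4x (r : ℕ) (t : F) : GL chevF4.Idx F := xGL chevF4 f4c_mem r t

theorem f4c_comm [CharP F 2] (r s : ℕ) (h : evenChk chevF4 r s = true) (t u : F) :
    Commute (f4x (F := F) s u) (f4x r t) := by
  obtain ⟨hr, hs, hneg, hev⟩ := evenChk_spec chevF4 r s h
  apply Units.ext
  rw [Units.val_mul, Units.val_mul]
  exact comm_of_even chevF4 (by simp) r s hr hs hneg hev t u

theorem f4c_rel (r s k : ℕ) (hr : r < chevF4.nroots) (hs : s < chevF4.nroots) (hrs : s ≠ r)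
    (hneg : s ≠ chevF4.neg r) (hterms : chevF4.commTerms r s = [(k, -1, 1, 1)]) (t u : F) :
    f4x (F := F) s u * f4x r t = f4x r t * f4x s u * f4x k (t * u) := by
  apply Units.ext
  simp only [Units.val_mul, xGL_val]
  have h := comm_formula (F := F) chevF4 f4c_mem r s hr hs hrs hneg t u
  have e : chevF4.commWord F r s t u = [(k, ((-1 : ℤ) : F) * (-t) ^ 1 * u ^ 1)] := by
    unfold ChevalleyDatum.commWord
    rw [hterms]
    rfl
  rw [e, wordMat_cons', wordMat_nil', Matrix.mul_one] at h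
  rw [h]
  congr 2
  push_cast
  ring

/-- The element `x₃₉(c₀) x₄₀(c₁) x₄₄(c₂)`. -/
def f4A (c0 c1 c2 : F) : GL chevF4.Idx F := f4x 39 c0 * f4x 40 c1 * f4x 44 c2

/-- The element `x₄₅(d₀) x₄₆(d₁) x₄₇(d₂)`. -/
def f4B (d0 d1 d2 : F) : GL chevF4.Idx F := f4x 45 d0 * f4x 46 d1 * f4x 47 d2

theorem f4A_conj27 [CharP F 2] (s c0 c1 c2 : F) :
    f4x 27 s * f4A c0 c1 c2 = f4A c0 (c0 * s + c1) c2 * f4x 27 s :=
  g2c_aux7 (f4x 27 s) (f4x 39 c0) (f4x 40 c1) (f4x 40 (c0 * s)) (f4x 40 (c0 * s + c1))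
    (f4x 44 c2)
    (f4c_rel 39 27 40 (by decide) (by decide) (by decide) (by decide) (by decide +kernel) c0 s)
    (f4c_comm 40 27 (by decide +kernel) _ s)
    (f4c_comm 44 27 (by decide +kernel) c2 s)
    (xGL_add chevF4 f4c_mem 40 (by decide) _ _).symm

theorem f4A_conj34 [CharP F 2] (s c0 c1 c2 : F) :
    f4x 34 s * f4A c0 c1 c2 = f4A c0 c1 (c0 * s + c2) * f4x 34 s :=
  g2c_aux8 (f4x 34 s) (f4x 39 c0) (f4x 40 c1) (f4x 44 (c0 * s)) (f4x 44 c2)
    (f4x 44 (c0 * s + c2))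
    (f4c_rel 39 34 44 (by decide) (by decide) (by decide) (by decide) (by decide +kernel) c0 s)
    (f4c_comm 40 34 (by decide +kernel) c1 s)
    (f4c_comm 44 34 (by decide +kernel) _ s)
    (f4c_comm 40 44 (by decide +kernel) c1 _)
    (xGL_add chevF4 f4c_mem 44 (by decide) _ _).symm

theorem f4A_conj33 [CharP F 2] (s c0 c1 c2 : F) :
    f4x 33 s * f4A c0 c1 c2 = f4A c0 c1 (c1 * s + c2) * f4x 33 s :=
  g2c_aux6 (f4x 33 s) (f4x 39 c0) (f4x 40 c1) (f4x 44 (c1 * s)) (f4x 44 c2)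
    (f4x 44 (c1 * s + c2))
    (f4c_comm 39 33 (by decide +kernel) c0 s)
    (f4c_rel 40 33 44 (by decide) (by decide) (by decide) (by decide) (by decide +kernel) c1 s)
    (f4c_comm 44 33 (by decide +kernel) _ s)
    (xGL_add chevF4 f4c_mem 44 (by decide) _ _).symm

theorem f4B_conj25 [CharP F 2] (s d0 d1 d2 : F) :
    f4x 25 s * f4B d0 d1 d2 = f4B d0 (d0 * s + d1) d2 * f4x 25 s :=
  g2c_aux7 (f4x 25 s) (f4x 45 d0) (f4x 46 d1) (f4x 46 (d0 * s)) (f4x 46 (d0 * s + d1))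
    (f4x 47 d2)
    (f4c_rel 45 25 46 (by decide) (by decide) (by decide) (by decide) (by decide +kernel) d0 s)
    (f4c_comm 46 25 (by decide +kernel) _ s)
    (f4c_comm 47 25 (by decide +kernel) d2 s)
    (xGL_add chevF4 f4c_mem 46 (by decide) _ _).symm

theorem f4B_conj26 [CharP F 2] (s d0 d1 d2 : F) :
    f4x 26 s * f4B d0 d1 d2 = f4B d0 d1 (d0 * s + d2) * f4x 26 s :=
  g2c_aux8 (f4x 26 s) (f4x 45 d0) (f4x 46 d1) (f4x 47 (d0 * s)) (f4x 47 d2)
    (f4x 47 (d0 * s + d2))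
    (f4c_rel 45 26 47 (by decide) (by decide) (by decide) (by decide) (by decide +kernel) d0 s)
    (f4c_comm 46 26 (by decide +kernel) d1 s)
    (f4c_comm 47 26 (by decide +kernel) _ s)
    (f4c_comm 46 47 (by decide +kernel) d1 _)
    (xGL_add chevF4 f4c_mem 47 (by decide) _ _).symm

theorem f4B_conj24 [CharP F 2] (s d0 d1 d2 : F) :
    f4x 24 s * f4B d0 d1 d2 = f4B d0 d1 (d1 * s + d2) * f4x 24 s :=
  g2c_aux6 (f4x 24 s) (f4x 45 d0) (f4x 46 d1) (f4x 47 (d1 * s)) (f4x 47 d2)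
    (f4x 47 (d1 * s + d2))
    (f4c_comm 45 24 (by decide +kernel) d0 s)
    (f4c_rel 46 24 47 (by decide) (by decide) (by decide) (by decide) (by decide +kernel) d1 s)
    (f4c_comm 47 24 (by decide +kernel) _ s)
    (xGL_add chevF4 f4c_mem 47 (by decide) _ _).symm

/-- A root element commuting with the elements of the root subgroups of `39, 40, 44`. -/
theorem f4A_comm [CharP F 2] (r : ℕ) (h : (evenChk chevF4 39 r && evenChk chevF4 40 r &&
    evenChk chevF4 44 r) = true) (s c0 c1 c2 : F) : Commute (f4x r s) (f4A c0 c1 c2) := by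
  simp only [Bool.and_eq_true] at h
  exact ((f4c_comm 39 r h.1.1 c0 s).mul_right (f4c_comm 40 r h.1.2 c1 s)).mul_right
    (f4c_comm 44 r h.2 c2 s)

/-- A root element commuting with the elements of the root subgroups of `45, 46, 47`. -/
theorem f4B_comm [CharP F 2] (r : ℕ) (h : (evenChk chevF4 45 r && evenChk chevF4 46 r &&
    evenChk chevF4 47 r) = true) (s d0 d1 d2 : F) : Commute (f4x r s) (f4B d0 d1 d2) := by
  simp only [Bool.and_eq_true] at h
  exact ((f4c_comm 45 r h.1.1 d0 s).mul_right (f4c_comm 46 r h.1.2 d1 s)).mul_right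
    (f4c_comm 47 r h.2 d2 s)

/-- The group generated by the root subgroups of the positive roots other than
`24, 25, 26, 27, 33, 34`. -/
def f4K (F : Type*) [Field F] : Subgroup (GL chevF4.Idx F) :=
  rootGen F chevF4 (fun r => chevF4.IsPosRoot r ∧ r ∉ [24, 25, 26, 27, 33, 34])

theorem f4K_even : ∀ r < chevF4.nroots, chevF4.IsPosRoot r → r ∉ [24, 25, 26, 27, 33, 34] →
    (evenChk chevF4 39 r && evenChk chevF4 40 r && evenChk chevF4 44 r) = true ∧
    (evenChk chevF4 45 r && evenChk chevF4 46 r && evenChk chevF4 47 r) = true := by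
  decide +kernel

theorem f4K_comm [CharP F 2] (k : GL chevF4.Idx F) (hk : k ∈ f4K F) (c0 c1 c2 d0 d1 d2 : F) :
    Commute k (f4A c0 c1 c2 * f4B d0 d1 d2) := by
  have hle : f4K F ≤ Subgroup.centralizer {f4A c0 c1 c2 * f4B d0 d1 d2} := by
    unfold f4K rootGen
    rw [Subgroup.closure_le]
    rintro g ⟨r, t, ⟨hr, hr'⟩, hg⟩
    have hg' : g = f4x r t := Units.ext hg
    rw [SetLike.mem_coe, Subgroup.mem_centralizer_iff]
    intro y hy
    rw [Set.mem_singleton_iff] at hy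
    subst hy
    rw [hg']
    obtain ⟨e1, e2⟩ := f4K_even r hr.1 hr hr'
    exact ((f4A_comm r e1 t c0 c1 c2).mul_right (f4B_comm r e2 t d0 d1 d2)).eq.symm
  exact (Subgroup.mem_centralizer_iff.1 (hle hk) _ rfl).symm

theorem f4c_pos_ge (r : ℕ) (hr : chevF4.IsPosRoot r) : 24 ≤ r := by
  have h : ∀ r < chevF4.nroots, chevF4.IsPosRoot r → 24 ≤ r := by decide +kernel
  exact h r hr.1 hr

theorem f4c_posGE24 : posGE F chevF4 24 = chevF4.posUnipotent F := by
  unfold posGE ChevalleyDatum.posUnipotent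
  congr 1
  ext g
  constructor
  · rintro ⟨r, t, h1, _, h2⟩
    exact ⟨r, t, h1, h2⟩
  · rintro ⟨r, t, h1, h2⟩
    exact ⟨r, t, h1, f4c_pos_ge r h1, h2⟩

theorem f4c_posGE35 : posGE F chevF4 35 ≤ f4K F := by
  unfold posGE f4K rootGen
  apply Subgroup.closure_mono
  rintro g ⟨r, t, hr, h35, hg⟩
  refine ⟨r, t, ⟨hr, ?_⟩, hg⟩
  simp only [List.mem_cons, List.not_mem_nil, or_false]
  omega

theorem f4K_x (r : ℕ) (hr : chevF4.IsPosRoot r) (hr' : r ∉ [24, 25, 26, 27, 33, 34]) (s : F) :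
    f4x r s ∈ f4K F :=
  Subgroup.subset_closure ⟨r, s, ⟨hr, hr'⟩, rfl⟩

/-- Every element of `U` is `x₂₄ x₂₅ x₂₆ x₂₇ κ₁ x₃₃ x₃₄ κ₂` with `κ₁`, `κ₂` in the group generated
by the other positive root subgroups. -/
theorem f4c_U_decomp (u : GL chevF4.Idx F) (hu : u ∈ chevF4.posUnipotent F) :
    ∃ s24 s25 s26 s27 s33 s34 : F, ∃ κ1 ∈ f4K F, ∃ κ2 ∈ f4K F,
      u = f4x 24 s24 * f4x 25 s25 * f4x 26 s26 * f4x 27 s27 * κ1 * f4x 33 s33 * f4x 34 s34 *
        κ2 := by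
  have hU := uData_all (F := F) chevF4 f4c_mem
  rw [← f4c_posGE24] at hu
  obtain ⟨s24, h25, hh25, rfl⟩ := posGE_decomp chevF4 f4c_mem hU 24 (by decide) u hu
  obtain ⟨s25, h26, hh26, rfl⟩ := posGE_decomp chevF4 f4c_mem hU 25 (by decide) h25 hh25
  obtain ⟨s26, h27, hh27, rfl⟩ := posGE_decomp chevF4 f4c_mem hU 26 (by decide) h26 hh26
  obtain ⟨s27, h28, hh28, rfl⟩ := posGE_decomp chevF4 f4c_mem hU 27 (by decide) h27 hh27
  obtain ⟨s28, h29, hh29, rfl⟩ := posGE_decomp chevF4 f4c_mem hU 28 (by decide) h28 hh28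
  obtain ⟨s29, h30, hh30, rfl⟩ := posGE_decomp chevF4 f4c_mem hU 29 (by decide) h29 hh29
  obtain ⟨s30, h31, hh31, rfl⟩ := posGE_decomp chevF4 f4c_mem hU 30 (by decide) h30 hh30
  obtain ⟨s31, h32, hh32, rfl⟩ := posGE_decomp chevF4 f4c_mem hU 31 (by decide) h31 hh31
  obtain ⟨s32, h33, hh33, rfl⟩ := posGE_decomp chevF4 f4c_mem hU 32 (by decide) h32 hh32
  obtain ⟨s33, h34, hh34, rfl⟩ := posGE_decomp chevF4 f4c_mem hU 33 (by decide) h33 hh33
  obtain ⟨s34, h35, hh35, rfl⟩ := posGE_decomp chevF4 f4c_mem hU 34 (by decide) h34 hh34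
  refine ⟨s24, s25, s26, s27, s33, s34,
    f4x 28 s28 * f4x 29 s29 * f4x 30 s30 * f4x 31 s31 * f4x 32 s32, ?_, h35,
    f4c_posGE35 hh35, by simp only [mul_assoc]⟩
  exact mul_mem (mul_mem (mul_mem (mul_mem
    (f4K_x 28 (by decide) (by decide) s28) (f4K_x 29 (by decide) (by decide) s29))
    (f4K_x 30 (by decide) (by decide) s30)) (f4K_x 31 (by decide) (by decide) s31))
    (f4K_x 32 (by decide) (by decide) s32)

/-- Conjugation of `x₃₉ x₄₀ x₄₄ · x₄₅ x₄₆ x₄₇` by an element of `U`. -/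
theorem f4c_conj_formula [CharP F 2] (s24 s25 s26 s27 s33 s34 : F) (κ1 κ2 : GL chevF4.Idx F)
    (h1 : κ1 ∈ f4K F) (h2 : κ2 ∈ f4K F) (c0 c1 c2 d0 d1 d2 : F) :
    (f4x 24 s24 * f4x 25 s25 * f4x 26 s26 * f4x 27 s27 * κ1 * f4x 33 s33 * f4x 34 s34 * κ2) *
        (f4A c0 c1 c2 * f4B d0 d1 d2) =
      (f4A c0 (c0 * s27 + c1) (c1 * s33 + (c0 * s34 + c2)) *
        f4B d0 (d0 * s25 + d1) ((d0 * s25 + d1) * s24 + (d0 * s26 + d2))) *
      (f4x 24 s24 * f4x 25 s25 * f4x 26 s26 * f4x 27 s27 * κ1 * f4x 33 s33 * f4x 34 s34 *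
        κ2) := by
  have k2 : κ2 * (f4A c0 c1 c2 * f4B d0 d1 d2) = (f4A c0 c1 c2 * f4B d0 d1 d2) * κ2 :=
    (f4K_comm κ2 h2 c0 c1 c2 d0 d1 d2).eq
  have k34 : f4x 34 s34 * (f4A c0 c1 c2 * f4B d0 d1 d2) =
      (f4A c0 c1 (c0 * s34 + c2) * f4B d0 d1 d2) * f4x 34 s34 :=
    conj_stepA _ _ _ _ (f4A_conj34 s34 c0 c1 c2) (f4B_comm 34 (by decide +kernel) s34 d0 d1 d2)
  have k33 : f4x 33 s33 * (f4A c0 c1 (c0 * s34 + c2) * f4B d0 d1 d2) =
      (f4A c0 c1 (c1 * s33 + (c0 * s34 + c2)) * f4B d0 d1 d2) * f4x 33 s33 :=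
    conj_stepA _ _ _ _ (f4A_conj33 s33 c0 c1 _) (f4B_comm 33 (by decide +kernel) s33 d0 d1 d2)
  have k1 : κ1 * (f4A c0 c1 (c1 * s33 + (c0 * s34 + c2)) * f4B d0 d1 d2) =
      (f4A c0 c1 (c1 * s33 + (c0 * s34 + c2)) * f4B d0 d1 d2) * κ1 :=
    (f4K_comm κ1 h1 c0 c1 _ d0 d1 d2).eq
  have k27 : f4x 27 s27 * (f4A c0 c1 (c1 * s33 + (c0 * s34 + c2)) * f4B d0 d1 d2) =
      (f4A c0 (c0 * s27 + c1) (c1 * s33 + (c0 * s34 + c2)) * f4B d0 d1 d2) * f4x 27 s27 :=
    conj_stepA _ _ _ _ (f4A_conj27 s27 c0 c1 _) (f4B_comm 27 (by decide +kernel) s27 d0 d1 d2)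
  have k26 : f4x 26 s26 *
      (f4A c0 (c0 * s27 + c1) (c1 * s33 + (c0 * s34 + c2)) * f4B d0 d1 d2) =
      (f4A c0 (c0 * s27 + c1) (c1 * s33 + (c0 * s34 + c2)) * f4B d0 d1 (d0 * s26 + d2)) *
        f4x 26 s26 :=
    conj_stepB _ _ _ _ (f4A_comm 26 (by decide +kernel) s26 c0 _ _) (f4B_conj26 s26 d0 d1 d2)
  have k25 : f4x 25 s25 *
      (f4A c0 (c0 * s27 + c1) (c1 * s33 + (c0 * s34 + c2)) * f4B d0 d1 (d0 * s26 + d2)) =
      (f4A c0 (c0 * s27 + c1) (c1 * s33 + (c0 * s34 + c2)) *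
        f4B d0 (d0 * s25 + d1) (d0 * s26 + d2)) * f4x 25 s25 :=
    conj_stepB _ _ _ _ (f4A_comm 25 (by decide +kernel) s25 c0 _ _) (f4B_conj25 s25 d0 d1 _)
  have k24 : f4x 24 s24 *
      (f4A c0 (c0 * s27 + c1) (c1 * s33 + (c0 * s34 + c2)) *
        f4B d0 (d0 * s25 + d1) (d0 * s26 + d2)) =
      (f4A c0 (c0 * s27 + c1) (c1 * s33 + (c0 * s34 + c2)) *
        f4B d0 (d0 * s25 + d1) ((d0 * s25 + d1) * s24 + (d0 * s26 + d2))) * f4x 24 s24 :=
    conj_stepB _ _ _ _ (f4A_comm 24 (by decide +kernel) s24 c0 _ _) (f4B_conj24 s24 d0 _ _)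
  exact conj_chain _ _ _ _ _ k2 (conj_chain _ _ _ _ _ k34 (conj_chain _ _ _ _ _ k33
    (conj_chain _ _ _ _ _ k1 (conj_chain _ _ _ _ _ k27 (conj_chain _ _ _ _ _ k26
      (conj_chain _ _ _ _ _ k25 k24))))))

/-- The matrix of `x₃₉ x₄₀ x₄₄ · x₄₅ x₄₆ x₄₇` as the matrix of a word. -/
theorem f4AB_val (c0 c1 c2 d0 d1 d2 : F) :
    ((f4A c0 c1 c2 * f4B d0 d1 d2 : GL chevF4.Idx F) : Matrix chevF4.Idx chevF4.Idx F) =
      chevF4.wordMat F [(39, c0), (40, c1), (44, c2), (45, d0), (46, d1), (47, d2)] := by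
  simp only [f4A, f4B, Units.val_mul, xGL_val, wordMat_cons', wordMat_nil', Matrix.mul_one,
    Matrix.mul_assoc]

theorem f4c_odd : ∀ r < chevF4.nroots, ∃ i < chevF4.rank, chevF4.cartan i r % 2 = 1 := by
  decide +kernel

end

end Cfsg.Agent.Lib.Helper25
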