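import Cfsg.Agent.Lib.Helper25.ChevF4Orb

/-!
# Table conditions on the orbit of the tuple of positive roots of `F₄`
-/

set_option autoImplicit false

namespace Cfsg.Agent.Lib.Helper25

open Cfsg.Lie Matrix
open Cfsg.Agent.Lib.Helper24

/-- The entry of a tuple at the position of the positive root `r` (of index at least 24). -/
def f4At (τ : List ℕ) (r : ℕ) : ℕ := τ.getD (r - 24) 0

/-- The six roots `39, 40, 44` (short) and `45, 46, 47` (long). -/
def f4Six : List ℕ := [39, 40, 44, 45, 46, 47]

/-- The positive roots outside the root subsystem of the fundamental roots `p₁`, `p₄`. -/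
def f4R03 : List ℕ :=
  [25, 26, 27, 28, 29, 30, 31, 32, 34, 35, 36, 37, 38, 39, 40, 41, 42, 43, 44, 45, 46, 47]

/-- The positive roots outside the root subsystem of the fundamental roots `p₂`, `p₃`. -/
def f4R12 : List ℕ :=
  [24, 26, 29, 31, 32, 33, 34, 35, 36, 37, 38, 39, 40, 41, 42, 43, 44, 45, 46, 47]

/-- The roots of a list are in range and their root elements pairwise fix each other's root
vectors. -/
def rootsGoodChk (D : ChevalleyDatum) (rs : List ℕ) : Bool :=
  rs.all (fun r => decide (r < D.nroots)) &&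
  decide (rs.Pairwise (fun p q => q ≠ p ∧ q ≠ D.neg p ∧ cent D p q = []))

/-- The tuple permutes the roots of the list `R`. -/
def f4PermOK (R : List ℕ) (τ : List ℕ) : Bool :=
  (R.all fun r => R.contains (f4At τ r)) && (R.all fun r => R.any fun r' => f4At τ r' == r)

/-- The conditions on a tuple of the orbit. -/
def f4TupChk (τ : List ℕ) : Bool :=
  rootsGoodChk chevF4 (f4Six.map (f4At τ)) &&
  (!(f4Six.contains (f4At τ 39) && f4Six.contains (f4At τ 45)) || f4PermOK f4R03 τ) &&
  (!(([44, 47] : List ℕ).contains (f4At τ 44) && ([44, 47] : List ℕ).contains (f4At τ 47)) ||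
    f4PermOK f4R12 τ)

theorem tupClosedChk_spec (D : ChevalleyDatum) (S T : List (List ℕ))
    (h : tupClosedChk D S T = true) :
    ∀ τ ∈ T, ∀ i < D.rank, τ.map (D.reflectRoot i) ∈ S := by
  intro τ hτ i hi
  unfold tupClosedChk at h
  rw [List.all_eq_true] at h
  have h1 := h τ hτ
  rw [List.all_eq_true] at h1
  have h2 := h1 i (List.mem_range.2 hi)
  exact List.contains_iff_mem.1 h2

theorem rootsGoodChk_spec {F : Type*} [Field F] (D : ChevalleyDatum) (rs : List ℕ)
    (h : rootsGoodChk D rs = true) (w : List (ℕ × F)) (hw : w.map Prod.fst = rs) :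
    WordGood D w := by
  unfold rootsGoodChk at h
  rw [Bool.and_eq_true, List.all_eq_true, decide_eq_true_eq] at h
  obtain ⟨h1, h2⟩ := h
  refine ⟨fun p hp => ?_, ?_⟩
  · have := h1 p.1 (hw ▸ List.mem_map_of_mem hp)
    simpa using this
  · rw [← hw, List.pairwise_map] at h2
    exact h2

theorem f4At_map (f : ℕ → ℕ) (r : ℕ) (h1 : 24 ≤ r) (h2 : r < 48) :
    f4At ((List.range' 24 24).map f) r = f r := by
  unfold f4At
  interval_cases r <;> rfl

theorem f4PermOK_spec (R : List ℕ) (hR : ∀ r ∈ R, 24 ≤ r ∧ r < 48) (f : ℕ → ℕ)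
    (h : f4PermOK R ((List.range' 24 24).map f) = true) :
    (∀ r ∈ R, f r ∈ R) ∧ (∀ r ∈ R, ∃ r' ∈ R, f r' = r) := by
  unfold f4PermOK at h
  rw [Bool.and_eq_true, List.all_eq_true, List.all_eq_true] at h
  obtain ⟨h1, h2⟩ := h
  constructor
  · intro r hr
    have h3 := h1 r hr
    rw [f4At_map f r (hR r hr).1 (hR r hr).2] at h3
    exact List.contains_iff_mem.1 h3
  · intro r hr
    have h3 := h2 r hr
    rw [List.any_eq_true] at h3
    obtain ⟨r', hr', e⟩ := h3
    rw [f4At_map f r' (hR r' hr').1 (hR r' hr').2, beq_iff_eq] at e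
    exact ⟨r', hr', e⟩

end Cfsg.Agent.Lib.Helper25
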