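import Cfsg.Agent.Lib.Helper25.ChevF4Chk

/-!
# Table checks on the orbit of the tuple of positive roots of `F₄` (chunks 4, 5)
-/

set_option autoImplicit false

namespace Cfsg.Agent.Lib.Helper25

open Cfsg.Lie
open Cfsg.Agent.Lib.Helper24

theorem f4chkClosed_4 : tupClosedChk chevF4 f4Orb f4OrbC4 = true := by
  decide +kernel

theorem f4chkTup_4 : f4OrbC4.all f4TupChk = true := by
  decide +kernel

theorem f4chkClosed_5 : tupClosedChk chevF4 f4Orb f4OrbC5 = true := by
  decide +kernel

theorem f4chkTup_5 : f4OrbC5.all f4TupChk = true := by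
  decide +kernel

end Cfsg.Agent.Lib.Helper25
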