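import Cfsg.Agent.Lib.Helper25.ChevF4OrbAll
import Cfsg.Agent.Lib.Helper25.ChevF4C

/-!
# Centralisers of the mixed involutions of `F₄` in characteristic two
-/

set_option autoImplicit false

namespace Cfsg.Agent.Lib.Helper25

open Cfsg.Lie Matrix
open Cfsg.Agent.Lib.Helper24

/-! ### Group identities -/

theorem bruhat_conj_aux {G : Type*} [Group G] (u m u' Z Z' Z'' : G)
    (h : (u * m * u') * Z = Z * (u * m * u')) (f1 : u' * Z = Z' * u')
    (f2 : u⁻¹ * Z = Z'' * u⁻¹) : m * Z' = Z'' * m := by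
  have e1 : Z' = u' * Z * u'⁻¹ := eq_mul_inv_of_mul_eq f1.symm
  have e2 : Z'' = u⁻¹ * Z * u := by
    have := eq_mul_inv_of_mul_eq f2.symm
    rwa [inv_inv] at this
  rw [e1, e2]
  have e3 : m * (u' * Z * u'⁻¹) = u⁻¹ * ((u * m * u') * Z) * u'⁻¹ := by group
  rw [e3, h]
  group

theorem levi_split_aux {G : Type*} [Group G] (x s φ Z Zχ : G)
    (h : (x * s * φ) * Z = Z * (x * s * φ)) (hφ : φ * Z = Zχ * φ) (hs : Commute s Zχ) :
    x * Zχ = Z * x := by
  have e1 : (x * s * φ) * Z = (x * Zχ) * (s * φ) := by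
    rw [mul_assoc, hφ, ← mul_assoc, mul_assoc x s, hs.eq]
    simp only [mul_assoc]
  have e2 : Z * (x * s * φ) = (Z * x) * (s * φ) := by simp only [mul_assoc]
  rw [e1, e2] at h
  exact mul_right_cancel h

section

variable {F : Type*} [Field F]

/-! ### Monomial elements acting on words -/

theorem act_word (D : ChevalleyDatum) (m : GL D.Idx F) (L : List ℕ)
    (hact : ∀ s < D.nroots, ∃ c : F, c ≠ 0 ∧ ∀ t : F,
      (m : Matrix D.Idx D.Idx F) * D.x F s t =
        D.x F (wPi D L s) (c * t) * (m : Matrix D.Idx D.Idx F)) :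
    ∃ κ : ℕ → F, (∀ s < D.nroots, κ s ≠ 0) ∧ ∀ w : List (ℕ × F), (∀ p ∈ w, p.1 < D.nroots) →
      (m : Matrix D.Idx D.Idx F) * D.wordMat F w =
        D.wordMat F (w.map fun p => (wPi D L p.1, κ p.1 * p.2)) *
          (m : Matrix D.Idx D.Idx F) := by
  classical
  choose κ hκ using hact
  refine ⟨fun s => if h : s < D.nroots then κ s h else 1, fun s hs => ?_, fun w hw => ?_⟩
  · show (if h : s < D.nroots then κ s h else 1) ≠ 0
    rw [dif_pos hs]
    exact (hκ s hs).1
  · induction w with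
    | nil => simp [wordMat_nil']
    | cons p w ih =>
      have hp := hw p List.mem_cons_self
      have e := (hκ p.1 hp).2 p.2
      have ih' := ih (fun q hq => hw q (List.mem_cons_of_mem _ hq))
      rw [List.map_cons, wordMat_cons', wordMat_cons', ← Matrix.mul_assoc]
      simp only [dif_pos hp]
      rw [e, Matrix.mul_assoc, ih', Matrix.mul_assoc]

theorem word_act_cancel (D : ChevalleyDatum) (m : GL D.Idx F) (W W' W'' : Matrix D.Idx D.Idx F)
    (h1 : (m : Matrix D.Idx D.Idx F) * W = W' * (m : Matrix D.Idx D.Idx F))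
    (h2 : (m : Matrix D.Idx D.Idx F) * W = W'' * (m : Matrix D.Idx D.Idx F)) : W' = W'' := by
  have e := h1.symm.trans h2
  have e2 := congrArg (fun M => M * ((m⁻¹ : GL D.Idx F) : Matrix D.Idx D.Idx F)) e
  simp only [Matrix.mul_assoc] at e2
  rw [← Units.val_mul, mul_inv_cancel, Units.val_one, Matrix.mul_one, Matrix.mul_one] at e2
  exact e2

/-- Every element of a parabolic subgroup is a product of an element of the unipotent radical,
an element of the group generated by the root subgroups of the Levi factor, and an element of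
`H`. -/
theorem parabolic_decomp (D : ChevalleyDatum)
    (hD : D ∈ [chevG2, chevB2, chevD4, chevF4, chevE6, chevE7, chevE8]) (J : Set ℕ)
    (g : GL D.Idx F) (hg : g ∈ D.parabolicSubgroup F J) :
    ∃ x ∈ D.unipotentRadical F J, ∃ s ∈ rootGen F D (D.InRootSub J),
      ∃ h ∈ D.diagonalSubgroup F, g = x * s * h := by
  have hD' : D ∈ chevList := hD
  have HC : CommHyp F D := fun r s hr hs hrs hneg t u =>
    comm_formula D hD' r s hr hs hrs hneg t u
  have hRL := radical_sup_levi (F := F) D hD J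
  have hLN : D.leviSubgroup F J ≤ Subgroup.normalizer
      (D.unipotentRadical F J : Set (GL D.Idx F)) := by
    refine le_trans ?_ (radical_normal D hD HC J)
    rw [← hRL]
    exact le_sup_right
  rw [← hRL] at hg
  obtain ⟨v, hv, l, hl, rfl⟩ := mem_sup_of_le_normalizer _ _ hLN _ hg
  have hSN : D.diagonalSubgroup F ≤ Subgroup.normalizer
      (rootGen F D (D.InRootSub J) : Set (GL D.Idx F)) :=
    diagonal_le_normalizer_rootGen D hD' _ (fun r hr => hr.1)
  have hl' : l ∈ rootGen F D (D.InRootSub J) ⊔ D.diagonalSubgroup F := by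
    rw [sup_comm]
    exact hl
  obtain ⟨s, hs, h₃, hh₃, rfl⟩ := mem_sup_of_le_normalizer _ _ hSN _ hl'
  exact ⟨v, hv, s, hs, h₃, hh₃, by group⟩

/-! ### Root subsystems of `F₄` -/

theorem f4c_inRootSub03 (r : ℕ) :
    chevF4.InRootSub ({0, 3} : Set ℕ) r ↔ r ∈ [14, 23, 24, 33] := by
  have key : ∀ r < chevF4.nroots,
      (((chevF4.coroot.getD r #[]).getD 1 0 = 0 ∧ (chevF4.coroot.getD r #[]).getD 2 0 = 0) ↔
        r ∈ [14, 23, 24, 33]) := by decide +kernel
  constructor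
  · rintro ⟨h1, h2⟩
    exact (key r h1).1 ⟨h2 1 (by decide) (by simp), h2 2 (by decide) (by simp)⟩
  · intro h
    have h1 : r < chevF4.nroots := by
      have : ∀ r ∈ [14, 23, 24, 33], r < chevF4.nroots := by decide
      exact this r h
    refine ⟨h1, fun i hi hiJ => ?_⟩
    have hi' : i < 4 := hi
    obtain ⟨k1, k2⟩ := (key r h1).2 h
    interval_cases i
    · exact absurd (by simp) hiJ
    · exact k1
    · exact k2
    · exact absurd (by simp) hiJ

theorem f4c_inRootSub12 (r : ℕ) :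
    chevF4.InRootSub ({1, 2} : Set ℕ) r ↔ r ∈ [17, 19, 20, 22, 25, 27, 28, 30] := by
  have key : ∀ r < chevF4.nroots,
      (((chevF4.coroot.getD r #[]).getD 0 0 = 0 ∧ (chevF4.coroot.getD r #[]).getD 3 0 = 0) ↔
        r ∈ [17, 19, 20, 22, 25, 27, 28, 30]) := by decide +kernel
  constructor
  · rintro ⟨h1, h2⟩
    exact (key r h1).1 ⟨h2 0 (by decide) (by simp), h2 3 (by decide) (by simp)⟩
  · intro h
    have h1 : r < chevF4.nroots := by
      have : ∀ r ∈ [17, 19, 20, 22, 25, 27, 28, 30], r < chevF4.nroots := by decide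
      exact this r h
    refine ⟨h1, fun i hi hiJ => ?_⟩
    have hi' : i < 4 := hi
    obtain ⟨k1, k2⟩ := (key r h1).2 h
    interval_cases i
    · exact k1
    · exact absurd (by simp) hiJ
    · exact absurd (by simp) hiJ
    · exact k2

theorem f4c_rad03 (r : ℕ) :
    (chevF4.IsPosRoot r ∧ ¬ chevF4.InRootSub ({0, 3} : Set ℕ) r) ↔ r ∈ f4R03 := by
  rw [f4c_inRootSub03]
  have key : ∀ r < chevF4.nroots,
      ((chevF4.IsPosRoot r ∧ r ∉ [14, 23, 24, 33]) ↔ r ∈ f4R03) := by decide +kernel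
  by_cases h : r < chevF4.nroots
  · exact key r h
  · constructor
    · rintro ⟨h1, _⟩
      exact absurd h1.1 h
    · intro h'
      exfalso
      apply h
      have : ∀ r ∈ f4R03, r < chevF4.nroots := by decide
      exact this r h'

theorem f4c_rad12 (r : ℕ) :
    (chevF4.IsPosRoot r ∧ ¬ chevF4.InRootSub ({1, 2} : Set ℕ) r) ↔ r ∈ f4R12 := by
  rw [f4c_inRootSub12]
  have key : ∀ r < chevF4.nroots,
      ((chevF4.IsPosRoot r ∧ r ∉ [17, 19, 20, 22, 25, 27, 28, 30]) ↔ r ∈ f4R12) := by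
    decide +kernel
  by_cases h : r < chevF4.nroots
  · exact key r h
  · constructor
    · rintro ⟨h1, _⟩
      exact absurd h1.1 h
    · intro h'
      exfalso
      apply h
      have : ∀ r ∈ f4R12, r < chevF4.nroots := by decide
      exact this r h'

/-! ### The orbit conditions for a word of fundamental reflections -/

theorem f4c_tup (L : List ℕ) (hL : ∀ i ∈ L, i < chevF4.rank) :
    rootsGoodChk chevF4 (f4Six.map (wPi chevF4 L)) = true ∧
    (wPi chevF4 L 39 ∈ f4Six → wPi chevF4 L 45 ∈ f4Six →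
      f4PermOK f4R03 ((List.range' 24 24).map (wPi chevF4 L)) = true) ∧
    (wPi chevF4 L 44 ∈ ([44, 47] : List ℕ) → wPi chevF4 L 47 ∈ ([44, 47] : List ℕ) →
      f4PermOK f4R12 ((List.range' 24 24).map (wPi chevF4 L)) = true) := by
  have h := f4TupChk_all _ (f4Orb_mem L hL)
  unfold f4TupChk at h
  rw [Bool.and_eq_true, Bool.and_eq_true] at h
  obtain ⟨⟨h1, h2⟩, h3⟩ := h
  have e39 := f4At_map (wPi chevF4 L) 39 (by norm_num) (by norm_num)
  have e40 := f4At_map (wPi chevF4 L) 40 (by norm_num) (by norm_num)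
  have e44 := f4At_map (wPi chevF4 L) 44 (by norm_num) (by norm_num)
  have e45 := f4At_map (wPi chevF4 L) 45 (by norm_num) (by norm_num)
  have e46 := f4At_map (wPi chevF4 L) 46 (by norm_num) (by norm_num)
  have e47 := f4At_map (wPi chevF4 L) 47 (by norm_num) (by norm_num)
  refine ⟨?_, ?_, ?_⟩
  · have e : f4Six.map (f4At ((List.range' 24 24).map (wPi chevF4 L))) =
        f4Six.map (wPi chevF4 L) := by
      unfold f4Six
      simp only [List.map_cons, List.map_nil, e39, e40, e44, e45, e46, e47]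
    rw [← e]
    exact h1
  · intro m39 m45
    rw [e39, e45, List.contains_iff_mem.2 m39, List.contains_iff_mem.2 m45] at h2
    simpa using h2
  · intro m44 m47
    rw [e44, e47, List.contains_iff_mem.2 m44, List.contains_iff_mem.2 m47] at h3
    simpa using h3

/-! ### The elements `x₃₉ x₄₀ x₄₄ · x₄₅ x₄₆ x₄₇` -/

theorem f4A_zero (c : F) : f4A c 0 0 = f4x 39 c := by
  unfold f4A f4x
  rw [xGL_zero, xGL_zero, mul_one, mul_one]

theorem f4B_zero (d : F) : f4B d 0 0 = f4x 45 d := by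
  unfold f4B f4x
  rw [xGL_zero, xGL_zero, mul_one, mul_one]

theorem f4A_zero' (c : F) : f4A 0 0 c = f4x 44 c := by
  unfold f4A f4x
  rw [xGL_zero, xGL_zero, one_mul, one_mul]

theorem f4B_zero' (d : F) : f4B 0 0 d = f4x 47 d := by
  unfold f4B f4x
  rw [xGL_zero, xGL_zero, one_mul, one_mul]

theorem f4c_six_good : rootsGoodChk chevF4 f4Six = true := by decide +kernel

theorem f4c_six_lt : ∀ r ∈ f4Six, r < chevF4.nroots := by decide

theorem f4AB_inj [CharP F 2] (c0 c1 c2 d0 d1 d2 c0' c1' c2' d0' d1' d2' : F)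
    (h : f4A c0 c1 c2 * f4B d0 d1 d2 = f4A c0' c1' c2' * f4B d0' d1' d2') :
    c0 = c0' ∧ c1 = c1' ∧ c2 = c2' ∧ d0 = d0' ∧ d1 = d1' ∧ d2 = d2' := by
  have hM : chevF4.wordMat F [(39, c0), (40, c1), (44, c2), (45, d0), (46, d1), (47, d2)] =
      chevF4.wordMat F [(39, c0'), (40, c1'), (44, c2'), (45, d0'), (46, d1'), (47, d2')] := by
    rw [← f4AB_val, ← f4AB_val, h]
  have hg1 : WordGood chevF4 [(39, c0), (40, c1), (44, c2), (45, d0), (46, d1), (47, d2)] :=
    rootsGoodChk_spec chevF4 f4Six f4c_six_good _ rfl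
  have hg2 : WordGood chevF4
      [(39, c0'), (40, c1'), (44, c2'), (45, d0'), (46, d1'), (47, d2')] :=
    rootsGoodChk_spec chevF4 f4Six f4c_six_good _ rfl
  have key : ∀ (r : ℕ) (_ : r < chevF4.nroots) (a a' : F),
      (r, a) ∈ [(39, c0), (40, c1), (44, c2), (45, d0), (46, d1), (47, d2)] →
      (r, a') ∈ [(39, c0'), (40, c1'), (44, c2'), (45, d0'), (46, d1'), (47, d2')] →
      a = a' := by
    intro r hr a a' hm hm'
    obtain ⟨i, hi, hodd⟩ := f4c_odd r hr
    exact word_coeff chevF4 _ _ hg1 hg2 hM (r, a) hm (r, a') hm' rfl i hi hodd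
  exact ⟨key 39 (by decide) _ _ (by simp) (by simp), key 40 (by decide) _ _ (by simp) (by simp),
    key 44 (by decide) _ _ (by simp) (by simp), key 45 (by decide) _ _ (by simp) (by simp),
    key 46 (by decide) _ _ (by simp) (by simp), key 47 (by decide) _ _ (by simp) (by simp)⟩

/-! ### The Bruhat decomposition of an element commuting with `x₃₉ x₄₀ x₄₄ · x₄₅ x₄₆ x₄₇` -/

theorem f4c_bruhat [CharP F 2] (g : GL chevF4.Idx F) (hgG : g ∈ chevF4.group F)
    (c0 c1 c2 d0 d1 d2 : F)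
    (hgt : g * (f4A c0 c1 c2 * f4B d0 d1 d2) = (f4A c0 c1 c2 * f4B d0 d1 d2) * g) :
    ∃ u ∈ chevF4.posUnipotent F, ∃ m ∈ chevF4.monomialSubgroup F,
      ∃ u' ∈ chevF4.posUnipotent F, g = u * m * u' ∧
        ∃ s24 s25 s26 s27 s33 s34 t24 t25 t26 t27 t33 t34 : F,
          m * (f4A c0 (c0 * s27 + c1) (c1 * s33 + (c0 * s34 + c2)) *
              f4B d0 (d0 * s25 + d1) ((d0 * s25 + d1) * s24 + (d0 * s26 + d2))) =
            (f4A c0 (c0 * t27 + c1) (c1 * t33 + (c0 * t34 + c2)) *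
              f4B d0 (d0 * t25 + d1) ((d0 * t25 + d1) * t24 + (d0 * t26 + d2))) * m := by
  have hD : chevF4 ∈ [chevG2, chevB2, chevD4, chevF4, chevE6, chevE7, chevE8] := by simp
  have hD' : chevF4 ∈ chevList := f4c_mem
  have hHU : chevF4.diagonalSubgroup F ≤
      Subgroup.normalizer (chevF4.posUnipotent F : Set (GL chevF4.Idx F)) :=
    diagonal_le_normalizer_rootGen chevF4 hD' chevF4.IsPosRoot (fun r hr => hr.1)
  obtain ⟨b, hb', n, hn, u', hu', rfl⟩ := bruhat_exists chevF4 hD g hgG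
  obtain ⟨u, hu, h, hh, rfl⟩ := mem_sup_of_le_normalizer _ _ hHU _ hb'
  have hu'U : u' ∈ chevF4.posUnipotent F := by
    have hle : Subgroup.closure {x : GL chevF4.Idx F | ∃ (r : ℕ) (t : F), chevF4.IsPosRoot r ∧
        (chevF4.rootSubgroup F r).map (MulAut.conj n).toMonoidHom ≤ chevF4.negUnipotent F ∧
        (x : Matrix chevF4.Idx chevF4.Idx F) = chevF4.x F r t} ≤ chevF4.posUnipotent F := by
      unfold ChevalleyDatum.posUnipotent
      apply Subgroup.closure_mono
      rintro x ⟨r, t, hr, _, hx⟩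
      exact ⟨r, t, hr, hx⟩
    exact hle hu'
  have hmN : h * n ∈ chevF4.monomialSubgroup F := mul_mem (Subgroup.mem_sup_left hh) hn
  refine ⟨u, hu, h * n, hmN, u', hu'U, by group, ?_⟩
  have hgt' : (u * (h * n) * u') * (f4A c0 c1 c2 * f4B d0 d1 d2) =
      (f4A c0 c1 c2 * f4B d0 d1 d2) * (u * (h * n) * u') := by
    have e : u * (h * n) * u' = u * h * n * u' := by group
    rw [e]
    exact hgt
  obtain ⟨s24, s25, s26, s27, s33, s34, κ1, hκ1, κ2, hκ2, rfl⟩ := f4c_U_decomp u' hu'U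
  have f1 := f4c_conj_formula s24 s25 s26 s27 s33 s34 κ1 κ2 hκ1 hκ2 c0 c1 c2 d0 d1 d2
  obtain ⟨t24, t25, t26, t27, t33, t34, μ1, hμ1, μ2, hμ2, hum⟩ :=
    f4c_U_decomp u⁻¹ (inv_mem hu)
  have f2 := f4c_conj_formula t24 t25 t26 t27 t33 t34 μ1 μ2 hμ1 hμ2 c0 c1 c2 d0 d1 d2
  rw [← hum] at f2
  exact ⟨s24, s25, s26, s27, s33, s34, t24, t25, t26, t27, t33, t34,
    bruhat_conj_aux u (h * n) _ _ _ _ hgt' f1 f2⟩

/-- The Weyl group element of a monomial element conjugating one element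
`x₃₉ x₄₀ x₄₄ · x₄₅ x₄₆ x₄₇` to another: the roots with non-zero coefficient are mapped to roots
with non-zero coefficient. -/
theorem f4c_weyl [CharP F 2] (m : GL chevF4.Idx F) (hmN : m ∈ chevF4.monomialSubgroup F)
    (a0 a1 a2 b0 b1 b2 a0' a1' a2' b0' b1' b2' : F)
    (h : m * (f4A a0 a1 a2 * f4B b0 b1 b2) = (f4A a0' a1' a2' * f4B b0' b1' b2') * m) :
    ∃ L : List ℕ, (∀ i ∈ L, i < chevF4.rank) ∧
      (∀ s < chevF4.nroots, ∃ c : F, c ≠ 0 ∧ ∀ t : F,
        (m : Matrix chevF4.Idx chevF4.Idx F) * chevF4.x F s t =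
          chevF4.x F (wPi chevF4 L s) (c * t) * (m : Matrix chevF4.Idx chevF4.Idx F)) ∧
      ∀ p ∈ [((39 : ℕ), a0), (40, a1), (44, a2), (45, b0), (46, b1), (47, b2)], p.2 ≠ 0 →
        ∃ p' ∈ [((39 : ℕ), a0'), (40, a1'), (44, a2'), (45, b0'), (46, b1'), (47, b2')],
          p'.1 = wPi chevF4 L p.1 ∧ p'.2 ≠ 0 := by
  have hD : chevF4 ∈ [chevG2, chevB2, chevD4, chevF4, chevE6, chevE7, chevE8] := by simp
  obtain ⟨L, hL, hact⟩ := monomial_act chevF4 hD (orb_all chevF4 hD) m hmN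
  refine ⟨L, hL, hact, ?_⟩
  obtain ⟨κ, hκ, hword⟩ := act_word chevF4 m L hact
  have hlt : ∀ p ∈ [((39 : ℕ), a0), (40, a1), (44, a2), (45, b0), (46, b1), (47, b2)],
      p.1 < chevF4.nroots := by
    intro p hp
    apply f4c_six_lt
    simp only [List.mem_cons, List.not_mem_nil, or_false] at hp
    rcases hp with rfl | rfl | rfl | rfl | rfl | rfl <;> simp [f4Six]
  have hw := hword [(39, a0), (40, a1), (44, a2), (45, b0), (46, b1), (47, b2)] hlt
  have e1 : (m : Matrix chevF4.Idx chevF4.Idx F) *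
      chevF4.wordMat F [(39, a0), (40, a1), (44, a2), (45, b0), (46, b1), (47, b2)] =
      chevF4.wordMat F [(39, a0'), (40, a1'), (44, a2'), (45, b0'), (46, b1'), (47, b2')] *
        (m : Matrix chevF4.Idx chevF4.Idx F) := by
    rw [← f4AB_val, ← f4AB_val, ← Units.val_mul, ← Units.val_mul, h]
  have hM := word_act_cancel chevF4 m _ _ _ hw e1
  have hg1 : WordGood chevF4 (List.map (fun p : ℕ × F => (wPi chevF4 L p.1, κ p.1 * p.2))
      [(39, a0), (40, a1), (44, a2), (45, b0), (46, b1), (47, b2)]) :=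
    rootsGoodChk_spec chevF4 (f4Six.map (wPi chevF4 L)) (f4c_tup L hL).1 _ rfl
  have hg2 : WordGood chevF4
      [(39, a0'), (40, a1'), (44, a2'), (45, b0'), (46, b1'), (47, b2')] :=
    rootsGoodChk_spec chevF4 f4Six f4c_six_good _ rfl
  intro p hp hp0
  have hpr : p.1 < chevF4.nroots := hlt p hp
  obtain ⟨i, hi, hodd⟩ := f4c_odd (wPi chevF4 L p.1) (wPi_lt chevF4 hD L hL p.1 hpr)
  obtain ⟨p', hp', e2, e3⟩ := word_support chevF4 _ _ hg1 hg2 hM
    (wPi chevF4 L p.1, κ p.1 * p.2) (List.mem_map_of_mem hp) (mul_ne_zero (hκ p.1 hpr) hp0)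
    i hi hodd
  exact ⟨p', hp', e2, e3⟩

/-- A monomial element whose Weyl group element permutes the roots of the unipotent radical of
a parabolic subgroup lies in the parabolic subgroup. -/
theorem f4c_parab (J : Set ℕ) (R : List ℕ) (hR : ∀ r ∈ R, 24 ≤ r ∧ r < 48)
    (hJ : ∀ r, (chevF4.IsPosRoot r ∧ ¬ chevF4.InRootSub J r) ↔ r ∈ R)
    (m : GL chevF4.Idx F) (hmN : m ∈ chevF4.monomialSubgroup F) (L : List ℕ)
    (hact : ∀ s < chevF4.nroots, ∃ c : F, c ≠ 0 ∧ ∀ t : F,
      (m : Matrix chevF4.Idx chevF4.Idx F) * chevF4.x F s t =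
        chevF4.x F (wPi chevF4 L s) (c * t) * (m : Matrix chevF4.Idx chevF4.Idx F))
    (hperm : f4PermOK R ((List.range' 24 24).map (wPi chevF4 L)) = true) :
    m ∈ chevF4.parabolicSubgroup F J := by
  have hD : chevF4 ∈ [chevG2, chevB2, chevD4, chevF4, chevE6, chevE7, chevE8] := by simp
  have HC : CommHyp F chevF4 := fun r s hr hs hrs hneg t u =>
    comm_formula chevF4 f4c_mem r s hr hs hrs hneg t u
  obtain ⟨hfw, hbw⟩ := f4PermOK_spec R hR (wPi chevF4 L) hperm
  have hmR : m ∈ Subgroup.normalizer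
      (chevF4.unipotentRadical F J : Set (GL chevF4.Idx F)) := by
    rw [radical_eq_rootGen]
    apply normalizer_of_act chevF4 m L hact _ (fun r hr => hr.1.1)
    · intro r hr
      exact (hJ _).2 (hfw r ((hJ r).1 hr))
    · intro r hr
      obtain ⟨r', hr', e⟩ := hbw r ((hJ r).1 hr)
      exact ⟨r', (hJ r').2 hr', e⟩
  rw [← normalizer_radical chevF4 hD HC J]
  exact Subgroup.mem_inf.2 ⟨hmR, monomialSubgroup_le_group chevF4 f4c_mem hmN⟩

/-! ### Commuting root elements -/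

theorem f4c_even_v : ∀ r < chevF4.nroots,
    ((chevF4.IsPosRoot r ∧ r ∉ [27, 25, 34, 26]) ∨ r ∈ [14, 23, 24, 33]) →
      (evenChk chevF4 39 r && evenChk chevF4 45 r) = true := by decide +kernel

theorem f4c_even_w : ∀ r < chevF4.nroots,
    (chevF4.IsPosRoot r ∨ r ∈ [17, 19, 20, 22, 25, 27, 28, 30]) →
      (evenChk chevF4 44 r && evenChk chevF4 47 r) = true := by decide +kernel

theorem f4c_comm_v [CharP F 2] (r : ℕ) (hr : r < chevF4.nroots)
    (h : (chevF4.IsPosRoot r ∧ r ∉ [27, 25, 34, 26]) ∨ r ∈ [14, 23, 24, 33]) (t a b : F) :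
    Commute (f4x r t) (f4x 39 a * f4x 45 b) := by
  have e := f4c_even_v r hr h
  rw [Bool.and_eq_true] at e
  exact (f4c_comm 39 r e.1 a t).mul_right (f4c_comm 45 r e.2 b t)

theorem f4c_comm_w [CharP F 2] (r : ℕ) (hr : r < chevF4.nroots)
    (h : chevF4.IsPosRoot r ∨ r ∈ [17, 19, 20, 22, 25, 27, 28, 30]) (t a b : F) :
    Commute (f4x r t) (f4x 44 a * f4x 47 b) := by
  have e := f4c_even_w r hr h
  rw [Bool.and_eq_true] at e
  exact (f4c_comm 44 r e.1 a t).mul_right (f4c_comm 47 r e.2 b t)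

theorem f4c_rootSubgroup_le (r : ℕ) (z : GL chevF4.Idx F)
    (h : ∀ t : F, Commute (f4x r t) z) :
    chevF4.rootSubgroup F r ≤ chevF4.group F ⊓ Subgroup.centralizer {z} := by
  unfold ChevalleyDatum.rootSubgroup
  rw [Subgroup.closure_le]
  rintro g ⟨t, hg⟩
  have hg' : g = f4x r t := Units.ext hg
  rw [hg']
  refine Subgroup.mem_inf.2 ⟨xGL_mem_group chevF4 f4c_mem r t, ?_⟩
  rw [Subgroup.mem_centralizer_iff]
  intro y hy
  rw [Set.mem_singleton_iff] at hy
  subst hy
  exact (h t).eq.symm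

theorem f4c_rootGen_le (P : ℕ → Prop) (z : GL chevF4.Idx F)
    (h : ∀ r, P r → ∀ t : F, Commute (f4x r t) z) :
    rootGen F chevF4 P ≤ chevF4.group F ⊓ Subgroup.centralizer {z} := by
  unfold rootGen
  rw [Subgroup.closure_le]
  rintro g ⟨r, t, hr, hg⟩
  exact f4c_rootSubgroup_le r z (h r hr) (Subgroup.subset_closure ⟨t, hg⟩)

/-! ### Torus elements -/

theorem f4c_phi_conj (c : Fin chevF4.rank → Fˣ) (r : ℕ) (hr : r < chevF4.nroots)
    (χ : F) (hχ : χ = ((∏ i : Fin chevF4.rank, c i ^ chevF4.cartan i.val r : Fˣ) : F)) :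
    phi chevF4 c * f4x r 1 = f4x r χ * phi chevF4 c := by
  apply Units.ext
  rw [Units.val_mul, Units.val_mul]
  have e := phi_mul_x chevF4 (by simp) c r hr (1 : F)
  rw [mul_one, ← hχ] at e
  exact e

theorem f4c_prod (c : Fin chevF4.rank → Fˣ) (r : ℕ) :
    (∏ i : Fin chevF4.rank, c i ^ chevF4.cartan i.val r) =
      c ⟨0, by decide⟩ ^ chevF4.cartan 0 r * c ⟨1, by decide⟩ ^ chevF4.cartan 1 r *
        c ⟨2, by decide⟩ ^ chevF4.cartan 2 r * c ⟨3, by decide⟩ ^ chevF4.cartan 3 r :=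
  Fin.prod_univ_four (fun i : Fin 4 => c i ^ chevF4.cartan i.val r)

theorem f4c_torus_v (c : Fin chevF4.rank → Fˣ)
    (h39 : (∏ i : Fin chevF4.rank, c i ^ chevF4.cartan i.val 39) = 1)
    (h45 : (∏ i : Fin chevF4.rank, c i ^ chevF4.cartan i.val 45) = 1) :
    c ⟨1, by decide⟩ = 1 ∧ c ⟨2, by decide⟩ = 1 := by
  rw [f4c_prod, show chevF4.cartan 0 39 = 0 by decide +kernel,
    show chevF4.cartan 1 39 = -1 by decide +kernel,
    show chevF4.cartan 2 39 = 1 by decide +kernel,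
    show chevF4.cartan 3 39 = 0 by decide +kernel] at h39
  rw [f4c_prod, show chevF4.cartan 0 45 = 0 by decide +kernel,
    show chevF4.cartan 1 45 = 2 by decide +kernel,
    show chevF4.cartan 2 45 = -1 by decide +kernel,
    show chevF4.cartan 3 45 = 0 by decide +kernel] at h45
  rw [zpow_zero, zpow_zero, one_mul, mul_one, _root_.zpow_neg_one, zpow_one] at h39
  rw [zpow_zero, zpow_zero, one_mul, mul_one, _root_.zpow_neg_one] at h45
  have e : c ⟨2, by decide⟩ = c ⟨1, by decide⟩ := (inv_mul_eq_one.1 h39).symm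
  rw [e] at h45
  have e1 : c ⟨1, by decide⟩ = 1 := by
    have e2 : c ⟨1, by decide⟩ ^ (2 : ℤ) * (c ⟨1, by decide⟩)⁻¹ = c ⟨1, by decide⟩ := by
      rw [zpow_two, mul_assoc, mul_inv_cancel, mul_one]
    rw [e2] at h45
    exact h45
  exact ⟨e1, e.trans e1⟩

theorem f4c_torus_w (c : Fin chevF4.rank → Fˣ)
    (h44 : (∏ i : Fin chevF4.rank, c i ^ chevF4.cartan i.val 44) = 1)
    (h47 : (∏ i : Fin chevF4.rank, c i ^ chevF4.cartan i.val 47) = 1) :
    c ⟨0, by decide⟩ = 1 ∧ c ⟨3, by decide⟩ = 1 := by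
  rw [f4c_prod, show chevF4.cartan 0 44 = 1 by decide +kernel,
    show chevF4.cartan 1 44 = 0 by decide +kernel,
    show chevF4.cartan 2 44 = 0 by decide +kernel,
    show chevF4.cartan 3 44 = 0 by decide +kernel] at h44
  rw [f4c_prod, show chevF4.cartan 0 47 = 0 by decide +kernel,
    show chevF4.cartan 1 47 = 0 by decide +kernel,
    show chevF4.cartan 2 47 = 0 by decide +kernel,
    show chevF4.cartan 3 47 = 1 by decide +kernel] at h47
  rw [zpow_zero, zpow_zero, zpow_zero, zpow_one, mul_one, mul_one, mul_one] at h44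
  rw [zpow_zero, zpow_zero, zpow_zero, zpow_one, one_mul, one_mul, one_mul] at h47
  exact ⟨h44, h47⟩

/-! ### The centralisers -/

omit [Field F] in
theorem f4c_fst_mem (a0 a1 a2 b0 b1 b2 : F) :
    ∀ p' ∈ [((39 : ℕ), a0), (40, a1), (44, a2), (45, b0), (46, b1), (47, b2)],
      p'.1 ∈ f4Six := by
  intro p' hp'
  simp only [List.mem_cons, List.not_mem_nil, or_false] at hp'
  rcases hp' with rfl | rfl | rfl | rfl | rfl | rfl <;> simp [f4Six]

theorem f4c_radical_le (J : Set ℕ) :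
    chevF4.unipotentRadical F J ≤ chevF4.posUnipotent F := by
  unfold ChevalleyDatum.unipotentRadical ChevalleyDatum.posUnipotent
  apply Subgroup.closure_mono
  rintro x ⟨r, t, hr, _, hx⟩
  exact ⟨r, t, hr, hx⟩

theorem f4c_U_le_parabolic (J : Set ℕ) :
    chevF4.posUnipotent F ≤ chevF4.parabolicSubgroup F J := by
  unfold ChevalleyDatum.parabolicSubgroup ChevalleyDatum.borelSubgroup
  exact le_trans le_sup_left le_sup_left

/-- The group generated by the root subgroups of the positive roots other than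
`27, 25, 34, 26`. -/
def f4V (F : Type*) [Field F] : Subgroup (GL chevF4.Idx F) :=
  Subgroup.closure {g : GL chevF4.Idx F | ∃ (r : ℕ) (c : F), chevF4.IsPosRoot r ∧
    r ∉ [27, 25, 34, 26] ∧ (g : Matrix chevF4.Idx chevF4.Idx F) = chevF4.x F r c}

/-- The group generated by `X₃₃`, `X₁₄`, `X₂₄`, `X₂₃` and the root subgroups of the positive
roots other than `27, 25, 34, 26`. -/
def f4Q (F : Type*) [Field F] : Subgroup (GL chevF4.Idx F) :=
  chevF4.rootSubgroup F 33 ⊔ chevF4.rootSubgroup F 14 ⊔ chevF4.rootSubgroup F 24 ⊔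
    chevF4.rootSubgroup F 23 ⊔ f4V F

/-- The group generated by `U`, `X₂₀` and `X₂₂`. -/
def f4M (F : Type*) [Field F] : Subgroup (GL chevF4.Idx F) :=
  chevF4.posUnipotent F ⊔ chevF4.rootSubgroup F 20 ⊔ chevF4.rootSubgroup F 22

theorem f4K_le_V : f4K F ≤ f4V F := by
  unfold f4K rootGen f4V
  apply Subgroup.closure_mono
  rintro g ⟨r, t, ⟨hr, hr'⟩, hg⟩
  refine ⟨r, t, hr, fun hmem => hr' ?_, hg⟩
  simp only [List.mem_cons, List.not_mem_nil, or_false] at hmem ⊢
  omega

theorem f4Q_33 : chevF4.rootSubgroup F 33 ≤ f4Q F := by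
  unfold f4Q
  exact le_trans le_sup_left (le_trans le_sup_left (le_trans le_sup_left le_sup_left))

theorem f4Q_14 : chevF4.rootSubgroup F 14 ≤ f4Q F := by
  unfold f4Q
  exact le_trans le_sup_right (le_trans le_sup_left (le_trans le_sup_left le_sup_left))

theorem f4Q_24 : chevF4.rootSubgroup F 24 ≤ f4Q F := by
  unfold f4Q
  exact le_trans le_sup_right (le_trans le_sup_left le_sup_left)

theorem f4Q_23 : chevF4.rootSubgroup F 23 ≤ f4Q F := by
  unfold f4Q
  exact le_trans le_sup_right le_sup_left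

theorem f4Q_V : f4V F ≤ f4Q F := by
  unfold f4Q
  exact le_sup_right

theorem f4Q_levi : rootGen F chevF4 (chevF4.InRootSub ({0, 3} : Set ℕ)) ≤ f4Q F := by
  unfold rootGen
  rw [Subgroup.closure_le]
  rintro g ⟨r, t, hr, hg⟩
  rw [f4c_inRootSub03] at hr
  simp only [List.mem_cons, List.not_mem_nil, or_false] at hr
  rcases hr with rfl | rfl | rfl | rfl
  · exact f4Q_14 (Subgroup.subset_closure ⟨t, hg⟩)
  · exact f4Q_23 (Subgroup.subset_closure ⟨t, hg⟩)
  · exact f4Q_24 (Subgroup.subset_closure ⟨t, hg⟩)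
  · exact f4Q_33 (Subgroup.subset_closure ⟨t, hg⟩)

theorem f4M_U : chevF4.posUnipotent F ≤ f4M F := by
  unfold f4M
  exact le_trans le_sup_left le_sup_left

theorem f4M_20 : chevF4.rootSubgroup F 20 ≤ f4M F := by
  unfold f4M
  exact le_trans le_sup_right le_sup_left

theorem f4M_22 : chevF4.rootSubgroup F 22 ≤ f4M F := by
  unfold f4M
  exact le_sup_right

theorem f4M_pos (r : ℕ) (hr : chevF4.IsPosRoot r) (t : F) : f4x r t ∈ f4M F :=
  f4M_U (Subgroup.subset_closure ⟨r, t, hr, rfl⟩)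

/-- If `M` contains `n_p` for the fundamental root `p = p_k` and the root subgroup `X_s`, it
contains `X_{w_p s}`. -/
theorem reflect_le_of_n (D : ChevalleyDatum)
    (hD : D ∈ [chevG2, chevB2, chevD4, chevF4, chevE6, chevE7, chevE8])
    (M : Subgroup (GL D.Idx F)) (k : ℕ) (hk : k < D.rank) (n : GL D.Idx F) (hn : n ∈ M)
    (hnv : (n : Matrix D.Idx D.Idx F) = D.nMat F (D.simple k) 1) (s : ℕ) (hs : s < D.nroots)
    (h : D.rootSubgroup F s ≤ M) : D.rootSubgroup F (D.reflectRoot k s) ≤ M := by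
  have hD' : D ∈ chevList := hD
  unfold ChevalleyDatum.rootSubgroup
  rw [Subgroup.closure_le]
  rintro g ⟨t, hg⟩
  have hη : ((nEta D k s : ℤ) : F) * (((nEta D k s : ℤ) : F) * t) = t := by
    rw [← mul_assoc]
    rcases nEta_cases D k s with h' | h' <;> rw [h'] <;> simp
  have hc := n_simple_conj (F := F) D hD k hk s hs (((nEta D k s : ℤ) : F) * t)
  rw [hη, ← hg, ← hnv] at hc
  have e : g = n * xGL D hD' s (((nEta D k s : ℤ) : F) * t) * n⁻¹ := by
    rw [eq_mul_inv_iff_mul_eq]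
    apply Units.ext
    rw [Units.val_mul, Units.val_mul, xGL_val]
    exact hc.symm
  rw [e]
  exact Subgroup.mul_mem _ (Subgroup.mul_mem _ hn
    (h (Subgroup.subset_closure ⟨_, xGL_val D hD' s _⟩))) (Subgroup.inv_mem _ hn)

theorem f4M_19 : chevF4.rootSubgroup F 19 ≤ f4M F := by
  have e1 : chevF4.simple 2 = 25 := by decide +kernel
  have e2 : chevF4.neg 25 = 22 := by decide +kernel
  have hn : f4x 25 1 * (f4x 22 (-1) * f4x 25 1) ∈ f4M F :=
    mul_mem (f4M_pos 25 (by decide +kernel) 1)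
      (mul_mem (f4M_22 (Subgroup.subset_closure ⟨-1, rfl⟩)) (f4M_pos 25 (by decide +kernel) 1))
  have hnv : ((f4x 25 1 * (f4x 22 (-1) * f4x 25 1) : GL chevF4.Idx F) :
      Matrix chevF4.Idx chevF4.Idx F) = chevF4.nMat F (chevF4.simple 2) 1 := by
    rw [nMat_eq_x, e1, e2, inv_one]
    rfl
  have h := reflect_le_of_n chevF4 (by simp) (f4M F) 2 (by decide) _ hn hnv 20 (by decide)
    f4M_20
  rw [show chevF4.reflectRoot 2 20 = 19 by decide +kernel] at h
  exact h

theorem f4M_17 : chevF4.rootSubgroup F 17 ≤ f4M F := by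
  have e1 : chevF4.simple 1 = 27 := by decide +kernel
  have e2 : chevF4.neg 27 = 20 := by decide +kernel
  have hn : f4x 27 1 * (f4x 20 (-1) * f4x 27 1) ∈ f4M F :=
    mul_mem (f4M_pos 27 (by decide +kernel) 1)
      (mul_mem (f4M_20 (Subgroup.subset_closure ⟨-1, rfl⟩)) (f4M_pos 27 (by decide +kernel) 1))
  have hnv : ((f4x 27 1 * (f4x 20 (-1) * f4x 27 1) : GL chevF4.Idx F) :
      Matrix chevF4.Idx chevF4.Idx F) = chevF4.nMat F (chevF4.simple 1) 1 := by
    rw [nMat_eq_x, e1, e2, inv_one]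
    rfl
  have h := reflect_le_of_n chevF4 (by simp) (f4M F) 1 (by decide) _ hn hnv 22 (by decide)
    f4M_22
  rw [show chevF4.reflectRoot 1 22 = 17 by decide +kernel] at h
  exact h

theorem f4M_levi : rootGen F chevF4 (chevF4.InRootSub ({1, 2} : Set ℕ)) ≤ f4M F := by
  unfold rootGen
  rw [Subgroup.closure_le]
  rintro g ⟨r, t, hr, hg⟩
  rw [f4c_inRootSub12] at hr
  simp only [List.mem_cons, List.not_mem_nil, or_false] at hr
  have hg' : g = f4x r t := Units.ext hg
  rcases hr with rfl | rfl | rfl | rfl | rfl | rfl | rfl | rfl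
  · exact f4M_17 (Subgroup.subset_closure ⟨t, hg⟩)
  · exact f4M_19 (Subgroup.subset_closure ⟨t, hg⟩)
  · exact f4M_20 (Subgroup.subset_closure ⟨t, hg⟩)
  · exact f4M_22 (Subgroup.subset_closure ⟨t, hg⟩)
  · rw [hg']
    exact f4M_pos 25 (by decide +kernel) t
  · rw [hg']
    exact f4M_pos 27 (by decide +kernel) t
  · rw [hg']
    exact f4M_pos 28 (by decide +kernel) t
  · rw [hg']
    exact f4M_pos 30 (by decide +kernel) t

/-- The centraliser of `x₃₉(1) x₄₅(1)` in `F₄` in characteristic two. -/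
theorem f4c_centralizer_v [CharP F 2] (v : GL chevF4.Idx F)
    (hv : (v : Matrix chevF4.Idx chevF4.Idx F) = chevF4.x F 39 1 * chevF4.x F 45 1) :
    chevF4.group F ⊓ Subgroup.centralizer {v} = f4Q F := by
  have hD : chevF4 ∈ [chevG2, chevB2, chevD4, chevF4, chevE6, chevE7, chevE8] := by simp
  have hvx : v = f4x 39 1 * f4x 45 1 := Units.ext (by rw [hv, Units.val_mul]; rfl)
  subst hvx
  have hX : ∀ r, r < chevF4.nroots →
      ((chevF4.IsPosRoot r ∧ r ∉ [27, 25, 34, 26]) ∨ r ∈ [14, 23, 24, 33]) →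
      chevF4.rootSubgroup F r ≤
        chevF4.group F ⊓ Subgroup.centralizer {f4x (F := F) 39 1 * f4x 45 1} :=
    fun r hr h => f4c_rootSubgroup_le r _ (fun t => f4c_comm_v r hr h t 1 1)
  apply le_antisymm
  · rintro g ⟨hgG, hgC⟩
    have hgt0 : g * (f4x 39 1 * f4x 45 1) = (f4x 39 1 * f4x 45 1) * g :=
      (Subgroup.mem_centralizer_iff.1 hgC _ rfl).symm
    have hgt : g * (f4A 1 0 0 * f4B 1 0 0) = (f4A 1 0 0 * f4B 1 0 0) * g := by
      rw [f4A_zero, f4B_zero]
      exact hgt0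
    obtain ⟨u, hu, m, hmN, u', hu', rfl, s24, s25, s26, s27, s33, s34, t24, t25, t26, t27, t33,
      t34, hm⟩ := f4c_bruhat g hgG 1 0 0 1 0 0 hgt
    obtain ⟨L, hL, hact, hsupp⟩ := f4c_weyl m hmN _ _ _ _ _ _ _ _ _ _ _ _ hm
    have m39 : wPi chevF4 L 39 ∈ f4Six := by
      obtain ⟨p', hp', e, -⟩ := hsupp (39, 1) (by simp) one_ne_zero
      have e' : p'.1 = wPi chevF4 L 39 := e
      rw [← e']
      exact f4c_fst_mem _ _ _ _ _ _ p' hp'
    have m45 : wPi chevF4 L 45 ∈ f4Six := by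
      obtain ⟨p', hp', e, -⟩ := hsupp (45, 1) (by simp) one_ne_zero
      have e' : p'.1 = wPi chevF4 L 45 := e
      rw [← e']
      exact f4c_fst_mem _ _ _ _ _ _ p' hp'
    have hperm := (f4c_tup L hL).2.1 m39 m45
    have hmP := f4c_parab ({0, 3} : Set ℕ) f4R03 (by decide) f4c_rad03 m hmN L hact hperm
    have hgP : u * m * u' ∈ chevF4.parabolicSubgroup F ({0, 3} : Set ℕ) :=
      mul_mem (mul_mem (f4c_U_le_parabolic _ hu) hmP) (f4c_U_le_parabolic _ hu')
    obtain ⟨x, hx, s, hs, h₃, hh₃, e⟩ := parabolic_decomp chevF4 hD _ _ hgP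
    rw [e] at hgt0 ⊢
    clear e hgP hm hsupp hgt hgC hgG
    rw [← phi_range chevF4 f4c_mem] at hh₃
    obtain ⟨c, rfl⟩ := hh₃
    obtain ⟨χ39, hχ39⟩ : ∃ χ : F,
        χ = ((∏ i : Fin chevF4.rank, c i ^ chevF4.cartan i.val 39 : Fˣ) : F) := ⟨_, rfl⟩
    obtain ⟨χ45, hχ45⟩ : ∃ χ : F,
        χ = ((∏ i : Fin chevF4.rank, c i ^ chevF4.cartan i.val 45 : Fˣ) : F) := ⟨_, rfl⟩
    have hp39 := f4c_phi_conj c 39 (by decide) χ39 hχ39
    have hp45 := f4c_phi_conj c 45 (by decide) χ45 hχ45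
    have hphi : phi chevF4 c * (f4x 39 1 * f4x 45 1) =
        (f4x 39 χ39 * f4x 45 χ45) * phi chevF4 c := by
      rw [← mul_assoc, hp39, mul_assoc, hp45, ← mul_assoc]
    have hsC : Commute s (f4x 39 χ39 * f4x 45 χ45) := by
      have hle := f4c_rootGen_le (F := F) (chevF4.InRootSub ({0, 3} : Set ℕ))
        (f4x 39 χ39 * f4x 45 χ45)
        (fun r hr t => f4c_comm_v r hr.1 (Or.inr ((f4c_inRootSub03 r).1 hr)) t χ39 χ45)
      exact (Subgroup.mem_centralizer_iff.1 (hle hs).2 _ rfl).symm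
    have hx2 : x * (f4x 39 χ39 * f4x 45 χ45) = (f4x 39 1 * f4x 45 1) * x :=
      levi_split_aux x s (phi chevF4 c) _ _ hgt0 hphi hsC
    obtain ⟨a24, a25, a26, a27, a33, a34, κ1, hκ1, κ2, hκ2, rfl⟩ :=
      f4c_U_decomp x (f4c_radical_le _ hx)
    have f3 := f4c_conj_formula a24 a25 a26 a27 a33 a34 κ1 κ2 hκ1 hκ2 χ39 0 0 χ45 0 0
    have e8 : f4A χ39 (χ39 * a27 + 0) (0 * a33 + (χ39 * a34 + 0)) *
        f4B χ45 (χ45 * a25 + 0) ((χ45 * a25 + 0) * a24 + (χ45 * a26 + 0)) =
        f4A 1 0 0 * f4B 1 0 0 := by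
      rw [f4A_zero, f4B_zero] at f3
      rw [f4A_zero, f4B_zero]
      exact mul_right_cancel (f3.symm.trans hx2)
    obtain ⟨i1, i2, i3, i4, i5, i6⟩ := f4AB_inj _ _ _ _ _ _ _ _ _ _ _ _ e8
    have h27 : a27 = 0 := by
      rw [i1] at i2
      simpa using i2
    have h34 : a34 = 0 := by
      rw [i1] at i3
      simpa using i3
    have h25 : a25 = 0 := by
      rw [i4] at i5
      simpa using i5
    have h26 : a26 = 0 := by
      rw [i4, h25] at i6
      simpa using i6
    have hc := f4c_torus_v c (Units.val_eq_one.1 (hχ39.symm.trans i1))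
      (Units.val_eq_one.1 (hχ45.symm.trans i4))
    have hφ : phi chevF4 c ∈ rootGen F chevF4 (chevF4.InRootSub ({0, 3} : Set ℕ)) :=
      phi_mem_rootGen chevF4 hD _ (fun r hr => hr.1) [1, 2] c
        (fun i hi => by
          simp only [List.mem_cons, List.not_mem_nil, or_false] at hi
          rcases hi with hi | hi
          · have e : i = ⟨1, by decide⟩ := Fin.ext hi
            rw [e]
            exact hc.1
          · have e : i = ⟨2, by decide⟩ := Fin.ext hi
            rw [e]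
            exact hc.2)
        (fun k hk hne => by
          have hk' : k < 4 := hk
          interval_cases k
          · exact ⟨(f4c_inRootSub03 _).2 (by decide +kernel),
              (f4c_inRootSub03 _).2 (by decide +kernel)⟩
          · exact absurd (by simp) hne
          · exact absurd (by simp) hne
          · exact ⟨(f4c_inRootSub03 _).2 (by decide +kernel),
              (f4c_inRootSub03 _).2 (by decide +kernel)⟩)
    subst h27 h34 h25 h26
    have h0 : ∀ r, f4x (F := F) r 0 = 1 := fun r => xGL_zero chevF4 f4c_mem r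
    have hxQ : f4x 24 a24 * f4x 25 0 * f4x 26 0 * f4x 27 0 * κ1 * f4x 33 a33 * f4x 34 0 * κ2 ∈
        f4Q F := by
      rw [h0 25, h0 26, h0 27, h0 34]
      exact mul_mem (mul_mem (mul_mem (mul_mem (mul_mem (mul_mem (mul_mem
        (f4Q_24 (Subgroup.subset_closure ⟨a24, rfl⟩)) (one_mem _)) (one_mem _)) (one_mem _))
        (f4Q_V (f4K_le_V hκ1))) (f4Q_33 (Subgroup.subset_closure ⟨a33, rfl⟩))) (one_mem _))
        (f4Q_V (f4K_le_V hκ2))
    exact mul_mem (mul_mem hxQ (f4Q_levi hs)) (f4Q_levi hφ)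
  · unfold f4Q f4V
    refine sup_le (sup_le (sup_le (sup_le (hX 33 (by decide) (Or.inr (by simp)))
      (hX 14 (by decide) (Or.inr (by simp)))) (hX 24 (by decide) (Or.inr (by simp))))
      (hX 23 (by decide) (Or.inr (by simp)))) ?_
    rw [Subgroup.closure_le]
    rintro g ⟨r, t, hr, hr', hg⟩
    exact hX r hr.1 (Or.inl ⟨hr, hr'⟩) (Subgroup.subset_closure ⟨t, hg⟩)

/-- The centraliser of `x₄₇(1) x₄₄(1)` in `F₄` in characteristic two. -/
theorem f4c_centralizer_w [CharP F 2] (w : GL chevF4.Idx F)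
    (hw : (w : Matrix chevF4.Idx chevF4.Idx F) = chevF4.x F 47 1 * chevF4.x F 44 1) :
    chevF4.group F ⊓ Subgroup.centralizer {w} = f4M F := by
  have hD : chevF4 ∈ [chevG2, chevB2, chevD4, chevF4, chevE6, chevE7, chevE8] := by simp
  have hwx : w = f4x 44 1 * f4x 47 1 := by
    have e : w = f4x 47 1 * f4x 44 1 := Units.ext (by rw [hw, Units.val_mul]; rfl)
    rw [e]
    exact (f4c_comm 44 47 (by decide +kernel) 1 1).eq
  subst hwx
  have hX : ∀ r, r < chevF4.nroots →
      (chevF4.IsPosRoot r ∨ r ∈ [17, 19, 20, 22, 25, 27, 28, 30]) →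
      chevF4.rootSubgroup F r ≤
        chevF4.group F ⊓ Subgroup.centralizer {f4x (F := F) 44 1 * f4x 47 1} :=
    fun r hr h => f4c_rootSubgroup_le r _ (fun t => f4c_comm_w r hr h t 1 1)
  have hUC : chevF4.posUnipotent F ≤
      chevF4.group F ⊓ Subgroup.centralizer {f4x (F := F) 44 1 * f4x 47 1} := by
    unfold ChevalleyDatum.posUnipotent
    rw [Subgroup.closure_le]
    rintro g ⟨r, t, hr, hg⟩
    exact hX r hr.1 (Or.inl hr) (Subgroup.subset_closure ⟨t, hg⟩)
  apply le_antisymm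
  · rintro g ⟨hgG, hgC⟩
    have hgt0 : g * (f4x 44 1 * f4x 47 1) = (f4x 44 1 * f4x 47 1) * g :=
      (Subgroup.mem_centralizer_iff.1 hgC _ rfl).symm
    have hgt : g * (f4A 0 0 1 * f4B 0 0 1) = (f4A 0 0 1 * f4B 0 0 1) * g := by
      rw [f4A_zero', f4B_zero']
      exact hgt0
    obtain ⟨u, hu, m, hmN, u', hu', rfl, s24, s25, s26, s27, s33, s34, t24, t25, t26, t27, t33,
      t34, hm⟩ := f4c_bruhat g hgG 0 0 1 0 0 1 hgt
    simp only [zero_mul, zero_add, add_zero] at hm
    obtain ⟨L, hL, hact, hsupp⟩ := f4c_weyl m hmN _ _ _ _ _ _ _ _ _ _ _ _ hm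
    have hcase : ∀ p' ∈ [((39 : ℕ), (0 : F)), (40, 0), (44, 1), (45, 0), (46, 0), (47, 1)],
        p'.2 ≠ 0 → p'.1 ∈ ([44, 47] : List ℕ) := by
      intro p' hp' hne
      simp only [List.mem_cons, List.not_mem_nil, or_false] at hp'
      rcases hp' with rfl | rfl | rfl | rfl | rfl | rfl
      · exact absurd rfl hne
      · exact absurd rfl hne
      · simp
      · exact absurd rfl hne
      · exact absurd rfl hne
      · simp
    have m44 : wPi chevF4 L 44 ∈ ([44, 47] : List ℕ) := by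
      obtain ⟨p', hp', e, hne⟩ := hsupp (44, 1) (by simp) one_ne_zero
      have e' : p'.1 = wPi chevF4 L 44 := e
      rw [← e']
      exact hcase p' hp' hne
    have m47 : wPi chevF4 L 47 ∈ ([44, 47] : List ℕ) := by
      obtain ⟨p', hp', e, hne⟩ := hsupp (47, 1) (by simp) one_ne_zero
      have e' : p'.1 = wPi chevF4 L 47 := e
      rw [← e']
      exact hcase p' hp' hne
    have hperm := (f4c_tup L hL).2.2 m44 m47
    have hmP := f4c_parab ({1, 2} : Set ℕ) f4R12 (by decide) f4c_rad12 m hmN L hact hperm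
    have hgP : u * m * u' ∈ chevF4.parabolicSubgroup F ({1, 2} : Set ℕ) :=
      mul_mem (mul_mem (f4c_U_le_parabolic _ hu) hmP) (f4c_U_le_parabolic _ hu')
    obtain ⟨x, hx, s, hs, h₃, hh₃, e⟩ := parabolic_decomp chevF4 hD _ _ hgP
    rw [e] at hgC ⊢
    have hxU : x ∈ chevF4.posUnipotent F := f4c_radical_le _ hx
    have hsC := f4c_rootGen_le (F := F) (chevF4.InRootSub ({1, 2} : Set ℕ))
      (f4x 44 1 * f4x 47 1)
      (fun r hr t => f4c_comm_w r hr.1 (Or.inr ((f4c_inRootSub12 r).1 hr)) t 1 1) hs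
    have hφC : h₃ ∈ Subgroup.centralizer {f4x (F := F) 44 1 * f4x 47 1} := by
      have e1 : h₃ = s⁻¹ * (x⁻¹ * (x * s * h₃)) := by group
      rw [e1]
      exact mul_mem (inv_mem hsC.2) (mul_mem (inv_mem (hUC hxU).2) hgC)
    have hφz : h₃ * (f4x 44 1 * f4x 47 1) = (f4x 44 1 * f4x 47 1) * h₃ :=
      (Subgroup.mem_centralizer_iff.1 hφC _ rfl).symm
    rw [← phi_range chevF4 f4c_mem] at hh₃
    obtain ⟨c, rfl⟩ := hh₃
    obtain ⟨χ44, hχ44⟩ : ∃ χ : F,
        χ = ((∏ i : Fin chevF4.rank, c i ^ chevF4.cartan i.val 44 : Fˣ) : F) := ⟨_, rfl⟩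
    obtain ⟨χ47, hχ47⟩ : ∃ χ : F,
        χ = ((∏ i : Fin chevF4.rank, c i ^ chevF4.cartan i.val 47 : Fˣ) : F) := ⟨_, rfl⟩
    have hp44 := f4c_phi_conj c 44 (by decide) χ44 hχ44
    have hp47 := f4c_phi_conj c 47 (by decide) χ47 hχ47
    have hphi : phi chevF4 c * (f4x 44 1 * f4x 47 1) =
        (f4x 44 χ44 * f4x 47 χ47) * phi chevF4 c := by
      rw [← mul_assoc, hp44, mul_assoc, hp47, ← mul_assoc]
    have e9 : f4A 0 0 χ44 * f4B 0 0 χ47 = f4A 0 0 1 * f4B 0 0 1 := by
      rw [f4A_zero', f4B_zero', f4A_zero', f4B_zero']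
      exact mul_right_cancel (hphi.symm.trans hφz)
    obtain ⟨-, -, i3, -, -, i6⟩ := f4AB_inj _ _ _ _ _ _ _ _ _ _ _ _ e9
    have hc := f4c_torus_w c (Units.val_eq_one.1 (hχ44.symm.trans i3))
      (Units.val_eq_one.1 (hχ47.symm.trans i6))
    have hφ : phi chevF4 c ∈ rootGen F chevF4 (chevF4.InRootSub ({1, 2} : Set ℕ)) :=
      phi_mem_rootGen chevF4 hD _ (fun r hr => hr.1) [0, 3] c
        (fun i hi => by
          simp only [List.mem_cons, List.not_mem_nil, or_false] at hi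
          rcases hi with hi | hi
          · have e : i = ⟨0, by decide⟩ := Fin.ext hi
            rw [e]
            exact hc.1
          · have e : i = ⟨3, by decide⟩ := Fin.ext hi
            rw [e]
            exact hc.2)
        (fun k hk hne => by
          have hk' : k < 4 := hk
          interval_cases k
          · exact absurd (by simp) hne
          · exact ⟨(f4c_inRootSub12 _).2 (by decide +kernel),
              (f4c_inRootSub12 _).2 (by decide +kernel)⟩
          · exact ⟨(f4c_inRootSub12 _).2 (by decide +kernel),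
              (f4c_inRootSub12 _).2 (by decide +kernel)⟩
          · exact absurd (by simp) hne)
    exact mul_mem (mul_mem (f4M_U hxU) (f4M_levi hs)) (f4M_levi hφ)
  · unfold f4M
    exact sup_le (sup_le hUC (hX 20 (by decide) (Or.inr (by simp))))
      (hX 22 (by decide) (Or.inr (by simp)))

end

end Cfsg.Agent.Lib.Helper25
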