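import Cfsg.Agent.Lib.Helper25.ChevF4Chka
import Cfsg.Agent.Lib.Helper25.ChevF4Chkb
import Cfsg.Agent.Lib.Helper25.ChevF4Chkc
import Cfsg.Agent.Lib.Helper25.ChevF4Chkd

/-!
# The orbit of the tuple of positive roots of `F₄` under the Weyl group (assembled facts)
-/

set_option autoImplicit false

namespace Cfsg.Agent.Lib.Helper25

open Cfsg.Lie
open Cfsg.Agent.Lib.Helper24

theorem f4Orb_cases (τ : List ℕ) (h : τ ∈ f4Orb) :
    τ ∈ f4OrbC0 ∨ τ ∈ f4OrbC1 ∨ τ ∈ f4OrbC2 ∨ τ ∈ f4OrbC3 ∨ τ ∈ f4OrbC4 ∨ τ ∈ f4OrbC5 ∨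
      τ ∈ f4OrbC6 ∨ τ ∈ f4OrbC7 := by
  unfold f4Orb at h
  simp only [List.mem_append] at h
  tauto

theorem f4Orb_closed : ∀ τ ∈ f4Orb, ∀ i < chevF4.rank, τ.map (chevF4.reflectRoot i) ∈ f4Orb := by
  intro τ hτ i hi
  rcases f4Orb_cases τ hτ with h | h | h | h | h | h | h | h
  · exact tupClosedChk_spec chevF4 f4Orb _ f4chkClosed_0 τ h i hi
  · exact tupClosedChk_spec chevF4 f4Orb _ f4chkClosed_1 τ h i hi
  · exact tupClosedChk_spec chevF4 f4Orb _ f4chkClosed_2 τ h i hi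
  · exact tupClosedChk_spec chevF4 f4Orb _ f4chkClosed_3 τ h i hi
  · exact tupClosedChk_spec chevF4 f4Orb _ f4chkClosed_4 τ h i hi
  · exact tupClosedChk_spec chevF4 f4Orb _ f4chkClosed_5 τ h i hi
  · exact tupClosedChk_spec chevF4 f4Orb _ f4chkClosed_6 τ h i hi
  · exact tupClosedChk_spec chevF4 f4Orb _ f4chkClosed_7 τ h i hi

theorem f4TupChk_all : ∀ τ ∈ f4Orb, f4TupChk τ = true := by
  intro τ hτ
  rcases f4Orb_cases τ hτ with h | h | h | h | h | h | h | h
  · exact List.all_eq_true.1 f4chkTup_0 τ h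
  · exact List.all_eq_true.1 f4chkTup_1 τ h
  · exact List.all_eq_true.1 f4chkTup_2 τ h
  · exact List.all_eq_true.1 f4chkTup_3 τ h
  · exact List.all_eq_true.1 f4chkTup_4 τ h
  · exact List.all_eq_true.1 f4chkTup_5 τ h
  · exact List.all_eq_true.1 f4chkTup_6 τ h
  · exact List.all_eq_true.1 f4chkTup_7 τ h

theorem f4Orb_base : (List.range' 24 24).map (wPi chevF4 []) ∈ f4Orb := by
  unfold f4Orb
  simp only [List.mem_append]
  left; left; left; left; left; left; left
  unfold f4OrbC0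
  exact List.mem_cons_self

/-- The images of the positive roots under a word of fundamental reflections form a tuple of
the orbit. -/
theorem f4Orb_mem (L : List ℕ) (hL : ∀ i ∈ L, i < chevF4.rank) :
    (List.range' 24 24).map (wPi chevF4 L) ∈ f4Orb := by
  induction L with
  | nil => exact f4Orb_base
  | cons i L ih =>
    have h1 := f4Orb_closed _ (ih (fun j hj => hL j (List.mem_cons_of_mem _ hj))) i
      (hL i List.mem_cons_self)
    rw [List.map_map] at h1
    exact h1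

end Cfsg.Agent.Lib.Helper25
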