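import Cfsg.Agent.Lib.Helper25.ChevCentK

set_option autoImplicit false

namespace Cfsg.Agent.Lib.Helper25

open Cfsg.Lie Matrix
open Cfsg.Agent.Lib.Helper24

/-! ### Subgroups between the group over a subfield and the fixed points of a field
endomorphism: centraliser and normaliser -/

section

variable {F F₀ : Type*} [Field F] [Field F₀]

/-- A fixed element of the group is a product of two elements from the small field and a fixed
element of `H`. -/
theorem group_fixed_decomp (D : ChevalleyDatum)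
    (hD : D ∈ [chevG2, chevB2, chevD4, chevF4, chevE6, chevE7, chevE8])
    (σ : F →+* F) (ι : F₀ →+* F) (hfix : ∀ x : F, σ x = x → ∃ y : F₀, ι y = x)
    (g : GL D.Idx F) (hg : g ∈ D.group F)
    (hσ : Matrix.GeneralLinearGroup.map σ g = g) :
    ∃ l₁ ∈ imGL D ι, ∃ h ∈ D.diagonalSubgroup F, ∃ l₂ ∈ imGL D ι,
      Matrix.GeneralLinearGroup.map σ h = h ∧ g = l₁ * h * l₂ := by
  have hD' : D ∈ chevList := hD
  obtain ⟨b, hb, n, hn, u, hu, rfl⟩ := bruhat_exists D hD g hg
  obtain ⟨h, hh, L, hL, e⟩ := monomial_word D hD (orb_all D hD) n hn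
  obtain ⟨m, hmval, hmcl⟩ := exists_nWordGL (F := F) D hD L hL
  have hmN : m ∈ D.monomialSubgroup F := simple_n_le_monomial D hD hmcl
  have hnm : n = h * m := Units.ext (by rw [Units.val_mul, e, hmval])
  have hmσ : Matrix.GeneralLinearGroup.map σ m = m :=
    Units.ext (by rw [val_glMap, hmval, nWordMat_map])
  have hmIm : m ∈ imGL D ι := by
    obtain ⟨m₀, hm₀val, hm₀cl⟩ := exists_nWordGL (F := F₀) D hD L hL
    exact mem_imGL_of_val D ι m m₀ (monomialSubgroup_le_group D hD'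
      (simple_n_le_monomial D hD hm₀cl)) (by rw [hm₀val, nWordMat_map, hmval])
  subst hnm
  have hHV : D.diagonalSubgroup F ≤ Subgroup.normalizer (D.negUnipotent F : Set (GL D.Idx F)) :=
    diagonal_le_normalizer_rootGen D hD' D.IsNegRoot (fun r hr => hr.1)
  have hHU : D.diagonalSubgroup F ≤ Subgroup.normalizer (D.posUnipotent F : Set (GL D.Idx F)) :=
    diagonal_le_normalizer_rootGen D hD' D.IsPosRoot (fun r hr => hr.1)
  have hu' : u ∈ Subgroup.closure {x : GL D.Idx F | ∃ (r : ℕ) (t : F), D.IsPosRoot r ∧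
      (D.rootSubgroup F r).map (MulAut.conj m).toMonoidHom ≤ D.negUnipotent F ∧
      (x : Matrix D.Idx D.Idx F) = D.x F r t} := by
    refine Subgroup.closure_mono ?_ hu
    rintro x ⟨r, t, hr, hle, hx⟩
    refine ⟨r, t, hr, ?_, hx⟩
    rintro y ⟨z, hz, rfl⟩
    have h1 : (MulAut.conj (h * m)).toMonoidHom z ∈ D.negUnipotent F := hle ⟨z, hz, rfl⟩
    have h2 := ((Subgroup.mem_set_normalizer_iff.1 (hHV (inv_mem hh))) _).1 h1
    have e3 : (MulAut.conj m).toMonoidHom z =
        h⁻¹ * (MulAut.conj (h * m)).toMonoidHom z * h⁻¹⁻¹ := by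
      show m * z * m⁻¹ = h⁻¹ * (h * m * z * (h * m)⁻¹) * h⁻¹⁻¹
      group
    rw [e3]
    exact h2
  have hσu := glMap_uw D σ m u hu'
  have hbh : b * h ∈ D.borelSubgroup F := mul_mem hb (Subgroup.mem_sup_right hh)
  have hσbh := glMap_borel σ D _ hbh
  have e1 : (b * h) * m * u = Matrix.GeneralLinearGroup.map σ (b * h) * m *
      Matrix.GeneralLinearGroup.map σ u := by
    have e4 : Matrix.GeneralLinearGroup.map σ (b * (h * m) * u) =
        Matrix.GeneralLinearGroup.map σ (b * h) * m * Matrix.GeneralLinearGroup.map σ u := by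
      rw [map_mul, map_mul, map_mul, map_mul, hmσ]
      group
    rw [← e4, hσ]
    group
  obtain ⟨-, huniq⟩ := bruhat_unique D hD (b * h) (Matrix.GeneralLinearGroup.map σ (b * h)) m m u
    (Matrix.GeneralLinearGroup.map σ u) hbh hσbh hmN hmN hu' hσu e1
  obtain ⟨hbσ, huσ⟩ := huniq rfl
  obtain ⟨u₁, hu₁, h₁, hh₁, e2⟩ := mem_sup_of_le_normalizer _ _ hHU _ hbh
  rw [e2, map_mul] at hbσ
  have h3 := inv_mul_eq_mul_inv_of_mul_eq hbσ
  have h4 : u₁⁻¹ * Matrix.GeneralLinearGroup.map σ u₁ ∈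
      D.posUnipotent F ⊓ D.diagonalSubgroup F :=
    Subgroup.mem_inf.2 ⟨mul_mem (inv_mem hu₁) (glMap_posUnipotent σ D _ hu₁),
      h3 ▸ mul_mem hh₁ (inv_mem (glMap_diagonal σ D _ hh₁))⟩
  rw [posUnipotent_inf_diagonal D hD', Subgroup.mem_bot] at h4
  have h5 : Matrix.GeneralLinearGroup.map σ u₁ = u₁ := (inv_mul_eq_one.1 h4).symm
  have h6 : Matrix.GeneralLinearGroup.map σ h₁ = h₁ := by
    rw [h5] at hbσ
    exact (mul_left_cancel hbσ).symm
  have hU : Subgroup.closure {x : GL D.Idx F | ∃ (r : ℕ) (t : F), D.IsPosRoot r ∧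
      (D.rootSubgroup F r).map (MulAut.conj m).toMonoidHom ≤ D.negUnipotent F ∧
      (x : Matrix D.Idx D.Idx F) = D.x F r t} ≤ D.posUnipotent F := by
    unfold ChevalleyDatum.posUnipotent
    apply Subgroup.closure_mono
    rintro x ⟨r, t, hr, _, hx⟩
    exact ⟨r, t, hr, hx⟩
  refine ⟨u₁, posUnipotent_fixed_mem D hD σ ι hfix u₁ hu₁ h5, h₁, hh₁, m * u,
    mul_mem hmIm (posUnipotent_fixed_mem D hD σ ι hfix u (hU hu') huσ.symm), h6, ?_⟩
  have e5 : b * (h * m) * u = (b * h) * m * u := by group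
  rw [e5, e2]
  group

end

section

variable {F : Type*} [Field F]

/-- The subgroup generated by the root elements whose parameter is fixed by `σ`. -/
def fixRootGroup (D : ChevalleyDatum) (σ : F →+* F) : Subgroup (GL D.Idx F) :=
  Subgroup.closure {g : GL D.Idx F | ∃ (s : ℕ) (t : F), σ t = t ∧
    (g : Matrix D.Idx D.Idx F) = D.x F s t}

theorem imGL_le_fixRootGroup {F₀ : Type*} [Field F₀] (D : ChevalleyDatum) (σ : F →+* F)
    (ι : F₀ →+* F) (hι : ∀ y : F₀, σ (ι y) = ι y) : imGL D ι ≤ fixRootGroup D σ := by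
  unfold imGL ChevalleyDatum.group
  rw [MonoidHom.map_closure, Subgroup.closure_le]
  rintro _ ⟨g₀, ⟨r, t, hg₀⟩, rfl⟩
  apply Subgroup.subset_closure
  refine ⟨r.val, ι t, hι t, ?_⟩
  rw [val_glMap, hg₀, xMat_map]
  unfold ChevalleyDatum.x
  rw [dif_pos r.isLt]

/-- A fixed element of `H` normalises the subgroup generated by the root elements with fixed
parameter. -/
theorem diag_conj_fixRootGroup (D : ChevalleyDatum)
    (hD : D ∈ [chevG2, chevB2, chevD4, chevF4, chevE6, chevE7, chevE8]) (σ : F →+* F)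
    (h : GL D.Idx F) (hh : h ∈ D.diagonalSubgroup F)
    (hσ : Matrix.GeneralLinearGroup.map σ h = h) (x : GL D.Idx F)
    (hx : x ∈ fixRootGroup D σ) : h * x * h⁻¹ ∈ fixRootGroup D σ := by
  have hD' : D ∈ chevList := hD
  obtain ⟨d, hd, hval⟩ := diagonalSubgroup_le_gradedTorus D hD' hh
  have hdσ : ∀ s < D.nroots, σ (d s) = d s := by
    intro s hs
    have h1 : (torus F D d).map σ = torus F D d := by
      rw [← hval, ← val_glMap, hσ]
    rw [torus_map] at h1
    have h2 := congrFun (congrFun h1 (Sum.inr ⟨s, hs⟩)) (Sum.inr ⟨s, hs⟩)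
    unfold torus at h2
    rw [Matrix.diagonal_apply_eq, Matrix.diagonal_apply_eq] at h2
    exact h2
  unfold fixRootGroup at hx
  apply conj_closure_le _ _ h _ x hx
  rintro g ⟨s, t, ht, hg⟩
  by_cases hs : s < D.nroots
  · unfold fixRootGroup
    apply Subgroup.subset_closure
    refine ⟨s, d s * t, by rw [map_mul, hdσ s hs, ht], ?_⟩
    rw [Units.val_mul, Units.val_mul, hg, hval, torus_mul_x D d hd s hs, Matrix.mul_assoc,
      ← hval, ← Units.val_mul, mul_inv_cancel, Units.val_one, Matrix.mul_one]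
  · have hg1 : g = 1 := by
      apply Units.ext
      rw [hg, Units.val_one]
      unfold ChevalleyDatum.x
      rw [dif_neg hs]
    rw [hg1, mul_one, mul_inv_cancel]
    exact one_mem _

/-- Centraliser and normaliser of a subgroup `K` of the Chevalley group lying between the group
generated by the root elements with `σ`-fixed parameter and the group of `σ`-fixed points. -/
theorem normalizer_fixed_main (D : ChevalleyDatum)
    (hD : D ∈ [chevG2, chevB2, chevD4, chevF4, chevE6, chevE7, chevE8]) (σ : F →+* F)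
    (K : Subgroup (GL D.Idx F)) (hKG : K ≤ D.group F) (hLK : fixRootGroup D σ ≤ K)
    (hKfix : ∀ g ∈ K, Matrix.GeneralLinearGroup.map σ g = g) :
    D.group F ⊓ Subgroup.centralizer (K : Set (GL D.Idx F)) = ⊥ ∧
    ∀ g : GL D.Idx F, g ∈ D.group F →
      (g ∈ Subgroup.normalizer (K : Set (GL D.Idx F)) ↔
        Matrix.GeneralLinearGroup.map σ g = g) := by
  have hD' : D ∈ chevList := hD
  have hcent : D.group F ⊓ Subgroup.centralizer (K : Set (GL D.Idx F)) = ⊥ := by
    rw [eq_bot_iff]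
    rintro g ⟨hgG, hgC⟩
    rw [Subgroup.mem_bot]
    apply centralizer_trivial D hD g hgG
    intro s z _ hz
    have hzK : z ∈ K := by
      apply hLK
      apply Subgroup.subset_closure
      rcases hz with hz | hz
      · exact ⟨s, 1, map_one σ, hz⟩
      · exact ⟨s, -1, by rw [map_neg, map_one], hz⟩
    exact (Subgroup.mem_centralizer_iff.1 hgC z hzK).symm
  refine ⟨hcent, ?_⟩
  let F₀ : Subfield F := σ.eqLocusField (RingHom.id F)
  let ι : F₀ →+* F := F₀.subtype
  have hfix : ∀ x : F, σ x = x → ∃ y : F₀, ι y = x := fun x hx => ⟨⟨x, hx⟩, rfl⟩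
  have hι : ∀ y : F₀, σ (ι y) = ι y := fun y => y.2
  have hImL : imGL D ι ≤ fixRootGroup D σ := imGL_le_fixRootGroup D σ ι hι
  have hIm : imGL D ι ≤ K := hImL.trans hLK
  have hH : ∀ h ∈ D.diagonalSubgroup F, Matrix.GeneralLinearGroup.map σ h = h →
      ∀ x ∈ K, h * x * h⁻¹ ∈ K := by
    intro h hh hσh x hx
    obtain ⟨l₃, hl₃, h₃, hh₃, l₄, hl₄, -, rfl⟩ :=
      group_fixed_decomp D hD σ ι hfix x (hKG hx) (hKfix x hx)
    have hh₃K : h₃ ∈ K := by
      have e0 : h₃ = l₃⁻¹ * (l₃ * h₃ * l₄) * l₄⁻¹ := by group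
      rw [e0]
      exact mul_mem (mul_mem (inv_mem (hIm hl₃)) hx) (inv_mem (hIm hl₄))
    have hcomm : h * h₃ = h₃ * h :=
      dg_commute h h₃ (diagonalSubgroup_le_dg D hD' hh) (diagonalSubgroup_le_dg D hD' hh₃)
    have e : h * (l₃ * h₃ * l₄) * h⁻¹ = (h * l₃ * h⁻¹) * h₃ * (h * l₄ * h⁻¹) := by
      calc h * (l₃ * h₃ * l₄) * h⁻¹ = (h * l₃ * h⁻¹) * (h * h₃) * h⁻¹ * (h * l₄ * h⁻¹) := by
            group
        _ = (h * l₃ * h⁻¹) * (h₃ * h) * h⁻¹ * (h * l₄ * h⁻¹) := by rw [hcomm]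
        _ = (h * l₃ * h⁻¹) * h₃ * (h * l₄ * h⁻¹) := by group
    rw [e]
    exact mul_mem (mul_mem (hLK (diag_conj_fixRootGroup D hD σ h hh hσh l₃ (hImL hl₃))) hh₃K)
      (hLK (diag_conj_fixRootGroup D hD σ h hh hσh l₄ (hImL hl₄)))
  have hC : ∀ g ∈ D.group F, Matrix.GeneralLinearGroup.map σ g = g →
      ∀ x ∈ K, g * x * g⁻¹ ∈ K := by
    intro g hg hσg x hx
    obtain ⟨l₁, hl₁, h, hh, l₂, hl₂, hσh, rfl⟩ := group_fixed_decomp D hD σ ι hfix g hg hσg
    have e : (l₁ * h * l₂) * x * (l₁ * h * l₂)⁻¹ =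
        l₁ * (h * (l₂ * x * l₂⁻¹) * h⁻¹) * l₁⁻¹ := by group
    rw [e]
    exact mul_mem (mul_mem (hIm hl₁) (hH h hh hσh _
      (mul_mem (mul_mem (hIm hl₂) hx) (inv_mem (hIm hl₂))))) (inv_mem (hIm hl₁))
  intro g hg
  constructor
  · intro hN
    have hcG : g⁻¹ * Matrix.GeneralLinearGroup.map σ g ∈ D.group F :=
      mul_mem (inv_mem hg) (glMap_group σ D g hg)
    have hcC : g⁻¹ * Matrix.GeneralLinearGroup.map σ g ∈
        Subgroup.centralizer (K : Set (GL D.Idx F)) := by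
      rw [Subgroup.mem_centralizer_iff]
      intro x hx
      have hy : g * x * g⁻¹ ∈ K := ((Subgroup.mem_set_normalizer_iff.1 hN) x).1 hx
      have h1 := hKfix _ hy
      rw [map_mul, map_mul, map_inv, hKfix x hx] at h1
      have e0 : x * (g⁻¹ * Matrix.GeneralLinearGroup.map σ g) =
          g⁻¹ * (g * x * g⁻¹) * Matrix.GeneralLinearGroup.map σ g := by group
      rw [e0, ← h1]
      group
    have hmem : g⁻¹ * Matrix.GeneralLinearGroup.map σ g ∈
        D.group F ⊓ Subgroup.centralizer (K : Set (GL D.Idx F)) := Subgroup.mem_inf.2 ⟨hcG, hcC⟩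
    rw [hcent, Subgroup.mem_bot] at hmem
    exact (inv_mul_eq_one.1 hmem).symm
  · intro hσg
    rw [Subgroup.mem_set_normalizer_iff]
    intro x
    constructor
    · exact hC g hg hσg x
    · intro hx
      have hσg' : Matrix.GeneralLinearGroup.map σ g⁻¹ = g⁻¹ := by rw [map_inv, hσg]
      have h1 := hC g⁻¹ (inv_mem hg) hσg' _ hx
      have e : g⁻¹ * (g * x * g⁻¹) * g⁻¹⁻¹ = x := by group
      rw [e] at h1
      exact h1

end

/-- The Frobenius form: `σ` the `p ^ a`-th power map of a field of characteristic `p`. -/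
theorem normalizer_frob {k : Type*} [Field k] (p : ℕ) [Fact p.Prime] [CharP k p]
    (D : ChevalleyDatum) (hD : D ∈ [chevG2, chevB2, chevD4, chevF4, chevE6, chevE7, chevE8])
    (a : ℕ) (K : Subgroup (GL D.Idx k)) (hKG : K ≤ D.group k)
    (hLK : Subgroup.closure {g : GL D.Idx k | ∃ (s : ℕ) (t : k), t ^ (p ^ a) = t ∧
      (g : Matrix D.Idx D.Idx k) = D.x k s t} ≤ K)
    (hKfix : ∀ g ∈ K, ∀ i j : D.Idx, ((g : Matrix D.Idx D.Idx k) i j) ^ (p ^ a) =
      (g : Matrix D.Idx D.Idx k) i j) :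
    D.group k ⊓ Subgroup.centralizer (K : Set (GL D.Idx k)) = ⊥ ∧
    ∀ g : GL D.Idx k, g ∈ D.group k → (g ∈ Subgroup.normalizer (K : Set (GL D.Idx k)) ↔
      ∀ i j : D.Idx, ((g : Matrix D.Idx D.Idx k) i j) ^ (p ^ a) =
        (g : Matrix D.Idx D.Idx k) i j) := by
  let σ : k →+* k := iterateFrobenius k p a
  have hσ : ∀ x : k, σ x = x ^ (p ^ a) := fun x => rfl
  have hfixiff : ∀ g : GL D.Idx k, Matrix.GeneralLinearGroup.map σ g = g ↔
      ∀ i j : D.Idx, ((g : Matrix D.Idx D.Idx k) i j) ^ (p ^ a) =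
        (g : Matrix D.Idx D.Idx k) i j := by
    intro g
    constructor
    · intro h i j
      have h1 := congrArg (fun x : GL D.Idx k => (x : Matrix D.Idx D.Idx k) i j) h
      simp only [val_glMap, Matrix.map_apply] at h1
      rw [← hσ]
      exact h1
    · intro h
      apply Units.ext
      ext i j
      rw [val_glMap, Matrix.map_apply, hσ, h i j]
  have hLK' : fixRootGroup D σ ≤ K := by
    refine le_trans ?_ hLK
    unfold fixRootGroup
    apply Subgroup.closure_mono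
    rintro g ⟨s, t, ht, hg⟩
    refine ⟨s, t, ?_, hg⟩
    rw [← hσ]
    exact ht
  obtain ⟨h1, h2⟩ := normalizer_fixed_main D hD σ K hKG hLK'
    (fun g hg => (hfixiff g).2 (hKfix g hg))
  exact ⟨h1, fun g hg => (h2 g hg).trans (hfixiff g)⟩

end Cfsg.Agent.Lib.Helper25
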