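import Cfsg.Agent.Lib.Helper25.ChevLTData
import Cfsg.Agent.Lib.Helper25.ChevCountU
import Cfsg.Agent.Lib.Helper24.CommFAll
import Cfsg.Agent.Lib.Helper24.ChevCard
import Cfsg.Agent.Lib.Helper57.CharP

/-!
# The centraliser of the unipotent radical of a proper parabolic subgroup
-/

set_option autoImplicit false

namespace Cfsg.Agent.Lib.Helper25

open Cfsg.Lie Matrix
open Cfsg.Agent.Lib.Helper24

/-- Conjugation by an element of `P` preserves `P ⊓ C(Q)` when `P` normalises `Q`. -/
theorem conj_mem_inf_centralizer {G : Type*} [Group G] (P Q : Subgroup G)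
    (hQ : P ≤ Subgroup.normalizer (Q : Set G)) (b : G) (hb : b ∈ P) (c : G)
    (hc : c ∈ P ⊓ Subgroup.centralizer (Q : Set G)) :
    b * c * b⁻¹ ∈ P ⊓ Subgroup.centralizer (Q : Set G) := by
  obtain ⟨hcP, hcC⟩ := Subgroup.mem_inf.1 hc
  refine Subgroup.mem_inf.2 ⟨mul_mem (mul_mem hb hcP) (inv_mem hb), ?_⟩
  rw [Subgroup.mem_centralizer_iff]
  intro x hx
  have hx' : b⁻¹ * x * b ∈ Q := by
    have h1 := (Subgroup.mem_set_normalizer_iff.1 (hQ (inv_mem hb))) x
    have h2 := h1.1 hx
    rw [inv_inv] at h2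
    exact h2
  have h3 : b⁻¹ * x * b * c = c * (b⁻¹ * x * b) := Subgroup.mem_centralizer_iff.1 hcC _ hx'
  calc x * (b * c * b⁻¹) = b * (b⁻¹ * x * b * c) * b⁻¹ := by group
    _ = b * (c * (b⁻¹ * x * b)) * b⁻¹ := by rw [h3]
    _ = b * c * b⁻¹ * x := by group

/-- `P` normalises `P ⊓ C(Q)` when it normalises `Q`. -/
theorem le_normalizer_inf_centralizer {G : Type*} [Group G] (P Q : Subgroup G)
    (hQ : P ≤ Subgroup.normalizer (Q : Set G)) :
    P ≤ Subgroup.normalizer ((P ⊓ Subgroup.centralizer (Q : Set G) : Subgroup G) : Set G) := by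
  intro b hb
  rw [Subgroup.mem_set_normalizer_iff]
  intro c
  constructor
  · intro hc
    exact conj_mem_inf_centralizer P Q hQ b hb c hc
  · intro hc
    have h1 := conj_mem_inf_centralizer P Q hQ b⁻¹ (inv_mem hb) _ hc
    have e : b⁻¹ * (b * c * b⁻¹) * b⁻¹⁻¹ = c := by group
    rw [e] at h1
    exact h1

section

variable {F : Type*} [Field F]

/-- A fundamental root `p_j` with `j ∈ J` lies in `Φ_J`. -/
theorem simple_inRootSub (D : ChevalleyDatum)
    (hD : D ∈ [chevG2, chevB2, chevD4, chevF4, chevE6, chevE7, chevE8]) (J : Set ℕ) (j : ℕ)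
    (hj : j < D.rank) (hjJ : j ∈ J) : D.InRootSub J (D.simple j) := by
  have hD' : D ∈ chevList := hD
  refine ⟨simple_lt D hD' j hj, fun i hi hiJ => ?_⟩
  have h1 := corootC_simple D hD' j hj i hi
  unfold corootC at h1
  rw [h1, if_neg]
  intro e
  exact hiJ (e ▸ hjJ)

/-- A fundamental root `p_i` with `i ∉ J` does not lie in `Φ_J`. -/
theorem simple_not_inRootSub (D : ChevalleyDatum)
    (hD : D ∈ [chevG2, chevB2, chevD4, chevF4, chevE6, chevE7, chevE8]) (J : Set ℕ) (i : ℕ)
    (hi : i < D.rank) (hiJ : i ∉ J) : ¬ D.InRootSub J (D.simple i) := by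
  have hD' : D ∈ chevList := hD
  intro h
  have h1 : corootC D (D.simple i) i = 0 := h.2 i hi hiJ
  rw [corootC_simple D hD' i hi i hi, if_pos rfl] at h1
  exact one_ne_zero h1

/-- A diagonal element acting trivially on the positive root elements outside `Φ_J`, for a
proper `J`, is the identity. -/
theorem torus_eq_one_of_radical (D : ChevalleyDatum)
    (hD : D ∈ [chevG2, chevB2, chevD4, chevF4, chevE6, chevE7, chevE8]) (J : Set ℕ)
    (hJ : ∃ i, i < D.rank ∧ i ∉ J) (d : ℕ → F) (hd : MulGraded D d)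
    (hone : ∀ r, D.IsPosRoot r → ¬ D.InRootSub J r → d r = 1) : torus F D d = 1 := by
  have hD' : D ∈ chevList := hD
  have hT := ltData_all D hD
  obtain ⟨B, hB⟩ := exists_cw D hD
  obtain ⟨i₀, hi₀, hi₀J⟩ := hJ
  rw [torus_eq_one_iff]
  apply mulGraded_eq_one D hD hT d hd
  intro j hj
  by_cases hjJ : j ∈ J
  · have hij : i₀ ≠ j := fun e => hi₀J (e ▸ hjJ)
    obtain ⟨r, hrp, hrc, -, e, he, he1⟩ := hT.exists_link j i₀ hj hi₀ hij
    have hnr : ¬ D.InRootSub J r := fun h => hrc (h.2 i₀ hi₀ hi₀J)
    have hpj := simple_lt D hD' j hj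
    have hc := hd.chain (D.simple j) hpj r e he
    have hwc := (addGraded_wJ B D hD' J).chain (D.simple j) hpj r e he
    rw [he1] at hc hwc
    rw [wJ_zero B D hB J (D.simple j) (simple_inRootSub D hD J j hj hjJ)] at hwc
    have hwr := wJ_pos B D hB J r hrp hnr
    have heu : e.1 < D.nroots := cent_lt D hD' (D.simple j) hpj r e he
    obtain ⟨hup, hunr⟩ := pos_of_wJ_pos B D hD hB J e.1 heu (by rw [hwc]; simpa using hwr)
    rw [hone e.1 hup hunr, hone r hrp hnr, pow_one, one_mul] at hc
    exact hc.symm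
  · exact hone _ (upChk_all D hD j hj).1 (simple_not_inRootSub D hD J j hj hjJ)

/-- An element of a proper parabolic subgroup `P_J` that centralises `U_J` lies in `U`. -/
theorem centralizer_radical_le_posUnipotent (D : ChevalleyDatum)
    (hD : D ∈ [chevG2, chevB2, chevD4, chevF4, chevE6, chevE7, chevE8]) (J : Set ℕ)
    (hJ : ∃ i, i < D.rank ∧ i ∉ J) (g : GL D.Idx F) (hg : g ∈ D.parabolicSubgroup F J)
    (hc : ∀ x ∈ D.unipotentRadical F J, g * x = x * g) : g ∈ D.posUnipotent F := by
  have hD' : D ∈ chevList := hD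
  have hT := ltData_all D hD
  have HC : CommHyp F D := fun r s hr hs hrs hneg t u => comm_formula D hD' r s hr hs hrs hneg t u
  have hPN := radical_normal D hD HC J
  have hBP : D.borelSubgroup F ≤ D.parabolicSubgroup F J := by
    unfold ChevalleyDatum.parabolicSubgroup
    exact le_sup_left
  have hPG := parabolic_le_group (F := F) D hD J
  have hHU : D.diagonalSubgroup F ≤ Subgroup.normalizer (D.posUnipotent F : Set (GL D.Idx F)) :=
    diagonal_le_normalizer_rootGen D hD' D.IsPosRoot (fun r hr => hr.1)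
  -- the key computation: an element `u h` of `B` moving `x_r(1)` to `x_{r'}(c')`
  have hkey : ∀ (b : GL D.Idx F), b ∈ D.borelSubgroup F → ∀ (r r' : ℕ), D.IsPosRoot r →
      D.IsPosRoot r' → ∀ (c' : F) (x y : GL D.Idx F), (x : Matrix D.Idx D.Idx F) = D.x F r 1 →
      (y : Matrix D.Idx D.Idx F) = D.x F r' c' → b * x = y * b →
      r = r' ∧ ∃ (u h : GL D.Idx F) (d : ℕ → F), u ∈ D.posUnipotent F ∧ b = u * h ∧
        MulGraded D d ∧ (h : Matrix D.Idx D.Idx F) = torus F D d ∧ d r = c' := by
    intro b hb r r' hr hr' c' x y hx hy hbx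
    obtain ⟨u, hu, h, hh, rfl⟩ := mem_sup_of_le_normalizer _ _ hHU _ hb
    obtain ⟨d, hd, hval⟩ := diagonalSubgroup_le_gradedTorus D hD' hh
    have h1 : (u : Matrix D.Idx D.Idx F) * D.x F r (d r) = D.x F r' c' *
        (u : Matrix D.Idx D.Idx F) := by
      have h2 : ((u * h * x : GL D.Idx F) : Matrix D.Idx D.Idx F) =
          ((y * (u * h) : GL D.Idx F) : Matrix D.Idx D.Idx F) := by rw [hbx]
      rw [Units.val_mul, Units.val_mul, Units.val_mul, Units.val_mul, hx, hy, hval,
        Matrix.mul_assoc, torus_mul_x D d hd r hr.1 1, mul_one, ← Matrix.mul_assoc,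
        ← Matrix.mul_assoc] at h2
      have h3 := congrArg (· * ((h⁻¹ : GL D.Idx F) : Matrix D.Idx D.Idx F)) h2
      beta_reduce at h3
      rw [Matrix.mul_assoc, Matrix.mul_assoc _ (torus F D d), ← hval, ← Units.val_mul,
        mul_inv_cancel, Units.val_one, Matrix.mul_one, Matrix.mul_one] at h3
      exact h3
    obtain ⟨e1, e2⟩ := lt_main D hD hT u hu r r' hr hr' (d r) c'
      (mulGraded_ne_zero D d hd r hr.1) h1
    exact ⟨e1, u, h, d, hu, rfl, hd, hval, e2⟩
  -- `C = P_J ⊓ C(U_J)` lies in `B`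
  have hBC := (hBP.trans (le_normalizer_inf_centralizer (D.parabolicSubgroup F J)
    (D.unipotentRadical F J) hPN))
  have hCB : D.parabolicSubgroup F J ⊓ Subgroup.centralizer
      (D.unipotentRadical F J : Set (GL D.Idx F)) ≤ D.borelSubgroup F := by
    have hMG : (D.parabolicSubgroup F J ⊓ Subgroup.centralizer
        (D.unipotentRadical F J : Set (GL D.Idx F))) ⊔ D.borelSubgroup F ≤ D.group F :=
      sup_le (inf_le_left.trans hPG) (borelSubgroup_le_group D hD')
    have hBM : (chevBN (F := F) D hD).B ≤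
        ((D.parabolicSubgroup F J ⊓ Subgroup.centralizer
          (D.unipotentRadical F J : Set (GL D.Idx F))) ⊔ D.borelSubgroup F).subgroupOf
            (D.group F) := by
      intro b hb
      have hb' : (b : GL D.Idx F) ∈ D.borelSubgroup F := Subgroup.mem_subgroupOf.1 hb
      rw [Subgroup.mem_subgroupOf]
      exact Subgroup.mem_sup_right hb'
    have hpar := Cfsg.Agent.Lib.Helper8.eq_parabolic (chevBN (F := F) D hD) _ hBM
    have hnone : ∀ σ ∈ (chevBN (F := F) D hD).S, σ ∉
        ((D.parabolicSubgroup F J ⊓ Subgroup.centralizer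
          (D.unipotentRadical F J : Set (GL D.Idx F))) ⊔ D.borelSubgroup F).subgroupOf
            (D.group F) := by
      rintro σ ⟨i, hi, hσ⟩ hσM
      rw [Subgroup.mem_subgroupOf] at hσM
      obtain ⟨a, ha, b, hb, hab⟩ := mem_sup_of_le_normalizer _ _ hBC _ hσM
      obtain ⟨haP, haC⟩ := Subgroup.mem_inf.1 ha
      by_cases hiJ : i ∈ J
      · obtain ⟨i₀, hi₀, hi₀J⟩ := hJ
        have hij : i₀ ≠ i := fun e => hi₀J (e ▸ hiJ)
        obtain ⟨r, hrp, hrc, hrf, -⟩ := hT.exists_link i i₀ hi hi₀ hij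
        have hnr : ¬ D.InRootSub J r := fun h => hrc (h.2 i₀ hi₀ hi₀J)
        have hrs : r ≠ D.simple i := by
          intro e
          rw [e, corootC_simple D hD' i hi i₀ hi₀, if_neg hij] at hrc
          exact hrc rfl
        obtain ⟨hr'p, -⟩ := reflect_pos D hD i hi r hrp hrs
        obtain ⟨hrr, -, -, -, -⟩ := reflect_facts D hD i hi r hrp.1
        obtain ⟨x, hx⟩ := exists_xGL (F := F) D hD r hrp.1
          ((nEta D i (D.reflectRoot i r) : ℤ) : F)
        obtain ⟨y, hy⟩ := exists_xGL (F := F) D hD (D.reflectRoot i r) hr'p.1 1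
        have hxU : x ∈ D.unipotentRadical F J := by
          unfold ChevalleyDatum.unipotentRadical
          exact Subgroup.subset_closure ⟨r, _, hrp, hnr, hx⟩
        have hax : x * a = a * x := Subgroup.mem_centralizer_iff.1 haC x hxU
        -- `σ * y = x * σ`
        have hσy : (σ : GL D.Idx F) * y = x * (σ : GL D.Idx F) := by
          apply Units.ext
          rw [Units.val_mul, Units.val_mul, hσ, hy, hx,
            n_simple_conj (F := F) D hD i hi (D.reflectRoot i r) hr'p.1, hrr, mul_one]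
        -- hence `b * y = x * b`
        have hby : b * y = x * b := by
          have e1 : b = a⁻¹ * (σ : GL D.Idx F) := by rw [hab]; group
          have e2 : a⁻¹ * x = x * a⁻¹ := by
            calc a⁻¹ * x = a⁻¹ * (x * a) * a⁻¹ := by group
              _ = a⁻¹ * (a * x) * a⁻¹ := by rw [hax]
              _ = x * a⁻¹ := by group
          rw [e1, mul_assoc, hσy, ← mul_assoc, e2, mul_assoc]
        obtain ⟨e1, -⟩ := hkey b hb (D.reflectRoot i r) r hr'p hrp _ y x hy hx hby
        exact hrf e1
      · have h1 : (σ : GL D.Idx F) ∈ Subgroup.normalizer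
            (D.unipotentRadical F J : Set (GL D.Idx F)) := by
          rw [hab]
          exact mul_mem (hPN haP) (hPN (hBP hb))
        exact n_not_mem_normalizer_radical D hD J i hi hiJ (σ : GL D.Idx F) hσ h1
    intro c hc
    have hcG : c ∈ D.group F := hPG (Subgroup.mem_inf.1 hc).1
    have hcM : (⟨c, hcG⟩ : ↥(D.group F)) ∈
        ((D.parabolicSubgroup F J ⊓ Subgroup.centralizer
          (D.unipotentRadical F J : Set (GL D.Idx F))) ⊔ D.borelSubgroup F).subgroupOf
            (D.group F) := by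
      rw [Subgroup.mem_subgroupOf]
      exact Subgroup.mem_sup_left hc
    rw [hpar] at hcM
    have hle : (chevBN (F := F) D hD).parabolic {σ | σ ∈ (chevBN (F := F) D hD).S ∧ σ ∈
        ((D.parabolicSubgroup F J ⊓ Subgroup.centralizer
          (D.unipotentRadical F J : Set (GL D.Idx F))) ⊔ D.borelSubgroup F).subgroupOf
            (D.group F)} ≤ (D.borelSubgroup F).subgroupOf (D.group F) := by
      unfold Cfsg.BNPair.parabolic
      apply sup_le
      · intro b hb
        exact hb
      · rw [Subgroup.closure_le]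
        rintro σ ⟨hσS, hσM⟩
        exact absurd hσM (hnone σ hσS)
    exact Subgroup.mem_subgroupOf.1 (hle hcM)
  -- an element of `C` is in `U`
  have hgB : g ∈ D.borelSubgroup F := hCB (Subgroup.mem_inf.2 ⟨hg, by
    rw [Subgroup.mem_centralizer_iff]
    intro x hx
    exact (hc x hx).symm⟩)
  obtain ⟨u, hu, h, hh, rfl⟩ := mem_sup_of_le_normalizer _ _ hHU _ hgB
  obtain ⟨d, hd, hval⟩ := diagonalSubgroup_le_gradedTorus D hD' hh
  have hone : ∀ r, D.IsPosRoot r → ¬ D.InRootSub J r → d r = 1 := by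
    intro r hrp hnr
    obtain ⟨x, hx⟩ := exists_xGL (F := F) D hD r hrp.1 1
    have hxU : x ∈ D.unipotentRadical F J := by
      unfold ChevalleyDatum.unipotentRadical
      exact Subgroup.subset_closure ⟨r, 1, hrp, hnr, hx⟩
    have h1 : (u : Matrix D.Idx D.Idx F) * D.x F r (d r) = D.x F r 1 *
        (u : Matrix D.Idx D.Idx F) := by
      have h2 : ((u * h * x : GL D.Idx F) : Matrix D.Idx D.Idx F) =
          ((x * (u * h) : GL D.Idx F) : Matrix D.Idx D.Idx F) := by rw [hc x hxU]
      rw [Units.val_mul, Units.val_mul, Units.val_mul, Units.val_mul, hx, hval,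
        Matrix.mul_assoc, torus_mul_x D d hd r hrp.1 1, mul_one, ← Matrix.mul_assoc,
        ← Matrix.mul_assoc] at h2
      have h3 := congrArg (· * ((h⁻¹ : GL D.Idx F) : Matrix D.Idx D.Idx F)) h2
      beta_reduce at h3
      rw [Matrix.mul_assoc, Matrix.mul_assoc _ (torus F D d), ← hval, ← Units.val_mul,
        mul_inv_cancel, Units.val_one, Matrix.mul_one, Matrix.mul_one] at h3
      exact h3
    exact (lt_main D hD hT u hu r r hrp hrp (d r) 1 (mulGraded_ne_zero D d hd r hrp.1) h1).2
  have hh1 : h = 1 := by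
    apply Units.ext
    rw [hval, Units.val_one]
    exact torus_eq_one_of_radical D hD J hJ d hd hone
  rw [hh1, mul_one]
  exact hu

/-- `F*(P_J)` is a `p`-group for a proper parabolic subgroup `P_J` of a Chevalley group over a
finite field of characteristic `p`. -/
theorem parabolic_genFitting_isPGroup [Fintype F] (p : ℕ) [Fact p.Prime] [CharP F p]
    (D : ChevalleyDatum) (hD : D ∈ [chevG2, chevB2, chevD4, chevF4, chevE6, chevE7, chevE8])
    (J : Set ℕ) (hJ : ∃ i, i < D.rank ∧ i ∉ J) :
    IsPGroup p ↥(Cfsg.generalizedFittingSubgroup ↥(D.parabolicSubgroup F J)) := by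
  have hD' : D ∈ chevList := hD
  have HC : CommHyp F D := fun r s hr hs hrs hneg t u => comm_formula D hD' r s hr hs hrs hneg t u
  have hPN := radical_normal D hD HC J
  have hBP : D.borelSubgroup F ≤ D.parabolicSubgroup F J := by
    unfold ChevalleyDatum.parabolicSubgroup
    exact le_sup_left
  have hUp : IsPGroup p ↥(D.posUnipotent F) := by
    obtain ⟨k, _, hk⟩ := FiniteField.card F p
    apply IsPGroup.of_card (n := (k : ℕ) * (D.nroots / 2))
    rw [posUnipotent_card D hD, Nat.card_eq_fintype_card, hk, pow_mul]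
  have hUJ : D.unipotentRadical F J ≤ D.posUnipotent F := by
    unfold ChevalleyDatum.unipotentRadical ChevalleyDatum.posUnipotent
    apply Subgroup.closure_mono
    rintro g ⟨r, t, hr, _, hg⟩
    exact ⟨r, t, hr, hg⟩
  have hQn : ((D.unipotentRadical F J).subgroupOf (D.parabolicSubgroup F J)).Normal :=
    Subgroup.normal_subgroupOf_of_le_normalizer hPN
  have hQp : IsPGroup p ↥((D.unipotentRadical F J).subgroupOf (D.parabolicSubgroup F J)) :=
    (hUp.to_le hUJ).comap_subtype
  have hQle := Helper58.le_pCore hQn hQp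
  have hCle : Subgroup.centralizer (((D.unipotentRadical F J).subgroupOf
      (D.parabolicSubgroup F J) : Subgroup ↥(D.parabolicSubgroup F J)) :
        Set ↥(D.parabolicSubgroup F J)) ≤
      (D.posUnipotent F).subgroupOf (D.parabolicSubgroup F J) := by
    intro g hg
    rw [Subgroup.mem_subgroupOf]
    apply centralizer_radical_le_posUnipotent D hD J hJ g.1 g.2
    intro x hx
    have hxP : x ∈ D.parabolicSubgroup F J := hBP (Subgroup.mem_sup_left (hUJ hx))
    have h1 := Subgroup.mem_centralizer_iff.1 hg ⟨x, hxP⟩ (Subgroup.mem_subgroupOf.2 hx)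
    exact (congrArg Subtype.val h1).symm
  have hCp : IsPGroup p ↥(Subgroup.centralizer (((D.unipotentRadical F J).subgroupOf
      (D.parabolicSubgroup F J) : Subgroup ↥(D.parabolicSubgroup F J)) :
        Set ↥(D.parabolicSubgroup F J))) :=
    (hUp.comap_subtype).to_le hCle
  have hCn : (Subgroup.centralizer (((D.unipotentRadical F J).subgroupOf
      (D.parabolicSubgroup F J) : Subgroup ↥(D.parabolicSubgroup F J)) :
        Set ↥(D.parabolicSubgroup F J))).Normal := Subgroup.normal_centralizer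
  have hCle' := Helper58.le_pCore hCn hCp
  have hcent : Subgroup.centralizer (Cfsg.pCore p ↥(D.parabolicSubgroup F J) :
      Set ↥(D.parabolicSubgroup F J)) ≤ Cfsg.pCore p ↥(D.parabolicSubgroup F J) :=
    (Subgroup.centralizer_le (SetLike.coe_subset_coe.2 hQle)).trans hCle'
  have hF := Helper57.genFitting_eq_pCore_of_charP hcent
  rw [hF]
  exact Helper58.isPGroup_pCore p _

end

end Cfsg.Agent.Lib.Helper25
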