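import Cfsg.Agent.Lib.Helper25.ChevCent2Data
import Cfsg.Agent.Lib.Helper25.ChevFstar
import Cfsg.Agent.Lib.Helper24.UProdAll

/-!
# The centraliser of a short root involution in `G₂` in characteristic two
-/

set_option autoImplicit false

namespace Cfsg.Agent.Lib.Helper25

open Cfsg.Lie Matrix
open Cfsg.Agent.Lib.Helper24

/-! ### Monoid identities -/

theorem g2c_aux7 {M : Type*} [Monoid M] (a x9 x10 x10' x10'' x11 : M)
    (h1 : a * x9 = x9 * a * x10') (h2 : Commute a x10'') (h3 : Commute a x11)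
    (h4 : x10' * x10 = x10'') : a * (x9 * x10 * x11) = x9 * x10'' * x11 * a := by
  calc a * (x9 * x10 * x11) = (a * x9) * x10 * x11 := by simp only [mul_assoc]
    _ = x9 * a * (x10' * x10) * x11 := by rw [h1]; simp only [mul_assoc]
    _ = x9 * (a * x10'') * x11 := by rw [h4]; simp only [mul_assoc]
    _ = x9 * x10'' * (a * x11) := by rw [h2.eq]; simp only [mul_assoc]
    _ = x9 * x10'' * x11 * a := by rw [h3.eq]; simp only [mul_assoc]

theorem g2c_aux8 {M : Type*} [Monoid M] (a x9 x10 x11' x11 x11'' : M)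
    (h1 : a * x9 = x9 * a * x11') (h2 : Commute a x10) (h3 : Commute a x11'')
    (h4 : Commute x11' x10) (h5 : x11' * x11 = x11'') :
    a * (x9 * x10 * x11) = x9 * x10 * x11'' * a := by
  calc a * (x9 * x10 * x11) = (a * x9) * x10 * x11 := by simp only [mul_assoc]
    _ = x9 * a * (x11' * x10) * x11 := by rw [h1]; simp only [mul_assoc]
    _ = x9 * (a * x10) * (x11' * x11) := by rw [h4.eq]; simp only [mul_assoc]
    _ = x9 * x10 * (a * x11'') := by rw [h2.eq, h5]; simp only [mul_assoc]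
    _ = x9 * x10 * x11'' * a := by rw [h3.eq]; simp only [mul_assoc]

theorem g2c_aux6 {M : Type*} [Monoid M] (a x9 x10 x11' x11 x11'' : M)
    (h1 : Commute a x9) (h2 : a * x10 = x10 * a * x11') (h3 : Commute a x11'')
    (h5 : x11' * x11 = x11'') : a * (x9 * x10 * x11) = x9 * x10 * x11'' * a := by
  calc a * (x9 * x10 * x11) = (a * x9) * x10 * x11 := by simp only [mul_assoc]
    _ = x9 * (a * x10) * x11 := by rw [h1.eq]; simp only [mul_assoc]
    _ = x9 * x10 * a * (x11' * x11) := by rw [h2]; simp only [mul_assoc]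
    _ = x9 * x10 * (a * x11'') := by rw [h5]; simp only [mul_assoc]
    _ = x9 * x10 * x11'' * a := by rw [h3.eq]; simp only [mul_assoc]

section

variable {F : Type*} [Field F]

theorem g2c_mem : chevG2 ∈ chevList := List.mem_cons_self

/-- The root element `x_r(t)` of `G₂` as an invertible matrix. -/
abbrev g2x (r : ℕ) (t : F) : GL chevG2.Idx F := xGL chevG2 g2c_mem r t

theorem g2c_comm [CharP F 2] (r s : ℕ) (hr : r < chevG2.nroots) (hs : s < chevG2.nroots)
    (hneg : s ≠ chevG2.neg r) (hev : ∀ c ∈ chevG2.commTerms r s, (2 : ℤ) ∣ c.2.1) (t u : F) :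
    Commute (g2x (F := F) s u) (g2x r t) := by
  apply Units.ext
  rw [Units.val_mul, Units.val_mul]
  exact comm_of_even chevG2 (by simp) r s hr hs hneg hev t u

theorem g2c_two [CharP F 2] : (2 : F) = 0 := by
  have h := CharP.cast_eq_zero F 2
  exact_mod_cast h

theorem g2c_rel79 [CharP F 2] (t u : F) :
    g2x (F := F) 7 u * g2x 9 t = g2x 9 t * g2x 7 u * g2x 10 (t * u) := by
  apply Units.ext
  simp only [Units.val_mul, xGL_val]
  have h := comm_formula (F := F) chevG2 g2c_mem 9 7 (by decide) (by decide) (by decide)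
    (by decide) t u
  have e : chevG2.commWord F 9 7 t u = [(10, ((-3 : ℤ) : F) * (-t) ^ 1 * u ^ 1)] := by
    unfold ChevalleyDatum.commWord
    rw [show chevG2.commTerms 9 7 = [(10, -3, 1, 1)] by decide +kernel]
    rfl
  rw [e, wordMat_cons', wordMat_nil', Matrix.mul_one] at h
  rw [h]
  congr 2
  have h2 : (2 : F) = 0 := g2c_two
  push_cast
  linear_combination (t * u) * h2

theorem g2c_rel89 [CharP F 2] (t u : F) :
    g2x (F := F) 8 u * g2x 9 t = g2x 9 t * g2x 8 u * g2x 11 (t * u) := by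
  apply Units.ext
  simp only [Units.val_mul, xGL_val]
  have h := comm_formula (F := F) chevG2 g2c_mem 9 8 (by decide) (by decide) (by decide)
    (by decide) t u
  have e : chevG2.commWord F 9 8 t u = [(11, ((-3 : ℤ) : F) * (-t) ^ 1 * u ^ 1)] := by
    unfold ChevalleyDatum.commWord
    rw [show chevG2.commTerms 9 8 = [(11, -3, 1, 1)] by decide +kernel]
    rfl
  rw [e, wordMat_cons', wordMat_nil', Matrix.mul_one] at h
  rw [h]
  congr 2
  have h2 : (2 : F) = 0 := g2c_two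
  push_cast
  linear_combination (t * u) * h2

theorem g2c_rel610 (t u : F) :
    g2x (F := F) 6 u * g2x 10 t = g2x 10 t * g2x 6 u * g2x 11 (t * u) := by
  apply Units.ext
  simp only [Units.val_mul, xGL_val]
  have h := comm_formula (F := F) chevG2 g2c_mem 10 6 (by decide) (by decide) (by decide)
    (by decide) t u
  have e : chevG2.commWord F 10 6 t u = [(11, ((-1 : ℤ) : F) * (-t) ^ 1 * u ^ 1)] := by
    unfold ChevalleyDatum.commWord
    rw [show chevG2.commTerms 10 6 = [(11, -1, 1, 1)] by decide +kernel]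
    rfl
  rw [e, wordMat_cons', wordMat_nil', Matrix.mul_one] at h
  rw [h]
  congr 2
  push_cast
  ring

/-- The element `x₉(c₀) x₁₀(c₁) x₁₁(c₂)`. -/
def g2T (c0 c1 c2 : F) : GL chevG2.Idx F := g2x 9 c0 * g2x 10 c1 * g2x 11 c2

theorem g2T_conj6 [CharP F 2] (s c0 c1 c2 : F) :
    g2x 6 s * g2T c0 c1 c2 = g2T c0 c1 (c1 * s + c2) * g2x 6 s :=
  g2c_aux6 (g2x 6 s) (g2x 9 c0) (g2x 10 c1) (g2x 11 (c1 * s)) (g2x 11 c2) (g2x 11 (c1 * s + c2))
    (g2c_comm 9 6 (by decide) (by decide) (by decide) (by decide +kernel) c0 s)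
    (g2c_rel610 c1 s)
    (g2c_comm 11 6 (by decide) (by decide) (by decide) (by decide +kernel) _ s)
    (xGL_add chevG2 g2c_mem 11 (by decide) _ _).symm

theorem g2T_conj7 [CharP F 2] (s c0 c1 c2 : F) :
    g2x 7 s * g2T c0 c1 c2 = g2T c0 (c0 * s + c1) c2 * g2x 7 s :=
  g2c_aux7 (g2x 7 s) (g2x 9 c0) (g2x 10 c1) (g2x 10 (c0 * s)) (g2x 10 (c0 * s + c1)) (g2x 11 c2)
    (g2c_rel79 c0 s)
    (g2c_comm 10 7 (by decide) (by decide) (by decide) (by decide +kernel) _ s)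
    (g2c_comm 11 7 (by decide) (by decide) (by decide) (by decide +kernel) c2 s)
    (xGL_add chevG2 g2c_mem 10 (by decide) _ _).symm

theorem g2T_conj8 [CharP F 2] (s c0 c1 c2 : F) :
    g2x 8 s * g2T c0 c1 c2 = g2T c0 c1 (c0 * s + c2) * g2x 8 s :=
  g2c_aux8 (g2x 8 s) (g2x 9 c0) (g2x 10 c1) (g2x 11 (c0 * s)) (g2x 11 c2) (g2x 11 (c0 * s + c2))
    (g2c_rel89 c0 s)
    (g2c_comm 10 8 (by decide) (by decide) (by decide) (by decide +kernel) c1 s)
    (g2c_comm 11 8 (by decide) (by decide) (by decide) (by decide +kernel) _ s)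
    (g2c_comm 10 11 (by decide) (by decide) (by decide) (by decide +kernel) c1 _)
    (xGL_add chevG2 g2c_mem 11 (by decide) _ _).symm

/-! ### The unipotent group and conjugation of `x₉(c₀) x₁₀(c₁) x₁₁(c₂)` -/

theorem g2c_pos_ge (r : ℕ) (hr : chevG2.IsPosRoot r) : 6 ≤ r := by
  have h : ∀ r < chevG2.nroots, chevG2.IsPosRoot r → 6 ≤ r := by decide +kernel
  exact h r hr.1 hr

theorem g2c_posGE6 : posGE F chevG2 6 = chevG2.posUnipotent F := by
  unfold posGE ChevalleyDatum.posUnipotent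
  congr 1
  ext g
  constructor
  · rintro ⟨r, t, h1, _, h2⟩
    exact ⟨r, t, h1, h2⟩
  · rintro ⟨r, t, h1, h2⟩
    exact ⟨r, t, h1, g2c_pos_ge r h1, h2⟩

/-- Elements of `X₉ X₁₀ X₁₁` commute with `x₉(c₀) x₁₀(c₁) x₁₁(c₂)`. -/
theorem g2c_posGE9_comm [CharP F 2] (h : GL chevG2.Idx F) (hh : h ∈ posGE F chevG2 9)
    (c0 c1 c2 : F) : Commute h (g2T c0 c1 c2) := by
  have hle : posGE F chevG2 9 ≤ Subgroup.centralizer {g2T c0 c1 c2} := by
    unfold posGE
    rw [Subgroup.closure_le]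
    rintro g ⟨r, t, hr, h9, hg⟩
    rw [SetLike.mem_coe, Subgroup.mem_centralizer_iff]
    intro y hy
    rw [Set.mem_singleton_iff] at hy
    subst hy
    have hg' : g = g2x r t := Units.ext hg
    have hlt : r < 12 := hr.1
    rw [hg']
    have key : Commute (g2x (F := F) r t) (g2T c0 c1 c2) := by
      unfold g2T
      interval_cases r
      · exact ((g2c_comm 9 9 (by decide) (by decide) (by decide) (by decide +kernel) c0 t).mul_right
          (g2c_comm 10 9 (by decide) (by decide) (by decide) (by decide +kernel) c1 t)).mul_right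
          (g2c_comm 11 9 (by decide) (by decide) (by decide) (by decide +kernel) c2 t)
      · exact ((g2c_comm 9 10 (by decide) (by decide) (by decide) (by decide +kernel) c0 t).mul_right
          (g2c_comm 10 10 (by decide) (by decide) (by decide) (by decide +kernel) c1 t)).mul_right
          (g2c_comm 11 10 (by decide) (by decide) (by decide) (by decide +kernel) c2 t)
      · exact ((g2c_comm 9 11 (by decide) (by decide) (by decide) (by decide +kernel) c0 t).mul_right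
          (g2c_comm 10 11 (by decide) (by decide) (by decide) (by decide +kernel) c1 t)).mul_right
          (g2c_comm 11 11 (by decide) (by decide) (by decide) (by decide +kernel) c2 t)
    exact key.eq.symm
  exact (Subgroup.mem_centralizer_iff.1 (hle hh) _ rfl).symm

/-- Every element of `U` is `x₆ x₇ x₈` times an element of `X₉ X₁₀ X₁₁`. -/
theorem g2c_U_decomp (u : GL chevG2.Idx F) (hu : u ∈ chevG2.posUnipotent F) :
    ∃ c6 c7 c8 : F, ∃ h ∈ posGE F chevG2 9, u = g2x 6 c6 * g2x 7 c7 * g2x 8 c8 * h := by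
  have hU := uData_all (F := F) chevG2 g2c_mem
  rw [← g2c_posGE6] at hu
  obtain ⟨c6, h7, hh7, rfl⟩ := posGE_decomp chevG2 g2c_mem hU 6 (by decide) u hu
  obtain ⟨c7, h8, hh8, rfl⟩ := posGE_decomp chevG2 g2c_mem hU 7 (by decide) h7 hh7
  obtain ⟨c8, h9, hh9, rfl⟩ := posGE_decomp chevG2 g2c_mem hU 8 (by decide) h8 hh8
  exact ⟨c6, c7, c8, h9, hh9, by simp only [mul_assoc]⟩

/-- Conjugation of `x₉(c₀) x₁₀(c₁) x₁₁(c₂)` by an element of `U`. -/
theorem g2c_conj_formula [CharP F 2] (c6 c7 c8 : F) (h : GL chevG2.Idx F)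
    (hh : h ∈ posGE F chevG2 9) (c0 c1 c2 : F) :
    g2x 6 c6 * g2x 7 c7 * g2x 8 c8 * h * g2T c0 c1 c2 =
      g2T c0 (c0 * c7 + c1) ((c0 * c7 + c1) * c6 + (c0 * c8 + c2)) *
        (g2x 6 c6 * g2x 7 c7 * g2x 8 c8 * h) := by
  calc g2x 6 c6 * g2x 7 c7 * g2x 8 c8 * h * g2T c0 c1 c2
      = g2x 6 c6 * g2x 7 c7 * g2x 8 c8 * (h * g2T c0 c1 c2) := by simp only [mul_assoc]
    _ = g2x 6 c6 * g2x 7 c7 * (g2x 8 c8 * g2T c0 c1 c2) * h := by
        rw [(g2c_posGE9_comm h hh c0 c1 c2).eq]; simp only [mul_assoc]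
    _ = g2x 6 c6 * (g2x 7 c7 * g2T c0 c1 (c0 * c8 + c2)) * g2x 8 c8 * h := by
        rw [g2T_conj8]; simp only [mul_assoc]
    _ = (g2x 6 c6 * g2T c0 (c0 * c7 + c1) (c0 * c8 + c2)) * g2x 7 c7 * g2x 8 c8 * h := by
        rw [g2T_conj7]; simp only [mul_assoc]
    _ = g2T c0 (c0 * c7 + c1) ((c0 * c7 + c1) * c6 + (c0 * c8 + c2)) *
        (g2x 6 c6 * g2x 7 c7 * g2x 8 c8 * h) := by
        rw [g2T_conj6]; simp only [mul_assoc]

/-! ### Columns of products of three commuting root elements at the Cartan vectors -/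

theorem g2c_triple_hv (D : ChevalleyDatum) (r1 r2 r3 : ℕ) (h1 : r1 < D.nroots)
    (h2 : r2 < D.nroots) (h3 : r3 < D.nroots)
    (h12 : r2 ≠ r1) (h12' : r2 ≠ D.neg r1) (c12 : cent D r1 r2 = [])
    (h13 : r3 ≠ r1) (h13' : r3 ≠ D.neg r1) (c13 : cent D r1 r3 = [])
    (h23 : r3 ≠ r2) (h23' : r3 ≠ D.neg r2) (c23 : cent D r2 r3 = [])
    (e1 e2 e3 : F) (i : ℕ) (hi : i < D.rank) :
    (D.x F r1 e1 * D.x F r2 e2 * D.x F r3 e3) *ᵥ hv F D i =
      hv F D i - (((D.cartan i r1 : ℤ) : F) * e1) • rv F D r1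
        - (((D.cartan i r2 : ℤ) : F) * e2) • rv F D r2
        - (((D.cartan i r3 : ℤ) : F) * e3) • rv F D r3 := by
  have k23 : D.x F r2 e2 *ᵥ rv F D r3 = rv F D r3 := by
    rw [x_mulVec_rv D r2 h2 e2 r3 h3 h23 h23', c23]
    simp
  have k13 : D.x F r1 e1 *ᵥ rv F D r3 = rv F D r3 := by
    rw [x_mulVec_rv D r1 h1 e1 r3 h3 h13 h13', c13]
    simp
  have k12 : D.x F r1 e1 *ᵥ rv F D r2 = rv F D r2 := by
    rw [x_mulVec_rv D r1 h1 e1 r2 h2 h12 h12', c12]
    simp
  rw [← Matrix.mulVec_mulVec, ← Matrix.mulVec_mulVec, x_mulVec_hv D r3 h3 e3 i hi,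
    Matrix.mulVec_sub, Matrix.mulVec_smul, k23, x_mulVec_hv D r2 h2 e2 i hi,
    Matrix.mulVec_sub, Matrix.mulVec_sub, Matrix.mulVec_smul, Matrix.mulVec_smul, k13, k12,
    x_mulVec_hv D r1 h1 e1 i hi]

theorem g2c_triple_coord (D : ChevalleyDatum) (r1 r2 r3 : ℕ) (h1 : r1 < D.nroots)
    (h2 : r2 < D.nroots) (h3 : r3 < D.nroots)
    (h12 : r2 ≠ r1) (h12' : r2 ≠ D.neg r1) (c12 : cent D r1 r2 = [])
    (h13 : r3 ≠ r1) (h13' : r3 ≠ D.neg r1) (c13 : cent D r1 r3 = [])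
    (h23 : r3 ≠ r2) (h23' : r3 ≠ D.neg r2) (c23 : cent D r2 r3 = [])
    (e1 e2 e3 : F) (i : ℕ) (hi : i < D.rank) (q : ℕ) (hq : q < D.nroots) :
    ((D.x F r1 e1 * D.x F r2 e2 * D.x F r3 e3) *ᵥ hv F D i) (Sum.inr ⟨q, hq⟩) =
      -((((D.cartan i r1 : ℤ) : F) * e1) * (if q = r1 then 1 else 0)
        + (((D.cartan i r2 : ℤ) : F) * e2) * (if q = r2 then 1 else 0)
        + (((D.cartan i r3 : ℤ) : F) * e3) * (if q = r3 then 1 else 0)) := by
  rw [g2c_triple_hv D r1 r2 r3 h1 h2 h3 h12 h12' c12 h13 h13' c13 h23 h23' c23 e1 e2 e3 i hi]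
  simp only [Pi.sub_apply, Pi.smul_apply, hv, rv, smul_eq_mul]
  ring

/-! ### The orbit of `(7, 8, 9, 10, 11)` under the Weyl group -/

/-- The images of the tuple of roots `(7, 8, 9, 10, 11)` under the Weyl group of `G₂`. -/
def g2Orb : List (List ℕ) :=
  [[7, 8, 9, 10, 11], [4, 9, 8, 6, 11], [8, 7, 9, 11, 10], [3, 9, 7, 5, 10], [9, 4, 8, 11, 6],
    [2, 8, 4, 1, 6], [9, 3, 7, 10, 5], [2, 7, 3, 0, 5], [8, 2, 4, 6, 1], [3, 4, 2, 0, 1],
    [7, 2, 3, 5, 0], [4, 3, 2, 1, 0]]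

theorem g2Orb_closed : ∀ tup ∈ g2Orb, ∀ i < 2, tup.map (chevG2.reflectRoot i) ∈ g2Orb := by
  decide +kernel

theorem g2Orb_mem (L : List ℕ) (hL : ∀ i ∈ L, i < chevG2.rank) :
    [wPi chevG2 L 7, wPi chevG2 L 8, wPi chevG2 L 9, wPi chevG2 L 10, wPi chevG2 L 11] ∈
      g2Orb := by
  induction L with
  | nil => exact List.mem_cons_self
  | cons i L ih =>
    have h1 := g2Orb_closed _ (ih (fun j hj => hL j (List.mem_cons_of_mem _ hj))) i
      (hL i List.mem_cons_self)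
    exact h1

/-- The conditions on a tuple of the orbit used below. -/
def g2TupChk (tup : List ℕ) : Bool :=
  match tup with
  | [r7, r8, r9, r10, r11] =>
    decide (r7 < 12) && decide (r8 < 12) && decide (r9 < 12) && decide (r10 < 12) &&
    decide (r11 < 12) &&
    decide (r10 ≠ r9) && decide (r10 ≠ chevG2.neg r9) && decide (cent chevG2 r9 r10 = []) &&
    decide (r11 ≠ r9) && decide (r11 ≠ chevG2.neg r9) && decide (cent chevG2 r9 r11 = []) &&
    decide (r11 ≠ r10) && decide (r11 ≠ chevG2.neg r10) && decide (cent chevG2 r10 r11 = []) &&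
    (decide (r9 = 9 ∧ ((r7 = 7 ∧ r8 = 8 ∧ r10 = 10 ∧ r11 = 11) ∨
        (r7 = 8 ∧ r8 = 7 ∧ r10 = 11 ∧ r11 = 10))) ||
      (decide (r9 ≠ 9 ∧ r9 ≠ 10 ∧ r9 ≠ 11) &&
        (decide (chevG2.cartan 0 r9 % 2 = 1) || decide (chevG2.cartan 1 r9 % 2 = 1))))
  | _ => false

theorem g2TupChk_all : ∀ tup ∈ g2Orb, g2TupChk tup = true := by decide +kernel

/-- If a Weyl group element carries `x₉(1) x₁₀(∗) x₁₁(∗)` to an element of the same form, it
fixes the root `9` and fixes or swaps the pairs `(7, 8)` and `(10, 11)`. -/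
theorem g2c_weyl_fix [CharP F 2] (L : List ℕ) (hL : ∀ i ∈ L, i < chevG2.rank)
    (e1 e2 e3 d1 d2 : F) (he1 : e1 ≠ 0)
    (hM : chevG2.x F (wPi chevG2 L 9) e1 * chevG2.x F (wPi chevG2 L 10) e2 *
        chevG2.x F (wPi chevG2 L 11) e3 =
      chevG2.x F 9 1 * chevG2.x F 10 d1 * chevG2.x F 11 d2) :
    wPi chevG2 L 9 = 9 ∧
      ((wPi chevG2 L 7 = 7 ∧ wPi chevG2 L 8 = 8 ∧ wPi chevG2 L 10 = 10 ∧ wPi chevG2 L 11 = 11) ∨
        (wPi chevG2 L 7 = 8 ∧ wPi chevG2 L 8 = 7 ∧ wPi chevG2 L 10 = 11 ∧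
          wPi chevG2 L 11 = 10)) := by
  have hchk := g2TupChk_all _ (g2Orb_mem L hL)
  simp only [g2TupChk, Bool.and_eq_true, Bool.or_eq_true, decide_eq_true_eq] at hchk
  obtain ⟨⟨⟨⟨⟨⟨⟨⟨⟨⟨⟨⟨⟨⟨h7, h8⟩, h9⟩, h10⟩, h11⟩, a1⟩, a2⟩, a3⟩, b1⟩, b2⟩, b3⟩, c1⟩, c2⟩, c3⟩,
    hlast⟩ := hchk
  rcases hlast with hgood | ⟨⟨n9, n10, n11⟩, hodd⟩
  · exact hgood
  · exfalso
    have hq : wPi chevG2 L 9 < chevG2.nroots := h9
    have key : ∀ i < chevG2.rank, ((chevG2.cartan i (wPi chevG2 L 9) : ℤ) : F) = 0 := by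
      intro i hi
      have e := congrArg (fun M => (M *ᵥ hv F chevG2 i) (Sum.inr ⟨wPi chevG2 L 9, hq⟩)) hM
      rw [g2c_triple_coord chevG2 _ _ _ h9 h10 h11 a1 a2 a3 b1 b2 b3 c1 c2 c3 e1 e2 e3 i hi _ hq,
        g2c_triple_coord chevG2 9 10 11 (by decide) (by decide) (by decide) (by decide)
          (by decide) (by decide +kernel) (by decide) (by decide) (by decide +kernel)
          (by decide) (by decide) (by decide +kernel) 1 d1 d2 i hi _ hq] at e
      rw [if_pos rfl, if_neg (Ne.symm a1), if_neg (Ne.symm b1), if_neg n9, if_neg n10,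
        if_neg n11] at e
      simp only [mul_one, mul_zero, add_zero, neg_zero, neg_eq_zero] at e
      rcases mul_eq_zero.1 e with e' | e'
      · exact e'
      · exact absurd e' he1
    have hdvd : ∀ i < chevG2.rank, (2 : ℤ) ∣ chevG2.cartan i (wPi chevG2 L 9) := by
      intro i hi
      exact (CharP.intCast_eq_zero_iff F 2 _).1 (key i hi)
    rcases hodd with ho | ho
    · have := hdvd 0 (by decide)
      omega
    · have := hdvd 1 (by decide)
      omega

end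

end Cfsg.Agent.Lib.Helper25
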