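import Cfsg.Agent.Lib.Helper25.ChevG2C

/-!
# The centraliser of a short root involution in `G₂` in characteristic two (main theorem)
-/

set_option autoImplicit false

namespace Cfsg.Agent.Lib.Helper25

open Cfsg.Lie Matrix
open Cfsg.Agent.Lib.Helper24

section

variable {F : Type*} [Field F]

/-- An element of `H` commuting with `x_{r₀}(1)` lies in the group generated by the root
subgroups of a set of roots containing `±p_k` for all `k ≠ i₀`, if `r₀` pairs to `1` with the
`i₀`-th fundamental coroot and to `0` with the others (no condition on `p_{i₀}`). -/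
theorem diag_mem_rootGen_of_commute' (D : ChevalleyDatum)
    (hD : D ∈ [chevG2, chevB2, chevD4, chevF4, chevE6, chevE7, chevE8]) (r₀ : ℕ)
    (hr₀ : r₀ < D.nroots) (P : ℕ → Prop) (hP : ∀ r, P r → r < D.nroots) (i₀ : ℕ)
    (hi₀ : i₀ < D.rank) (hcart : D.cartan i₀ r₀ = 1)
    (hoth : ∀ k < D.rank, k ≠ i₀ → D.cartan k r₀ = 0 ∧ P (D.neg (D.simple k)))
    (hpos : ∀ k < D.rank, k ≠ i₀ → P (D.simple k))
    (z : GL D.Idx F) (hz : (z : Matrix D.Idx D.Idx F) = D.x F r₀ 1) (h : GL D.Idx F)
    (hh : h ∈ D.diagonalSubgroup F) (hcomm : Commute z h) : h ∈ rootGen F D P := by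
  have hD' : D ∈ chevList := hD
  obtain ⟨d, hd, hval⟩ := diagonalSubgroup_le_gradedTorus D hD' hh
  rw [← phi_range D hD'] at hh
  obtain ⟨c, rfl⟩ := hh
  -- the character value at `r₀` is `1`
  have hd1 : d r₀ = 1 := by
    obtain ⟨z₂, hz₂⟩ := exists_xGL (F := F) D hD r₀ hr₀ (d r₀ * 1)
    have h1 : z₂ * phi D c = phi D c * z := by
      apply Units.ext
      rw [Units.val_mul, Units.val_mul, hz₂, hval, hz, torus_mul_x D d hd r₀ hr₀]
    rw [← hcomm.eq] at h1
    have h2 : z₂ = z := mul_right_cancel h1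
    have h3 : D.x F r₀ (d r₀ * 1) = D.x F r₀ 1 := by rw [← hz₂, ← hz, h2]
    have h4 := x_inj D hD r₀ hr₀ _ _ h3
    rw [mul_one] at h4
    exact h4
  have hdt : d r₀ = tprod D (cext D c) r₀ := by
    have h1 : torus F D d = torus F D (tprod D (cext D c)) := by rw [← hval, phi_val]
    have h2 := congrFun (congrFun h1 (Sum.inr ⟨r₀, hr₀⟩)) (Sum.inr ⟨r₀, hr₀⟩)
    unfold torus at h2
    rw [Matrix.diagonal_apply_eq, Matrix.diagonal_apply_eq] at h2
    exact h2
  have hc1 : c ⟨i₀, hi₀⟩ = 1 := by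
    rw [hdt, tprod_cext] at hd1
    have h1 : (∏ i : Fin D.rank, c i ^ D.cartan i.val r₀ : Fˣ) = 1 := Units.val_eq_one.1 hd1
    rw [Finset.prod_eq_single (⟨i₀, hi₀⟩ : Fin D.rank)] at h1
    · simp only at h1
      rw [hcart, zpow_one] at h1
      exact h1
    · intro k _ hk
      have hk' : k.val ≠ i₀ := fun e => hk (Fin.ext e)
      rw [(hoth k.val k.isLt hk').1, zpow_zero]
    · intro h0
      exact absurd (Finset.mem_univ _) h0
  have hcext1 : cext D c i₀ = 1 := by
    have h1 := cext_val D c ⟨i₀, hi₀⟩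
    simp only at h1
    rw [h1, hc1, Units.val_one]
  have hp₀ := simple_lt D hD' i₀ hi₀
  have hw1 : D.wordMat F (D.hWord (D.simple i₀) (cext D c i₀)) = 1 := by
    rw [hcext1]
    have h1 := hMat_eq_torus (F := F) D hD' (D.simple i₀) hp₀ 1 one_ne_zero
    unfold ChevalleyDatum.hMat at h1
    rw [h1, ← torus_one (F := F) D]
    apply torus_congr
    intro s _
    rw [_root_.one_zpow]
  have hval2 : ((phi D c : GL D.Idx F) : Matrix D.Idx D.Idx F) =
      D.wordMat F (((List.range D.rank).filter (fun k => decide (k ≠ i₀))).flatMap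
        fun i => D.hWord (D.simple i) (cext D c i)) := by
    rw [phi_val, ← wordMat_simple_eq_torus D hD' (cext D c) (fun i _ => cext_ne_zero D c i),
      wordMat_flatMap_filter D (fun i => D.hWord (D.simple i) (cext D c i)) i₀ hw1]
  apply word_mem_closure D hD P _ ?_ (phi D c) hval2
  intro e he
  rw [List.mem_flatMap] at he
  obtain ⟨k, hk, hek⟩ := he
  rw [List.mem_filter, List.mem_range] at hk
  obtain ⟨hkr, hki⟩ := hk
  have hki' : k ≠ i₀ := by simpa using hki
  unfold ChevalleyDatum.hWord ChevalleyDatum.nWord at hek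
  simp only [List.cons_append, List.nil_append, List.mem_cons, List.not_mem_nil, or_false] at hek
  rcases hek with rfl | rfl | rfl | rfl | rfl | rfl
  · exact ⟨hpos k hkr hki', hP _ (hpos k hkr hki')⟩
  · exact ⟨(hoth k hkr hki').2, hP _ (hoth k hkr hki').2⟩
  · exact ⟨hpos k hkr hki', hP _ (hpos k hkr hki')⟩
  · exact ⟨hpos k hkr hki', hP _ (hpos k hkr hki')⟩
  · exact ⟨(hoth k hkr hki').2, hP _ (hoth k hkr hki').2⟩
  · exact ⟨hpos k hkr hki', hP _ (hpos k hkr hki')⟩

/-- A monomial element acting on the roots through a word normalises the group generated by the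
root subgroups of a set of roots permuted by the word. -/
theorem normalizer_of_act (D : ChevalleyDatum) (n : GL D.Idx F) (L : List ℕ)
    (hact : ∀ s < D.nroots, ∃ c : F, c ≠ 0 ∧ ∀ t : F,
      (n : Matrix D.Idx D.Idx F) * D.x F s t =
        D.x F (wPi D L s) (c * t) * (n : Matrix D.Idx D.Idx F))
    (P : ℕ → Prop) (hP : ∀ r, P r → r < D.nroots) (hfw : ∀ r, P r → P (wPi D L r))
    (hbw : ∀ r, P r → ∃ r', P r' ∧ wPi D L r' = r) :
    n ∈ Subgroup.normalizer (rootGen F D P : Set (GL D.Idx F)) := by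
  unfold rootGen
  apply mem_normalizer_closure
  · rintro g ⟨r, t, hr, hg⟩
    obtain ⟨c, hc, ha⟩ := hact r (hP r hr)
    apply Subgroup.subset_closure
    refine ⟨wPi D L r, c * t, hfw r hr, ?_⟩
    rw [Units.val_mul, Units.val_mul, hg, ha t, Matrix.mul_assoc, ← Units.val_mul,
      mul_inv_cancel, Units.val_one, Matrix.mul_one]
  · rintro g ⟨r, t, hr, hg⟩
    obtain ⟨r', hr', hw⟩ := hbw r hr
    obtain ⟨c, hc, ha⟩ := hact r' (hP r' hr')
    apply Subgroup.subset_closure
    refine ⟨r', c⁻¹ * t, hr', ?_⟩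
    have e := ha (c⁻¹ * t)
    rw [← mul_assoc, mul_inv_cancel₀ hc, one_mul, hw] at e
    rw [Units.val_mul, Units.val_mul, hg, Matrix.mul_assoc, ← e, ← Matrix.mul_assoc,
      ← Units.val_mul, inv_mul_cancel, Units.val_one, Matrix.one_mul]

theorem g2c_inRootSub (r : ℕ) : chevG2.InRootSub ({1} : Set ℕ) r ↔ (r = 5 ∨ r = 6) := by
  have key : ∀ r < chevG2.nroots,
      ((chevG2.coroot.getD r #[]).getD 0 0 = 0 ↔ (r = 5 ∨ r = 6)) := by decide +kernel
  constructor
  · rintro ⟨h1, h2⟩
    exact (key r h1).1 (h2 0 (by decide) (by simp))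
  · intro h
    have h1 : r < chevG2.nroots := by rcases h with rfl | rfl <;> decide
    refine ⟨h1, fun i hi hiJ => ?_⟩
    have hi' : i < 2 := hi
    have h0 : i = 0 := by
      interval_cases i
      · rfl
      · exact absurd rfl hiJ
    subst h0
    exact (key r h1).2 h

theorem g2c_rad (r : ℕ) : (chevG2.IsPosRoot r ∧ ¬ chevG2.InRootSub ({1} : Set ℕ) r) ↔
    (r = 7 ∨ r = 8 ∨ r = 9 ∨ r = 10 ∨ r = 11) := by
  rw [g2c_inRootSub]
  have key : ∀ r < chevG2.nroots, ((chevG2.IsPosRoot r ∧ ¬ (r = 5 ∨ r = 6)) ↔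
      (r = 7 ∨ r = 8 ∨ r = 9 ∨ r = 10 ∨ r = 11)) := by decide +kernel
  by_cases h : r < chevG2.nroots
  · exact key r h
  · constructor
    · rintro ⟨h1, _⟩
      exact absurd h1.1 h
    · intro h'
      exfalso
      apply h
      rcases h' with rfl | rfl | rfl | rfl | rfl <;> decide

theorem g2T_zero (c : F) : g2T c 0 0 = g2x 9 c := by
  unfold g2T g2x
  rw [xGL_zero, xGL_zero, mul_one, mul_one]

theorem g2T_inj [CharP F 2] (c0 c1 c2 d0 d1 d2 : F) (h : g2T c0 c1 c2 = g2T d0 d1 d2) :
    c0 = d0 ∧ c1 = d1 ∧ c2 = d2 := by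
  have hM : chevG2.x F 9 c0 * chevG2.x F 10 c1 * chevG2.x F 11 c2 =
      chevG2.x F 9 d0 * chevG2.x F 10 d1 * chevG2.x F 11 d2 := by
    have := congrArg (fun g : GL chevG2.Idx F => (g : Matrix chevG2.Idx chevG2.Idx F)) h
    simpa only [g2T, Units.val_mul, xGL_val] using this
  have co : ∀ (e0 e1 e2 : F) (i : ℕ) (hi : i < chevG2.rank) (q : ℕ) (hq : q < chevG2.nroots),
      ((chevG2.x F 9 e0 * chevG2.x F 10 e1 * chevG2.x F 11 e2) *ᵥ hv F chevG2 i)
        (Sum.inr ⟨q, hq⟩) =
      -((((chevG2.cartan i 9 : ℤ) : F) * e0) * (if q = 9 then 1 else 0)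
        + (((chevG2.cartan i 10 : ℤ) : F) * e1) * (if q = 10 then 1 else 0)
        + (((chevG2.cartan i 11 : ℤ) : F) * e2) * (if q = 11 then 1 else 0)) :=
    fun e0 e1 e2 i hi q hq =>
      g2c_triple_coord chevG2 9 10 11 (by decide) (by decide) (by decide) (by decide)
        (by decide) (by decide +kernel) (by decide) (by decide) (by decide +kernel)
        (by decide) (by decide) (by decide +kernel) e0 e1 e2 i hi q hq
  have h2 : (2 : F) = 0 := g2c_two
  refine ⟨?_, ?_, ?_⟩
  · have e := congrArg (fun M => (M *ᵥ hv F chevG2 0) (Sum.inr ⟨9, by decide⟩)) hM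
    rw [co c0 c1 c2 0 (by decide) 9 (by decide), co d0 d1 d2 0 (by decide) 9 (by decide)] at e
    rw [show chevG2.cartan 0 9 = 1 by decide +kernel] at e
    simp at e
    exact e
  · have e := congrArg (fun M => (M *ᵥ hv F chevG2 0) (Sum.inr ⟨10, by decide⟩)) hM
    rw [co c0 c1 c2 0 (by decide) 10 (by decide), co d0 d1 d2 0 (by decide) 10 (by decide)] at e
    rw [show chevG2.cartan 0 10 = 3 by decide +kernel] at e
    simp at e
    rcases e with e | e
    · exact e
    · exfalso
      have h1 : (1 : F) = 0 := by linear_combination e - h2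
      exact one_ne_zero h1
  · have e := congrArg (fun M => (M *ᵥ hv F chevG2 1) (Sum.inr ⟨11, by decide⟩)) hM
    rw [co c0 c1 c2 1 (by decide) 11 (by decide), co d0 d1 d2 1 (by decide) 11 (by decide)] at e
    rw [show chevG2.cartan 1 11 = 1 by decide +kernel] at e
    simp at e
    exact e

/-- The centraliser of the short root element `x₉(1)` in `G₂` in characteristic two. -/
theorem g2c_centralizer_short [CharP F 2] (t : GL chevG2.Idx F)
    (ht : (t : Matrix chevG2.Idx chevG2.Idx F) = chevG2.x F 9 1) :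
    chevG2.group F ⊓ Subgroup.centralizer {t} =
      chevG2.rootSubgroup F 9 ⊔ chevG2.rootSubgroup F 10 ⊔ chevG2.rootSubgroup F 11 ⊔
        chevG2.rootSubgroup F 6 ⊔ chevG2.rootSubgroup F 5 := by
  have hD : chevG2 ∈ [chevG2, chevB2, chevD4, chevF4, chevE6, chevE7, chevE8] := by simp
  have hD' : chevG2 ∈ chevList := g2c_mem
  have htx : t = g2x 9 1 := Units.ext ht
  subst htx
  have hroot : ∀ r, r < chevG2.nroots → r ≠ chevG2.neg 9 →
      (∀ c ∈ chevG2.commTerms 9 r, (2 : ℤ) ∣ c.2.1) →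
      chevG2.rootSubgroup F r ≤ chevG2.group F ⊓ Subgroup.centralizer {g2x (F := F) 9 1} := by
    intro r hr hneg hev
    unfold ChevalleyDatum.rootSubgroup
    rw [Subgroup.closure_le]
    rintro g ⟨s, hg⟩
    have hg' : g = g2x r s := Units.ext hg
    rw [hg']
    refine Subgroup.mem_inf.2 ⟨xGL_mem_group chevG2 g2c_mem r s, ?_⟩
    rw [Subgroup.mem_centralizer_iff]
    intro y hy
    rw [Set.mem_singleton_iff] at hy
    subst hy
    exact (g2c_comm 9 r (by decide) hr hneg hev 1 s).eq.symm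
  have h9 := hroot 9 (by decide) (by decide) (by decide +kernel)
  have h10 := hroot 10 (by decide) (by decide) (by decide +kernel)
  have h11 := hroot 11 (by decide) (by decide) (by decide +kernel)
  have h6 := hroot 6 (by decide) (by decide) (by decide +kernel)
  have h5 := hroot 5 (by decide) (by decide) (by decide +kernel)
  apply le_antisymm
  · rintro g ⟨hgG, hgC⟩
    have hgt : g * g2x 9 1 = g2x 9 1 * g := (Subgroup.mem_centralizer_iff.1 hgC _ rfl).symm
    have hHU : chevG2.diagonalSubgroup F ≤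
        Subgroup.normalizer (chevG2.posUnipotent F : Set (GL chevG2.Idx F)) :=
      diagonal_le_normalizer_rootGen chevG2 hD' chevG2.IsPosRoot (fun r hr => hr.1)
    obtain ⟨b, hb', n, hn, u', hu', rfl⟩ := bruhat_exists chevG2 hD g hgG
    obtain ⟨u, hu, h, hh, rfl⟩ := mem_sup_of_le_normalizer _ _ hHU _ hb'
    have hu'U : u' ∈ chevG2.posUnipotent F := by
      have hle : Subgroup.closure {x : GL chevG2.Idx F | ∃ (r : ℕ) (t : F), chevG2.IsPosRoot r ∧
          (chevG2.rootSubgroup F r).map (MulAut.conj n).toMonoidHom ≤ chevG2.negUnipotent F ∧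
          (x : Matrix chevG2.Idx chevG2.Idx F) = chevG2.x F r t} ≤ chevG2.posUnipotent F := by
        unfold ChevalleyDatum.posUnipotent
        apply Subgroup.closure_mono
        rintro x ⟨r, t, hr, _, hx⟩
        exact ⟨r, t, hr, hx⟩
      exact hle hu'
    have hmN : h * n ∈ chevG2.monomialSubgroup F := mul_mem (Subgroup.mem_sup_left hh) hn
    have hgt' : (u * (h * n) * u') * g2x 9 1 = g2x 9 1 * (u * (h * n) * u') := by
      have e : u * (h * n) * u' = u * h * n * u' := by group
      rw [e]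
      exact hgt
    have hgoal : u * h * n * u' = u * (h * n) * u' := by group
    rw [hgoal]
    clear hgt hgoal hgG hgC hb'
    generalize h * n = m at hmN hgt'
    -- conjugation by the unipotent parts
    obtain ⟨a6, a7, a8, k9, hk9, rfl⟩ := g2c_U_decomp u' hu'U
    have f1 := g2c_conj_formula a6 a7 a8 k9 hk9 (1 : F) 0 0
    obtain ⟨b6, b7, b8, m9, hm9, hum⟩ := g2c_U_decomp u⁻¹ (inv_mem hu)
    have f2 := g2c_conj_formula b6 b7 b8 m9 hm9 (1 : F) 0 0
    rw [← hum, g2T_zero] at f2
    rw [g2T_zero] at f1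
    have e1 : g2T (1 : F) (1 * a7 + 0) ((1 * a7 + 0) * a6 + (1 * a8 + 0)) =
        (g2x 6 a6 * g2x 7 a7 * g2x 8 a8 * k9) * g2x 9 1 *
          (g2x 6 a6 * g2x 7 a7 * g2x 8 a8 * k9)⁻¹ := eq_mul_inv_of_mul_eq f1.symm
    have e2 : g2T (1 : F) (1 * b7 + 0) ((1 * b7 + 0) * b6 + (1 * b8 + 0)) =
        u⁻¹ * g2x 9 1 * u := by
      have := eq_mul_inv_of_mul_eq f2.symm
      rw [inv_inv] at this
      exact this
    have key : m * g2T (1 : F) (1 * a7 + 0) ((1 * a7 + 0) * a6 + (1 * a8 + 0)) =
        g2T (1 : F) (1 * b7 + 0) ((1 * b7 + 0) * b6 + (1 * b8 + 0)) * m := by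
      rw [e1, e2]
      have e3 : m * ((g2x 6 a6 * g2x 7 a7 * g2x 8 a8 * k9) * g2x 9 1 *
          (g2x 6 a6 * g2x 7 a7 * g2x 8 a8 * k9)⁻¹) =
          u⁻¹ * ((u * m * (g2x 6 a6 * g2x 7 a7 * g2x 8 a8 * k9)) * g2x 9 1) *
            (g2x 6 a6 * g2x 7 a7 * g2x 8 a8 * k9)⁻¹ := by group
      rw [e3, hgt']
      group
    -- the Weyl group element fixes the root 9
    obtain ⟨L, hL, hact⟩ := monomial_act chevG2 hD (orb_all chevG2 hD) m hmN
    obtain ⟨κ9, hκ9, act9⟩ := hact 9 (by decide)
    obtain ⟨κ10, hκ10, act10⟩ := hact 10 (by decide)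
    obtain ⟨κ11, hκ11, act11⟩ := hact 11 (by decide)
    have k1 : (m : Matrix chevG2.Idx chevG2.Idx F) *
        (chevG2.x F 9 1 * chevG2.x F 10 (1 * a7 + 0) *
          chevG2.x F 11 ((1 * a7 + 0) * a6 + (1 * a8 + 0))) =
        (chevG2.x F 9 1 * chevG2.x F 10 (1 * b7 + 0) *
          chevG2.x F 11 ((1 * b7 + 0) * b6 + (1 * b8 + 0))) *
            (m : Matrix chevG2.Idx chevG2.Idx F) := by
      have := congrArg (fun g : GL chevG2.Idx F => (g : Matrix chevG2.Idx chevG2.Idx F)) key
      simpa only [g2T, Units.val_mul, xGL_val] using this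
    have k2 : (m : Matrix chevG2.Idx chevG2.Idx F) *
        (chevG2.x F 9 1 * chevG2.x F 10 (1 * a7 + 0) *
          chevG2.x F 11 ((1 * a7 + 0) * a6 + (1 * a8 + 0))) =
        chevG2.x F (wPi chevG2 L 9) (κ9 * 1) * chevG2.x F (wPi chevG2 L 10) (κ10 * (1 * a7 + 0)) *
          chevG2.x F (wPi chevG2 L 11) (κ11 * ((1 * a7 + 0) * a6 + (1 * a8 + 0))) *
            (m : Matrix chevG2.Idx chevG2.Idx F) := by
      calc (m : Matrix chevG2.Idx chevG2.Idx F) *
            (chevG2.x F 9 1 * chevG2.x F 10 (1 * a7 + 0) *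
              chevG2.x F 11 ((1 * a7 + 0) * a6 + (1 * a8 + 0)))
          = (m : Matrix chevG2.Idx chevG2.Idx F) * chevG2.x F 9 1 * chevG2.x F 10 (1 * a7 + 0) *
              chevG2.x F 11 ((1 * a7 + 0) * a6 + (1 * a8 + 0)) := by
            simp only [Matrix.mul_assoc]
        _ = chevG2.x F (wPi chevG2 L 9) (κ9 * 1) *
              ((m : Matrix chevG2.Idx chevG2.Idx F) * chevG2.x F 10 (1 * a7 + 0)) *
              chevG2.x F 11 ((1 * a7 + 0) * a6 + (1 * a8 + 0)) := by
            rw [act9]; simp only [Matrix.mul_assoc]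
        _ = chevG2.x F (wPi chevG2 L 9) (κ9 * 1) *
              chevG2.x F (wPi chevG2 L 10) (κ10 * (1 * a7 + 0)) *
              ((m : Matrix chevG2.Idx chevG2.Idx F) *
                chevG2.x F 11 ((1 * a7 + 0) * a6 + (1 * a8 + 0))) := by
            rw [act10]; simp only [Matrix.mul_assoc]
        _ = _ := by rw [act11]; simp only [Matrix.mul_assoc]
    have hM : chevG2.x F (wPi chevG2 L 9) (κ9 * 1) *
        chevG2.x F (wPi chevG2 L 10) (κ10 * (1 * a7 + 0)) *
          chevG2.x F (wPi chevG2 L 11) (κ11 * ((1 * a7 + 0) * a6 + (1 * a8 + 0))) =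
        chevG2.x F 9 1 * chevG2.x F 10 (1 * b7 + 0) *
          chevG2.x F 11 ((1 * b7 + 0) * b6 + (1 * b8 + 0)) := by
      have e4 := k2.symm.trans k1
      have e5 := congrArg (fun M => M * ((m⁻¹ : GL chevG2.Idx F) :
        Matrix chevG2.Idx chevG2.Idx F)) e4
      simp only [Matrix.mul_assoc] at e5
      rw [← Units.val_mul, mul_inv_cancel, Units.val_one, Matrix.mul_one, Matrix.mul_one] at e5
      simp only [Matrix.mul_assoc]
      exact e5
    obtain ⟨hw9, hcase⟩ := g2c_weyl_fix L hL _ _ _ _ _ (mul_ne_zero hκ9 one_ne_zero) hM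
    -- the monomial part normalises the unipotent radical
    have HC : CommHyp F chevG2 := fun r s hr hs hrs hneg t u =>
      comm_formula chevG2 hD' r s hr hs hrs hneg t u
    have hmR : m ∈ Subgroup.normalizer
        (chevG2.unipotentRadical F ({1} : Set ℕ) : Set (GL chevG2.Idx F)) := by
      rw [radical_eq_rootGen]
      apply normalizer_of_act chevG2 m L hact _ (fun r hr => hr.1.1)
      · intro r hr
        rw [g2c_rad] at hr ⊢
        rcases hcase with ⟨c7, c8, c10, c11⟩ | ⟨c7, c8, c10, c11⟩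
        · rcases hr with rfl | rfl | rfl | rfl | rfl
          · rw [c7]; simp
          · rw [c8]; simp
          · rw [hw9]; simp
          · rw [c10]; simp
          · rw [c11]; simp
        · rcases hr with rfl | rfl | rfl | rfl | rfl
          · rw [c7]; simp
          · rw [c8]; simp
          · rw [hw9]; simp
          · rw [c10]; simp
          · rw [c11]; simp
      · intro r hr
        rw [g2c_rad] at hr
        rcases hcase with ⟨c7, c8, c10, c11⟩ | ⟨c7, c8, c10, c11⟩
        · refine ⟨r, (g2c_rad r).2 hr, ?_⟩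
          rcases hr with rfl | rfl | rfl | rfl | rfl
          · exact c7
          · exact c8
          · exact hw9
          · exact c10
          · exact c11
        · rcases hr with rfl | rfl | rfl | rfl | rfl
          · exact ⟨8, (g2c_rad 8).2 (by simp), c8⟩
          · exact ⟨7, (g2c_rad 7).2 (by simp), c7⟩
          · exact ⟨9, (g2c_rad 9).2 (by simp), hw9⟩
          · exact ⟨11, (g2c_rad 11).2 (by simp), c11⟩
          · exact ⟨10, (g2c_rad 10).2 (by simp), c10⟩
    have hmP : m ∈ chevG2.parabolicSubgroup F ({1} : Set ℕ) := by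
      rw [← normalizer_radical chevG2 hD HC ({1} : Set ℕ)]
      exact Subgroup.mem_inf.2 ⟨hmR, monomialSubgroup_le_group chevG2 hD' hmN⟩
    have hUP : chevG2.posUnipotent F ≤ chevG2.parabolicSubgroup F ({1} : Set ℕ) := by
      unfold ChevalleyDatum.parabolicSubgroup ChevalleyDatum.borelSubgroup
      exact le_trans le_sup_left le_sup_left
    have hgP : u * m * (g2x 6 a6 * g2x 7 a7 * g2x 8 a8 * k9) ∈
        chevG2.parabolicSubgroup F ({1} : Set ℕ) :=
      mul_mem (mul_mem (hUP hu) hmP) (hUP hu'U)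
    have hRL := radical_sup_levi (F := F) chevG2 hD ({1} : Set ℕ)
    have hLN : chevG2.leviSubgroup F ({1} : Set ℕ) ≤ Subgroup.normalizer
        (chevG2.unipotentRadical F ({1} : Set ℕ) : Set (GL chevG2.Idx F)) := by
      refine le_trans ?_ (radical_normal chevG2 hD HC ({1} : Set ℕ))
      rw [← hRL]
      exact le_sup_right
    rw [← hRL] at hgP
    obtain ⟨v, hv, l, hl, e⟩ := mem_sup_of_le_normalizer _ _ hLN _ hgP
    rw [e] at hgt' ⊢
    clear e hgP hk9 f1 e1 key k1 k2 hM
    -- the Levi part normalises the root subgroup of 9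
    have hS65c : Subgroup.closure {g : GL chevG2.Idx F | ∃ (r : ℕ) (t : F),
        chevG2.InRootSub ({1} : Set ℕ) r ∧ (g : Matrix chevG2.Idx chevG2.Idx F) = chevG2.x F r t} ≤
        Subgroup.centralizer (chevG2.rootSubgroup F 9 : Set (GL chevG2.Idx F)) := by
      rw [Subgroup.closure_le]
      rintro g ⟨r, s, hr, hg⟩
      have hg' : g = g2x r s := Units.ext hg
      rw [SetLike.mem_coe, Subgroup.mem_centralizer_iff]
      intro y hy
      have hle : chevG2.rootSubgroup F 9 ≤ Subgroup.centralizer {g} := by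
        unfold ChevalleyDatum.rootSubgroup
        rw [Subgroup.closure_le]
        rintro z ⟨τ, hz⟩
        have hz' : z = g2x 9 τ := Units.ext hz
        rw [SetLike.mem_coe, Subgroup.mem_centralizer_iff]
        intro y' hy'
        rw [Set.mem_singleton_iff] at hy'
        subst hy'
        rw [hg', hz']
        rw [g2c_inRootSub] at hr
        rcases hr with rfl | rfl
        · exact (g2c_comm 9 5 (by decide) (by decide) (by decide) (by decide +kernel) τ s).eq
        · exact (g2c_comm 9 6 (by decide) (by decide) (by decide) (by decide +kernel) τ s).eq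
      exact (Subgroup.mem_centralizer_iff.1 (hle hy) g rfl).symm
    have hLN9 : chevG2.leviSubgroup F ({1} : Set ℕ) ≤
        Subgroup.normalizer (chevG2.rootSubgroup F 9 : Set (GL chevG2.Idx F)) := by
      unfold ChevalleyDatum.leviSubgroup
      apply sup_le
      · have h4 := diagonal_le_normalizer_rootGen (F := F) chevG2 hD' (fun r => r = 9)
          (fun r hr => by rw [hr]; decide)
        have e : rootGen F chevG2 (fun r => r = 9) = chevG2.rootSubgroup F 9 := by
          unfold rootGen ChevalleyDatum.rootSubgroup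
          congr 1
          ext g
          constructor
          · rintro ⟨r, t, rfl, hg⟩
            exact ⟨t, hg⟩
          · rintro ⟨t, hg⟩
            exact ⟨9, t, rfl, hg⟩
        rw [e] at h4
        exact h4
      · exact le_trans hS65c (Subgroup.centralizer_le_normalizer _)
    have hlt : l * g2x 9 1 * l⁻¹ ∈ chevG2.rootSubgroup F 9 :=
      ((Subgroup.mem_set_normalizer_iff.1 (hLN9 hl)) (g2x 9 1)).1
        (Subgroup.subset_closure ⟨1, rfl⟩)
    obtain ⟨lam, hlam⟩ := mem_rootSubgroup chevG2 hD 9 (by decide) _ hlt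
    have hlam' : l * g2x 9 1 * l⁻¹ = g2x 9 lam := Units.ext hlam
    -- the radical part
    have hRU : chevG2.unipotentRadical F ({1} : Set ℕ) ≤ chevG2.posUnipotent F := by
      unfold ChevalleyDatum.unipotentRadical ChevalleyDatum.posUnipotent
      apply Subgroup.closure_mono
      rintro x ⟨r, t, hr, _, hx⟩
      exact ⟨r, t, hr, hx⟩
    obtain ⟨c6, c7, c8, w9, hw9', rfl⟩ := g2c_U_decomp v (hRU hv)
    have f3 := g2c_conj_formula c6 c7 c8 w9 hw9' lam 0 0
    rw [g2T_zero] at f3
    have e6 : (g2x 6 c6 * g2x 7 c7 * g2x 8 c8 * w9) * g2x 9 lam =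
        g2x 9 1 * (g2x 6 c6 * g2x 7 c7 * g2x 8 c8 * w9) := by
      rw [← hlam']
      have e7 : (g2x 6 c6 * g2x 7 c7 * g2x 8 c8 * w9) * (l * g2x 9 1 * l⁻¹) =
          ((g2x 6 c6 * g2x 7 c7 * g2x 8 c8 * w9) * l * g2x 9 1) * l⁻¹ := by group
      rw [e7, hgt']
      group
    have e8 : g2T lam (lam * c7 + 0) ((lam * c7 + 0) * c6 + (lam * c8 + 0)) = g2T 1 0 0 := by
      rw [g2T_zero]
      exact mul_right_cancel (f3.symm.trans e6)
    obtain ⟨hl1, hl2, hl3⟩ := g2T_inj _ _ _ _ _ _ e8
    subst hl1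
    have hc7 : c7 = 0 := by simpa using hl2
    subst hc7
    have hc8 : c8 = 0 := by simpa using hl3
    subst hc8
    -- the radical part lies in `X₉ X₁₀ X₁₁`
    have h9R : posGE F chevG2 9 ≤ chevG2.unipotentRadical F ({1} : Set ℕ) := by
      unfold posGE ChevalleyDatum.unipotentRadical
      apply Subgroup.closure_mono
      rintro x ⟨r, t, hr, h9r, hx⟩
      have hlt : r < 12 := hr.1
      have hrad : chevG2.IsPosRoot r ∧ ¬ chevG2.InRootSub ({1} : Set ℕ) r := by
        rw [g2c_rad]
        interval_cases r <;> simp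
      exact ⟨r, t, hrad.1, hrad.2, hx⟩
    have h6L : g2x (F := F) 6 c6 ∈ chevG2.leviSubgroup F ({1} : Set ℕ) := by
      unfold ChevalleyDatum.leviSubgroup
      exact Subgroup.mem_sup_right (Subgroup.subset_closure
        ⟨6, c6, (g2c_inRootSub 6).2 (Or.inr rfl), rfl⟩)
    have h6R : g2x (F := F) 6 c6 ∈ chevG2.unipotentRadical F ({1} : Set ℕ) := by
      have e9 : g2x (F := F) 6 c6 = (g2x 6 c6 * g2x 7 0 * g2x 8 0 * w9) * w9⁻¹ := by
        rw [show g2x (F := F) 7 0 = 1 from xGL_zero chevG2 g2c_mem 7,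
          show g2x (F := F) 8 0 = 1 from xGL_zero chevG2 g2c_mem 8]
        group
      rw [e9]
      exact mul_mem hv (inv_mem (h9R hw9'))
    have h61 : g2x (F := F) 6 c6 = 1 := by
      have hmem : g2x (F := F) 6 c6 ∈ chevG2.unipotentRadical F ({1} : Set ℕ) ⊓
          chevG2.leviSubgroup F ({1} : Set ℕ) := Subgroup.mem_inf.2 ⟨h6R, h6L⟩
      rw [radical_inf_levi chevG2 hD, Subgroup.mem_bot] at hmem
      exact hmem
    have hvw : g2x 6 c6 * g2x 7 0 * g2x 8 0 * w9 = w9 := by
      rw [h61, show g2x (F := F) 7 0 = 1 from xGL_zero chevG2 g2c_mem 7,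
        show g2x (F := F) 8 0 = 1 from xGL_zero chevG2 g2c_mem 8]
      group
    rw [hvw]
    have hw9Q : w9 ∈ chevG2.rootSubgroup F 9 ⊔ chevG2.rootSubgroup F 10 ⊔
        chevG2.rootSubgroup F 11 ⊔ chevG2.rootSubgroup F 6 ⊔ chevG2.rootSubgroup F 5 := by
      have hle : posGE F chevG2 9 ≤ chevG2.rootSubgroup F 9 ⊔ chevG2.rootSubgroup F 10 ⊔
          chevG2.rootSubgroup F 11 ⊔ chevG2.rootSubgroup F 6 ⊔ chevG2.rootSubgroup F 5 := by
        unfold posGE
        rw [Subgroup.closure_le]
        rintro x ⟨r, t, hr, h9r, hx⟩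
        have hlt : r < 12 := hr.1
        interval_cases r
        · exact Subgroup.mem_sup_left (Subgroup.mem_sup_left (Subgroup.mem_sup_left
            (Subgroup.mem_sup_left (Subgroup.subset_closure ⟨t, hx⟩))))
        · exact Subgroup.mem_sup_left (Subgroup.mem_sup_left (Subgroup.mem_sup_left
            (Subgroup.mem_sup_right (Subgroup.subset_closure ⟨t, hx⟩))))
        · exact Subgroup.mem_sup_left (Subgroup.mem_sup_left (Subgroup.mem_sup_right
            (Subgroup.subset_closure ⟨t, hx⟩)))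
      exact hle hw9'
    -- the Levi part
    have hl1 : l * g2x 9 1 = g2x 9 1 * l := mul_inv_eq_iff_eq_mul.1 hlam'
    have hS65N : chevG2.diagonalSubgroup F ≤ Subgroup.normalizer
        (rootGen F chevG2 (chevG2.InRootSub ({1} : Set ℕ)) : Set (GL chevG2.Idx F)) :=
      diagonal_le_normalizer_rootGen chevG2 hD' _ (fun r hr => hr.1)
    have hl' : l ∈ rootGen F chevG2 (chevG2.InRootSub ({1} : Set ℕ)) ⊔
        chevG2.diagonalSubgroup F := by
      rw [sup_comm]
      exact hl
    obtain ⟨s, hs, h₃, hh₃, rfl⟩ := mem_sup_of_le_normalizer _ _ hS65N _ hl'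
    have hsc : Commute (g2x (F := F) 9 1) s := by
      have := hS65c hs
      rw [Subgroup.mem_centralizer_iff] at this
      exact this (g2x 9 1) (Subgroup.subset_closure ⟨1, rfl⟩)
    have hh₃c : Commute (g2x (F := F) 9 1) h₃ := by
      have e10 : h₃ = s⁻¹ * (s * h₃) := by group
      rw [e10]
      exact hsc.inv_right.mul_right hl1.symm
    have hh₃Q : h₃ ∈ rootGen F chevG2 (chevG2.InRootSub ({1} : Set ℕ)) :=
      diag_mem_rootGen_of_commute' chevG2 hD 9 (by decide) _ (fun r hr => hr.1) 0 (by decide)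
        (by decide +kernel)
        (fun k hk hne => by
          have hk' : k < 2 := hk
          interval_cases k
          · exact absurd rfl hne
          · exact ⟨by decide +kernel, (g2c_inRootSub _).2 (Or.inl (by decide +kernel))⟩)
        (fun k hk hne => by
          have hk' : k < 2 := hk
          interval_cases k
          · exact absurd rfl hne
          · exact (g2c_inRootSub _).2 (Or.inr (by decide +kernel)))
        (g2x 9 1) rfl h₃ hh₃ hh₃c
    have hS65Q : rootGen F chevG2 (chevG2.InRootSub ({1} : Set ℕ)) ≤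
        chevG2.rootSubgroup F 9 ⊔ chevG2.rootSubgroup F 10 ⊔
          chevG2.rootSubgroup F 11 ⊔ chevG2.rootSubgroup F 6 ⊔ chevG2.rootSubgroup F 5 := by
      unfold rootGen
      rw [Subgroup.closure_le]
      rintro x ⟨r, t, hr, hx⟩
      rw [g2c_inRootSub] at hr
      rcases hr with rfl | rfl
      · exact Subgroup.mem_sup_right (Subgroup.subset_closure ⟨t, hx⟩)
      · exact Subgroup.mem_sup_left (Subgroup.mem_sup_right (Subgroup.subset_closure ⟨t, hx⟩))
    exact mul_mem hw9Q (mul_mem (hS65Q hs) (hS65Q hh₃Q))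
  · exact sup_le (sup_le (sup_le (sup_le h9 h10) h11) h6) h5

end

end Cfsg.Agent.Lib.Helper25
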