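import Cfsg.Agent.Lib.Helper25.ChevF4C
import Cfsg.Agent.Lib.Helper25.ChevSylow

/-!
# The unipotent group of `G₂` in characteristic two: coordinates and the product law
-/

set_option autoImplicit false

namespace Cfsg.Agent.Lib.Helper25

open Cfsg.Lie Matrix
open Cfsg.Agent.Lib.Helper24

theorem comm3_mul {M : Type*} [Monoid M] (A B C A' B' C' : M) (h1 : Commute B A')
    (h2 : Commute C A') (h3 : Commute C B') :
    A * B * C * (A' * B' * C') = (A * A') * (B * B') * (C * C') := by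
  calc A * B * C * (A' * B' * C') = A * B * (C * A') * B' * C' := by simp only [mul_assoc]
    _ = A * (B * A') * (C * B') * C' := by rw [h2.eq]; simp only [mul_assoc]
    _ = (A * A') * (B * B') * (C * C') := by rw [h1.eq, h3.eq]; simp only [mul_assoc]

section

variable {F : Type*} [Field F]

/-! ### Commutator relations -/

theorem g2c_x_zero (r : ℕ) : chevG2.x F r 0 = 1 :=
  congrArg (fun g : GL chevG2.Idx F => (g : Matrix chevG2.Idx chevG2.Idx F))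
    (xGL_zero (F := F) chevG2 g2c_mem r)

theorem g2c_rel67 [CharP F 2] (t u : F) :
    g2x (F := F) 7 u * g2x 6 t =
      g2x 6 t * g2x 7 u * g2x 8 (t * u) * g2x 9 (t * u ^ 2) * g2x 10 (t * u ^ 3) := by
  apply Units.ext
  simp only [Units.val_mul, xGL_val]
  have h := comm_formula (F := F) chevG2 g2c_mem 6 7 (by decide) (by decide) (by decide)
    (by decide) t u
  have e : chevG2.commWord F 6 7 t u = [(8, ((1 : ℤ) : F) * (-t) ^ 1 * u ^ 1),
      (9, ((1 : ℤ) : F) * (-t) ^ 1 * u ^ 2), (10, ((-1 : ℤ) : F) * (-t) ^ 1 * u ^ 3),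
      (11, ((-2 : ℤ) : F) * (-t) ^ 2 * u ^ 3)] := by
    unfold ChevalleyDatum.commWord
    rw [show chevG2.commTerms 6 7 = [(8, 1, 1, 1), (9, 1, 1, 2), (10, -1, 1, 3), (11, -2, 2, 3)]
      by decide +kernel]
    rfl
  have h2 : (2 : F) = 0 := g2c_two
  have e8 : ((1 : ℤ) : F) * (-t) ^ 1 * u ^ 1 = t * u := by
    push_cast
    linear_combination (-(t * u)) * h2
  have e9 : ((1 : ℤ) : F) * (-t) ^ 1 * u ^ 2 = t * u ^ 2 := by
    push_cast
    linear_combination (-(t * u ^ 2)) * h2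
  have e10 : ((-1 : ℤ) : F) * (-t) ^ 1 * u ^ 3 = t * u ^ 3 := by
    push_cast
    ring
  have e11 : ((-2 : ℤ) : F) * (-t) ^ 2 * u ^ 3 = 0 := by
    push_cast
    linear_combination (-(t ^ 2 * u ^ 3)) * h2
  rw [e, e8, e9, e10, e11, wordMat_cons', wordMat_cons', wordMat_cons', wordMat_cons',
    wordMat_nil', Matrix.mul_one] at h
  rw [h]
  simp only [g2c_x_zero, Matrix.mul_one, Matrix.mul_assoc]

theorem g2c_rel78 [CharP F 2] (t u : F) :
    g2x (F := F) 8 u * g2x 7 t = g2x 7 t * g2x 8 u * g2x 10 (t ^ 2 * u) * g2x 11 (t * u ^ 2) := by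
  apply Units.ext
  simp only [Units.val_mul, xGL_val]
  have h := comm_formula (F := F) chevG2 g2c_mem 7 8 (by decide) (by decide) (by decide)
    (by decide) t u
  have e : chevG2.commWord F 7 8 t u = [(9, ((-2 : ℤ) : F) * (-t) ^ 1 * u ^ 1),
      (10, ((-3 : ℤ) : F) * (-t) ^ 2 * u ^ 1), (11, ((3 : ℤ) : F) * (-t) ^ 1 * u ^ 2)] := by
    unfold ChevalleyDatum.commWord
    rw [show chevG2.commTerms 7 8 = [(9, -2, 1, 1), (10, -3, 2, 1), (11, 3, 1, 2)]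
      by decide +kernel]
    rfl
  have h2 : (2 : F) = 0 := g2c_two
  have e9 : ((-2 : ℤ) : F) * (-t) ^ 1 * u ^ 1 = 0 := by
    push_cast
    linear_combination (t * u) * h2
  have e10 : ((-3 : ℤ) : F) * (-t) ^ 2 * u ^ 1 = t ^ 2 * u := by
    push_cast
    linear_combination (-2 * t ^ 2 * u) * h2
  have e11 : ((3 : ℤ) : F) * (-t) ^ 1 * u ^ 2 = t * u ^ 2 := by
    push_cast
    linear_combination (-2 * t * u ^ 2) * h2
  rw [e, e9, e10, e11, wordMat_cons', wordMat_cons', wordMat_cons', wordMat_nil',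
    Matrix.mul_one] at h
  rw [h]
  simp only [g2c_x_zero, Matrix.one_mul, Matrix.mul_assoc]

/-! ### The abelian group `X₉ X₁₀ X₁₁` -/

theorem g2T_mul [CharP F 2] (a b c a' b' c' : F) :
    g2T a b c * g2T a' b' c' = g2T (a + a') (b + b') (c + c') := by
  unfold g2T
  rw [comm3_mul _ _ _ _ _ _
    (g2c_comm 9 10 (by decide) (by decide) (by decide) (by decide +kernel) a' b)
    (g2c_comm 9 11 (by decide) (by decide) (by decide) (by decide +kernel) a' c)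
    (g2c_comm 10 11 (by decide) (by decide) (by decide) (by decide +kernel) b' c),
    ← xGL_add chevG2 g2c_mem 9 (by decide), ← xGL_add chevG2 g2c_mem 10 (by decide),
    ← xGL_add chevG2 g2c_mem 11 (by decide)]

theorem g2T_10 (u : F) : g2T 0 u 0 = g2x 10 u := by
  unfold g2T g2x
  rw [xGL_zero, xGL_zero, one_mul, mul_one]

theorem g2T_11 (u : F) : g2T 0 0 u = g2x 11 u := by
  unfold g2T g2x
  rw [xGL_zero, xGL_zero, one_mul, one_mul]

theorem g2T_zero_left (a b : F) : g2T 0 a b = g2x 10 a * g2x 11 b := by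
  unfold g2T g2x
  rw [xGL_zero, one_mul]

theorem g2T_zero_right (a b : F) : g2T a b 0 = g2x 9 a * g2x 10 b := by
  unfold g2T g2x
  rw [xGL_zero, mul_one]

theorem g2T_x8 [CharP F 2] (u c0 c1 c2 : F) :
    g2T c0 c1 c2 * g2x 8 u = g2x 8 u * g2T c0 c1 (c2 + c0 * u) := by
  rw [g2T_conj8 u c0 c1 (c2 + c0 * u)]
  have h2 : (2 : F) = 0 := g2c_two
  rw [show c0 * u + (c2 + c0 * u) = c2 by linear_combination (c0 * u) * h2]

theorem g2T_x7 [CharP F 2] (u c0 c1 c2 : F) :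
    g2T c0 c1 c2 * g2x 7 u = g2x 7 u * g2T c0 (c1 + c0 * u) c2 := by
  rw [g2T_conj7 u c0 (c1 + c0 * u) c2]
  have h2 : (2 : F) = 0 := g2c_two
  rw [show c0 * u + (c1 + c0 * u) = c1 by linear_combination (c0 * u) * h2]

theorem g2T_x6 [CharP F 2] (u c0 c1 c2 : F) :
    g2T c0 c1 c2 * g2x 6 u = g2x 6 u * g2T c0 c1 (c2 + c1 * u) := by
  rw [g2T_conj6 u c0 c1 (c2 + c1 * u)]
  have h2 : (2 : F) = 0 := g2c_two
  rw [show c1 * u + (c2 + c1 * u) = c2 by linear_combination (c1 * u) * h2]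

/-! ### Coordinates on `U` -/

/-- The element `x₆(β) x₇(α) x₈(γ) x₉(δ) x₁₀(ε) x₁₁(ζ)` of `U`. -/
def g2E (β α γ δ ε ζ : F) : GL chevG2.Idx F := g2x 6 β * g2x 7 α * g2x 8 γ * g2T δ ε ζ

theorem g2E_congr {β α γ δ ε ζ β' α' γ' δ' ε' ζ' : F} (h1 : β = β') (h2 : α = α')
    (h3 : γ = γ') (h4 : δ = δ') (h5 : ε = ε') (h6 : ζ = ζ') :
    g2E β α γ δ ε ζ = g2E β' α' γ' δ' ε' ζ' := by
  subst h1 h2 h3 h4 h5 h6
  rfl

theorem g2E_one : g2E (0 : F) 0 0 0 0 0 = 1 := by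
  unfold g2E g2T g2x
  simp only [xGL_zero, mul_one]

theorem g2E_6 (u : F) : g2E u 0 0 0 0 0 = g2x 6 u := by
  unfold g2E g2T g2x
  simp only [xGL_zero, mul_one]

theorem g2E_7 (u : F) : g2E 0 u 0 0 0 0 = g2x 7 u := by
  unfold g2E g2T g2x
  simp only [xGL_zero, mul_one, one_mul]

theorem g2E_8 (u : F) : g2E 0 0 u 0 0 0 = g2x 8 u := by
  unfold g2E g2T g2x
  simp only [xGL_zero, mul_one, one_mul]

theorem g2E_9 (u : F) : g2E 0 0 0 u 0 0 = g2x 9 u := by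
  unfold g2E g2T g2x
  simp only [xGL_zero, mul_one, one_mul]

theorem g2E_10 (u : F) : g2E 0 0 0 0 u 0 = g2x 10 u := by
  unfold g2E g2T g2x
  simp only [xGL_zero, mul_one, one_mul]

theorem g2E_11 (u : F) : g2E 0 0 0 0 0 u = g2x 11 u := by
  unfold g2E g2T g2x
  simp only [xGL_zero, mul_one, one_mul]

theorem g2E_T [CharP F 2] (β α γ δ ε ζ a b c : F) :
    g2E β α γ δ ε ζ * g2T a b c = g2E β α γ (δ + a) (ε + b) (ζ + c) := by
  unfold g2E
  rw [mul_assoc, g2T_mul]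

theorem g2E_x11 [CharP F 2] (β α γ δ ε ζ u : F) :
    g2E β α γ δ ε ζ * g2x 11 u = g2E β α γ δ ε (ζ + u) := by
  have h := g2E_T β α γ δ ε ζ 0 0 u
  rw [g2T_11, add_zero, add_zero] at h
  exact h

theorem g2E_x10 [CharP F 2] (β α γ δ ε ζ u : F) :
    g2E β α γ δ ε ζ * g2x 10 u = g2E β α γ δ (ε + u) ζ := by
  have h := g2E_T β α γ δ ε ζ 0 u 0
  rw [g2T_10, add_zero, add_zero] at h
  exact h

theorem g2E_x9 [CharP F 2] (β α γ δ ε ζ u : F) :
    g2E β α γ δ ε ζ * g2x 9 u = g2E β α γ (δ + u) ε ζ := by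
  have h := g2E_T β α γ δ ε ζ u 0 0
  rw [g2T_zero, add_zero, add_zero] at h
  exact h

theorem g2E_x8 [CharP F 2] (β α γ δ ε ζ u : F) :
    g2E β α γ δ ε ζ * g2x 8 u = g2E β α (γ + u) δ ε (ζ + δ * u) := by
  unfold g2E
  rw [mul_assoc, g2T_x8, ← mul_assoc, mul_assoc (g2x 6 β * g2x 7 α),
    ← xGL_add chevG2 g2c_mem 8 (by decide)]

theorem g2E_x7 [CharP F 2] (β α γ δ ε ζ u : F) :
    g2E β α γ δ ε ζ * g2x 7 u =
      g2E β (α + u) γ δ (ε + δ * u + u ^ 2 * γ) (ζ + u * γ ^ 2) := by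
  unfold g2E
  calc g2x 6 β * g2x 7 α * g2x 8 γ * g2T δ ε ζ * g2x 7 u
      = g2x 6 β * g2x 7 α * (g2x 8 γ * g2x 7 u) * g2T δ (ε + δ * u) ζ := by
        rw [mul_assoc _ (g2T δ ε ζ), g2T_x7]
        simp only [mul_assoc]
    _ = g2x 6 β * (g2x 7 α * g2x 7 u) * g2x 8 γ *
          (g2T 0 (u ^ 2 * γ) (u * γ ^ 2) * g2T δ (ε + δ * u) ζ) := by
        rw [g2c_rel78 u γ, g2T_zero_left]
        simp only [mul_assoc]
    _ = _ := by
        rw [← xGL_add chevG2 g2c_mem 7 (by decide), g2T_mul,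
          show (0 : F) + δ = δ by ring,
          show u ^ 2 * γ + (ε + δ * u) = ε + δ * u + u ^ 2 * γ by ring,
          show u * γ ^ 2 + ζ = ζ + u * γ ^ 2 by ring]

theorem g2E_x6 [CharP F 2] (β α γ δ ε ζ u : F) :
    g2E β α γ δ ε ζ * g2x 6 u =
      g2E (β + u) α (γ + u * α) (δ + u * α ^ 2) (ε + u * α ^ 3)
        (ζ + ε * u + u * α ^ 2 * γ) := by
  unfold g2E
  calc g2x 6 β * g2x 7 α * g2x 8 γ * g2T δ ε ζ * g2x 6 u
      = g2x 6 β * g2x 7 α * (g2x 8 γ * g2x 6 u) * g2T δ ε (ζ + ε * u) := by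
        rw [mul_assoc _ (g2T δ ε ζ), g2T_x6]
        simp only [mul_assoc]
    _ = g2x 6 β * (g2x 7 α * g2x 6 u) * g2x 8 γ * g2T δ ε (ζ + ε * u) := by
        rw [(g2c_comm 6 8 (by decide) (by decide) (by decide) (by decide +kernel) u γ).eq]
        simp only [mul_assoc]
    _ = g2x 6 β * g2x 6 u * g2x 7 α * g2x 8 (u * α) *
          (g2T (u * α ^ 2) (u * α ^ 3) 0 * g2x 8 γ) * g2T δ ε (ζ + ε * u) := by
        rw [g2c_rel67 u α, g2T_zero_right]
        simp only [mul_assoc]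
    _ = g2x 6 β * g2x 6 u * g2x 7 α * (g2x 8 (u * α) * g2x 8 γ) *
          (g2T (u * α ^ 2) (u * α ^ 3) (0 + u * α ^ 2 * γ) * g2T δ ε (ζ + ε * u)) := by
        rw [g2T_x8]
        simp only [mul_assoc]
    _ = _ := by
        rw [← xGL_add chevG2 g2c_mem 6 (by decide), ← xGL_add chevG2 g2c_mem 8 (by decide),
          g2T_mul, show u * α + γ = γ + u * α by ring,
          show u * α ^ 2 + δ = δ + u * α ^ 2 by ring,
          show u * α ^ 3 + ε = ε + u * α ^ 3 by ring,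
          show 0 + u * α ^ 2 * γ + (ζ + ε * u) = ζ + ε * u + u * α ^ 2 * γ by ring]

/-- The product law of `U` in coordinates. -/
theorem g2E_mul [CharP F 2] (β α γ δ ε ζ β' α' γ' δ' ε' ζ' : F) :
    g2E β α γ δ ε ζ * g2E β' α' γ' δ' ε' ζ' =
      g2E (β + β') (α + α') (γ + β' * α + γ') (δ + β' * α ^ 2 + δ')
        (ε + β' * α ^ 3 + (δ + β' * α ^ 2) * α' + α' ^ 2 * (γ + β' * α) + ε')
        (ζ + ε * β' + β' * α ^ 2 * γ + α' * (γ + β' * α) ^ 2 + (δ + β' * α ^ 2) * γ' + ζ') := by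
  have e : g2E β α γ δ ε ζ * g2E β' α' γ' δ' ε' ζ' =
      g2E β α γ δ ε ζ * g2x 6 β' * g2x 7 α' * g2x 8 γ' * g2T δ' ε' ζ' := by
    rw [show g2E β' α' γ' δ' ε' ζ' = g2x 6 β' * g2x 7 α' * g2x 8 γ' * g2T δ' ε' ζ' from rfl]
    simp only [mul_assoc]
  rw [e, g2E_x6, g2E_x7, g2E_x8, g2E_T]

end

end Cfsg.Agent.Lib.Helper25
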