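import Cfsg.Agent.Lib.Helper25.ChevG2E

/-!
# The conjugacy classes of involutions of `G₂` in characteristic two
-/

set_option autoImplicit false

namespace Cfsg.Agent.Lib.Helper25

open Cfsg.Lie Matrix
open Cfsg.Agent.Lib.Helper24

section

variable {F : Type*} [Field F]

/-! ### Existence and uniqueness of the coordinates -/

/-- The coefficient function of `x₆(β) x₇(α) x₈(γ) x₉(δ) x₁₀(ε) x₁₁(ζ)`. -/
def g2F (β α γ δ ε ζ : F) (r : ℕ) : F :=
  if r = 6 then β else if r = 7 then α else if r = 8 then γ else if r = 9 then δ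
  else if r = 10 then ε else if r = 11 then ζ else 0

theorem g2c_posRoots : chevG2.posRoots = [6, 7, 8, 9, 10, 11] := by decide +kernel

theorem g2E_val (β α γ δ ε ζ : F) :
    ((g2E β α γ δ ε ζ : GL chevG2.Idx F) : Matrix chevG2.Idx chevG2.Idx F) =
      chevG2.wordMat F (chevG2.posRoots.map fun r => (r, g2F β α γ δ ε ζ r)) := by
  rw [g2c_posRoots]
  simp [g2E, g2T, g2F, wordMat_cons', wordMat_nil', Matrix.mul_assoc]
  rfl

theorem g2x_mem (r : ℕ) (t : F) : g2x r t ∈ chevG2.group F := xGL_mem_group chevG2 g2c_mem r t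

theorem g2x_inv [CharP F 2] (r : ℕ) (t : F) : (g2x r t)⁻¹ = g2x r t := by
  unfold g2x
  rw [Cfsg.Agent.Lib.Helper24.xGL_inv, CharTwo.neg_eq]

theorem g2c_pos : ∀ r ∈ [6, 7, 8, 9, 10, 11], chevG2.IsPosRoot r := by decide +kernel

theorem g2x_mem_U (r : ℕ) (hr : r ∈ [6, 7, 8, 9, 10, 11]) (t : F) :
    g2x r t ∈ chevG2.posUnipotent F :=
  Subgroup.subset_closure ⟨r, t, g2c_pos r hr, rfl⟩

theorem g2E_mem (β α γ δ ε ζ : F) : g2E β α γ δ ε ζ ∈ chevG2.posUnipotent F := by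
  unfold g2E g2T
  exact mul_mem (mul_mem (mul_mem (g2x_mem_U 6 (by simp) β) (g2x_mem_U 7 (by simp) α))
    (g2x_mem_U 8 (by simp) γ)) (mul_mem (mul_mem (g2x_mem_U 9 (by simp) δ)
    (g2x_mem_U 10 (by simp) ε)) (g2x_mem_U 11 (by simp) ζ))

theorem g2F_zero (β α γ δ ε ζ : F) (r : ℕ) (hr : ¬ chevG2.IsPosRoot r) :
    g2F β α γ δ ε ζ r = 0 := by
  have h6 : r ≠ 6 := fun e => hr (e ▸ g2c_pos 6 (by simp))
  have h7 : r ≠ 7 := fun e => hr (e ▸ g2c_pos 7 (by simp))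
  have h8 : r ≠ 8 := fun e => hr (e ▸ g2c_pos 8 (by simp))
  have h9 : r ≠ 9 := fun e => hr (e ▸ g2c_pos 9 (by simp))
  have h10 : r ≠ 10 := fun e => hr (e ▸ g2c_pos 10 (by simp))
  have h11 : r ≠ 11 := fun e => hr (e ▸ g2c_pos 11 (by simp))
  simp [g2F, h6, h7, h8, h9, h10, h11]

theorem g2E_exists (u : GL chevG2.Idx F) (hu : u ∈ chevG2.posUnipotent F) :
    ∃ β α γ δ ε ζ : F, u = g2E β α γ δ ε ζ := by
  obtain ⟨t, ⟨-, ht⟩, -⟩ := (unique_product_all (F := F) chevG2 g2c_mem).1 u hu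
  refine ⟨t 6, t 7, t 8, t 9, t 10, t 11, Units.ext ?_⟩
  rw [ht, g2E_val, g2c_posRoots]
  simp [g2F]

theorem g2E_inj (β α γ δ ε ζ β' α' γ' δ' ε' ζ' : F)
    (h : g2E β α γ δ ε ζ = g2E β' α' γ' δ' ε' ζ') :
    β = β' ∧ α = α' ∧ γ = γ' ∧ δ = δ' ∧ ε = ε' ∧ ζ = ζ' := by
  obtain ⟨t, -, huniq⟩ := (unique_product_all (F := F) chevG2 g2c_mem).1 _
    (g2E_mem β α γ δ ε ζ)
  have h1 := huniq (g2F β α γ δ ε ζ) ⟨g2F_zero β α γ δ ε ζ, g2E_val β α γ δ ε ζ⟩
  have h2 := huniq (g2F β' α' γ' δ' ε' ζ') ⟨g2F_zero β' α' γ' δ' ε' ζ', by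
    rw [h]
    exact g2E_val β' α' γ' δ' ε' ζ'⟩
  have e : g2F β α γ δ ε ζ = g2F β' α' γ' δ' ε' ζ' := h1.trans h2.symm
  refine ⟨?_, ?_, ?_, ?_, ?_, ?_⟩
  · simpa [g2F] using congrFun e 6
  · simpa [g2F] using congrFun e 7
  · simpa [g2F] using congrFun e 8
  · simpa [g2F] using congrFun e 9
  · simpa [g2F] using congrFun e 10
  · simpa [g2F] using congrFun e 11

/-- The conditions for an element of `U` to square to the identity. -/
theorem g2E_sq [CharP F 2] (β α γ δ ε ζ : F)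
    (h : g2E β α γ δ ε ζ * g2E β α γ δ ε ζ = 1) :
    α * β = 0 ∧ α * (δ + α * γ) = 0 ∧ β * ε + α * γ ^ 2 + γ * δ = 0 := by
  rw [g2E_mul, ← g2E_one] at h
  obtain ⟨-, -, h3, -, h5, h6⟩ := g2E_inj _ _ _ _ _ _ _ _ _ _ _ _ h
  have h2' : (2 : F) = 0 := g2c_two
  have e1 : α * β = 0 := by linear_combination h3 - γ * h2'
  refine ⟨e1, ?_, ?_⟩
  · linear_combination h5 - ε * h2' - 3 * α ^ 2 * e1
  · linear_combination h6 - ζ * h2' - (4 * α * γ + α ^ 2 * β) * e1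

/-! ### Conjugation identities -/

theorem g2_conjA [CharP F 2] (a u w v : F) :
    g2x 9 v * g2x 8 w * g2x 6 u * g2x 7 a * g2x 6 u * g2x 8 w * g2x 9 v =
      g2E 0 a (a * u) (a ^ 2 * u) (a * v + a ^ 2 * w + a ^ 3 * u) (a * u * v + a * w ^ 2 + a ^ 2 * u * w) := by
  have h2 : (2 : F) = 0 := g2c_two
  rw [show g2x 9 v * g2x 8 w = g2E 0 0 0 v 0 0 * g2x 8 w by rw [g2E_9], g2E_x8, g2E_x6, g2E_x7, g2E_x6, g2E_x8, g2E_x9]
  exact g2E_congr
    (by linear_combination (u) * h2)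
    (by linear_combination (0 : F) * h2)
    (by linear_combination (w) * h2)
    (by linear_combination (v) * h2)
    (by linear_combination (0 : F) * h2)
    (by linear_combination (a^2*u*w + v*w) * h2)

theorem g2_conjB [CharP F 2] (b d u v : F) :
    g2x 10 v * g2x 7 u * g2x 6 b * g2x 9 d * g2x 7 u * g2x 10 v =
      g2E b 0 (b * u) (b * u ^ 2 + d) (b * u ^ 3 + d * u) (b * v + b ^ 2 * u ^ 3) := by
  have h2 : (2 : F) = 0 := g2c_two
  rw [show g2x 10 v * g2x 7 u = g2E 0 0 0 0 v 0 * g2x 7 u by rw [g2E_10], g2E_x7, g2E_x6, g2E_x9, g2E_x7, g2E_x10]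
  exact g2E_congr
    (by linear_combination (0 : F) * h2)
    (by linear_combination (u) * h2)
    (by linear_combination (0 : F) * h2)
    (by linear_combination (0 : F) * h2)
    (by linear_combination (b*u^3 + v) * h2)
    (by linear_combination (0 : F) * h2)

theorem g2_conjC1 [CharP F 2] (c u v : F) :
    g2x 9 v * g2x 7 u * g2x 8 c * g2x 7 u * g2x 9 v =
      g2E 0 0 c 0 (c * u ^ 2) (c * v + c ^ 2 * u) := by
  have h2 : (2 : F) = 0 := g2c_two
  rw [show g2x 9 v * g2x 7 u = g2E 0 0 0 v 0 0 * g2x 7 u by rw [g2E_9], g2E_x7, g2E_x8, g2E_x7, g2E_x9]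
  exact g2E_congr
    (by linear_combination (0 : F) * h2)
    (by linear_combination (u) * h2)
    (by linear_combination (0 : F) * h2)
    (by linear_combination (v) * h2)
    (by linear_combination (u*v) * h2)
    (by linear_combination (0 : F) * h2)

theorem g2_conjC2 [CharP F 2] (d u v : F) :
    g2x 8 v * g2x 7 u * g2x 9 d * g2x 7 u * g2x 8 v =
      g2E 0 0 0 d (d * u) (d * v) := by
  have h2 : (2 : F) = 0 := g2c_two
  rw [show g2x 8 v * g2x 7 u = g2E 0 0 v 0 0 0 * g2x 7 u by rw [g2E_8], g2E_x7, g2E_x9, g2E_x7, g2E_x8]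
  exact g2E_congr
    (by linear_combination (0 : F) * h2)
    (by linear_combination (u) * h2)
    (by linear_combination (v) * h2)
    (by linear_combination (0 : F) * h2)
    (by linear_combination (u^2*v) * h2)
    (by linear_combination (u*v^2) * h2)

theorem g2_conjC3 [CharP F 2] (e u : F) :
    g2x 6 u * g2x 10 e * g2x 6 u =
      g2E 0 0 0 0 e (e * u) := by
  have h2 : (2 : F) = 0 := g2c_two
  rw [show g2x 6 u * g2x 10 e = g2E u 0 0 0 0 0 * g2x 10 e by rw [g2E_6], g2E_x10, g2E_x6]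
  exact g2E_congr
    (by linear_combination (u) * h2)
    (by linear_combination (0 : F) * h2)
    (by linear_combination (0 : F) * h2)
    (by linear_combination (0 : F) * h2)
    (by linear_combination (0 : F) * h2)
    (by linear_combination (0 : F) * h2)


/-! ### Conjugacy in the group -/

/-- Conjugacy in the group `G₂(F)`. -/
def G2Conj (x y : GL chevG2.Idx F) : Prop := ∃ h ∈ chevG2.group F, h * x * h⁻¹ = y

theorem G2Conj.trans {x y z : GL chevG2.Idx F} (h1 : G2Conj x y) (h2 : G2Conj y z) :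
    G2Conj x z := by
  obtain ⟨a, ha, rfl⟩ := h1
  obtain ⟨b, hb, rfl⟩ := h2
  exact ⟨b * a, mul_mem hb ha, by group⟩

theorem G2Conj.symm {x y : GL chevG2.Idx F} (h : G2Conj x y) : G2Conj y x := by
  obtain ⟨a, ha, rfl⟩ := h
  exact ⟨a⁻¹, inv_mem ha, by group⟩

theorem g2_conjA' [CharP F 2] (a u w v : F) :
    G2Conj (g2x 7 a) (g2E 0 a (a * u) (a ^ 2 * u) (a * v + a ^ 2 * w + a ^ 3 * u)
      (a * u * v + a * w ^ 2 + a ^ 2 * u * w)) := by
  refine ⟨g2x 9 v * g2x 8 w * g2x 6 u,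
    mul_mem (mul_mem (g2x_mem _ _) (g2x_mem _ _)) (g2x_mem _ _), ?_⟩
  rw [← g2_conjA a u w v, _root_.mul_inv_rev, _root_.mul_inv_rev, g2x_inv, g2x_inv, g2x_inv]
  simp only [mul_assoc]

theorem g2_conjB' [CharP F 2] (b d u v : F) :
    G2Conj (g2x 6 b * g2x 9 d)
      (g2E b 0 (b * u) (b * u ^ 2 + d) (b * u ^ 3 + d * u) (b * v + b ^ 2 * u ^ 3)) := by
  refine ⟨g2x 10 v * g2x 7 u, mul_mem (g2x_mem _ _) (g2x_mem _ _), ?_⟩
  rw [← g2_conjB b d u v, _root_.mul_inv_rev, g2x_inv, g2x_inv]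
  simp only [mul_assoc]

theorem g2_conjC1' [CharP F 2] (c u v : F) :
    G2Conj (g2x 8 c) (g2E 0 0 c 0 (c * u ^ 2) (c * v + c ^ 2 * u)) := by
  refine ⟨g2x 9 v * g2x 7 u, mul_mem (g2x_mem _ _) (g2x_mem _ _), ?_⟩
  rw [← g2_conjC1 c u v, _root_.mul_inv_rev, g2x_inv, g2x_inv]
  simp only [mul_assoc]

theorem g2_conjC2' [CharP F 2] (d u v : F) :
    G2Conj (g2x 9 d) (g2E 0 0 0 d (d * u) (d * v)) := by
  refine ⟨g2x 8 v * g2x 7 u, mul_mem (g2x_mem _ _) (g2x_mem _ _), ?_⟩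
  rw [← g2_conjC2 d u v, _root_.mul_inv_rev, g2x_inv, g2x_inv]
  simp only [mul_assoc]

theorem g2_conjC3' [CharP F 2] (e u : F) :
    G2Conj (g2x 10 e) (g2E 0 0 0 0 e (e * u)) := by
  refine ⟨g2x 6 u, g2x_mem _ _, ?_⟩
  rw [← g2_conjC3 e u, g2x_inv]

/-! ### Conjugation by the torus and by the Weyl group -/

theorem g2_torus (r : ℕ) (hr : r < chevG2.nroots) (i0 : Fin chevG2.rank)
    (h1 : chevG2.cartan i0.val r = 1)
    (h0 : ∀ i : Fin chevG2.rank, i ≠ i0 → chevG2.cartan i.val r = 0) (c : F) (hc : c ≠ 0) :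
    G2Conj (g2x r c) (g2x r 1) := by
  classical
  have hprod : (∏ i : Fin chevG2.rank,
      (if i = i0 then (Units.mk0 c hc)⁻¹ else (1 : Fˣ)) ^ chevG2.cartan i.val r) =
      (Units.mk0 c hc)⁻¹ := by
    rw [Finset.prod_eq_single i0]
    · rw [if_pos rfl, h1, zpow_one]
    · intro i _ hi
      rw [h0 i hi, zpow_zero]
    · intro h
      exact absurd (Finset.mem_univ _) h
  have e := phi_mul_x chevG2 (by simp)
    (fun i : Fin chevG2.rank => if i = i0 then (Units.mk0 c hc)⁻¹ else (1 : Fˣ)) r hr c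
  rw [hprod] at e
  have e2 : (((Units.mk0 c hc)⁻¹ : Fˣ) : F) * c = 1 := by
    rw [Units.val_inv_eq_inv_val, Units.val_mk0, inv_mul_cancel₀ hc]
  rw [e2] at e
  refine ⟨phi chevG2 (fun i : Fin chevG2.rank =>
    if i = i0 then (Units.mk0 c hc)⁻¹ else (1 : Fˣ)), ?_, ?_⟩
  · apply diagonalSubgroup_le_group chevG2 g2c_mem
    rw [← phi_range chevG2 g2c_mem]
    exact ⟨_, rfl⟩
  · rw [mul_inv_eq_iff_eq_mul]
    exact Units.ext e

/-- The element `n_{p_i}` of the group. -/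
def g2n (F : Type*) [Field F] (i : ℕ) : GL chevG2.Idx F :=
  g2x (chevG2.simple i) 1 * (g2x (chevG2.neg (chevG2.simple i)) (-1) * g2x (chevG2.simple i) 1)

theorem g2n_mem (i : ℕ) : g2n F i ∈ chevG2.group F :=
  mul_mem (g2x_mem _ _) (mul_mem (g2x_mem _ _) (g2x_mem _ _))

theorem g2n_val (i : ℕ) : ((g2n F i : GL chevG2.Idx F) : Matrix chevG2.Idx chevG2.Idx F) =
    chevG2.nMat F (chevG2.simple i) 1 := by
  rw [nMat_eq_x, inv_one]
  rfl

theorem g2n_conj (i : ℕ) (hi : i < chevG2.rank) (s : ℕ) (hs : s < chevG2.nroots) (c : F)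
    (hc : c ≠ 0) :
    ∃ c' : F, c' ≠ 0 ∧ g2n F i * g2x s c * (g2n F i)⁻¹ = g2x (chevG2.reflectRoot i s) c' := by
  have h := n_simple_conj (F := F) chevG2 (by simp) i hi s hs c
  refine ⟨((nEta chevG2 i s : ℤ) : F) * c, mul_ne_zero ?_ hc, ?_⟩
  · rcases nEta_cases chevG2 i s with h' | h' <;> rw [h'] <;> simp
  · rw [mul_inv_eq_iff_eq_mul]
    apply Units.ext
    rw [Units.val_mul, Units.val_mul, g2n_val]
    exact h

theorem g2_short9 (c : F) (hc : c ≠ 0) : G2Conj (g2x 9 c) (g2x 9 1) :=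
  g2_torus 9 (by decide) ⟨0, by decide⟩ (by decide +kernel) (fun i hi => by
    have hlt : i.val < 2 := i.isLt
    have hne : i.val ≠ 0 := fun h => hi (Fin.ext h)
    have h1 : i.val = 1 := by omega
    rw [h1]
    decide +kernel) c hc

theorem g2_short8 (c : F) (hc : c ≠ 0) : G2Conj (g2x 8 c) (g2x 9 1) := by
  obtain ⟨c', hc', e⟩ := g2n_conj (F := F) 0 (by decide) 8 (by decide) c hc
  rw [show chevG2.reflectRoot 0 8 = 9 by decide +kernel] at e
  exact G2Conj.trans ⟨g2n F 0, g2n_mem 0, e⟩ (g2_short9 c' hc')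

theorem g2_short7 (c : F) (hc : c ≠ 0) : G2Conj (g2x 7 c) (g2x 9 1) := by
  obtain ⟨c', hc', e⟩ := g2n_conj (F := F) 1 (by decide) 7 (by decide) c hc
  rw [show chevG2.reflectRoot 1 7 = 8 by decide +kernel] at e
  exact G2Conj.trans ⟨g2n F 1, g2n_mem 1, e⟩ (g2_short8 c' hc')

theorem g2_long11 (c : F) (hc : c ≠ 0) : G2Conj (g2x 11 c) (g2x 11 1) :=
  g2_torus 11 (by decide) ⟨1, by decide⟩ (by decide +kernel) (fun i hi => by
    have hlt : i.val < 2 := i.isLt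
    have hne : i.val ≠ 1 := fun h => hi (Fin.ext h)
    have h1 : i.val = 0 := by omega
    rw [h1]
    decide +kernel) c hc

theorem g2_long10 (c : F) (hc : c ≠ 0) : G2Conj (g2x 10 c) (g2x 11 1) := by
  obtain ⟨c', hc', e⟩ := g2n_conj (F := F) 1 (by decide) 10 (by decide) c hc
  rw [show chevG2.reflectRoot 1 10 = 11 by decide +kernel] at e
  exact G2Conj.trans ⟨g2n F 1, g2n_mem 1, e⟩ (g2_long11 c' hc')

theorem g2_long6 (c : F) (hc : c ≠ 0) : G2Conj (g2x 6 c) (g2x 11 1) := by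
  obtain ⟨c', hc', e⟩ := g2n_conj (F := F) 0 (by decide) 6 (by decide) c hc
  rw [show chevG2.reflectRoot 0 6 = 10 by decide +kernel] at e
  exact G2Conj.trans ⟨g2n F 0, g2n_mem 0, e⟩ (g2_long10 c' hc')

end

end Cfsg.Agent.Lib.Helper25
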