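import Cfsg.Agent.Lib.Helper25.ChevG2F

/-!
# The two classes of involutions of `G₂` in characteristic two (main theorems)
-/

set_option autoImplicit false

namespace Cfsg.Agent.Lib.Helper25

open Cfsg.Lie Matrix
open Cfsg.Agent.Lib.Helper24

section

variable {F : Type*} [Field F]

/-! ### Involutions of `U` -/

theorem g2_shortE [Fintype F] [CharP F 2] (γ ε ζ : F) (hγ : γ ≠ 0) :
    G2Conj (g2E 0 0 γ 0 ε ζ) (g2x 9 1) := by
  have hchar : ringChar F = 2 := ringChar.eq F 2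
  obtain ⟨u, hu⟩ := FiniteField.isSquare_of_char_two hchar (ε / γ)
  have e := g2_conjC1' γ u ((ζ - γ ^ 2 * u) / γ)
  have e1 : γ * u ^ 2 = ε := by
    rw [pow_two, ← hu]
    field_simp
  have e2 : γ * ((ζ - γ ^ 2 * u) / γ) + γ ^ 2 * u = ζ := by
    field_simp
    ring
  rw [e1, e2] at e
  exact e.symm.trans (g2_short8 γ hγ)

theorem g2_mixed [Fintype F] [CharP F 2] (β d : F) (hβ : β ≠ 0) (hd : d ≠ 0) :
    G2Conj (g2x 6 β * g2x 9 d) (g2x 9 1) := by
  obtain ⟨c1, hc1, e1⟩ := g2n_conj (F := F) 0 (by decide) 6 (by decide) β hβ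
  obtain ⟨c2, hc2, e2⟩ := g2n_conj (F := F) 0 (by decide) 9 (by decide) d hd
  rw [show chevG2.reflectRoot 0 6 = 10 by decide +kernel] at e1
  rw [show chevG2.reflectRoot 0 9 = 8 by decide +kernel] at e2
  have e3 : g2n F 0 * (g2x 6 β * g2x 9 d) * (g2n F 0)⁻¹ = g2x 10 c1 * g2x 8 c2 := by
    rw [← e1, ← e2]
    group
  have e4 : g2x 10 c1 * g2x 8 c2 = g2E 0 0 c2 0 c1 0 := by
    rw [(g2c_comm 8 10 (by decide) (by decide) (by decide) (by decide +kernel) c2 c1).eq,
      ← g2E_8 c2, g2E_x10, zero_add]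
  exact G2Conj.trans ⟨g2n F 0, g2n_mem 0, e3.trans e4⟩ (g2_shortE c2 c1 0 hc2)

/-- Every involution of `U` is conjugate in the group to `x₁₁(1)` or to `x₉(1)`. -/
theorem g2_invol_U [Fintype F] [CharP F 2] (t : GL chevG2.Idx F)
    (ht : t ∈ chevG2.posUnipotent F) (h2 : t * t = 1) (h1 : t ≠ 1) :
    G2Conj t (g2x 11 1) ∨ G2Conj t (g2x 9 1) := by
  obtain ⟨β, α, γ, δ, ε, ζ, rfl⟩ := g2E_exists t ht
  obtain ⟨c1, c2, c3⟩ := g2E_sq β α γ δ ε ζ h2
  have htwo : (2 : F) = 0 := g2c_two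
  have hchar : ringChar F = 2 := ringChar.eq F 2
  by_cases hα : α = 0
  · subst hα
    by_cases hβ : β = 0
    · subst hβ
      have c3' : γ * δ = 0 := by linear_combination c3
      by_cases hγ : γ = 0
      · subst hγ
        by_cases hδ : δ = 0
        · subst hδ
          by_cases hε : ε = 0
          · subst hε
            left
            rw [g2E_11]
            have hζ : ζ ≠ 0 := by
              rintro rfl
              exact h1 g2E_one
            exact g2_long11 ζ hζ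
          · left
            have e := g2_conjC3' ε (ζ / ε)
            rw [show ε * (ζ / ε) = ζ by field_simp] at e
            exact e.symm.trans (g2_long10 ε hε)
        · right
          have e := g2_conjC2' δ (ε / δ) (ζ / δ)
          rw [show δ * (ε / δ) = ε by field_simp, show δ * (ζ / δ) = ζ by field_simp] at e
          exact e.symm.trans (g2_short9 δ hδ)
      · right
        have hδ : δ = 0 := by
          rcases mul_eq_zero.1 c3' with h | h
          · exact absurd h hγ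
          · exact h
        subst hδ
        exact g2_shortE γ ε ζ hγ
    · -- `α = 0`, `β ≠ 0`
      obtain ⟨u, hu⟩ : ∃ u : F, β * u = γ := ⟨γ / β, by field_simp⟩
      obtain ⟨v, hv⟩ : ∃ v : F, β * v + β ^ 2 * u ^ 3 = ζ :=
        ⟨(ζ - β ^ 2 * u ^ 3) / β, by field_simp; ring⟩
      have hε : ε = δ * u := by
        have h0 : β * (ε + δ * u) = 0 := by linear_combination c3 + δ * hu
        rcases mul_eq_zero.1 h0 with h | h
        · exact absurd h hβ
        · linear_combination h - (δ * u) * htwo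
      have e := g2_conjB' β (δ - β * u ^ 2) u v
      have e' : g2E β 0 (β * u) (β * u ^ 2 + (δ - β * u ^ 2))
          (β * u ^ 3 + (δ - β * u ^ 2) * u) (β * v + β ^ 2 * u ^ 3) = g2E β 0 γ δ ε ζ :=
        g2E_congr rfl rfl hu (by ring) (by rw [hε]; ring) hv
      rw [e'] at e
      by_cases hd : δ - β * u ^ 2 = 0
      · left
        rw [hd, show g2x (F := F) 9 0 = 1 from xGL_zero chevG2 g2c_mem 9, mul_one] at e
        exact e.symm.trans (g2_long6 β hβ)
      · right
        exact e.symm.trans (g2_mixed β _ hβ hd)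
  · -- `α ≠ 0`
    right
    have hβ : β = 0 := by
      rcases mul_eq_zero.1 c1 with h | h
      · exact absurd h hα
      · exact h
    subst hβ
    have hδ : δ = α * γ := by
      rcases mul_eq_zero.1 c2 with h | h
      · exact absurd h hα
      · linear_combination h - (α * γ) * htwo
    subst hδ
    obtain ⟨u, hu⟩ : ∃ u : F, α * u = γ := ⟨γ / α, by field_simp⟩
    obtain ⟨w, hw⟩ := FiniteField.isSquare_of_char_two hchar ((ζ - u * ε + α * γ ^ 2) / α)
    have hw' : α * (w * w) = ζ - u * ε + α * γ ^ 2 := by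
      rw [← hw]
      field_simp
    obtain ⟨v, hv⟩ : ∃ v : F, α * v = ε - α ^ 2 * w - α ^ 2 * γ :=
      ⟨(ε - α ^ 2 * w - α ^ 2 * γ) / α, by field_simp⟩
    have e := g2_conjA' α u w v
    have e' : g2E 0 α (α * u) (α ^ 2 * u) (α * v + α ^ 2 * w + α ^ 3 * u)
        (α * u * v + α * w ^ 2 + α ^ 2 * u * w) = g2E 0 α γ (α * γ) ε ζ :=
      g2E_congr rfl rfl hu (by linear_combination α * hu)
        (by linear_combination hv + α ^ 2 * hu)
        (by linear_combination u * hv + hw' - α * γ * hu)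
    rw [e'] at e
    exact e.symm.trans (g2_short7 α hα)

/-! ### Conjugation into `U` -/

theorem g2_sylow_conj [Fintype F] [CharP F 2] (g : GL chevG2.Idx F) (hg : g ∈ chevG2.group F)
    (ho : orderOf g = 2) : ∃ h ∈ chevG2.group F, h * g * h⁻¹ ∈ chevG2.posUnipotent F := by
  have : Fact (Nat.Prime 2) := ⟨Nat.prime_two⟩
  obtain ⟨P, hP⟩ := posUnipotent_sylow (F := F) 2 chevG2 (by simp)
  have ho' : orderOf (⟨g, hg⟩ : ↥(chevG2.group F)) = 2 := by
    rw [← ho]
    exact Subgroup.orderOf_mk g hg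
  have hpg : IsPGroup 2 ↥(Subgroup.zpowers (⟨g, hg⟩ : ↥(chevG2.group F))) := by
    apply IsPGroup.of_card (n := 1)
    rw [Nat.card_zpowers, ho', pow_one]
  obtain ⟨Q, hQ⟩ := hpg.exists_le_sylow
  obtain ⟨k, hk⟩ := MulAction.exists_smul_eq ↥(chevG2.group F) Q P
  refine ⟨k.val, k.property, ?_⟩
  have h1 : (⟨g, hg⟩ : ↥(chevG2.group F)) ∈ (Q : Subgroup ↥(chevG2.group F)) :=
    hQ (Subgroup.mem_zpowers _)
  have h2 : k * (⟨g, hg⟩ : ↥(chevG2.group F)) * k⁻¹ ∈ (P : Subgroup ↥(chevG2.group F)) := by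
    rw [← hk, Sylow.coe_subgroup_smul]
    exact Subgroup.smul_mem_pointwise_smul _ (MulAut.conj k) _ h1
  rw [hP] at h2
  exact Subgroup.mem_subgroupOf.1 h2

/-- Every involution of the group is conjugate to `x₁₁(1)` or to `x₉(1)`. -/
theorem g2_invol_class [Fintype F] [CharP F 2] (g : GL chevG2.Idx F)
    (hg : g ∈ chevG2.group F) (ho : orderOf g = 2) :
    G2Conj g (g2x 11 1) ∨ G2Conj g (g2x 9 1) := by
  obtain ⟨h, hh, hU⟩ := g2_sylow_conj g hg ho
  have hgg : g * g = 1 := by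
    rw [← pow_two, ← ho]
    exact pow_orderOf_eq_one g
  have h2 : (h * g * h⁻¹) * (h * g * h⁻¹) = 1 := by
    calc (h * g * h⁻¹) * (h * g * h⁻¹) = h * (g * g) * h⁻¹ := by group
      _ = 1 := by rw [hgg]; group
  have h1 : h * g * h⁻¹ ≠ 1 := by
    intro e
    have e' : g = h⁻¹ * (h * g * h⁻¹) * h := by group
    rw [e, mul_one, inv_mul_cancel] at e'
    rw [e', orderOf_one] at ho
    exact absurd ho (by norm_num)
  have hc : G2Conj g (h * g * h⁻¹) := ⟨h, hh, rfl⟩
  rcases g2_invol_U _ hU h2 h1 with e | e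
  · exact Or.inl (hc.trans e)
  · exact Or.inr (hc.trans e)

/-! ### The two classes are distinct -/

theorem g2c_long_closed : ∀ i < chevG2.rank, ∀ r ∈ [0, 1, 5, 6, 10, 11],
    chevG2.reflectRoot i r ∈ [0, 1, 5, 6, 10, 11] := by decide +kernel

theorem g2c_wPi_long (L : List ℕ) (hL : ∀ i ∈ L, i < chevG2.rank) :
    wPi chevG2 L 11 ∈ [0, 1, 5, 6, 10, 11] := by
  induction L with
  | nil => decide
  | cons i L ih =>
    rw [wPi_cons]
    exact g2c_long_closed i (hL i List.mem_cons_self) _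
      (ih (fun j hj => hL j (List.mem_cons_of_mem _ hj)))

theorem g2c_even11 : ∀ r < chevG2.nroots, chevG2.IsPosRoot r → evenChk chevG2 11 r = true := by
  decide +kernel

theorem g2_U_comm11 [CharP F 2] (u : GL chevG2.Idx F) (hu : u ∈ chevG2.posUnipotent F) :
    Commute u (g2x 11 1) := by
  have hle : chevG2.posUnipotent F ≤ Subgroup.centralizer {g2x (F := F) 11 1} := by
    unfold ChevalleyDatum.posUnipotent
    rw [Subgroup.closure_le]
    rintro g ⟨r, t, hr, hg⟩
    have hg' : g = g2x r t := Units.ext hg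
    rw [SetLike.mem_coe, Subgroup.mem_centralizer_iff]
    intro y hy
    rw [Set.mem_singleton_iff] at hy
    subst hy
    rw [hg']
    obtain ⟨h1, h2, h3, h4⟩ := evenChk_spec chevG2 11 r (g2c_even11 r hr.1 hr)
    exact (g2c_comm 11 r h1 h2 h3 h4 1 t).eq.symm
  exact (Subgroup.mem_centralizer_iff.1 (hle hu) _ rfl).symm

/-- The long root involution `x₁₁(1)` is not conjugate to the short root involution `x₉(1)`. -/
theorem g2_not_conj [CharP F 2] : ¬ G2Conj (g2x (F := F) 11 1) (g2x 9 1) := by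
  rintro ⟨h, hh, he⟩
  have hD : chevG2 ∈ [chevG2, chevB2, chevD4, chevF4, chevE6, chevE7, chevE8] := by simp
  have hD' : chevG2 ∈ chevList := g2c_mem
  have hHU : chevG2.diagonalSubgroup F ≤
      Subgroup.normalizer (chevG2.posUnipotent F : Set (GL chevG2.Idx F)) :=
    diagonal_le_normalizer_rootGen chevG2 hD' chevG2.IsPosRoot (fun r hr => hr.1)
  obtain ⟨b, hb', n, hn, u', hu', rfl⟩ := bruhat_exists chevG2 hD h hh
  obtain ⟨u, hu, h₀, hh₀, rfl⟩ := mem_sup_of_le_normalizer _ _ hHU _ hb'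
  have hu'U : u' ∈ chevG2.posUnipotent F := by
    have hle : Subgroup.closure {x : GL chevG2.Idx F | ∃ (r : ℕ) (t : F), chevG2.IsPosRoot r ∧
        (chevG2.rootSubgroup F r).map (MulAut.conj n).toMonoidHom ≤ chevG2.negUnipotent F ∧
        (x : Matrix chevG2.Idx chevG2.Idx F) = chevG2.x F r t} ≤ chevG2.posUnipotent F := by
      unfold ChevalleyDatum.posUnipotent
      apply Subgroup.closure_mono
      rintro x ⟨r, t, hr, _, hx⟩
      exact ⟨r, t, hr, hx⟩
    exact hle hu'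
  have hc11 : u' * g2x 11 1 = g2x 11 1 * u' := (g2_U_comm11 u' hu'U).eq
  have hmN : h₀ * n ∈ chevG2.monomialSubgroup F := mul_mem (Subgroup.mem_sup_left hh₀) hn
  have e1 : (h₀ * n) * g2x 11 1 * (h₀ * n)⁻¹ = u⁻¹ * g2x 9 1 * u := by
    rw [← he]
    calc (h₀ * n) * g2x 11 1 * (h₀ * n)⁻¹
        = (h₀ * n) * (g2x 11 1 * u') * u'⁻¹ * (h₀ * n)⁻¹ := by group
      _ = (h₀ * n) * (u' * g2x 11 1) * u'⁻¹ * (h₀ * n)⁻¹ := by rw [hc11]
      _ = u⁻¹ * (u * h₀ * n * u' * g2x 11 1 * (u * h₀ * n * u')⁻¹) * u := by group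
  clear he hc11 hb'
  generalize h₀ * n = m at hmN e1
  obtain ⟨L, hL, hact⟩ := monomial_act chevG2 hD (orb_all chevG2 hD) m hmN
  obtain ⟨κ, hκ, act⟩ := hact 11 (by decide)
  have e5 : m * g2x 11 1 = g2x (wPi chevG2 L 11) (κ * 1) * m := Units.ext (act 1)
  obtain ⟨b6, b7, b8, m9, hm9, hum⟩ := g2c_U_decomp u⁻¹ (inv_mem hu)
  have f2 := g2c_conj_formula b6 b7 b8 m9 hm9 (1 : F) 0 0
  rw [← hum, g2T_zero] at f2
  have e2 : u⁻¹ * g2x 9 1 * u = g2T 1 (1 * b7 + 0) ((1 * b7 + 0) * b6 + (1 * b8 + 0)) := by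
    rw [f2]
    group
  have e6 : g2x (wPi chevG2 L 11) (κ * 1) =
      g2T 1 (1 * b7 + 0) ((1 * b7 + 0) * b6 + (1 * b8 + 0)) :=
    (eq_mul_inv_of_mul_eq e5.symm).trans (e1.trans e2)
  have hs : wPi chevG2 L 11 < chevG2.nroots := wPi_lt chevG2 hD L hL 11 (by decide)
  have hM : chevG2.wordMat F [((9 : ℕ), (1 : F)), (10, 1 * b7 + 0),
      (11, (1 * b7 + 0) * b6 + (1 * b8 + 0))] =
      chevG2.wordMat F [(wPi chevG2 L 11, κ * 1)] := by
    have e7 := congrArg (fun g : GL chevG2.Idx F => (g : Matrix chevG2.Idx chevG2.Idx F)) e6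
    simp only [g2T, Units.val_mul, xGL_val] at e7
    simp only [wordMat_cons', wordMat_nil', Matrix.mul_one]
    rw [e7]
    simp only [Matrix.mul_assoc]
  have hw1 : WordGood chevG2 [((9 : ℕ), (1 : F)), (10, 1 * b7 + 0),
      (11, (1 * b7 + 0) * b6 + (1 * b8 + 0))] := by
    refine ⟨?_, ?_⟩
    · intro p hp
      simp only [List.mem_cons, List.not_mem_nil, or_false] at hp
      rcases hp with rfl | rfl | rfl
      · show (9 : ℕ) < chevG2.nroots
        decide
      · show (10 : ℕ) < chevG2.nroots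
        decide
      · show (11 : ℕ) < chevG2.nroots
        decide
    · have k1 : (10 : ℕ) ≠ 9 ∧ 10 ≠ chevG2.neg 9 ∧ cent chevG2 9 10 = [] := by decide +kernel
      have k2 : (11 : ℕ) ≠ 9 ∧ 11 ≠ chevG2.neg 9 ∧ cent chevG2 9 11 = [] := by decide +kernel
      have k3 : (11 : ℕ) ≠ 10 ∧ 11 ≠ chevG2.neg 10 ∧ cent chevG2 10 11 = [] := by decide +kernel
      simp only [List.pairwise_cons, List.mem_cons, List.not_mem_nil, or_false, forall_eq_or_imp,
        forall_eq, List.Pairwise.nil, and_true, IsEmpty.forall_iff, implies_true]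
      exact ⟨⟨k1, k2⟩, k3⟩
  have hw2 : WordGood chevG2 [(wPi chevG2 L 11, κ * 1)] := by
    refine ⟨?_, List.pairwise_singleton _ _⟩
    intro p hp
    rw [List.mem_singleton] at hp
    rw [hp]
    exact hs
  obtain ⟨p', hp', e8, -⟩ := word_support chevG2 _ _ hw1 hw2 hM (9, 1) (by simp) one_ne_zero 0
    (by decide) (show chevG2.cartan 0 9 % 2 = 1 by decide +kernel)
  rw [List.mem_singleton] at hp'
  rw [hp'] at e8
  have e9 : wPi chevG2 L 11 = 9 := e8
  have hlong := g2c_wPi_long L hL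
  rw [e9] at hlong
  exact absurd hlong (by decide)

/-! ### The statement -/

theorem g2x_order [CharP F 2] (r : ℕ) (hr : r < chevG2.nroots) :
    orderOf (g2x (F := F) r 1) = 2 := by
  have : Fact (Nat.Prime 2) := ⟨Nat.prime_two⟩
  apply orderOf_eq_prime
  · rw [pow_two]
    unfold g2x
    rw [← xGL_add chevG2 g2c_mem r hr, CharTwo.add_self_eq_zero, xGL_zero]
  · intro h
    exact x_ne_one chevG2 (by simp) r hr (1 : F) one_ne_zero
      (congrArg (fun g : GL chevG2.Idx F => (g : Matrix chevG2.Idx chevG2.Idx F)) h)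

/-- The conjugacy classes of involutions of `G₂` over a finite field of characteristic two. -/
theorem g2_invol_main [Fintype F] [CharP F 2] :
    (∀ y : GL chevG2.Idx F, (y : Matrix chevG2.Idx chevG2.Idx F) ∈
        [chevG2.x F 11 1, chevG2.x F 9 1] → y ∈ chevG2.group F ∧ orderOf y = 2) ∧
    (∀ g ∈ chevG2.group F, orderOf g = 2 → ∃ y ∈ chevG2.group F,
      (y : Matrix chevG2.Idx chevG2.Idx F) ∈ [chevG2.x F 11 1, chevG2.x F 9 1] ∧
        ∃ h ∈ chevG2.group F, h * g * h⁻¹ = y) ∧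
    (∀ y₁ ∈ chevG2.group F, ∀ y₂ ∈ chevG2.group F,
      (y₁ : Matrix chevG2.Idx chevG2.Idx F) ∈ [chevG2.x F 11 1, chevG2.x F 9 1] →
      (y₂ : Matrix chevG2.Idx chevG2.Idx F) ∈ [chevG2.x F 11 1, chevG2.x F 9 1] →
      (∃ h ∈ chevG2.group F, h * y₁ * h⁻¹ = y₂) →
      (y₁ : Matrix chevG2.Idx chevG2.Idx F) = (y₂ : Matrix chevG2.Idx chevG2.Idx F)) := by
  have key : ∀ y : GL chevG2.Idx F, (y : Matrix chevG2.Idx chevG2.Idx F) ∈
      [chevG2.x F 11 1, chevG2.x F 9 1] → y = g2x 11 1 ∨ y = g2x 9 1 := by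
    intro y hy
    simp only [List.mem_cons, List.not_mem_nil, or_false] at hy
    rcases hy with h | h
    · exact Or.inl (Units.ext h)
    · exact Or.inr (Units.ext h)
  refine ⟨?_, ?_, ?_⟩
  · intro y hy
    rcases key y hy with rfl | rfl
    · exact ⟨g2x_mem 11 1, g2x_order 11 (by decide)⟩
    · exact ⟨g2x_mem 9 1, g2x_order 9 (by decide)⟩
  · intro g hg ho
    rcases g2_invol_class g hg ho with ⟨h, hh, e⟩ | ⟨h, hh, e⟩
    · exact ⟨g2x 11 1, g2x_mem 11 1, List.mem_cons_self, h, hh, e⟩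
    · exact ⟨g2x 9 1, g2x_mem 9 1, List.mem_cons_of_mem _ List.mem_cons_self, h, hh, e⟩
  · intro y₁ _ y₂ _ h1 h2 hc
    rcases key y₁ h1 with rfl | rfl <;> rcases key y₂ h2 with rfl | rfl
    · rfl
    · exact absurd hc g2_not_conj
    · exfalso
      obtain ⟨h, hh, e⟩ := hc
      exact g2_not_conj ⟨h⁻¹, inv_mem hh, by rw [← e]; group⟩
    · rfl

end

end Cfsg.Agent.Lib.Helper25
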