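import Cfsg.Agent.Lib.Helper25.ChevCent2Data
import Cfsg.Agent.Lib.Helper25.ChevCountU

/-!
# Pairs of conjugate long root subgroups in characteristic two
-/

set_option autoImplicit false
set_option maxHeartbeats 400000

namespace Cfsg.Agent.Lib.Helper25

open Cfsg.Lie Matrix
open Cfsg.Agent.Lib.Helper24

/-- Conjugation by a product. -/
theorem map_conj_mul {G : Type*} [Group G] (a b : G) (K : Subgroup G) :
    K.map (MulAut.conj (a * b)).toMonoidHom =
      (K.map (MulAut.conj b).toMonoidHom).map (MulAut.conj a).toMonoidHom := by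
  rw [Subgroup.map_map]
  congr 1
  ext x
  simp [mul_assoc]

/-- Conjugation by an element commuting with every element of the subgroup. -/
theorem map_conj_eq_of_commute {G : Type*} [Group G] (K : Subgroup G) (u : G)
    (h : ∀ x ∈ K, u * x = x * u) : K.map (MulAut.conj u).toMonoidHom = K := by
  apply le_antisymm
  · rintro _ ⟨x, hx, rfl⟩
    have e : (MulAut.conj u).toMonoidHom x = x := by
      show u * x * u⁻¹ = x
      rw [h x hx, mul_inv_cancel_right]
    rw [e]
    exact hx
  · intro x hx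
    refine ⟨x, hx, ?_⟩
    show u * x * u⁻¹ = x
    rw [h x hx, mul_inv_cancel_right]

/-- Conjugation by the identity. -/
theorem map_conj_one {G : Type*} [Group G] (K : Subgroup G) :
    K.map (MulAut.conj (1 : G)).toMonoidHom = K :=
  map_conj_eq_of_commute K 1 (fun x _ => by rw [one_mul, mul_one])

section

variable {F : Type*} [Field F]

/-- An element that moves the root elements of `s` to those of `s'` conjugates the root subgroup
of `s` onto that of `s'`. -/
theorem map_conj_rootSubgroup (D : ChevalleyDatum) (n : GL D.Idx F) (s s' : ℕ) (c : F)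
    (hc : c ≠ 0) (h : ∀ t : F, (n : Matrix D.Idx D.Idx F) * D.x F s t =
      D.x F s' (c * t) * (n : Matrix D.Idx D.Idx F)) :
    (D.rootSubgroup F s).map (MulAut.conj n).toMonoidHom = D.rootSubgroup F s' := by
  have hconj : ∀ (g : GL D.Idx F) (t : F), (g : Matrix D.Idx D.Idx F) = D.x F s t →
      ((n * g * n⁻¹ : GL D.Idx F) : Matrix D.Idx D.Idx F) = D.x F s' (c * t) := by
    intro g t hg
    rw [Units.val_mul, Units.val_mul, hg, h t, Matrix.mul_assoc, ← Units.val_mul,
      mul_inv_cancel, Units.val_one, Matrix.mul_one]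
  apply le_antisymm
  · unfold ChevalleyDatum.rootSubgroup
    rw [Subgroup.map_le_iff_le_comap, Subgroup.closure_le]
    rintro g ⟨t, hg⟩
    rw [SetLike.mem_coe, Subgroup.mem_comap]
    exact Subgroup.subset_closure ⟨c * t, hconj g t hg⟩
  · unfold ChevalleyDatum.rootSubgroup
    rw [Subgroup.closure_le]
    rintro g ⟨t, hg⟩
    rw [SetLike.mem_coe]
    refine ⟨n⁻¹ * g * n, Subgroup.subset_closure ⟨c⁻¹ * t, ?_⟩, ?_⟩
    · have e1 : (n : Matrix D.Idx D.Idx F) * D.x F s (c⁻¹ * t) =
          (g : Matrix D.Idx D.Idx F) * (n : Matrix D.Idx D.Idx F) := by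
        rw [h (c⁻¹ * t), ← mul_assoc, mul_inv_cancel₀ hc, one_mul, hg]
      rw [Units.val_mul, Units.val_mul, Matrix.mul_assoc, ← e1, ← Matrix.mul_assoc,
        ← Units.val_mul, inv_mul_cancel, Units.val_one, Matrix.one_mul]
    · show n * (n⁻¹ * g * n) * n⁻¹ = g
      group

/-- The root subgroup of a positive root lies in `U`. -/
theorem rootSubgroup_le_posUnipotent (D : ChevalleyDatum) (r : ℕ) (hr : D.IsPosRoot r) :
    D.rootSubgroup F r ≤ D.posUnipotent F := by
  unfold ChevalleyDatum.rootSubgroup ChevalleyDatum.posUnipotent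
  apply Subgroup.closure_mono
  rintro g ⟨t, hg⟩
  exact ⟨r, t, hr, hg⟩

/-- The table conditions for pairs of root subgroups in the orbit of `r₀`: `S` contains `r₀` and
is closed under the fundamental reflections, and every root in `S` other than `-r₀` is either
positive or carried, together with `r₀`, to a positive root by a word of the table. -/
def pairChk (D : ChevalleyDatum) (r₀ : ℕ) (S : List ℕ) (tab : List (ℕ × List ℕ)) : Bool :=
  decide (D.IsPosRoot r₀) && S.contains r₀ &&
  (S.all fun s => decide (s < D.nroots) &&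
    (List.range D.rank).all fun i => S.contains (D.reflectRoot i s)) &&
  (S.all fun s => s == D.neg r₀ || decide (D.IsPosRoot s) ||
    tab.any fun e => e.1 == s && e.2.all (fun j => decide (j < D.rank)) &&
      decide (D.IsPosRoot (wPi D e.2 r₀)) && decide (D.IsPosRoot (wPi D e.2 s)))

theorem pairChk_spec (D : ChevalleyDatum) (r₀ : ℕ) (S : List ℕ) (tab : List (ℕ × List ℕ))
    (h : pairChk D r₀ S tab = true) :
    D.IsPosRoot r₀ ∧ (∀ L : List ℕ, (∀ i ∈ L, i < D.rank) → wPi D L r₀ ∈ S) ∧
    ∀ s ∈ S, s < D.nroots ∧ (s = D.neg r₀ ∨ ∃ L : List ℕ, (∀ j ∈ L, j < D.rank) ∧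
      D.IsPosRoot (wPi D L r₀) ∧ D.IsPosRoot (wPi D L s)) := by
  unfold pairChk at h
  simp only [Bool.and_eq_true, decide_eq_true_eq, List.all_eq_true, List.mem_range,
    Bool.or_eq_true, List.contains_iff_mem, beq_iff_eq, List.any_eq_true] at h
  obtain ⟨⟨⟨h1, h2⟩, h3⟩, h4⟩ := h
  refine ⟨h1, ?_, ?_⟩
  · intro L hL
    induction L with
    | nil => exact h2
    | cons i L ih =>
      rw [wPi_cons]
      exact (h3 _ (ih (fun j hj => hL j (by simp [hj])))).2 i (hL i (by simp))
  · intro s hs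
    refine ⟨(h3 s hs).1, ?_⟩
    rcases h4 s hs with (h' | h') | h'
    · exact Or.inl h'
    · exact Or.inr ⟨[], by simp, h1, h'⟩
    · obtain ⟨e, -, ⟨⟨-, he2⟩, he3⟩, he4⟩ := h'
      exact Or.inr ⟨e.2, he2, he3, he4⟩

/-- Two conjugate root subgroups of a root `r₀` centralised by `U`, in characteristic two:
they generate a `2`-group or a conjugate of `⟨X_{r₀}, X_{-r₀}⟩`. -/
theorem root_pair [Fintype F] [CharP F 2] (D : ChevalleyDatum)
    (hD : D ∈ [chevG2, chevB2, chevD4, chevF4, chevE6, chevE7, chevE8]) (r₀ : ℕ) (Js S : List ℕ)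
    (tab : List (ℕ × List ℕ)) (hchk : centChk D r₀ Js = true) (hpair : pairChk D r₀ S tab = true)
    (g : GL D.Idx F) (hg : g ∈ D.group F) :
    IsPGroup 2 ↥(D.rootSubgroup F r₀ ⊔
      (D.rootSubgroup F r₀).map (MulAut.conj g).toMonoidHom) ∨
    ∃ h ∈ D.group F, (D.rootSubgroup F r₀ ⊔
      (D.rootSubgroup F r₀).map (MulAut.conj g).toMonoidHom).map (MulAut.conj h).toMonoidHom =
        D.rootSubgroup F r₀ ⊔ D.rootSubgroup F (D.neg r₀) := by
  have hD' : D ∈ chevList := hD
  obtain ⟨hr₀, hb, -, -⟩ := centChk_spec D r₀ Js hchk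
  obtain ⟨hr₀pos, horbS, hS⟩ := pairChk_spec D r₀ S tab hpair
  have hcomm : ∀ s, D.IsPosRoot s → ∀ t u : F,
      D.x F s u * D.x F r₀ t = D.x F r₀ t * D.x F s u := by
    intro s hs t u
    by_cases hne : s = r₀
    · rw [hne, x_add D hD' r₀ hr₀, x_add D hD' r₀ hr₀, add_comm]
    · obtain ⟨h1, h2⟩ := (hb s (Or.inl hs)).2 hne
      exact comm_of_even D hD r₀ s hr₀ (hb s (Or.inl hs)).1 h1 h2 t u
  have hUX : ∀ u ∈ D.posUnipotent F, ∀ x ∈ D.rootSubgroup F r₀, u * x = x * u := by
    intro u hu x hx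
    have hle : D.rootSubgroup F r₀ ≤ Subgroup.centralizer {u} := by
      unfold ChevalleyDatum.rootSubgroup
      rw [Subgroup.closure_le]
      rintro y ⟨t, hy⟩
      rw [SetLike.mem_coe, Subgroup.mem_centralizer_iff]
      intro u' hu'
      rw [Set.mem_singleton_iff] at hu'
      subst hu'
      have hle2 : D.posUnipotent F ≤ Subgroup.centralizer {y} := by
        unfold ChevalleyDatum.posUnipotent
        rw [Subgroup.closure_le]
        rintro v ⟨s, c, hs, hv⟩
        rw [SetLike.mem_coe, Subgroup.mem_centralizer_iff]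
        intro y' hy'
        rw [Set.mem_singleton_iff] at hy'
        subst hy'
        apply Units.ext
        rw [Units.val_mul, Units.val_mul, hv, hy]
        exact (hcomm s hs t c).symm
      exact (Subgroup.mem_centralizer_iff.1 (hle2 hu) y rfl).symm
    exact Subgroup.mem_centralizer_iff.1 (hle hx) u rfl
  have hHU : D.diagonalSubgroup F ≤ Subgroup.normalizer (D.posUnipotent F : Set (GL D.Idx F)) :=
    diagonal_le_normalizer_rootGen D hD' D.IsPosRoot (fun r hr => hr.1)
  have hUG : D.posUnipotent F ≤ D.group F :=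
    (le_sup_left : D.posUnipotent F ≤ D.borelSubgroup F).trans (borelSubgroup_le_group D hD')
  obtain ⟨b, hb', n, hn, u', hu', rfl⟩ := bruhat_exists D hD g hg
  obtain ⟨u, hu, h, hh, rfl⟩ := mem_sup_of_le_normalizer _ _ hHU _ hb'
  have hu'U : u' ∈ D.posUnipotent F := by
    have hle : Subgroup.closure {x : GL D.Idx F | ∃ (r : ℕ) (t : F), D.IsPosRoot r ∧
        (D.rootSubgroup F r).map (MulAut.conj n).toMonoidHom ≤ D.negUnipotent F ∧
        (x : Matrix D.Idx D.Idx F) = D.x F r t} ≤ D.posUnipotent F := by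
      unfold ChevalleyDatum.posUnipotent
      apply Subgroup.closure_mono
      rintro x ⟨r, t, hr, _, hx⟩
      exact ⟨r, t, hr, hx⟩
    exact hle hu'
  have hn'N : h * n ∈ D.monomialSubgroup F := mul_mem (Subgroup.mem_sup_left hh) hn
  obtain ⟨L, hL, hact⟩ := monomial_act D hD (orb_all D hD) (h * n) hn'N
  obtain ⟨c, hc0, hcact⟩ := hact r₀ hr₀
  have e1 : (D.rootSubgroup F r₀).map (MulAut.conj (u * h * n * u')).toMonoidHom =
      (D.rootSubgroup F (wPi D L r₀)).map (MulAut.conj u).toMonoidHom := by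
    have e : u * h * n * u' = u * ((h * n) * u') := by group
    rw [e, map_conj_mul, map_conj_mul, map_conj_eq_of_commute _ u' (hUX u' hu'U),
      map_conj_rootSubgroup D (h * n) r₀ (wPi D L r₀) c hc0 hcact]
  have e2 : D.rootSubgroup F r₀ ⊔
      (D.rootSubgroup F r₀).map (MulAut.conj (u * h * n * u')).toMonoidHom =
      (D.rootSubgroup F r₀ ⊔ D.rootSubgroup F (wPi D L r₀)).map (MulAut.conj u).toMonoidHom := by
    rw [Subgroup.map_sup, map_conj_eq_of_commute _ u (hUX u hu), e1]
  obtain ⟨hsn, hs | ⟨L', hL', hp1, hp2⟩⟩ := hS _ (horbS L hL)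
  · right
    refine ⟨u⁻¹, inv_mem (hUG hu), ?_⟩
    rw [e2, ← map_conj_mul, inv_mul_cancel, map_conj_one, hs]
  · left
    obtain ⟨m, hmval, -⟩ := exists_nWordGL (F := F) D hD L' hL'
    have hη : ∀ s, ((wEta D L' s : ℤ) : F) ≠ 0 := by
      intro s
      rcases wEta_cases D L' s with h' | h' <;> rw [h'] <;> simp
    have hm1 : (D.rootSubgroup F r₀).map (MulAut.conj m).toMonoidHom =
        D.rootSubgroup F (wPi D L' r₀) :=
      map_conj_rootSubgroup D m r₀ _ _ (hη r₀)
        (fun t => by rw [hmval]; exact nWordMat_conj D hD L' hL' r₀ hr₀ t)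
    have hm2 : (D.rootSubgroup F (wPi D L r₀)).map (MulAut.conj m).toMonoidHom =
        D.rootSubgroup F (wPi D L' (wPi D L r₀)) :=
      map_conj_rootSubgroup D m _ _ _ (hη _)
        (fun t => by rw [hmval]; exact nWordMat_conj D hD L' hL' _ hsn t)
    have hK : (D.rootSubgroup F r₀ ⊔ D.rootSubgroup F (wPi D L r₀)).map
        (MulAut.conj m).toMonoidHom ≤ D.posUnipotent F := by
      rw [Subgroup.map_sup, hm1, hm2]
      exact sup_le (rootSubgroup_le_posUnipotent D _ hp1) (rootSubgroup_le_posUnipotent D _ hp2)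
    have e3 : D.rootSubgroup F r₀ ⊔ D.rootSubgroup F (wPi D L r₀) =
        ((D.rootSubgroup F r₀ ⊔ D.rootSubgroup F (wPi D L r₀)).map
          (MulAut.conj m).toMonoidHom).map (MulAut.conj m⁻¹).toMonoidHom := by
      rw [← map_conj_mul, inv_mul_cancel, map_conj_one]
    have hUp : IsPGroup 2 ↥(D.posUnipotent F) := by
      obtain ⟨k, _, hk⟩ := FiniteField.card F 2
      apply IsPGroup.of_card (n := (k : ℕ) * (D.nroots / 2))
      rw [posUnipotent_card D hD, Nat.card_eq_fintype_card, hk, pow_mul]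
    rw [e2, e3]
    exact ((hUp.to_le hK).map _).map _

end

end Cfsg.Agent.Lib.Helper25
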