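import Cfsg.Agent.Lib.Helper25.ChevPair

/-!
# Splitting the table check for pairs of root subgroups into chunks
-/

set_option autoImplicit false

namespace Cfsg.Agent.Lib.Helper25

open Cfsg Cfsg.Lie Cfsg.Agent.Lib.Helper24

/-- The closure part of `pairChk`, for the roots of a sublist `T`. -/
def pairChkA (D : ChevalleyDatum) (S T : List ℕ) : Bool :=
  T.all fun s => decide (s < D.nroots) &&
    (List.range D.rank).all fun i => S.contains (D.reflectRoot i s)

/-- The table part of `pairChk`, for the roots of a sublist `T`. -/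
def pairChkB (D : ChevalleyDatum) (r₀ : ℕ) (tab : List (ℕ × List ℕ)) (T : List ℕ) : Bool :=
  T.all fun s => s == D.neg r₀ || decide (D.IsPosRoot s) ||
    tab.any fun e => e.1 == s && e.2.all (fun j => decide (j < D.rank)) &&
      decide (D.IsPosRoot (wPi D e.2 r₀)) && decide (D.IsPosRoot (wPi D e.2 s))

/-- `pairChk` can be checked chunk by chunk. -/
theorem pairChk_of_chunks (D : ChevalleyDatum) (r₀ : ℕ) (S : List ℕ) (tab : List (ℕ × List ℕ))
    (TsA TsB : List (List ℕ)) (hSA : ∀ s ∈ S, ∃ T ∈ TsA, s ∈ T)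
    (hSB : ∀ s ∈ S, ∃ T ∈ TsB, s ∈ T)
    (h0 : (decide (D.IsPosRoot r₀) && S.contains r₀) = true)
    (hA : ∀ T ∈ TsA, pairChkA D S T = true) (hB : ∀ T ∈ TsB, pairChkB D r₀ tab T = true) :
    pairChk D r₀ S tab = true := by
  unfold pairChk
  rw [Bool.and_eq_true, Bool.and_eq_true]
  refine ⟨⟨h0, ?_⟩, ?_⟩
  · rw [List.all_eq_true]
    intro s hs
    obtain ⟨T, hT, hsT⟩ := hSA s hs
    have h := hA T hT
    unfold pairChkA at h
    rw [List.all_eq_true] at h
    exact h s hsT
  · rw [List.all_eq_true]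
    intro s hs
    obtain ⟨T, hT, hsT⟩ := hSB s hs
    have h := hB T hT
    unfold pairChkB at h
    rw [List.all_eq_true] at h
    exact h s hsT

end Cfsg.Agent.Lib.Helper25
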