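import Cfsg.Agent.Lib.Helper25.ChevPairTabE8

/-!
# Chunked table checks for pairs of long root subgroups of `E₈` (closure part)
-/

set_option autoImplicit false

namespace Cfsg.Agent.Lib.Helper25

open Cfsg Cfsg.Lie Cfsg.Agent.Lib.Helper24

theorem pairChkA_E8_0 : pairChkA chevE8 (List.range 240) (List.range' 0 60) = true := by
  decide +kernel

theorem pairChkA_E8_1 : pairChkA chevE8 (List.range 240) (List.range' 60 60) = true := by
  decide +kernel

theorem pairChkA_E8_2 : pairChkA chevE8 (List.range 240) (List.range' 120 60) = true := by
  decide +kernel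

theorem pairChkA_E8_3 : pairChkA chevE8 (List.range 240) (List.range' 180 60) = true := by
  decide +kernel

end Cfsg.Agent.Lib.Helper25
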