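import Cfsg.Agent.Lib.Helper25.ChevPairTabE8

/-!
# Chunked table checks for pairs of long root subgroups of `E₈` (table part, first half)
-/

set_option autoImplicit false

namespace Cfsg.Agent.Lib.Helper25

open Cfsg Cfsg.Lie Cfsg.Agent.Lib.Helper24

theorem pairChkB_E8_0 : pairChkB chevE8 239 pairTabE8 (List.range' 0 30) = true := by
  decide +kernel

theorem pairChkB_E8_1 : pairChkB chevE8 239 pairTabE8 (List.range' 30 30) = true := by
  decide +kernel

end Cfsg.Agent.Lib.Helper25
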