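import Cfsg.Agent.Lib.Helper25.ChevPair
import Cfsg.Agent.Lib.Helper25.ChevPairE8a
import Cfsg.Agent.Lib.Helper25.ChevPairE8b
import Cfsg.Agent.Lib.Helper25.ChevPairE8c

/-!
# Table checks for pairs of conjugate long root subgroups in characteristic two
-/

set_option autoImplicit false

namespace Cfsg.Agent.Lib.Helper25

open Cfsg Cfsg.Lie Cfsg.Agent.Lib.Helper24

theorem centChk_D4 : centChk chevD4 23 [5, 10, 11] = true := by decide +kernel

/-- Words carrying the highest root and a given negative root of its orbit to positive roots. -/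
def pairTabG2 : List (ℕ × List ℕ) :=
    [(1, [1, 0]), (5, [1])]

theorem pairChk_G2 : pairChk chevG2 11 ([0, 1, 5, 6, 10, 11]) pairTabG2 = true := by decide +kernel

/-- Words carrying the highest root and a given negative root of its orbit to positive roots. -/
def pairTabD4 : List (ℕ × List ℕ) :=
    [(1, [3, 1, 2, 0]), (2, [2, 1, 0]), (3, [3, 1, 0]), (4, [1, 0]), (5, [0]), (6, [3, 1, 2]), (
    7, [2, 1]), (8, [3, 1]), (9, [1]), (10, [2]), (11, [3])]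

theorem pairChk_D4 : pairChk chevD4 23 (List.range 24) pairTabD4 = true := by decide +kernel

/-- Words carrying the highest root and a given negative root of its orbit to positive roots. -/
def pairTabE6 : List (ℕ × List ℕ) :=
    [(1, [5, 4, 3, 2, 1, 3, 4, 0, 2, 3]), (2, [5, 4, 3, 2, 1, 3, 4, 0, 2]), (
    3, [5, 4, 3, 2, 1, 3, 0, 2]), (4, [4, 3, 2, 1, 3, 0, 2]), (5, [5, 4, 3, 2, 1, 3, 4, 0]), (
    6, [5, 4, 3, 2, 1, 3, 0]), (7, [4, 3, 2, 1, 3, 0]), (8, [5, 4, 3, 2, 1, 0]), (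
    9, [4, 3, 2, 1, 0]), (10, [3, 2, 1, 0]), (11, [5, 4, 3, 2, 0]), (12, [4, 3, 2, 0]), (
    13, [3, 2, 0]), (14, [2, 0]), (15, [0]), (16, [5, 4, 3, 2, 1, 3, 4]), (
    17, [5, 4, 3, 2, 1, 3]), (18, [4, 3, 2, 1, 3]), (19, [5, 4, 3, 2, 1]), (20, [4, 3, 2, 1]), (
    21, [3, 2, 1]), (22, [5, 4, 3, 1]), (23, [4, 3, 1]), (24, [3, 1]), (25, [1]), (
    26, [5, 4, 3, 2]), (27, [4, 3, 2]), (28, [3, 2]), (29, [2]), (30, [5, 4, 3]), (
    31, [4, 3]), (32, [3]), (33, [5, 4]), (34, [4]), (35, [5])]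

theorem pairChk_E6 : pairChk chevE6 71 (List.range 72) pairTabE6 = true := by decide +kernel

/-- Words carrying the highest root and a given negative root of its orbit to positive roots. -/
def pairTabE7 : List (ℕ × List ℕ) :=
    [(1, [6, 5, 4, 3, 2, 1, 3, 4, 5, 0, 2, 3, 4, 1, 3, 2]), (
    2, [6, 5, 4, 3, 2, 1, 3, 4, 5, 0, 2, 3, 4, 1, 3]), (
    3, [6, 5, 4, 3, 2, 1, 3, 4, 5, 0, 2, 3, 4, 1]), (
    4, [6, 5, 4, 3, 2, 1, 3, 4, 5, 0, 2, 3, 1]), (5, [6, 5, 4, 3, 2, 1, 3, 4, 0, 2, 3, 1]), (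
    6, [5, 4, 3, 2, 1, 3, 4, 0, 2, 3, 1]), (7, [6, 5, 4, 3, 2, 1, 3, 4, 5, 0, 2, 3, 4]), (
    8, [6, 5, 4, 3, 2, 1, 3, 4, 5, 0, 2, 3]), (9, [6, 5, 4, 3, 2, 1, 3, 4, 0, 2, 3]), (
    10, [5, 4, 3, 2, 1, 3, 4, 0, 2, 3]), (11, [6, 5, 4, 3, 2, 1, 3, 4, 5, 0, 2]), (
    12, [6, 5, 4, 3, 2, 1, 3, 4, 0, 2]), (13, [5, 4, 3, 2, 1, 3, 4, 0, 2]), (
    14, [6, 5, 4, 3, 2, 1, 3, 0, 2]), (15, [5, 4, 3, 2, 1, 3, 0, 2]), (
    16, [4, 3, 2, 1, 3, 0, 2]), (17, [6, 5, 4, 3, 2, 1, 3, 4, 5, 0]), (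
    18, [6, 5, 4, 3, 2, 1, 3, 4, 0]), (19, [5, 4, 3, 2, 1, 3, 4, 0]), (
    20, [6, 5, 4, 3, 2, 1, 3, 0]), (21, [5, 4, 3, 2, 1, 3, 0]), (22, [4, 3, 2, 1, 3, 0]), (
    23, [6, 5, 4, 3, 2, 1, 0]), (24, [5, 4, 3, 2, 1, 0]), (25, [4, 3, 2, 1, 0]), (
    26, [3, 2, 1, 0]), (27, [6, 5, 4, 3, 2, 0]), (28, [5, 4, 3, 2, 0]), (29, [4, 3, 2, 0]), (
    30, [3, 2, 0]), (31, [2, 0]), (32, [0]), (33, [6, 5, 4, 3, 2, 1, 3, 4, 5]), (
    34, [6, 5, 4, 3, 2, 1, 3, 4]), (35, [5, 4, 3, 2, 1, 3, 4]), (36, [6, 5, 4, 3, 2, 1, 3]), (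
    37, [5, 4, 3, 2, 1, 3]), (38, [4, 3, 2, 1, 3]), (39, [6, 5, 4, 3, 2, 1]), (
    40, [5, 4, 3, 2, 1]), (41, [4, 3, 2, 1]), (42, [3, 2, 1]), (43, [6, 5, 4, 3, 1]), (
    44, [5, 4, 3, 1]), (45, [4, 3, 1]), (46, [3, 1]), (47, [1]), (48, [6, 5, 4, 3, 2]), (
    49, [5, 4, 3, 2]), (50, [4, 3, 2]), (51, [3, 2]), (52, [2]), (53, [6, 5, 4, 3]), (
    54, [5, 4, 3]), (55, [4, 3]), (56, [3]), (57, [6, 5, 4]), (58, [5, 4]), (59, [4]), (
    60, [6, 5]), (61, [5]), (62, [6])]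

theorem pairChk_E7 : pairChk chevE7 125 (List.range 126) pairTabE7 = true := by decide +kernel

/-- The table check for `E₈`, assembled from the chunk checks. -/
theorem pairChk_E8 : pairChk chevE8 239 (List.range 240) pairTabE8 = true := by
  refine pairChk_of_chunks chevE8 239 (List.range 240) pairTabE8
    [List.range' 0 60, List.range' 60 60, List.range' 120 60, List.range' 180 60]
    [List.range' 0 30, List.range' 30 30, List.range' 60 30, List.range' 90 30,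
      List.range' 120 120] (by decide +kernel) (by decide +kernel) (by decide +kernel) ?_ ?_
  · intro T hT
    simp only [List.mem_cons, List.not_mem_nil, or_false] at hT
    rcases hT with rfl | rfl | rfl | rfl
    · exact pairChkA_E8_0
    · exact pairChkA_E8_1
    · exact pairChkA_E8_2
    · exact pairChkA_E8_3
  · intro T hT
    simp only [List.mem_cons, List.not_mem_nil, or_false] at hT
    rcases hT with rfl | rfl | rfl | rfl | rfl
    · exact pairChkB_E8_0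
    · exact pairChkB_E8_1
    · exact pairChkB_E8_2
    · exact pairChkB_E8_3
    · exact pairChkB_E8_4


end Cfsg.Agent.Lib.Helper25
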