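import Cfsg.Agent.Lib.Helper25.ChevG2D

/-!
# Columns of words of commuting root elements at the Cartan vectors, and torus elements
-/

set_option autoImplicit false

namespace Cfsg.Agent.Lib.Helper25

open Cfsg.Lie Matrix
open Cfsg.Agent.Lib.Helper24

section

variable {F : Type*} [Field F]

/-- The condition that the root elements of a word pairwise fix each other's root vectors. -/
def WordGood (D : ChevalleyDatum) (w : List (ℕ × F)) : Prop :=
  (∀ p ∈ w, p.1 < D.nroots) ∧
    w.Pairwise (fun p q => q.1 ≠ p.1 ∧ q.1 ≠ D.neg p.1 ∧ cent D p.1 q.1 = [])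

theorem x_mulVec_sum_rv (D : ChevalleyDatum) (r : ℕ) (hr : r < D.nroots) (e : F)
    (w : List (ℕ × F)) (c : ℕ × F → F)
    (hw : ∀ q ∈ w, q.1 < D.nroots ∧ q.1 ≠ r ∧ q.1 ≠ D.neg r ∧ cent D r q.1 = []) :
    D.x F r e *ᵥ (w.map fun p => c p • rv F D p.1).sum = (w.map fun p => c p • rv F D p.1).sum := by
  induction w with
  | nil => simp
  | cons q w ih =>
    obtain ⟨h1, h2, h3, h4⟩ := hw q List.mem_cons_self
    rw [List.map_cons, List.sum_cons, Matrix.mulVec_add, Matrix.mulVec_smul,
      ih (fun q' hq' => hw q' (List.mem_cons_of_mem _ hq')),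
      x_mulVec_rv D r hr e q.1 h1 h2 h3, h4]
    simp

theorem word_mulVec_hv (D : ChevalleyDatum) (w : List (ℕ × F)) (hw : WordGood D w) (i : ℕ)
    (hi : i < D.rank) :
    D.wordMat F w *ᵥ hv F D i =
      hv F D i - (w.map fun p => (((D.cartan i p.1 : ℤ) : F) * p.2) • rv F D p.1).sum := by
  induction w with
  | nil =>
    rw [wordMat_nil', Matrix.one_mulVec]
    simp
  | cons p w ih =>
    obtain ⟨hlt, hpw⟩ := hw
    rw [List.pairwise_cons] at hpw
    have hw' : WordGood D w := ⟨fun q hq => hlt q (List.mem_cons_of_mem _ hq), hpw.2⟩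
    rw [wordMat_cons', ← Matrix.mulVec_mulVec, ih hw', Matrix.mulVec_sub,
      x_mulVec_sum_rv D p.1 (hlt p List.mem_cons_self) p.2 w _
        (fun q hq => ⟨hlt q (List.mem_cons_of_mem _ hq), hpw.1 q hq⟩),
      x_mulVec_hv D p.1 (hlt p List.mem_cons_self) p.2 i hi, List.map_cons, List.sum_cons]
    abel

theorem sum_rv_coord (D : ChevalleyDatum) (w : List (ℕ × F)) (c : ℕ × F → F) (q : ℕ)
    (hq : q < D.nroots) :
    ((w.map fun p => c p • rv F D p.1).sum) (Sum.inr ⟨q, hq⟩) =
      (w.map fun p => c p * (if q = p.1 then 1 else 0)).sum := by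
  induction w with
  | nil => simp
  | cons p w ih =>
    rw [List.map_cons, List.sum_cons, Pi.add_apply, ih, List.map_cons, List.sum_cons]
    simp [rv]

/-- The coordinate at a root vector of the image of a Cartan vector under a word of commuting
root elements. -/
theorem word_coord (D : ChevalleyDatum) (w : List (ℕ × F)) (hw : WordGood D w) (i : ℕ)
    (hi : i < D.rank) (q : ℕ) (hq : q < D.nroots) :
    (D.wordMat F w *ᵥ hv F D i) (Sum.inr ⟨q, hq⟩) =
      -(w.map fun p => (((D.cartan i p.1 : ℤ) : F) * p.2) * (if q = p.1 then 1 else 0)).sum := by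
  rw [word_mulVec_hv D w hw i hi, Pi.sub_apply, sum_rv_coord]
  simp [hv]

/-! ### Torus elements -/

/-- The action of the torus element `phi c` on the root elements. -/
theorem phi_mul_x (D : ChevalleyDatum)
    (hD : D ∈ [chevG2, chevB2, chevD4, chevF4, chevE6, chevE7, chevE8])
    (c : Fin D.rank → Fˣ) (r : ℕ) (hr : r < D.nroots) (t : F) :
    ((phi D c : GL D.Idx F) : Matrix D.Idx D.Idx F) * D.x F r t =
      D.x F r (((∏ i : Fin D.rank, c i ^ D.cartan i.val r : Fˣ) : F) * t) *
        ((phi D c : GL D.Idx F) : Matrix D.Idx D.Idx F) := by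
  have hD' : D ∈ chevList := hD
  have hh : phi D c ∈ D.diagonalSubgroup F := by
    rw [← phi_range D hD']
    exact ⟨c, rfl⟩
  obtain ⟨d, hd, hval⟩ := diagonalSubgroup_le_gradedTorus D hD' hh
  have hdt : d r = tprod D (cext D c) r := by
    have h1 : torus F D d = torus F D (tprod D (cext D c)) := by rw [← hval, phi_val]
    have h2 := congrFun (congrFun h1 (Sum.inr ⟨r, hr⟩)) (Sum.inr ⟨r, hr⟩)
    unfold torus at h2
    rw [Matrix.diagonal_apply_eq, Matrix.diagonal_apply_eq] at h2
    exact h2
  rw [hval, torus_mul_x D d hd r hr, hdt, tprod_cext]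

theorem wordMat_flatMap_filter_list (D : ChevalleyDatum) (f : ℕ → List (ℕ × F)) (I₀ : List ℕ)
    (h1 : ∀ i ∈ I₀, D.wordMat F (f i) = 1) (l : List ℕ) :
    D.wordMat F (l.flatMap f) =
      D.wordMat F ((l.filter (fun k => decide (k ∉ I₀))).flatMap f) := by
  induction l with
  | nil => rfl
  | cons k l ih =>
    rw [List.flatMap_cons, wordMat_append, ih]
    by_cases hk : k ∈ I₀
    · rw [List.filter_cons_of_neg (by simp [hk]), h1 k hk, Matrix.one_mul]
    · rw [List.filter_cons_of_pos (by simp [hk]), List.flatMap_cons, wordMat_append]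

/-- A torus element `phi c` with `c_i = 1` for `i ∈ I₀` lies in the group generated by the root
subgroups of a set of roots containing `±p_k` for all `k ∉ I₀`. -/
theorem phi_mem_rootGen (D : ChevalleyDatum)
    (hD : D ∈ [chevG2, chevB2, chevD4, chevF4, chevE6, chevE7, chevE8]) (P : ℕ → Prop)
    (hP : ∀ r, P r → r < D.nroots) (I₀ : List ℕ) (c : Fin D.rank → Fˣ)
    (hc : ∀ i : Fin D.rank, i.val ∈ I₀ → c i = 1)
    (hoth : ∀ k < D.rank, k ∉ I₀ → P (D.simple k) ∧ P (D.neg (D.simple k))) :
    (phi D c : GL D.Idx F) ∈ rootGen F D P := by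
  have hD' : D ∈ chevList := hD
  have hw1 : ∀ i ∈ (I₀.filter fun i => decide (i < D.rank)),
      D.wordMat F (D.hWord (D.simple i) (cext D c i)) = 1 := by
    intro i hi
    rw [List.mem_filter] at hi
    have hir : i < D.rank := by simpa using hi.2
    have hcext1 : cext D c i = 1 := by
      have h1 := cext_val D c ⟨i, hir⟩
      simp only at h1
      rw [h1, hc ⟨i, hir⟩ hi.1, Units.val_one]
    rw [hcext1]
    have h1 := hMat_eq_torus (F := F) D hD' (D.simple i) (simple_lt D hD' i hir) 1 one_ne_zero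
    unfold ChevalleyDatum.hMat at h1
    rw [h1, ← torus_one (F := F) D]
    apply torus_congr
    intro s _
    rw [_root_.one_zpow]
  have hval2 : ((phi D c : GL D.Idx F) : Matrix D.Idx D.Idx F) =
      D.wordMat F (((List.range D.rank).filter
        (fun k => decide (k ∉ (I₀.filter fun i => decide (i < D.rank))))).flatMap
        fun i => D.hWord (D.simple i) (cext D c i)) := by
    rw [phi_val, ← wordMat_simple_eq_torus D hD' (cext D c) (fun i _ => cext_ne_zero D c i),
      wordMat_flatMap_filter_list D (fun i => D.hWord (D.simple i) (cext D c i)) _ hw1]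
  apply word_mem_closure D hD P _ ?_ (phi D c) hval2
  intro e he
  rw [List.mem_flatMap] at he
  obtain ⟨k, hk, hek⟩ := he
  rw [List.mem_filter, List.mem_range] at hk
  obtain ⟨hkr, hki⟩ := hk
  have hki' : k ∉ I₀ := by
    intro hmem
    have : k ∈ I₀.filter fun i => decide (i < D.rank) := by
      rw [List.mem_filter]
      exact ⟨hmem, by simpa using hkr⟩
    simp [this] at hki
  obtain ⟨hp, hn⟩ := hoth k hkr hki'
  unfold ChevalleyDatum.hWord ChevalleyDatum.nWord at hek
  simp only [List.cons_append, List.nil_append, List.mem_cons, List.not_mem_nil, or_false] at hek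
  rcases hek with rfl | rfl | rfl | rfl | rfl | rfl
  · exact ⟨hp, hP _ hp⟩
  · exact ⟨hn, hP _ hn⟩
  · exact ⟨hp, hP _ hp⟩
  · exact ⟨hp, hP _ hp⟩
  · exact ⟨hn, hP _ hn⟩
  · exact ⟨hp, hP _ hp⟩

end

end Cfsg.Agent.Lib.Helper25
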