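import Mathlib
import Cfsg.Agent.Lib.Helper4.FCDefs

/-!
# Project FC (S4146), piece A2K1

In the context `A2Ctx`, for `u ∈ K` the index `|K : C_K(u)|` is `1` or `n`.
-/

namespace Cfsg.Agent.Lib.Helper4.FC

universe u

/-- the arithmetic at the end of A2K1: `ρ` is the `q'`-part of `N ∈ {1, n, m, n m}` -/
theorem a2k1_helper25_arith (n m q i e ρ N : ℕ) (hi : m = q ^ i) (hnq : n.Coprime q)
    (hρq : ρ.Coprime q) (h1 : ρ ∣ N) (hN : N ∣ ρ * q ^ e)
    (hcase : N = 1 ∨ N = n ∨ N = m ∨ N = n * m) : ρ = 1 ∨ ρ = n := by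
  rcases hcase with hN1 | hN1 | hN1 | hN1
  · left
    subst hN1
    exact Nat.dvd_one.1 h1
  · right
    subst hN1
    exact Nat.dvd_antisymm h1 ((Nat.Coprime.pow_right e hnq).dvd_of_dvd_mul_right hN)
  · left
    rw [hN1, hi] at h1
    exact Nat.Coprime.eq_one_of_dvd (Nat.Coprime.pow_right i hρq) h1
  · right
    have a1 : ρ ∣ n := by
      rw [hN1, hi] at h1
      exact (Nat.Coprime.pow_right i hρq).dvd_of_dvd_mul_right h1
    have a2 : n ∣ ρ := by
      have h3 : n ∣ ρ * q ^ e := by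
        rw [hN1] at hN
        exact (Dvd.intro _ rfl : n ∣ n * m).trans hN
      exact (Nat.Coprime.pow_right e hnq).dvd_of_dvd_mul_right h3
    exact Nat.dvd_antisymm a1 a2

/-- index bookkeeping: `|K : K ∩ C| * |G : K| = |C : K ∩ C| * |G : C|` -/
theorem a2k1_helper25_index {G : Type u} [Group G] (K C : Subgroup G) :
    C.relIndex K * K.index = K.relIndex C * C.index := by
  have e1 := Subgroup.relIndex_mul_index (inf_le_left : K ⊓ C ≤ K)
  have e2 := Subgroup.relIndex_mul_index (inf_le_right : K ⊓ C ≤ C)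
  rw [Subgroup.inf_relIndex_left] at e1
  rw [Subgroup.inf_relIndex_right] at e2
  rw [e1, e2]

/-- for `N` normal, `|N : N ∩ H|` divides `|G : H|` -/
theorem a2k1_helper25_relIndex_dvd {G : Type u} [Group G] [Finite G] (H N : Subgroup G)
    [N.Normal] : H.relIndex N ∣ H.index := by
  have h1 : H.relIndex (H ⊔ N) * Nat.card H = Nat.card (H ⊔ N : Subgroup G) := by
    rw [← Subgroup.relIndex_bot_left, mul_comm, ← Subgroup.relIndex_bot_left]
    exact Subgroup.relIndex_mul_relIndex ⊥ H (H ⊔ N) bot_le le_sup_left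
  have h2 : N.relIndex (H ⊔ N) * Nat.card N = Nat.card (H ⊔ N : Subgroup G) := by
    rw [← Subgroup.relIndex_bot_left, mul_comm, ← Subgroup.relIndex_bot_left]
    exact Subgroup.relIndex_mul_relIndex ⊥ N (H ⊔ N) bot_le le_sup_right
  rw [Subgroup.relIndex_sup_right] at h2
  have h3 : H.relIndex N * Nat.card (H ⊓ N : Subgroup G) = Nat.card N := by
    rw [← Subgroup.inf_relIndex_right, ← Subgroup.relIndex_bot_left, mul_comm,
      ← Subgroup.relIndex_bot_left]
    exact Subgroup.relIndex_mul_relIndex ⊥ (H ⊓ N) N bot_le inf_le_right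
  have h4 : N.relIndex H * Nat.card (H ⊓ N : Subgroup G) = Nat.card H := by
    rw [← Subgroup.inf_relIndex_left, ← Subgroup.relIndex_bot_left, mul_comm,
      ← Subgroup.relIndex_bot_left]
    exact Subgroup.relIndex_mul_relIndex ⊥ (H ⊓ N) H bot_le inf_le_left
  have hpos : 0 < Nat.card H := Nat.card_pos
  have heq : H.relIndex (H ⊔ N) * Nat.card H = H.relIndex N * Nat.card H := by
    rw [h1, ← h2, ← h3, ← h4]; ring
  rw [← Nat.eq_of_mul_eq_mul_right hpos heq]
  exact Subgroup.relIndex_dvd_index_of_le le_sup_left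

theorem fc_a2k1 : L3Stmt.{u} → W1Stmt.{u} → A2K1Stmt.{u} := by
  intro hL3 hW1 G _ _ n m q K Q u hctx huK
  obtain ⟨hfour, hq, ⟨i, hi⟩, hKn, hKq, ⟨e, he⟩, -, ⟨b, hbQ, hbm⟩⟩ := hctx
  obtain ⟨hn1, hm1, hnm, hcls, -, -, -⟩ := hfour
  have : Fact q.Prime := ⟨hq⟩
  have := hKn
  have hi0 : i ≠ 0 := by
    rintro rfl
    rw [pow_zero] at hi
    omega
  have hnq : n.Coprime q := by
    have h0 : n.Coprime (q ^ i) := hi ▸ hnm
    exact (Nat.coprime_pow_right_iff (Nat.pos_of_ne_zero hi0) n q).1 h0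
  -- `K ≤ C(b)`
  have hKb : K ≤ Cen b := by
    apply hW1 G K b hKn
    rw [hbm, hi]
    exact Nat.Coprime.pow_right i hKq
  -- orders of `b` and `u`
  obtain ⟨k, hk⟩ : ∃ k, orderOf b = q ^ k := by
    obtain ⟨k, hk⟩ := (IsPGroup.iff_orderOf.1 Q.isPGroup') ⟨b, hbQ⟩
    exact ⟨k, by rw [← hk, Subgroup.orderOf_mk]⟩
  have hou : (orderOf u).Coprime q :=
    Nat.Coprime.coprime_dvd_left (Subgroup.orderOf_dvd_natCard K huK) hKq
  have hcomm : Commute b u := by
    have h0 := hKb huK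
    rw [Subgroup.mem_centralizer_iff] at h0
    exact h0 b (Set.mem_singleton b)
  have hcen : Cen (b * u) = Cen b ⊓ Cen u := by
    apply hL3 G b u hcomm
    rw [hk]
    exact Nat.Coprime.pow_left k hou.symm
  -- `|K : K ∩ C(b u)| = |K : K ∩ C(u)|`
  have hρ : (Cen (b * u)).relIndex K = (Cen u).relIndex K := by
    rw [← Subgroup.inf_relIndex_right (Cen (b * u)) K, ← Subgroup.inf_relIndex_right (Cen u) K,
      hcen]
    congr 1
    exact le_antisymm (inf_le_inf_right K inf_le_right)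
      (le_inf (le_inf (inf_le_right.trans hKb) inf_le_left) inf_le_right)
  rw [← hρ]
  have h1 : (Cen (b * u)).relIndex K ∣ (Cen (b * u)).index :=
    a2k1_helper25_relIndex_dvd _ K
  have h2 : (Cen (b * u)).relIndex K ∣ Nat.card K := Subgroup.relIndex_dvd_card _ K
  have h3 := a2k1_helper25_index K (Cen (b * u))
  have hN : (Cen (b * u)).index ∣ (Cen (b * u)).relIndex K * q ^ e := by
    rw [← he, h3]
    exact dvd_mul_left _ _
  exact a2k1_helper25_arith n m q i e _ _ hi hnq (Nat.Coprime.coprime_dvd_left h2 hKq) h1 hN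
    (hcls (b * u))

end Cfsg.Agent.Lib.Helper4.FC
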