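import Mathlib
import Cfsg.Agent.Lib.Helper4.FCDefs

/-!
# Project FC (S4146), piece Z2ABS

Transfer of the abstract statement Z2ABSA (an automorphism `φ` of a nilpotent group) to a normal
subgroup `K` of `G` acted on by conjugation with `h`.
-/

namespace Cfsg.Agent.Lib.Helper4.FC

universe u

/-- fixed points of conjugation by `h` on the normal subgroup `K` are the elements of `K`
centralizing `h` -/
theorem z2abs_helper25_fix {G : Type u} [Group G] (K : Subgroup G) [K.Normal] (h : G) (x : K) :
    (MulAut.conjNormal h : MulAut K) x = x ↔ (x : G) ∈ Cen h := by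
  rw [Subgroup.mem_centralizer_iff]
  constructor
  · intro hx y hy
    rw [Set.mem_singleton_iff] at hy
    subst hy
    have h1 : ((MulAut.conjNormal y : MulAut K) x : G) = (x : G) := by rw [hx]
    rw [MulAut.conjNormal_apply] at h1
    calc y * (x : G) = y * x * y⁻¹ * y := by group
      _ = x * y := by rw [h1]
  · intro hx
    apply Subtype.ext
    rw [MulAut.conjNormal_apply]
    have h2 := hx h (Set.mem_singleton h)
    rw [h2]
    group

/-- the centralizer of `u` computed in `↥K` -/
theorem z2abs_helper25_cen {G : Type u} [Group G] (K : Subgroup G) (u : K) :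
    (Cen u : Subgroup K) = (Cen (u : G)).subgroupOf K := by
  ext x
  rw [Subgroup.mem_subgroupOf, Subgroup.mem_centralizer_iff, Subgroup.mem_centralizer_iff]
  constructor
  · intro hx y hy
    rw [Set.mem_singleton_iff] at hy
    subst hy
    have h2 := hx u (Set.mem_singleton u)
    exact congrArg Subtype.val h2
  · intro hx y hy
    rw [Set.mem_singleton_iff] at hy
    subst hy
    apply Subtype.ext
    exact hx (y : G) (Set.mem_singleton _)

/-- the fixed-point subgroup of conjugation by `h` on `K` -/
theorem z2abs_helper25_fixsub {G : Type u} [Group G] (K : Subgroup G) [K.Normal] (h : G) :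
    FixSub (MulAut.conjNormal h : MulAut K) = (Cen h).subgroupOf K := by
  ext x
  rw [Subgroup.mem_subgroupOf, ← z2abs_helper25_fix K h x]
  exact Iff.rfl

theorem fc_z2abs : Z2AbsAStmt.{u} → Z2AbsStmt.{u} := by
  intro hA G _ _ K h hKn hnil hcop hnonab hfixab hcs
  have := hKn
  refine hA K (MulAut.conjNormal h) ⟨?_, ?_, ?_, ?_⟩ hnil
  · exact Nat.Coprime.coprime_dvd_left
      (orderOf_map_dvd (MulAut.conjNormal : G →* MulAut K) h) hcop
  · obtain ⟨u, hu, v, hv, huv⟩ := hnonab
    exact ⟨⟨u, hu⟩, ⟨v, hv⟩, fun e => huv (congrArg Subtype.val e)⟩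
  · intro u v hu hv
    apply Subtype.ext
    exact hfixab u u.2 v v.2 ((z2abs_helper25_fix K h u).1 hu) ((z2abs_helper25_fix K h v).1 hv)
  · intro u hu
    have h1 : ∃ v ∈ K, (u : G) * v ≠ v * u := by
      by_contra hcon
      push Not at hcon
      apply hu
      rw [Subgroup.mem_center_iff]
      intro g
      apply Subtype.ext
      exact (hcon g g.2).symm
    have h2 := hcs u u.2 h1
    show (Cen u).index = _
    rw [z2abs_helper25_cen K u, z2abs_helper25_fixsub K h]
    exact h2

end Cfsg.Agent.Lib.Helper4.FC
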