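import Mathlib

/-!
# Counting the conjugacy classes of involutions from a list of representatives
-/

set_option autoImplicit false

namespace Cfsg.Agent.Lib.Helper25

/-- If `y 0, …, y (n-1)` are involutions, pairwise not conjugate, and every involution is
conjugate to one of them, then there are exactly `n` classes of involutions. -/
theorem ncard_inv_classes {G : Type*} [Group G] (n : ℕ) (y : Fin n → G)
    (hy2 : ∀ k, orderOf (y k) = 2)
    (hcl : ∀ g : G, orderOf g = 2 → ∃ k, ∃ c : G, c * g * c⁻¹ = y k)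
    (hnc : ∀ i j, i ≠ j → ∀ c : G, c * y i * c⁻¹ ≠ y j) :
    (ConjClasses.mk '' {g : G | orderOf g = 2}).ncard = n := by
  have hS : ConjClasses.mk '' {g : G | orderOf g = 2} =
      (fun k => ConjClasses.mk (y k)) '' Set.univ := by
    ext C
    constructor
    · rintro ⟨g, hg, rfl⟩
      obtain ⟨k, c, hc⟩ := hcl g hg
      exact ⟨k, Set.mem_univ _, (ConjClasses.mk_eq_mk_iff_isConj.2 (isConj_iff.2 ⟨c, hc⟩)).symm⟩
    · rintro ⟨k, -, rfl⟩
      exact ⟨y k, hy2 k, rfl⟩
  rw [hS, Set.ncard_image_of_injective, Set.ncard_univ, Nat.card_fin]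
  intro i j hij
  by_contra hne
  obtain ⟨c, hc⟩ := isConj_iff.1 (ConjClasses.mk_eq_mk_iff_isConj.1 hij)
  exact hnc i j hne c hc

end Cfsg.Agent.Lib.Helper25
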