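import Mathlib
import Cfsg.Agent.Lib.Helper25.InvGen
import Cfsg.Agent.Lib.Helper25.InvE6Data
import Cfsg.Agent.Lib.Helper25.InvE6Cert
import Cfsg.Agent.Lib.Helper25.ChevWeylData
import Cfsg.Agent.Lib.Helper25.ChevOrderData
import Cfsg.Agent.Lib.Helper57.InvCX
import Cfsg.Agent.Lib.Helper39.InvCK
import Cfsg.Agent.Lib.Helper39.InvCM

/-!
# Involution classes of `E₆(2^a)`
-/

set_option autoImplicit false

namespace Cfsg.Agent.Lib.Helper25

open Cfsg Cfsg.Lie Matrix
open Cfsg.Agent.Lib.Helper8 Cfsg.Agent.Lib.Helper24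

/-- The table of `E₆`: words, orbit data, roots. -/
def e6Data : List (List ℕ × List (List ℕ × ℕ) × List ℕ) :=
  [(e6V0, e6Od0, e6Bs0), (e6V1, e6Od1, e6Bs1), (e6V2, e6Od2, e6Bs2), (e6V3, e6Od3, e6Bs3),
    (e6V4, e6Od4, e6Bs4), (e6V5, e6Od5, e6Bs5)]

theorem e6_strong_1 : strongCommChk chevE6 [71] = true := by decide +kernel

theorem e6_strong_2 : strongCommChk chevE6 [68, 66] = true := by decide +kernel

theorem e6_strong_3 : strongCommChk chevE6 [55, 65, 67] = true := by decide +kernel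

theorem e6_bit_1 : (apps2 chevE6 [71] (1 <<< 6) ^^^ (1 <<< 6)).testBit 0 = true := by
  decide +kernel

theorem e6_bit_2 : (apps2 chevE6 [68, 66] (1 <<< 11) ^^^ (1 <<< 11)).testBit 2 = true := by
  decide +kernel

theorem e6_bit_3 : (apps2 chevE6 [55, 65, 67] (1 <<< 6) ^^^ (1 <<< 6)).testBit 16 = true := by
  decide +kernel

section

variable {F : Type*} [Field F]

/-- Every involution of `E₆(2^a)` is conjugate to one of the three standard products. -/
theorem e6_class [Fintype F] [CharP F 2] (t : GL chevE6.Idx F) (ht : t ∈ chevE6.group F)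
    (h2 : orderOf t = 2) :
    ∃ c ∈ chevE6.group F,
      ((c * t * c⁻¹ : GL chevE6.Idx F) : Matrix chevE6.Idx chevE6.Idx F) = xProd F chevE6 [71] ∨
      ((c * t * c⁻¹ : GL chevE6.Idx F) : Matrix chevE6.Idx chevE6.Idx F) =
        xProd F chevE6 [68, 66] ∨
      ((c * t * c⁻¹ : GL chevE6.Idx F) : Matrix chevE6.Idx chevE6.Idx F) =
        xProd F chevE6 [55, 65, 67] := by
  have hD : chevE6 ∈ [chevG2, chevB2, chevD4, chevF4, chevE6, chevE7, chevE8] := by simp
  have hD' : chevE6 ∈ chevList := hD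
  have htt : t * t = 1 := by
    have := pow_orderOf_eq_one t
    rw [h2, pow_two] at this
    exact this
  have hdata : ∀ e ∈ e6Data, odChk chevE6 e.1 e.2.1 e.2.2 = true := by
    intro e he
    simp only [e6Data, List.mem_cons, List.not_mem_nil, or_false] at he
    rcases he with rfl | rfl | rfl | rfl | rfl | rfl
    · exact odChk_E6_0
    · exact odChk_E6_1
    · exact odChk_E6_2
    · exact odChk_E6_3
    · exact odChk_E6_4
    · exact odChk_E6_5
  have hcomm : ∀ e ∈ e6Data, ∀ b ∈ e.2.2, ∀ b' ∈ e.2.2, b ≠ b' → ∀ r ∈ [b, chevE6.neg b],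
      ∀ r' ∈ [b', chevE6.neg b'],
        chevE6.x F r 1 * chevE6.x F r' 1 = chevE6.x F r' 1 * chevE6.x F r 1 := by
    intro e he
    simp only [e6Data, List.mem_cons, List.not_mem_nil, or_false] at he
    rcases he with rfl | rfl | rfl | rfl | rfl | rfl
    · exact hcomm_of_chk chevE6 hD' _ strongCommChk_E6_0
    · exact hcomm_of_chk chevE6 hD' _ strongCommChk_E6_1
    · exact hcomm_of_chk chevE6 hD' _ strongCommChk_E6_2
    · exact hcomm_of_chk chevE6 hD' _ strongCommChk_E6_3
    · exact hcomm_of_chk chevE6 hD' _ strongCommChk_E6_4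
    · exact hcomm_of_chk chevE6 hD' _ strongCommChk_E6_5
  obtain ⟨c, hc, e, he, hce⟩ := inv_chev_classes (F := F) chevE6 hD CoxeterMatrix.E₆ rfl weyl_E6
    e8ML e8Cart e6Levels (by decide) (by intro i j; fin_cases i <;> fin_cases j <;> rfl)
    chainOK_E6 posChk_E6 negHalf_E6 e6Data survChk_E6 hdata hcomm t ht htt
  have hW3 : ∀ r ∈ [55, 65, 67], r < chevE6.nroots := by decide
  have hW2 : ∀ r ∈ [68, 66], r < chevE6.nroots := by decide
  simp only [e6Data, List.mem_cons, List.not_mem_nil, or_false] at he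
  rcases he with rfl | rfl | rfl | rfl | rfl | rfl
  · -- the identity: impossible
    exfalso
    have h1 : c * t * c⁻¹ = 1 := by
      apply Units.ext
      rw [hce]
      simp [xProd, e6Bs0]
    have h3 : t = 1 := by
      have : t = c⁻¹ * (c * t * c⁻¹) * c := by group
      rw [this, h1]
      group
    rw [h3, orderOf_one] at h2
    omega
  · exact ⟨c, hc, Or.inl hce⟩
  · obtain ⟨c', hc', e'⟩ := conj_weyl (F := F) chevE6 hD [0, 2, 0] (by decide) [55, 65, 67] hW3
      e6Bs2 weyl_E6_3a t c hc hce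
    exact ⟨c', hc', Or.inr (Or.inr e')⟩
  · obtain ⟨c', hc', e'⟩ := conj_weyl (F := F) chevE6 hD [1, 3, 2] (by decide) [68, 66] hW2
      e6Bs3 weyl_E6_2 t c hc hce
    exact ⟨c', hc', Or.inr (Or.inl e')⟩
  · obtain ⟨c', hc', e'⟩ := conj_weyl (F := F) chevE6 hD [1, 3, 0, 2, 0] (by decide) [55, 65, 67]
      hW3 e6Bs4 weyl_E6_3b t c hc hce
    exact ⟨c', hc', Or.inr (Or.inr e')⟩
  · obtain ⟨c₁, hc₁, e₁⟩ := conj_fusion (F := F) chevE6 hD' [47, 25, 20, 8] e6Bs5 [71, 60, 44]
      (by decide) (by decide) (by decide) fus_E6 t c hc hce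
    obtain ⟨c', hc', e'⟩ := conj_weyl (F := F) chevE6 hD [1, 3, 0, 2, 0] (by decide) [55, 65, 67]
      hW3 [71, 60, 44] weyl_E6_3b t c₁ hc₁ e₁
    exact ⟨c', hc', Or.inr (Or.inr e')⟩

/-- The standard products lie in the group and have order two. -/
theorem e6_part1 [CharP F 2] (Y : List ℕ) (hY : Y = [71] ∨ Y = [68, 66] ∨ Y = [55, 65, 67])
    (y : GL chevE6.Idx F)
    (hy : (y : Matrix chevE6.Idx chevE6.Idx F) = xProd F chevE6 Y) :
    y ∈ chevE6.group F ∧ orderOf y = 2 := by
  have hD : chevE6 ∈ [chevG2, chevB2, chevD4, chevF4, chevE6, chevE7, chevE8] := by simp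
  have hD' : chevE6 ∈ chevList := hD
  obtain ⟨g, hg, eg⟩ := exists_xProdGL (F := F) chevE6 hD' Y
  have hyg : y = g := Units.ext (hy.trans eg.symm)
  refine ⟨hyg ▸ hg, ?_⟩
  have hB : ∀ b ∈ Y, b < chevE6.nroots := by
    rcases hY with rfl | rfl | rfl <;> decide
  have hnd : Y.Nodup := by
    rcases hY with rfl | rfl | rfl <;> decide
  have hchk : strongCommChk chevE6 Y = true := by
    rcases hY with rfl | rfl | rfl
    · exact e6_strong_1
    · exact e6_strong_2
    · exact e6_strong_3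
  have hsq := (inv_chev_nprod (F := F) chevE6 hD Y hB hnd (hcomm_of_chk chevE6 hD' Y hchk)).2.2
  have hne : xProd F chevE6 Y ≠ 1 := by
    rcases hY with rfl | rfl | rfl
    · exact xProd_ne_one_of_bit chevE6 _ hB 6 0 (by decide) (by decide) e6_bit_1
    · exact xProd_ne_one_of_bit chevE6 _ hB 11 2 (by decide) (by decide) e6_bit_2
    · exact xProd_ne_one_of_bit chevE6 _ hB 6 16 (by decide) (by decide) e6_bit_3
  have : Fact (Nat.Prime 2) := ⟨Nat.prime_two⟩
  apply orderOf_eq_prime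
  · apply Units.ext
    rw [pow_two, Units.val_mul, hy, hsq, Units.val_one]
  · intro h1
    apply hne
    rw [← hy, h1, Units.val_one]

/-- The three standard products are pairwise not conjugate. -/
theorem e6_not_conj [CharP F 2] (P : GL chevE6.Idx F) :
    (P : Matrix chevE6.Idx chevE6.Idx F) * xProd F chevE6 [71] ≠
      xProd F chevE6 [68, 66] * (P : Matrix chevE6.Idx chevE6.Idx F) ∧
    (P : Matrix chevE6.Idx chevE6.Idx F) * xProd F chevE6 [71] ≠
      xProd F chevE6 [55, 65, 67] * (P : Matrix chevE6.Idx chevE6.Idx F) ∧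
    (P : Matrix chevE6.Idx chevE6.Idx F) * xProd F chevE6 [68, 66] ≠
      xProd F chevE6 [55, 65, 67] * (P : Matrix chevE6.Idx chevE6.Idx F) := by
  refine ⟨?_, ?_, ?_⟩
  · exact inv_chev_not_conj chevE6 [71] [68, 66] (by decide) (by decide) e6K1 e6R2 e6K1_chk e6R2_chk
      (by rw [e6K1_len, e6R2_len]; decide) P
  · exact inv_chev_not_conj chevE6 [71] [55, 65, 67] (by decide) (by decide) e6K1 e6R3 e6K1_chk
      e6R3_chk (by rw [e6K1_len, e6R3_len]; decide) P
  · exact inv_chev_not_conj chevE6 [68, 66] [55, 65, 67] (by decide) (by decide) e6K2 e6R3 e6K2_chk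
      e6R3_chk (by rw [e6K2_len, e6R3_len]; decide) P

end

end Cfsg.Agent.Lib.Helper25
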