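import Mathlib
import Cfsg.Agent.Lib.Helper25.InvChk
import Cfsg.Prelude.Def_ChevE7

/-!
# Involution classes of `E₇(2^a)`: a certificate for the rank of `y - 1`

Fixed vectors (pivot, bit mask) of the product of the root elements of the roots [125].
-/

set_option autoImplicit false

namespace Cfsg.Agent.Lib.Helper25

open Cfsg Cfsg.Lie

def e7K1 : List (ℕ × ℕ) := [(132, 5444517870735015415413993718908291383296), (131, 2722258935367507707706996859454145691648), (130, 1361129467683753853853498429727072845824), (129, 680564733841876926926749214863536422912), (128, 340282366920938463463374607431768211456), (127, 170141183460469231731687303715884105728), (126, 85070591730234615865843651857942052864), (125, 42535295865117307932921825928971026432), (124, 21267647932558653966460912964485513216), (123, 10633823966279326983230456482242756608), (122, 5316911983139663491615228241121378304), (121, 2658455991569831745807614120560689152), (120, 1329227995784915872903807060280344576), (119, 664613997892457936451903530140172288), (118, 332306998946228968225951765070086144), (117, 166153499473114484112975882535043072), (116, 83076749736557242056487941267521536), (115, 41538374868278621028243970633760768), (114, 20769187434139310514121985316880384), (113, 10384593717069655257060992658440192), (112, 5192296858534827628530496329220096), (111, 2596148429267413814265248164610048), (110, 1298074214633706907132624082305024),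 (109, 649037107316853453566312041152512), (108, 324518553658426726783156020576256), (107, 162259276829213363391578010288128), (106, 81129638414606681695789005144064), (105, 40564819207303340847894502572032), (104, 20282409603651670423947251286016), (103, 10141204801825835211973625643008), (102, 5070602400912917605986812821504), (101, 2535301200456458802993406410752), (100, 1267650600228229401496703205376), (99, 633825300114114700748351602688), (98, 316912650057057350374175801344), (97, 158456325028528675187087900672), (96, 79228162514264337593543950336), (95, 39614081257132168796771975168), (94, 19807040628566084398385987584), (93, 9903520314283042199192993792), (92, 4951760157141521099596496896), (91, 2475880078570760549798248448), (90, 1237940039285380274899124224), (89, 618970019642690137449562112), (88, 309485009821345068724781056), (87, 154742504910672534362390528), (86, 77371252455336267181195264), (85, 38685626227668133590597632), (84, 19342813113834066795298816), (83, 9671406556917033397649408), (82, 4835703278458516698824704), (81, 2417851639229258349412352), (80, 1208925819614629174706176), (79, 604462909807314587353088), (78, 302231454903657293676544), (77, 151115727451828646838272), (76, 75557863725914323419136), (75, 37778931862957161709568), (74, 18889465931478580854784), (73, 9444732965739290427392), (72, 4722366482869645213696), (71, 2361183241434822606848),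 (70, 1180591620717411303424), (69, 590295810358705651712), (68, 295147905179352825856), (67, 147573952589676412928), (66, 73786976294838206464), (65, 36893488147419103232), (64, 18446744073709551616), (63, 9223372036854775808), (62, 4611686018427387904), (61, 2305843009213693952), (60, 1152921504606846976), (59, 576460752303423488), (58, 288230376151711744), (57, 144115188075855872), (56, 72057594037927936), (55, 36028797018963968), (54, 18014398509481984), (53, 9007199254740992), (52, 4503599627370496), (51, 2251799813685248), (50, 1125899906842624), (49, 562949953421312), (48, 281474976710656), (47, 140737488355328), (46, 70368744177664), (45, 35184372088832), (44, 17592186044416), (43, 8796093022208), (42, 4398046511104), (41, 2199023255552), (40, 1099511627776), (6, 64), (5, 32), (4, 16), (3, 8), (2, 4), (1, 2)]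

set_option maxHeartbeats 4000000 in
theorem e7K1_chk : fixChk2 chevE7 [125] e7K1 = true := by decide +kernel

theorem e7K1_len : e7K1.length = 99 := by decide +kernel

end Cfsg.Agent.Lib.Helper25
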