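import Mathlib
import Cfsg.Agent.Lib.Helper25.InvChk
import Cfsg.Prelude.Def_ChevE7

/-!
# Involution classes of `E₇(2^a)`: a certificate for the rank of `y - 1`

A triangular range certificate (code, pivot) for `y - 1`, `y` the product of the root elements
of the roots [63, 92, 125].
-/

set_option autoImplicit false

namespace Cfsg.Agent.Lib.Helper25

open Cfsg Cfsg.Lie

def e7R3 : List (ℕ × ℕ) := [(40, 1), (7, 2), (69, 6), (12, 13), (16, 17), (19, 20), (21, 22), (8, 23), (25, 26), (27, 28), (9, 29), (30, 31), (10, 32), (11, 33), (34, 35), (14, 36), (15, 37), (18, 38), (24, 39), (41, 42), (43, 44), (46, 47), (50, 51), (55, 56), (60, 61), (64, 65), (67, 68), (5, 70), (0, 99), (104, 105), (108, 109), (111, 112), (113, 114), (100, 115), (117, 118), (119, 120), (101, 121), (122, 123), (102, 124), (103, 125), (126, 127), (106, 128), (107, 129), (110, 130), (116, 131), (71, 72), (74, 75), (78, 79), (83, 84), (88, 89), (92, 93), (95, 96), (97, 98)]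

set_option maxHeartbeats 4000000 in
theorem e7R3_chk : ranChk2 chevE7 [63, 92, 125] e7R3 = true := by decide +kernel

theorem e7R3_len : e7R3.length = 53 := by decide +kernel

end Cfsg.Agent.Lib.Helper25
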