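import Mathlib
import Cfsg.Agent.Lib.Helper25.InvChk
import Cfsg.Prelude.Def_ChevE7

/-!
# Involution classes of `E₇(2^a)`: a certificate for the rank of `y - 1`

A triangular range certificate (code, pivot) for `y - 1`, `y` the product of the root elements
of the roots [87, 92, 125].
-/

set_option autoImplicit false

namespace Cfsg.Agent.Lib.Helper25

open Cfsg Cfsg.Lie

def e7R4 : List (ℕ × ℕ) := [(8, 18), (9, 24), (12, 30), (13, 31), (10, 32), (11, 33), (16, 34), (17, 35), (14, 36), (15, 37), (41, 64), (42, 65), (43, 67), (44, 68), (48, 76), (49, 77), (46, 78), (47, 79), (52, 81), (53, 82), (50, 83), (51, 84), (57, 86), (58, 87), (55, 88), (56, 89), (62, 90), (63, 91), (60, 92), (61, 93), (19, 111), (20, 112), (21, 113), (22, 114), (25, 117), (26, 118), (27, 119), (28, 120), (45, 4), (40, 1), (0, 132), (5, 99), (3, 94), (23, 38), (100, 110), (29, 39), (101, 116), (104, 122), (105, 123), (102, 124), (103, 125), (108, 126), (109, 127), (106, 128), (107, 129), (71, 95), (72, 96), (74, 97), (75, 98), (115, 130), (121, 131)]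

set_option maxHeartbeats 4000000 in
theorem e7R4_chk : ranChk2 chevE7 [87, 92, 125] e7R4 = true := by decide +kernel

theorem e7R4_len : e7R4.length = 61 := by decide +kernel

end Cfsg.Agent.Lib.Helper25
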