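import Mathlib
import Cfsg.Agent.Lib.Helper25.InvChk
import Cfsg.Prelude.Def_ChevE7

/-!
# Involution classes of `E₇(2^a)`: a certificate for the rank of `y - 1`

A triangular range certificate (code, pivot) for `y - 1`, `y` the product of the root elements
of the roots [69, 82, 99, 124].
-/

set_option autoImplicit false

namespace Cfsg.Agent.Lib.Helper25

open Cfsg Cfsg.Lie

def e7R5 : List (ℕ × ℕ) := [(50, 5), (33, 1), (8, 0), (63, 3), (9, 10), (7, 14), (15, 18), (16, 19), (11, 22), (12, 23), (27, 30), (28, 31), (29, 32), (24, 35), (25, 36), (13, 42), (43, 46), (44, 47), (45, 48), (53, 54), (21, 55), (51, 70), (52, 72), (73, 77), (74, 78), (67, 87), (69, 88), (49, 100), (103, 114), (104, 115), (0, 131), (4, 76), (6, 89), (17, 20), (80, 81), (39, 90), (91, 94), (92, 95), (40, 56), (82, 98), (41, 57), (83, 99), (37, 38), (60, 64), (61, 65), (62, 66), (84, 118), (58, 59), (119, 122), (120, 123), (121, 124), (75, 79), (101, 102), (97, 126), (107, 110), (108, 111), (125, 132), (93, 96), (85, 86), (116, 127), (117, 128), (129, 130), (109, 112)]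

set_option maxHeartbeats 4000000 in
theorem e7R5_chk : ranChk2 chevE7 [69, 82, 99, 124] e7R5 = true := by decide +kernel

theorem e7R5_len : e7R5.length = 63 := by decide +kernel

end Cfsg.Agent.Lib.Helper25
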