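import Mathlib
import Cfsg.Agent.Lib.Helper25.InvE7Tab0
import Cfsg.Agent.Lib.Helper25.InvE7Tab1
import Cfsg.Agent.Lib.Helper25.InvE7Tab2
import Cfsg.Agent.Lib.Helper25.InvE7Tab3
import Cfsg.Agent.Lib.Helper25.InvE7Tab4
import Cfsg.Agent.Lib.Helper25.InvPrune
import Cfsg.Agent.Lib.Helper25.CoxE8Data

/-!
# Involution classes of `E₇(2^a)`: the table and the pruned enumeration
-/

set_option autoImplicit false

namespace Cfsg.Agent.Lib.Helper25

open Cfsg Cfsg.Lie

/-- The table. -/
def e7Tab : List InvTabEntry := e7Tab0 ++ e7Tab1 ++ e7Tab2 ++ e7Tab3 ++ e7Tab4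

theorem e7Tab_chk : ∀ e ∈ e7Tab, invTabChk chevE7 e7Cls e = true := by
  have h : e7Tab.all (invTabChk chevE7 e7Cls) = true := by
    simp only [e7Tab, List.all_append, e7Tab0_chk, e7Tab1_chk, e7Tab2_chk, e7Tab3_chk, e7Tab4_chk, Bool.and_self]
  exact List.all_eq_true.1 h

set_option maxHeartbeats 4000000 in
/-- The pruned enumeration of the Weyl group gives exactly the words of the table. -/
theorem prune_E7 : pruneSearch chevE7 ([e8Level0, e8Level1, e8Level2, e8Level3, e8Level4, e8Level5, e8Level6]).reverse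
    ((List.range chevE7.rank).map chevE7.simple) [] = e7Tab.map (·.1) := by decide +kernel

end Cfsg.Agent.Lib.Helper25
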