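import Mathlib
import Cfsg.Agent.Lib.Helper25.InvChk2
import Cfsg.Agent.Lib.Helper25.InvTab
import Cfsg.Prelude.Def_ChevE7

/-!
# Involution classes of `E₇(2^a)`: a fusion of classes of sets of orthogonal roots

The product of the root elements of the roots [63, 66, 73, 78, 87, 92, 125]
is conjugate, by a product of four root elements, to a product over one root less.
-/

set_option autoImplicit false

namespace Cfsg.Agent.Lib.Helper25

open Cfsg Cfsg.Lie

set_option maxHeartbeats 4000000 in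
theorem fus_E7_8_c0 : wordEq2From chevE7 ([105, 21, 19, 15] ++ [63, 66, 73, 78, 87, 92, 125])
    ([66, 73, 78, 87, 92, 125] ++ [105, 21, 19, 15]) (0 * 16) 16 = true := by decide +kernel

set_option maxHeartbeats 4000000 in
theorem fus_E7_8_c1 : wordEq2From chevE7 ([105, 21, 19, 15] ++ [63, 66, 73, 78, 87, 92, 125])
    ([66, 73, 78, 87, 92, 125] ++ [105, 21, 19, 15]) (1 * 16) 16 = true := by decide +kernel

set_option maxHeartbeats 4000000 in
theorem fus_E7_8_c2 : wordEq2From chevE7 ([105, 21, 19, 15] ++ [63, 66, 73, 78, 87, 92, 125])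
    ([66, 73, 78, 87, 92, 125] ++ [105, 21, 19, 15]) (2 * 16) 16 = true := by decide +kernel

set_option maxHeartbeats 4000000 in
theorem fus_E7_8_c3 : wordEq2From chevE7 ([105, 21, 19, 15] ++ [63, 66, 73, 78, 87, 92, 125])
    ([66, 73, 78, 87, 92, 125] ++ [105, 21, 19, 15]) (3 * 16) 16 = true := by decide +kernel

set_option maxHeartbeats 4000000 in
theorem fus_E7_8_c4 : wordEq2From chevE7 ([105, 21, 19, 15] ++ [63, 66, 73, 78, 87, 92, 125])
    ([66, 73, 78, 87, 92, 125] ++ [105, 21, 19, 15]) (4 * 16) 16 = true := by decide +kernel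

set_option maxHeartbeats 4000000 in
theorem fus_E7_8_c5 : wordEq2From chevE7 ([105, 21, 19, 15] ++ [63, 66, 73, 78, 87, 92, 125])
    ([66, 73, 78, 87, 92, 125] ++ [105, 21, 19, 15]) (5 * 16) 16 = true := by decide +kernel

set_option maxHeartbeats 4000000 in
theorem fus_E7_8_c6 : wordEq2From chevE7 ([105, 21, 19, 15] ++ [63, 66, 73, 78, 87, 92, 125])
    ([66, 73, 78, 87, 92, 125] ++ [105, 21, 19, 15]) (6 * 16) 16 = true := by decide +kernel

set_option maxHeartbeats 4000000 in
theorem fus_E7_8_c7 : wordEq2From chevE7 ([105, 21, 19, 15] ++ [63, 66, 73, 78, 87, 92, 125])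
    ([66, 73, 78, 87, 92, 125] ++ [105, 21, 19, 15]) (7 * 16) 16 = true := by decide +kernel

set_option maxHeartbeats 4000000 in
theorem fus_E7_8_c8 : wordEq2From chevE7 ([105, 21, 19, 15] ++ [63, 66, 73, 78, 87, 92, 125])
    ([66, 73, 78, 87, 92, 125] ++ [105, 21, 19, 15]) (8 * 16) 16 = true := by decide +kernel

theorem fus_E7_8 : wordEq2 chevE7 ([105, 21, 19, 15] ++ [63, 66, 73, 78, 87, 92, 125])
    ([66, 73, 78, 87, 92, 125] ++ [105, 21, 19, 15]) = true := by
  apply wordEq2_of_chunks chevE7 _ _ 16 (by decide)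
  intro i hi
  have hi' : i < 9 := hi
  interval_cases i
  · exact fus_E7_8_c0
  · exact fus_E7_8_c1
  · exact fus_E7_8_c2
  · exact fus_E7_8_c3
  · exact fus_E7_8_c4
  · exact fus_E7_8_c5
  · exact fus_E7_8_c6
  · exact fus_E7_8_c7
  · exact fus_E7_8_c8

theorem weyl_E7_8 : ([66, 73, 78, 87, 92, 125]).map (wPiF chevE7 []) = [66, 73, 78, 87, 92, 125] := by decide +kernel

end Cfsg.Agent.Lib.Helper25
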