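import Mathlib
import Cfsg.Agent.Lib.Helper25.InvGen2
import Cfsg.Agent.Lib.Helper25.InvE7Data
import Cfsg.Agent.Lib.Helper25.InvE7Fus5
import Cfsg.Agent.Lib.Helper25.InvE7Fus6
import Cfsg.Agent.Lib.Helper25.InvE7Fus7
import Cfsg.Agent.Lib.Helper25.InvE7Fus8
import Cfsg.Agent.Lib.Helper25.InvE7CertK1
import Cfsg.Agent.Lib.Helper25.InvE7CertK2
import Cfsg.Agent.Lib.Helper25.InvE7CertK3
import Cfsg.Agent.Lib.Helper25.InvE7CertK4
import Cfsg.Agent.Lib.Helper25.InvE7CertR2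
import Cfsg.Agent.Lib.Helper25.InvE7CertR3
import Cfsg.Agent.Lib.Helper25.InvE7CertR4
import Cfsg.Agent.Lib.Helper25.InvE7CertR5
import Cfsg.Agent.Lib.Helper25.ChevWeylData
import Cfsg.Agent.Lib.Helper25.ChevOrderData
import Cfsg.Agent.Lib.Helper57.InvCX
import Cfsg.Agent.Lib.Helper39.InvCK
import Cfsg.Agent.Lib.Helper39.InvCM

/-!
# Involution classes of `E₇(2^a)`
-/

set_option autoImplicit false

namespace Cfsg.Agent.Lib.Helper25

open Cfsg Cfsg.Lie Matrix
open Cfsg.Agent.Lib.Helper8 Cfsg.Agent.Lib.Helper24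

/-- The standard sets of orthogonal roots. -/
def e7Std : List (List ℕ) := [[125], [92, 125], [63, 92, 125], [87, 92, 125], [69, 82, 99, 124]]

theorem e7_strong_1 : strongCommChk chevE7 [125] = true := by decide +kernel

theorem e7_strong_2 : strongCommChk chevE7 [92, 125] = true := by decide +kernel

theorem e7_strong_3 : strongCommChk chevE7 [63, 92, 125] = true := by decide +kernel

theorem e7_strong_4 : strongCommChk chevE7 [87, 92, 125] = true := by decide +kernel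

theorem e7_strong_5 : strongCommChk chevE7 [69, 82, 99, 124] = true := by decide +kernel

theorem e7_bit_1 : (apps2 chevE7 [125] (1 <<< 7) ^^^ (1 <<< 7)).testBit 2 = true := by
  decide +kernel

theorem e7_bit_2 : (apps2 chevE7 [92, 125] (1 <<< 40) ^^^ (1 <<< 40)).testBit 1 = true := by
  decide +kernel

theorem e7_bit_3 : (apps2 chevE7 [63, 92, 125] (1 <<< 40) ^^^ (1 <<< 40)).testBit 1 = true := by
  decide +kernel

theorem e7_bit_4 : (apps2 chevE7 [87, 92, 125] (1 <<< 8) ^^^ (1 <<< 8)).testBit 18 = true := by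
  decide +kernel

theorem e7_bit_5 : (apps2 chevE7 [69, 82, 99, 124] (1 <<< 50) ^^^ (1 <<< 50)).testBit 5 = true := by
  decide +kernel

section

variable {F : Type*} [Field F]

theorem e7_cls_5 [CharP F 2] (t c : GL chevE7.Idx F) (hc : c ∈ chevE7.group F)
    (h : ((c * t * c⁻¹ : GL chevE7.Idx F) : Matrix chevE7.Idx chevE7.Idx F) =
      xProd F chevE7 [73, 87, 92, 125]) :
    ∃ c' ∈ chevE7.group F, ∃ Y ∈ e7Std,
      ((c' * t * c'⁻¹ : GL chevE7.Idx F) : Matrix chevE7.Idx chevE7.Idx F) = xProd F chevE7 Y := by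
  have hD : chevE7 ∈ [chevG2, chevB2, chevD4, chevF4, chevE6, chevE7, chevE8] := by simp
  have hD' : chevE7 ∈ chevList := hD
  obtain ⟨c₁, hc₁, e₁⟩ := conj_fusion (F := F) chevE7 hD' [94, 32, 22, 17]
    [73, 87, 92, 125]
    [87, 92, 125] (by decide) (by decide) (by decide) fus_E7_5 t c hc h
  obtain ⟨c₂, hc₂, e₂⟩ := conj_weyl (F := F) chevE7 hD [] (by decide)
    [87, 92, 125] (by decide) [87, 92, 125] weyl_E7_5 t c₁ hc₁ e₁
  exact ⟨c₂, hc₂, _, by simp [e7Std], e₂⟩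

theorem e7_cls_6 [CharP F 2] (t c : GL chevE7.Idx F) (hc : c ∈ chevE7.group F)
    (h : ((c * t * c⁻¹ : GL chevE7.Idx F) : Matrix chevE7.Idx chevE7.Idx F) =
      xProd F chevE7 [73, 78, 87, 92, 125]) :
    ∃ c' ∈ chevE7.group F, ∃ Y ∈ e7Std,
      ((c' * t * c'⁻¹ : GL chevE7.Idx F) : Matrix chevE7.Idx chevE7.Idx F) = xProd F chevE7 Y := by
  have hD : chevE7 ∈ [chevG2, chevB2, chevD4, chevF4, chevE6, chevE7, chevE8] := by simp
  have hD' : chevE7 ∈ chevList := hD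
  obtain ⟨c₁, hc₁, e₁⟩ := conj_fusion (F := F) chevE7 hD' [94, 32, 22, 17]
    [73, 78, 87, 92, 125]
    [78, 125, 87, 92] (by decide) (by decide) (by decide) fus_E7_6 t c hc h
  obtain ⟨c₂, hc₂, e₂⟩ := conj_weyl (F := F) chevE7 hD [3, 0, 2, 1, 3, 4, 5, 0, 2, 1, 3, 4, 2, 3, 0, 2, 0] (by decide)
    [69, 82, 99, 124] (by decide) [78, 125, 87, 92] weyl_E7_6 t c₁ hc₁ e₁
  exact ⟨c₂, hc₂, _, by simp [e7Std], e₂⟩

theorem e7_cls_7 [CharP F 2] (t c : GL chevE7.Idx F) (hc : c ∈ chevE7.group F)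
    (h : ((c * t * c⁻¹ : GL chevE7.Idx F) : Matrix chevE7.Idx chevE7.Idx F) =
      xProd F chevE7 [66, 73, 78, 87, 92, 125]) :
    ∃ c' ∈ chevE7.group F, ∃ Y ∈ e7Std,
      ((c' * t * c'⁻¹ : GL chevE7.Idx F) : Matrix chevE7.Idx chevE7.Idx F) = xProd F chevE7 Y := by
  have hD : chevE7 ∈ [chevG2, chevB2, chevD4, chevF4, chevE6, chevE7, chevE8] := by simp
  have hD' : chevE7 ∈ chevList := hD
  obtain ⟨c₁, hc₁, e₁⟩ := conj_fusion (F := F) chevE7 hD' [70, 56, 51, 46]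
    [66, 73, 78, 87, 92, 125]
    [73, 78, 87, 92, 125] (by decide) (by decide) (by decide) fus_E7_7 t c hc h
  obtain ⟨c₂, hc₂, e₂⟩ := conj_weyl (F := F) chevE7 hD [] (by decide)
    [73, 78, 87, 92, 125] (by decide) [73, 78, 87, 92, 125] weyl_E7_7 t c₁ hc₁ e₁
  exact e7_cls_6 t c₂ hc₂ e₂

theorem e7_cls_8 [CharP F 2] (t c : GL chevE7.Idx F) (hc : c ∈ chevE7.group F)
    (h : ((c * t * c⁻¹ : GL chevE7.Idx F) : Matrix chevE7.Idx chevE7.Idx F) =
      xProd F chevE7 [63, 66, 73, 78, 87, 92, 125]) :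
    ∃ c' ∈ chevE7.group F, ∃ Y ∈ e7Std,
      ((c' * t * c'⁻¹ : GL chevE7.Idx F) : Matrix chevE7.Idx chevE7.Idx F) = xProd F chevE7 Y := by
  have hD : chevE7 ∈ [chevG2, chevB2, chevD4, chevF4, chevE6, chevE7, chevE8] := by simp
  have hD' : chevE7 ∈ chevList := hD
  obtain ⟨c₁, hc₁, e₁⟩ := conj_fusion (F := F) chevE7 hD' [105, 21, 19, 15]
    [63, 66, 73, 78, 87, 92, 125]
    [66, 73, 78, 87, 92, 125] (by decide) (by decide) (by decide) fus_E7_8 t c hc h
  obtain ⟨c₂, hc₂, e₂⟩ := conj_weyl (F := F) chevE7 hD [] (by decide)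
    [66, 73, 78, 87, 92, 125] (by decide) [66, 73, 78, 87, 92, 125] weyl_E7_8 t c₁ hc₁ e₁
  exact e7_cls_7 t c₂ hc₂ e₂

/-- Every involution of `E₇(2^a)` is conjugate to one of the standard products. -/
theorem e7_class [Fintype F] [CharP F 2] (t : GL chevE7.Idx F) (ht : t ∈ chevE7.group F)
    (h2 : orderOf t = 2) :
    ∃ c ∈ chevE7.group F, ∃ Y ∈ e7Std,
      ((c * t * c⁻¹ : GL chevE7.Idx F) : Matrix chevE7.Idx chevE7.Idx F) = xProd F chevE7 Y := by
  have hD : chevE7 ∈ [chevG2, chevB2, chevD4, chevF4, chevE6, chevE7, chevE8] := by simp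
  have hD' : chevE7 ∈ chevList := hD
  have htt : t * t = 1 := by
    have := pow_orderOf_eq_one t
    rw [h2, pow_two] at this
    exact this
  obtain ⟨c, hc, Y, hY, hcY⟩ := inv_chev_classes_tab (F := F) chevE7 hD CoxeterMatrix.E₇ rfl weyl_E7
    e8ML e8Cart [e8Level0, e8Level1, e8Level2, e8Level3, e8Level4, e8Level5, e8Level6] (by decide) (by intro i j; fin_cases i <;> fin_cases j <;> rfl)
    chainOK_E7 posChk_E7 e7Cls e7Tab prune_E7 e7Tab_chk t ht htt
  simp only [e7Cls, List.mem_cons, List.not_mem_nil, or_false] at hY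
  rcases hY with rfl | rfl | rfl | rfl | rfl | rfl | rfl | rfl | rfl | rfl
  · exact ⟨c, hc, _, by simp [e7Std], hcY⟩
  · exact ⟨c, hc, _, by simp [e7Std], hcY⟩
  · exact ⟨c, hc, _, by simp [e7Std], hcY⟩
  · exact ⟨c, hc, _, by simp [e7Std], hcY⟩
  · exact ⟨c, hc, _, by simp [e7Std], hcY⟩
  · exact e7_cls_5 t c hc hcY
  · exact e7_cls_6 t c hc hcY
  · exact e7_cls_7 t c hc hcY
  · exact e7_cls_8 t c hc hcY
  · -- the identity: impossible
    exfalso
    have h1 : c * t * c⁻¹ = 1 := by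
      apply Units.ext
      rw [hcY]
      simp [xProd]
    have h3 : t = 1 := by
      have : t = c⁻¹ * (c * t * c⁻¹) * c := by group
      rw [this, h1]
      group
    rw [h3, orderOf_one] at h2
    omega

/-- The standard products lie in the group and have order two. -/
theorem e7_part1 [CharP F 2] (Y : List ℕ) (hY : Y ∈ e7Std) (y : GL chevE7.Idx F)
    (hy : (y : Matrix chevE7.Idx chevE7.Idx F) = xProd F chevE7 Y) :
    y ∈ chevE7.group F ∧ orderOf y = 2 := by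
  have hD : chevE7 ∈ [chevG2, chevB2, chevD4, chevF4, chevE6, chevE7, chevE8] := by simp
  have hD' : chevE7 ∈ chevList := hD
  simp only [e7Std, List.mem_cons, List.not_mem_nil, or_false] at hY
  obtain ⟨g, hg, eg⟩ := exists_xProdGL (F := F) chevE7 hD' Y
  have hyg : y = g := Units.ext (hy.trans eg.symm)
  refine ⟨hyg ▸ hg, ?_⟩
  have hB : ∀ b ∈ Y, b < chevE7.nroots := by
    rcases hY with rfl | rfl | rfl | rfl | rfl <;> decide
  have hnd : Y.Nodup := by
    rcases hY with rfl | rfl | rfl | rfl | rfl <;> decide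
  have hchk : strongCommChk chevE7 Y = true := by
    rcases hY with rfl | rfl | rfl | rfl | rfl
    · exact e7_strong_1
    · exact e7_strong_2
    · exact e7_strong_3
    · exact e7_strong_4
    · exact e7_strong_5
  have hsq := (inv_chev_nprod (F := F) chevE7 hD Y hB hnd (hcomm_of_chk chevE7 hD' Y hchk)).2.2
  have hne : xProd F chevE7 Y ≠ 1 := by
    rcases hY with rfl | rfl | rfl | rfl | rfl
    · exact xProd_ne_one_of_bit chevE7 _ hB 7 2 (by decide) (by decide) e7_bit_1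
    · exact xProd_ne_one_of_bit chevE7 _ hB 40 1 (by decide) (by decide) e7_bit_2
    · exact xProd_ne_one_of_bit chevE7 _ hB 40 1 (by decide) (by decide) e7_bit_3
    · exact xProd_ne_one_of_bit chevE7 _ hB 8 18 (by decide) (by decide) e7_bit_4
    · exact xProd_ne_one_of_bit chevE7 _ hB 50 5 (by decide) (by decide) e7_bit_5
  have : Fact (Nat.Prime 2) := ⟨Nat.prime_two⟩
  apply orderOf_eq_prime
  · apply Units.ext
    rw [pow_two, Units.val_mul, hy, hsq, Units.val_one]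
  · intro h1
    apply hne
    rw [← hy, h1, Units.val_one]

theorem e7_nc_1_2 [CharP F 2] (P : GL chevE7.Idx F) :
    (P : Matrix chevE7.Idx chevE7.Idx F) * xProd F chevE7 [125] ≠
      xProd F chevE7 [92, 125] * (P : Matrix chevE7.Idx chevE7.Idx F) :=
  inv_chev_not_conj chevE7 [125] [92, 125] (by decide) (by decide) e7K1 e7R2
    e7K1_chk e7R2_chk (by rw [e7K1_len, e7R2_len]; decide) P

theorem e7_nc_1_3 [CharP F 2] (P : GL chevE7.Idx F) :
    (P : Matrix chevE7.Idx chevE7.Idx F) * xProd F chevE7 [125] ≠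
      xProd F chevE7 [63, 92, 125] * (P : Matrix chevE7.Idx chevE7.Idx F) :=
  inv_chev_not_conj chevE7 [125] [63, 92, 125] (by decide) (by decide) e7K1 e7R3
    e7K1_chk e7R3_chk (by rw [e7K1_len, e7R3_len]; decide) P

theorem e7_nc_1_4 [CharP F 2] (P : GL chevE7.Idx F) :
    (P : Matrix chevE7.Idx chevE7.Idx F) * xProd F chevE7 [125] ≠
      xProd F chevE7 [87, 92, 125] * (P : Matrix chevE7.Idx chevE7.Idx F) :=
  inv_chev_not_conj chevE7 [125] [87, 92, 125] (by decide) (by decide) e7K1 e7R4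
    e7K1_chk e7R4_chk (by rw [e7K1_len, e7R4_len]; decide) P

theorem e7_nc_1_5 [CharP F 2] (P : GL chevE7.Idx F) :
    (P : Matrix chevE7.Idx chevE7.Idx F) * xProd F chevE7 [125] ≠
      xProd F chevE7 [69, 82, 99, 124] * (P : Matrix chevE7.Idx chevE7.Idx F) :=
  inv_chev_not_conj chevE7 [125] [69, 82, 99, 124] (by decide) (by decide) e7K1 e7R5
    e7K1_chk e7R5_chk (by rw [e7K1_len, e7R5_len]; decide) P

theorem e7_nc_2_3 [CharP F 2] (P : GL chevE7.Idx F) :
    (P : Matrix chevE7.Idx chevE7.Idx F) * xProd F chevE7 [92, 125] ≠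
      xProd F chevE7 [63, 92, 125] * (P : Matrix chevE7.Idx chevE7.Idx F) :=
  inv_chev_not_conj chevE7 [92, 125] [63, 92, 125] (by decide) (by decide) e7K2 e7R3
    e7K2_chk e7R3_chk (by rw [e7K2_len, e7R3_len]; decide) P

theorem e7_nc_2_4 [CharP F 2] (P : GL chevE7.Idx F) :
    (P : Matrix chevE7.Idx chevE7.Idx F) * xProd F chevE7 [92, 125] ≠
      xProd F chevE7 [87, 92, 125] * (P : Matrix chevE7.Idx chevE7.Idx F) :=
  inv_chev_not_conj chevE7 [92, 125] [87, 92, 125] (by decide) (by decide) e7K2 e7R4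
    e7K2_chk e7R4_chk (by rw [e7K2_len, e7R4_len]; decide) P

theorem e7_nc_2_5 [CharP F 2] (P : GL chevE7.Idx F) :
    (P : Matrix chevE7.Idx chevE7.Idx F) * xProd F chevE7 [92, 125] ≠
      xProd F chevE7 [69, 82, 99, 124] * (P : Matrix chevE7.Idx chevE7.Idx F) :=
  inv_chev_not_conj chevE7 [92, 125] [69, 82, 99, 124] (by decide) (by decide) e7K2 e7R5
    e7K2_chk e7R5_chk (by rw [e7K2_len, e7R5_len]; decide) P

theorem e7_nc_3_4 [CharP F 2] (P : GL chevE7.Idx F) :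
    (P : Matrix chevE7.Idx chevE7.Idx F) * xProd F chevE7 [63, 92, 125] ≠
      xProd F chevE7 [87, 92, 125] * (P : Matrix chevE7.Idx chevE7.Idx F) :=
  inv_chev_not_conj chevE7 [63, 92, 125] [87, 92, 125] (by decide) (by decide) e7K3 e7R4
    e7K3_chk e7R4_chk (by rw [e7K3_len, e7R4_len]; decide) P

theorem e7_nc_3_5 [CharP F 2] (P : GL chevE7.Idx F) :
    (P : Matrix chevE7.Idx chevE7.Idx F) * xProd F chevE7 [63, 92, 125] ≠
      xProd F chevE7 [69, 82, 99, 124] * (P : Matrix chevE7.Idx chevE7.Idx F) :=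
  inv_chev_not_conj chevE7 [63, 92, 125] [69, 82, 99, 124] (by decide) (by decide) e7K3 e7R5
    e7K3_chk e7R5_chk (by rw [e7K3_len, e7R5_len]; decide) P

theorem e7_nc_4_5 [CharP F 2] (P : GL chevE7.Idx F) :
    (P : Matrix chevE7.Idx chevE7.Idx F) * xProd F chevE7 [87, 92, 125] ≠
      xProd F chevE7 [69, 82, 99, 124] * (P : Matrix chevE7.Idx chevE7.Idx F) :=
  inv_chev_not_conj chevE7 [87, 92, 125] [69, 82, 99, 124] (by decide) (by decide) e7K4 e7R5
    e7K4_chk e7R5_chk (by rw [e7K4_len, e7R5_len]; decide) P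

theorem e7_conj_swap (P : GL chevE7.Idx F) (A B : Matrix chevE7.Idx chevE7.Idx F)
    (h : (P : Matrix chevE7.Idx chevE7.Idx F) * A = B * (P : Matrix chevE7.Idx chevE7.Idx F)) :
    ((P⁻¹ : GL chevE7.Idx F) : Matrix chevE7.Idx chevE7.Idx F) * B =
      A * ((P⁻¹ : GL chevE7.Idx F) : Matrix chevE7.Idx chevE7.Idx F) := by
  have h1 : ((P⁻¹ : GL chevE7.Idx F) : Matrix chevE7.Idx chevE7.Idx F) *
      (P : Matrix chevE7.Idx chevE7.Idx F) = 1 := by
    rw [← Units.val_mul, inv_mul_cancel, Units.val_one]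
  have h2 : (P : Matrix chevE7.Idx chevE7.Idx F) *
      ((P⁻¹ : GL chevE7.Idx F) : Matrix chevE7.Idx chevE7.Idx F) = 1 := by
    rw [← Units.val_mul, mul_inv_cancel, Units.val_one]
  calc ((P⁻¹ : GL chevE7.Idx F) : Matrix chevE7.Idx chevE7.Idx F) * B
      = ((P⁻¹ : GL chevE7.Idx F) : Matrix chevE7.Idx chevE7.Idx F) * B *
          ((P : Matrix chevE7.Idx chevE7.Idx F) *
            ((P⁻¹ : GL chevE7.Idx F) : Matrix chevE7.Idx chevE7.Idx F)) := by
        rw [h2, Matrix.mul_one]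
    _ = ((P⁻¹ : GL chevE7.Idx F) : Matrix chevE7.Idx chevE7.Idx F) *
          (B * (P : Matrix chevE7.Idx chevE7.Idx F)) *
            ((P⁻¹ : GL chevE7.Idx F) : Matrix chevE7.Idx chevE7.Idx F) := by
        simp only [Matrix.mul_assoc]
    _ = (((P⁻¹ : GL chevE7.Idx F) : Matrix chevE7.Idx chevE7.Idx F) *
          (P : Matrix chevE7.Idx chevE7.Idx F)) * A *
            ((P⁻¹ : GL chevE7.Idx F) : Matrix chevE7.Idx chevE7.Idx F) := by
        rw [← h]
        simp only [Matrix.mul_assoc]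
    _ = A * ((P⁻¹ : GL chevE7.Idx F) : Matrix chevE7.Idx chevE7.Idx F) := by
        rw [h1, Matrix.one_mul]

/-- Distinct standard products are not conjugate. -/
theorem e7_not_conj [CharP F 2] (Y₁ : List ℕ) (h₁ : Y₁ ∈ e7Std) (Y₂ : List ℕ) (h₂ : Y₂ ∈ e7Std)
    (hne : Y₁ ≠ Y₂) (P : GL chevE7.Idx F) :
    (P : Matrix chevE7.Idx chevE7.Idx F) * xProd F chevE7 Y₁ ≠
      xProd F chevE7 Y₂ * (P : Matrix chevE7.Idx chevE7.Idx F) := by
  simp only [e7Std, List.mem_cons, List.not_mem_nil, or_false] at h₁ h₂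
  rcases h₁ with rfl | rfl | rfl | rfl | rfl <;> rcases h₂ with rfl | rfl | rfl | rfl | rfl
  · exact absurd rfl hne
  · exact e7_nc_1_2 P
  · exact e7_nc_1_3 P
  · exact e7_nc_1_4 P
  · exact e7_nc_1_5 P
  · exact fun h => e7_nc_1_2 P⁻¹ (e7_conj_swap P _ _ h)
  · exact absurd rfl hne
  · exact e7_nc_2_3 P
  · exact e7_nc_2_4 P
  · exact e7_nc_2_5 P
  · exact fun h => e7_nc_1_3 P⁻¹ (e7_conj_swap P _ _ h)
  · exact fun h => e7_nc_2_3 P⁻¹ (e7_conj_swap P _ _ h)
  · exact absurd rfl hne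
  · exact e7_nc_3_4 P
  · exact e7_nc_3_5 P
  · exact fun h => e7_nc_1_4 P⁻¹ (e7_conj_swap P _ _ h)
  · exact fun h => e7_nc_2_4 P⁻¹ (e7_conj_swap P _ _ h)
  · exact fun h => e7_nc_3_4 P⁻¹ (e7_conj_swap P _ _ h)
  · exact absurd rfl hne
  · exact e7_nc_4_5 P
  · exact fun h => e7_nc_1_5 P⁻¹ (e7_conj_swap P _ _ h)
  · exact fun h => e7_nc_2_5 P⁻¹ (e7_conj_swap P _ _ h)
  · exact fun h => e7_nc_3_5 P⁻¹ (e7_conj_swap P _ _ h)
  · exact fun h => e7_nc_4_5 P⁻¹ (e7_conj_swap P _ _ h)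
  · exact absurd rfl hne

end

end Cfsg.Agent.Lib.Helper25
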