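import Mathlib
import Cfsg.Agent.Lib.Helper25.InvChk
import Cfsg.Prelude.Def_ChevE7

/-!
# Involution classes of `E₇(2^a)`: a certificate for the rank of `y - 1`

A triangular range certificate (code, pivot) for `y - 1`, `y` the product of the root elements
of the roots [92, 125].
-/

set_option autoImplicit false

namespace Cfsg.Agent.Lib.Helper25

open Cfsg Cfsg.Lie

def e7R2 : List (ℕ × ℕ) := [(40, 1), (7, 2), (8, 23), (9, 29), (10, 32), (11, 33), (14, 36), (15, 37), (18, 38), (24, 39), (41, 71), (42, 72), (43, 74), (44, 75), (46, 78), (47, 79), (50, 83), (51, 84), (55, 88), (56, 89), (60, 92), (61, 93), (64, 95), (65, 96), (67, 97), (68, 98), (12, 104), (13, 105), (16, 108), (17, 109), (19, 111), (20, 112), (21, 113), (22, 114), (25, 117), (26, 118), (27, 119), (28, 120), (30, 122), (31, 123), (34, 126), (35, 127), (0, 132), (5, 99), (100, 115), (101, 121), (102, 124), (103, 125), (106, 128), (107, 129), (110, 130), (116, 131)]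

set_option maxHeartbeats 4000000 in
theorem e7R2_chk : ranChk2 chevE7 [92, 125] e7R2 = true := by decide +kernel

theorem e7R2_len : e7R2.length = 52 := by decide +kernel

end Cfsg.Agent.Lib.Helper25
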