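import Mathlib
import Cfsg.Agent.Lib.Helper25.InvTab2

/-!
# Involution classes of `E₇(2^a)`: the list of classes of sets of orthogonal roots
-/

set_option autoImplicit false

namespace Cfsg.Agent.Lib.Helper25

open Cfsg Cfsg.Lie

/-- The classes of sets of pairwise orthogonal roots met by the table; the last one is empty. -/
def e7Cls : List (List ℕ) := [[125], [92, 125], [63, 92, 125], [87, 92, 125], [69, 82, 99, 124], [73, 87, 92, 125], [73, 78, 87, 92, 125], [66, 73, 78, 87, 92, 125], [63, 66, 73, 78, 87, 92, 125], []]

end Cfsg.Agent.Lib.Helper25
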