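import Mathlib
import Cfsg.Agent.Lib.Helper25.InvE7
import Cfsg.Agent.Lib.Helper25.InvCount

/-!
# The number of classes of involutions of `E₇(2^a)`
-/

set_option autoImplicit false

namespace Cfsg.Agent.Lib.Helper25

open Cfsg Cfsg.Lie Matrix
open Cfsg.Agent.Lib.Helper8 Cfsg.Agent.Lib.Helper24

section

variable {F : Type*} [Field F]

theorem e7_count [Fintype F] [CharP F 2] :
    (ConjClasses.mk '' {g : ↥(chevE7.group F) | orderOf g = 2}).ncard = 5 := by
  have hD : chevE7 ∈ [chevG2, chevB2, chevD4, chevF4, chevE6, chevE7, chevE8] := by simp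
  have hD' : chevE7 ∈ chevList := hD
  have hex : ∀ k : Fin 5, ∃ g : GL chevE7.Idx F, g ∈ chevE7.group F ∧
      (g : Matrix chevE7.Idx chevE7.Idx F) = xProd F chevE7 (e7Std.getD (k : ℕ) []) :=
    fun k => exists_xProdGL (F := F) chevE7 hD' _
  choose g hg hgv using hex
  have hmemY : ∀ k : Fin 5, e7Std.getD (k : ℕ) [] ∈ e7Std := by decide
  have hinj : ∀ i j : Fin 5, i ≠ j → e7Std.getD (i : ℕ) [] ≠ e7Std.getD (j : ℕ) [] := by decide
  apply ncard_inv_classes 5 (fun k => (⟨g k, hg k⟩ : ↥(chevE7.group F)))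
  · intro k
    have h := (e7_part1 (F := F) _ (hmemY k) (g k) (hgv k)).2
    rw [← Subgroup.orderOf_coe]
    exact h
  · intro t ht
    have ht' : orderOf (t : GL chevE7.Idx F) = 2 := by
      rw [Subgroup.orderOf_coe]
      exact ht
    obtain ⟨c, hc, Y, hY, h⟩ := e7_class (F := F) (t : GL chevE7.Idx F) t.2 ht'
    obtain ⟨k, rfl⟩ : ∃ k : Fin 5, Y = e7Std.getD (k : ℕ) [] := by
      simp only [e7Std, List.mem_cons, List.not_mem_nil, or_false] at hY
      rcases hY with rfl | rfl | rfl | rfl | rfl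
      exacts [⟨0, rfl⟩, ⟨1, rfl⟩, ⟨2, rfl⟩, ⟨3, rfl⟩, ⟨4, rfl⟩]
    refine ⟨k, ⟨c, hc⟩, ?_⟩
    apply Subtype.ext
    apply Units.ext
    rw [hgv k, ← h]
    rfl
  · intro i j hij c hc
    have h1 : (c : GL chevE7.Idx F) * g i * (c : GL chevE7.Idx F)⁻¹ = g j :=
      congrArg Subtype.val hc
    have h2 : ((c : GL chevE7.Idx F) : Matrix chevE7.Idx chevE7.Idx F) *
        xProd F chevE7 (e7Std.getD (i : ℕ) []) =
        xProd F chevE7 (e7Std.getD (j : ℕ) []) *
          ((c : GL chevE7.Idx F) : Matrix chevE7.Idx chevE7.Idx F) := by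
      rw [← hgv i, ← hgv j, ← Units.val_mul, ← Units.val_mul]
      congr 1
      rw [← h1]
      group
    exact e7_not_conj (F := F) _ (hmemY i) _ (hmemY j) (hinj i j hij) (c : GL chevE7.Idx F) h2

end

end Cfsg.Agent.Lib.Helper25
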