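import Mathlib
import Cfsg.Agent.Lib.Helper25.InvChk

/-!
# Involution classes: a coordinate subspace stable under the Chevalley group (definitions)

In characteristic two the Chevalley group of type `F₄` stabilises the span of the basis vectors
`h_{p_i}` (`p_i` short) and `e_s` (`s` short). The definitions here express this for a list `S`
of codes of basis vectors, with the checks on the tables of the datum.
-/

set_option autoImplicit false

namespace Cfsg.Agent.Lib.Helper25

open Cfsg Cfsg.Lie Matrix

/-- The level of a coordinate with respect to a list of codes: `0` on the list, `1` off it. -/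
def codeLvl (D : ChevalleyDatum) (S : List ℕ) (i : D.Idx) : ℕ := if codeOf D i ∈ S then 0 else 1

/-- The check that, modulo two, every `x_r(t)` maps the basis vectors with codes in `S` into
their span: the entries of `xMat` at (row off `S`, column in `S`) have even coefficients. -/
def idealChk (D : ChevalleyDatum) (S : List ℕ) : Bool :=
  (List.range D.nroots).all fun r =>
    ((List.range D.rank).all fun i => !decide (i ∈ S) || decide (D.rank + r ∈ S) ||
      decide ((D.cartanSR.getD i #[]).getD r 0 % 2 = 0)) &&
    ((List.range D.nroots).all fun s =>
      !(decide (s = D.negIdx.getD r 0) && decide (s ≠ r) && decide (D.rank + s ∈ S)) ||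
        (decide (D.rank + r ∈ S) && (List.range D.rank).all fun i =>
          decide (i ∈ S) || decide ((D.coroot.getD r #[]).getD i 0 % 2 = 0))) &&
    ((List.range D.nroots).all fun s =>
      !decide (D.rank + s ∈ S) || decide (s = r) || decide (s = D.negIdx.getD r 0) ||
        (List.range D.nroots).all fun u => decide (D.rank + u ∈ S) ||
          (D.chainCoeff r s u).all fun km => decide (km.2 % 2 = 0))

/-- All set bits of the masks of a certificate have codes in `S`. -/
def supChk (D : ChevalleyDatum) (S : List ℕ) (K : List (ℕ × ℕ)) : Bool :=
  K.all fun e => (List.range (D.rank + D.nroots)).all fun c => !e.2.testBit c || decide (c ∈ S)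

end Cfsg.Agent.Lib.Helper25
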