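import Mathlib
import Cfsg.Agent.Lib.Helper25.InvIdealDefs
import Cfsg.Prelude.Def_ChevF4

set_option autoImplicit false
namespace Cfsg.Agent.Lib.Helper25
open Cfsg Cfsg.Lie

/-- The codes of the basis vectors `h_{p_1}`, `h_{p_2}` and `e_s`, `s` a short root of `F₄`. -/
def f4Short : List ℕ := [0, 1, 7, 11, 12, 13, 14, 15, 16, 17, 18, 22, 23, 24, 31, 32, 33, 37, 38, 39, 40, 41, 42, 43, 44, 48]

theorem idealChk_F4 : idealChk chevF4 f4Short = true := by decide +kernel

end Cfsg.Agent.Lib.Helper25
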