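import Mathlib
import Cfsg.Agent.Lib.Helper25.InvF4Ideal

/-!
# Involution classes of `F₄(2^a)`: certificates inside the span of the short root vectors

Fixed vectors of `x_47(1)` (a long root element) in the stable subspace, and a triangular
range certificate for `x_44(1) - 1` (a short root element) on it.
-/

set_option autoImplicit false

namespace Cfsg.Agent.Lib.Helper25

open Cfsg Cfsg.Lie

def f4KI : List (ℕ × ℕ) := [(48, 281474976710656), (44, 17592186044416), (43, 8796093022208), (42, 4398046511104), (41, 2199023255552), (40, 1099511627776), (39, 549755813888), (38, 274877906944), (37, 137438953472), (33, 8589934592), (32, 4294967296), (31, 2147483648), (24, 16777216), (23, 8388608), (18, 262144), (17, 131072), (16, 65536), (14, 16384), (1, 2), (0, 1)]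

def f4RI : List (ℕ × ℕ) := [(7, 1), (11, 37), (12, 38), (13, 39), (14, 40), (15, 41), (16, 42), (17, 43), (18, 44), (0, 48)]

theorem f4KI_chk : fixChk2 chevF4 [47] f4KI = true := by decide +kernel

theorem f4KI_sup : supChk chevF4 f4Short f4KI = true := by decide +kernel

theorem f4RI_chk : ranChk2 chevF4 [44] f4RI = true := by decide +kernel

theorem f4RI_sup : f4RI.all (fun e => decide (e.1 ∈ f4Short)) = true := by decide +kernel

theorem f4KI_len : f4KI.length = 20 := by decide +kernel

theorem f4RI_len : f4RI.length = 10 := by decide +kernel

theorem f4Short_len : f4Short.length = 26 := by decide +kernel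

end Cfsg.Agent.Lib.Helper25
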