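import Mathlib
import Cfsg.Agent.Lib.Helper25.InvChk
import Cfsg.Prelude.Def_ChevF4

/-!
# Involution classes of `F₄(2^a)`: a certificate for the rank of `y - 1`

Fixed vectors (pivot, bit mask) of the product of the root elements of the roots [47].
-/

set_option autoImplicit false

namespace Cfsg.Agent.Lib.Helper25

open Cfsg Cfsg.Lie

def f4K1 : List (ℕ × ℕ) := [(51, 2251799813685248), (50, 1125899906842624), (49, 562949953421312), (48, 281474976710656), (47, 140737488355328), (46, 70368744177664), (45, 35184372088832), (44, 17592186044416), (43, 8796093022208), (42, 4398046511104), (41, 2199023255552), (40, 1099511627776), (39, 549755813888), (38, 274877906944), (37, 137438953472), (36, 68719476736), (35, 34359738368), (34, 17179869184), (33, 8589934592), (32, 4294967296), (31, 2147483648), (30, 1073741824), (29, 536870912), (28, 268435456), (26, 67108864), (24, 16777216), (23, 8388608), (21, 2097152), (18, 262144), (17, 131072), (16, 65536), (14, 16384), (10, 1024), (2, 4), (1, 2), (0, 1)]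

set_option maxHeartbeats 4000000 in
theorem f4K1_chk : fixChk2 chevF4 [47] f4K1 = true := by decide +kernel

theorem f4K1_len : f4K1.length = 36 := by decide +kernel

end Cfsg.Agent.Lib.Helper25
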