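import Mathlib
import Cfsg.Agent.Lib.Helper25.InvChk
import Cfsg.Prelude.Def_ChevF4

/-!
# Involution classes of `F₄(2^a)`: a certificate for the rank of `y - 1`

A triangular range certificate (code, pivot) for `y - 1`, `y` the product of the root elements
of the roots [47, 44].
-/

set_option autoImplicit false

namespace Cfsg.Agent.Lib.Helper25

open Cfsg Cfsg.Lie

def f4R3 : List (ℕ × ℕ) := [(4, 0), (7, 1), (5, 23), (6, 24), (8, 31), (9, 32), (10, 33), (11, 37), (12, 38), (13, 39), (14, 40), (15, 41), (16, 42), (17, 43), (18, 44), (19, 46), (20, 47), (25, 49), (27, 50), (3, 51), (22, 48)]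

set_option maxHeartbeats 4000000 in
theorem f4R3_chk : ranChk2 chevF4 [47, 44] f4R3 = true := by decide +kernel

theorem f4R3_len : f4R3.length = 21 := by decide +kernel

end Cfsg.Agent.Lib.Helper25
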