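import Mathlib
import Cfsg.Agent.Lib.Helper25.InvChk
import Cfsg.Prelude.Def_ChevF4

/-!
# Involution classes of `F₄(2^a)`: a certificate for the rank of `y - 1`

A triangular range certificate (code, pivot) for `y - 1`, `y` the product of the root elements
of the roots [39, 45].
-/

set_option autoImplicit false

namespace Cfsg.Agent.Lib.Helper25

open Cfsg Cfsg.Lie

def f4R4 : List (ℕ × ℕ) := [(6, 3), (12, 0), (4, 13), (5, 14), (7, 17), (8, 18), (11, 24), (15, 32), (16, 33), (9, 34), (10, 35), (19, 37), (22, 39), (23, 40), (20, 45), (21, 46), (2, 49), (1, 43), (13, 41), (29, 50), (14, 42), (30, 51), (31, 44), (38, 48)]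

set_option maxHeartbeats 4000000 in
theorem f4R4_chk : ranChk2 chevF4 [39, 45] f4R4 = true := by decide +kernel

theorem f4R4_len : f4R4.length = 24 := by decide +kernel

end Cfsg.Agent.Lib.Helper25
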