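import Mathlib
import Cfsg.Agent.Lib.Helper25.InvTab2
import Cfsg.Agent.Lib.Helper25.InvChk

/-!
# Involution classes: table entries with commutation checked modulo two (definitions)

For root systems with two root lengths, orthogonal roots need not commute strongly, but the
root elements `x_r(1)` may still commute in characteristic two; this is checked on the matrices
modulo two.
-/

set_option autoImplicit false

namespace Cfsg.Agent.Lib.Helper25

open Cfsg Cfsg.Lie Matrix

/-- The root elements `x_{±b}(1)`, `x_{±b'}(1)` commute modulo two, for distinct `b`, `b'` of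
the list. -/
def commChk2 (D : ChevalleyDatum) (Bs : List ℕ) : Bool :=
  Bs.all fun b => Bs.all fun b' => b == b' ||
    ([b, D.neg b].all fun r => [b', D.neg b'].all fun r' =>
      decide (r < D.nroots) && decide (r' < D.nroots) && wordEq2 D [r, r'] [r', r])

/-- The checks for a table entry, against the list of classes, with commutation modulo two. -/
def invTabChk2 (D : ChevalleyDatum) (cls : List (List ℕ)) (e : InvTabEntry) : Bool :=
  odChk D e.1 e.2.1 e.2.2.1 && commChk2 D e.2.2.1 &&
  e.2.2.2.2.all (fun i => decide (i < D.rank)) &&
  (cls.getD e.2.2.2.1 []).all (fun r => decide (r < D.nroots)) &&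
  decide ((cls.getD e.2.2.2.1 []).map (wPiF D e.2.2.2.2) = e.2.2.1) &&
  decide (e.2.2.2.1 < cls.length)

end Cfsg.Agent.Lib.Helper25
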