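import Mathlib
import Cfsg.Agent.Lib.Helper25.InvTab3

/-!
# Involution classes of `F₄(2^a)`: the list of classes of sets of orthogonal roots
-/

set_option autoImplicit false

namespace Cfsg.Agent.Lib.Helper25

open Cfsg Cfsg.Lie

/-- The classes of sets of pairwise orthogonal roots met by the table; the last one is empty. -/
def f4Cls : List (List ℕ) := [[47], [44], [47, 44], [39, 45], [29, 44], [27, 32, 44], [24, 32, 44], [24, 27, 32, 44], []]

end Cfsg.Agent.Lib.Helper25
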