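import Mathlib
import Cfsg.Agent.Lib.Helper25.InvF4Cls
import Cfsg.Prelude.Def_ChevF4

/-!
# Involution classes of `F₄(2^a)`: part 0 of the table
-/

set_option autoImplicit false

namespace Cfsg.Agent.Lib.Helper25

open Cfsg Cfsg.Lie

/-- Entries (word, orbit data, roots, class, Weyl group word). -/
def f4Tab0 : List InvTabEntry := [
  ([],
   [],
   [], 8, []),
  ([0, 1, 2, 1, 0, 3, 2, 1, 0, 2, 1, 3, 2, 1, 0],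
   [([0, 1, 2, 3, 1, 2, 1], 0)],
   [44], 1, []),
  ([0, 1, 2, 1, 0, 2, 1, 2, 3, 2, 1, 0, 2, 1, 2, 3, 2, 1, 0, 2, 1, 2],
   [([0, 1, 2, 3, 1, 2, 1], 0), ([2, 3, 1], 2)],
   [44, 32], 3, [0, 1]),
  ([1, 0, 2, 1, 0, 2, 1, 2, 3, 2, 1, 0, 2, 1, 2, 3, 2, 1, 0, 2, 1, 2],
   [([2, 3, 1, 2, 1], 0), ([1, 2, 3, 0, 1], 2)],
   [39, 45], 3, []),
  ([0, 1, 0, 2, 1, 0, 2, 1, 2, 3, 2, 1, 0, 2, 1, 2, 3, 2, 1, 0, 2, 1, 2],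
   [([], 1), ([2, 3, 1], 2), ([0, 1, 2, 3, 1, 2, 1], 0)],
   [27, 32, 44], 5, []),
  ([3, 2, 1, 0, 2, 1, 2, 3, 2, 1, 0, 2, 1, 2, 3],
   [([3, 2, 1, 2, 3, 0, 1], 2)],
   [47], 0, [])]

set_option maxHeartbeats 4000000 in
theorem f4Tab0_chk : f4Tab0.all (invTabChk2 chevF4 f4Cls) = true := by decide +kernel

end Cfsg.Agent.Lib.Helper25
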