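import Mathlib
import Cfsg.Agent.Lib.Helper25.InvF4Cls
import Cfsg.Prelude.Def_ChevF4

/-!
# Involution classes of `F₄(2^a)`: part 1 of the table
-/

set_option autoImplicit false

namespace Cfsg.Agent.Lib.Helper25

open Cfsg Cfsg.Lie

/-- Entries (word, orbit data, roots, class, Weyl group word). -/
def f4Tab1 : List InvTabEntry := [
  ([0, 1, 2, 1, 0, 3, 2, 1, 0, 2, 1, 2, 3, 2, 1, 0, 2, 1, 2, 3],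
   [([3, 2], 1), ([0, 1, 2, 3, 1, 2, 1], 0)],
   [29, 44], 4, []),
  ([1, 0, 2, 1, 0, 2, 1, 3, 2, 1, 0, 2, 1, 2, 3, 2, 1, 0, 2, 1, 2, 3],
   [([1, 2, 1], 0), ([3, 2, 1, 2, 3, 0, 1], 2)],
   [37, 47], 3, [3, 2]),
  ([0, 1, 0, 2, 1, 0, 2, 1, 3, 2, 1, 0, 2, 1, 2, 3, 2, 1, 0, 2, 1, 2, 3],
   [([3, 2], 1), ([1], 2), ([0, 1, 2, 3, 1, 2, 1], 0)],
   [29, 30, 44], 5, [3, 2]),
  ([0, 1, 2, 1, 0, 2, 1, 2, 3, 2, 1, 0, 2, 1, 2, 3, 2, 1, 0, 2, 1, 2, 3],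
   [([], 3), ([2, 3, 1], 2), ([0, 1, 2, 3, 1, 2, 1], 0)],
   [24, 32, 44], 6, []),
  ([1, 0, 2, 1, 0, 2, 1, 2, 3, 2, 1, 0, 2, 1, 2, 3, 2, 1, 0, 2, 1, 2, 3],
   [([], 3), ([1, 2, 3, 0, 1], 2), ([2, 3, 1, 2, 1], 0)],
   [24, 45, 39], 6, [1, 0]),
  ([0, 1, 0, 2, 1, 0, 2, 1, 2, 3, 2, 1, 0, 2, 1, 2, 3, 2, 1, 0, 2, 1, 2, 3],
   [([], 3), ([], 1), ([2, 3, 1], 2), ([0, 1, 2, 3, 1, 2, 1], 0)],
   [24, 27, 32, 44], 7, [])]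

set_option maxHeartbeats 4000000 in
theorem f4Tab1_chk : f4Tab1.all (invTabChk2 chevF4 f4Cls) = true := by decide +kernel

end Cfsg.Agent.Lib.Helper25
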