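import Mathlib
import Cfsg.Agent.Lib.Helper25.InvF4Tab0
import Cfsg.Agent.Lib.Helper25.InvF4Tab1
import Cfsg.Agent.Lib.Helper25.InvPrune
import Cfsg.Agent.Lib.Helper25.CoxSmallData

/-!
# Involution classes of `F₄(2^a)`: the table and the pruned enumeration
-/

set_option autoImplicit false

namespace Cfsg.Agent.Lib.Helper25

open Cfsg Cfsg.Lie

/-- The table. -/
def f4Tab : List InvTabEntry := f4Tab0 ++ f4Tab1

theorem f4Tab_chk : ∀ e ∈ f4Tab, invTabChk2 chevF4 f4Cls e = true := by
  have h : f4Tab.all (invTabChk2 chevF4 f4Cls) = true := by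
    simp only [f4Tab, List.all_append, f4Tab0_chk, f4Tab1_chk, Bool.and_self]
  exact List.all_eq_true.1 h

set_option maxHeartbeats 4000000 in
/-- The pruned enumeration of the Weyl group gives exactly the words of the table. -/
theorem prune_F4 : pruneSearch chevF4 (f4Levels).reverse
    ((List.range chevF4.rank).map chevF4.simple) [] = f4Tab.map (·.1) := by decide +kernel

end Cfsg.Agent.Lib.Helper25
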