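import Mathlib
import Cfsg.Agent.Lib.Helper25.InvChk2
import Cfsg.Agent.Lib.Helper25.InvTab
import Cfsg.Prelude.Def_ChevF4

/-!
# Involution classes of `F₄(2^a)`: a fusion of classes of sets of orthogonal roots

The product of the root elements of the roots [29, 44]
is conjugate, by a product of four root elements, to a product over one root less.
-/

set_option autoImplicit false

namespace Cfsg.Agent.Lib.Helper25

open Cfsg Cfsg.Lie

set_option maxHeartbeats 4000000 in
theorem fus_F4_4_c0 : wordEq2From chevF4 ([6] ++ [29, 44])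
    ([47, 44] ++ [6]) (0 * 16) 16 = true := by decide +kernel

set_option maxHeartbeats 4000000 in
theorem fus_F4_4_c1 : wordEq2From chevF4 ([6] ++ [29, 44])
    ([47, 44] ++ [6]) (1 * 16) 16 = true := by decide +kernel

set_option maxHeartbeats 4000000 in
theorem fus_F4_4_c2 : wordEq2From chevF4 ([6] ++ [29, 44])
    ([47, 44] ++ [6]) (2 * 16) 16 = true := by decide +kernel

set_option maxHeartbeats 4000000 in
theorem fus_F4_4_c3 : wordEq2From chevF4 ([6] ++ [29, 44])
    ([47, 44] ++ [6]) (3 * 16) 16 = true := by decide +kernel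

theorem fus_F4_4 : wordEq2 chevF4 ([6] ++ [29, 44])
    ([47, 44] ++ [6]) = true := by
  apply wordEq2_of_chunks chevF4 _ _ 16 (by decide)
  intro i hi
  have hi' : i < 4 := hi
  interval_cases i
  · exact fus_F4_4_c0
  · exact fus_F4_4_c1
  · exact fus_F4_4_c2
  · exact fus_F4_4_c3

theorem weyl_F4_4 : ([47, 44]).map (wPiF chevF4 []) = [47, 44] := by decide +kernel

end Cfsg.Agent.Lib.Helper25
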