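import Mathlib
import Cfsg.Agent.Lib.Helper25.InvGen
import Cfsg.Agent.Lib.Helper25.InvPrune
import Cfsg.Agent.Lib.Helper25.InvTab3
import Cfsg.Agent.Lib.Helper25.InvGen2
import Cfsg.Agent.Lib.Helper54.InvCP

/-!
# Involution classes of Chevalley groups in characteristic two: assembly from a class table,
commutation checked modulo two

The table lists the Weyl group elements found by the pruned enumeration, each with orthogonal
roots whose reflections have this product, and a Weyl group word mapping the roots of one of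
finitely many classes onto them. Every involution is then conjugate to the product of the root
elements of a class.
-/

set_option autoImplicit false

namespace Cfsg.Agent.Lib.Helper25

open Cfsg Cfsg.Lie Matrix
open Cfsg.Agent.Lib.Helper8 Cfsg.Agent.Lib.Helper24

section

variable {F : Type*} [Field F]

theorem hcomm_of_chk2 [CharP F 2] (D : ChevalleyDatum) (Bs : List ℕ)
    (h : commChk2 D Bs = true) :
    ∀ b ∈ Bs, ∀ b' ∈ Bs, b ≠ b' → ∀ r ∈ [b, D.neg b], ∀ r' ∈ [b', D.neg b'],
      D.x F r 1 * D.x F r' 1 = D.x F r' 1 * D.x F r 1 := by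
  intro b hb b' hb' hne r hr r' hr'
  unfold commChk2 at h
  rw [List.all_eq_true] at h
  have h1 := h b hb
  rw [List.all_eq_true] at h1
  have h2 := h1 b' hb'
  rw [Bool.or_eq_true] at h2
  rcases h2 with h2 | h2
  · exact absurd (by simpa using h2) hne
  · rw [List.all_eq_true] at h2
    have h3 := h2 r hr
    rw [List.all_eq_true] at h3
    have h4 := h3 r' hr'
    simp only [Bool.and_eq_true, decide_eq_true_eq] at h4
    obtain ⟨⟨h5, h6⟩, h7⟩ := h4
    have hw := wordEq2_sound (F := F) D [r, r'] [r', r]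
      (by
        intro x hx
        simp only [List.mem_cons, List.not_mem_nil, or_false] at hx
        rcases hx with rfl | rfl
        · exact h5
        · exact h6)
      (by
        intro x hx
        simp only [List.mem_cons, List.not_mem_nil, or_false] at hx
        rcases hx with rfl | rfl
        · exact h6
        · exact h5) h7
    simpa [xProd] using hw

end

section

variable {F : Type*} [Field F]

/-- Every involution of the group is conjugate to the product of the root elements of a class
of the table. -/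
theorem inv_chev_classes_tab2 [Fintype F] [CharP F 2] (D : ChevalleyDatum)
    (hD : D ∈ [chevG2, chevB2, chevD4, chevF4, chevE6, chevE7, chevE8]) {l : ℕ}
    (M : CoxeterMatrix (Fin l)) (hl : D.rank = l)
    (hweyl : ∃ φ : ↥(D.monomialSubgroup F) →* M.Group, Function.Surjective φ ∧
      φ.ker = (D.diagonalSubgroup F).subgroupOf (D.monomialSubgroup F) ∧
      ∀ (i : Fin l) (g : ↥(D.monomialSubgroup F)),
        ((g : GL D.Idx F) : Matrix D.Idx D.Idx F) = D.nMat F (D.simple i) 1 →
          φ g = M.simple i)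
    (ML : List (List ℕ)) (cart : List (List ℤ)) (levels : List LevelData)
    (hlen : levels.length = l) (hM : ∀ i j : Fin l, M i j = tbl ML i j)
    (hchain : chainOK ML cart l 0 levels = true)
    (hpos : posChkAll D 0 levels = true)
    (cls : List (List ℕ)) (tab : List InvTabEntry)
    (hprune : pruneSearch D levels.reverse ((List.range D.rank).map D.simple) [] =
      tab.map (·.1))
    (htab : ∀ e ∈ tab, invTabChk2 D cls e = true)
    (t : GL D.Idx F) (ht : t ∈ D.group F) (h2 : t * t = 1) :
    ∃ c ∈ D.group F, ∃ L ∈ cls,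
      ((c * t * c⁻¹ : GL D.Idx F) : Matrix D.Idx D.Idx F) = xProd F D L := by
  have hD' : D ∈ chevList := hD
  have hsurv : ∀ v ∈ allWords levels, (∀ i ∈ v, i < D.rank) →
      (∀ i < D.rank, D.IsNegRoot (wPi D v (D.simple i)) ∨ wPi D v (D.simple i) = D.simple i) →
      v ∈ (tab.map fun e : InvTabEntry => (e.1, e.2.1, e.2.2.1)).map (·.1) := by
    intro v hv hval hc
    have h1 := pruneSearch_sound D hD levels (hlen.trans hl.symm) hpos v hv hval hc
    rw [hprune] at h1
    obtain ⟨e, he, rfl⟩ := List.mem_map.1 h1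
    exact List.mem_map.2 ⟨(e.1, e.2.1, e.2.2.1), List.mem_map.2 ⟨e, he, rfl⟩, rfl⟩
  have hchk : ∀ e ∈ tab, odChk D e.1 e.2.1 e.2.2.1 = true ∧ commChk2 D e.2.2.1 = true ∧
      (∀ i ∈ e.2.2.2.2, i < D.rank) ∧ (∀ r ∈ cls.getD e.2.2.2.1 [], r < D.nroots) ∧
      (cls.getD e.2.2.2.1 []).map (wPiF D e.2.2.2.2) = e.2.2.1 ∧ e.2.2.2.1 < cls.length := by
    intro e he
    have h := htab e he
    unfold invTabChk2 at h
    simp only [Bool.and_eq_true, List.all_eq_true, decide_eq_true_eq] at h
    obtain ⟨⟨⟨⟨⟨h1, h2⟩, h3⟩, h4⟩, h5⟩, h6⟩ := h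
    exact ⟨h1, h2, h3, h4, h5, h6⟩
  obtain ⟨c, hc, d, hd, hcd⟩ := inv_chev_classes_gen (F := F) D hD M hl hweyl ML cart levels hlen
    hM hchain hpos (tab.map fun e : InvTabEntry => (e.1, e.2.1, e.2.2.1)) hsurv
    (by
      intro d hd
      obtain ⟨e, he, rfl⟩ := List.mem_map.1 hd
      exact (hchk e he).1)
    (by
      intro d hd
      obtain ⟨e, he, rfl⟩ := List.mem_map.1 hd
      exact hcomm_of_chk2 D _ (hchk e he).2.1)
    t ht h2
  obtain ⟨e, he, rfl⟩ := List.mem_map.1 hd
  obtain ⟨-, -, hu, hΓ, hmap, hlt⟩ := hchk e he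
  obtain ⟨c', hc', e'⟩ := conj_weyl (F := F) D hD e.2.2.2.2 hu (cls.getD e.2.2.2.1 []) hΓ
    e.2.2.1 hmap t c hc hcd
  refine ⟨c', hc', cls.getD e.2.2.2.1 [], ?_, e'⟩
  rw [List.getD_eq_getElem _ _ hlt]
  exact List.getElem_mem hlt

end

end Cfsg.Agent.Lib.Helper25
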