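import Mathlib
import Cfsg.Agent.Lib.Helper25.InvGen3
import Cfsg.Agent.Lib.Helper25.InvF4Data
import Cfsg.Agent.Lib.Helper25.InvF4CertI
import Cfsg.Agent.Lib.Helper76.InvFA
import Cfsg.Agent.Lib.Helper4.InvFB
import Cfsg.Agent.Lib.Helper25.InvF4Fus4
import Cfsg.Agent.Lib.Helper25.InvF4Fus5
import Cfsg.Agent.Lib.Helper25.InvF4Fus6
import Cfsg.Agent.Lib.Helper25.InvF4Fus7
import Cfsg.Agent.Lib.Helper25.InvF4CertK1
import Cfsg.Agent.Lib.Helper25.InvF4CertK2
import Cfsg.Agent.Lib.Helper25.InvF4CertK3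
import Cfsg.Agent.Lib.Helper25.InvF4CertR3
import Cfsg.Agent.Lib.Helper25.InvF4CertR4
import Cfsg.Agent.Lib.Helper25.ChevWeylData
import Cfsg.Agent.Lib.Helper25.ChevOrderData
import Cfsg.Agent.Lib.Helper57.InvCX
import Cfsg.Agent.Lib.Helper39.InvCK
import Cfsg.Agent.Lib.Helper39.InvCM

/-!
# Involution classes of `F₄(2^a)`
-/

set_option autoImplicit false

namespace Cfsg.Agent.Lib.Helper25

open Cfsg Cfsg.Lie Matrix
open Cfsg.Agent.Lib.Helper8 Cfsg.Agent.Lib.Helper24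

/-- The standard sets of orthogonal roots. -/
def f4Std : List (List ℕ) := [[47], [44], [47, 44], [39, 45]]

theorem f4_sq_1 : wordEq2 chevF4 ([47] ++ [47]) [] = true := by decide +kernel

theorem f4_sq_2 : wordEq2 chevF4 ([44] ++ [44]) [] = true := by decide +kernel

theorem f4_sq_3 : wordEq2 chevF4 ([47, 44] ++ [47, 44]) [] = true := by decide +kernel

theorem f4_sq_4 : wordEq2 chevF4 ([39, 45] ++ [39, 45]) [] = true := by decide +kernel

theorem f4_bit_1 : (apps2 chevF4 [47] (1 <<< 4) ^^^ (1 <<< 4)).testBit 0 = true := by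
  decide +kernel

theorem f4_bit_2 : (apps2 chevF4 [44] (1 <<< 7) ^^^ (1 <<< 7)).testBit 1 = true := by
  decide +kernel

theorem f4_bit_3 : (apps2 chevF4 [47, 44] (1 <<< 4) ^^^ (1 <<< 4)).testBit 0 = true := by
  decide +kernel

theorem f4_bit_4 : (apps2 chevF4 [39, 45] (1 <<< 6) ^^^ (1 <<< 6)).testBit 3 = true := by
  decide +kernel

section

variable {F : Type*} [Field F]

theorem f4_cls_4 [CharP F 2] (t c : GL chevF4.Idx F) (hc : c ∈ chevF4.group F)
    (h : ((c * t * c⁻¹ : GL chevF4.Idx F) : Matrix chevF4.Idx chevF4.Idx F) =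
      xProd F chevF4 [29, 44]) :
    ∃ c' ∈ chevF4.group F, ∃ Y ∈ f4Std,
      ((c' * t * c'⁻¹ : GL chevF4.Idx F) : Matrix chevF4.Idx chevF4.Idx F) = xProd F chevF4 Y := by
  have hD : chevF4 ∈ [chevG2, chevB2, chevD4, chevF4, chevE6, chevE7, chevE8] := by simp
  have hD' : chevF4 ∈ chevList := hD
  obtain ⟨c₁, hc₁, e₁⟩ := conj_fusion (F := F) chevF4 hD' [6]
    [29, 44]
    [47, 44] (by decide) (by decide) (by decide) fus_F4_4 t c hc h
  obtain ⟨c₂, hc₂, e₂⟩ := conj_weyl (F := F) chevF4 hD [] (by decide)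
    [47, 44] (by decide) [47, 44] weyl_F4_4 t c₁ hc₁ e₁
  exact ⟨c₂, hc₂, _, by simp [f4Std], e₂⟩

theorem f4_cls_5 [CharP F 2] (t c : GL chevF4.Idx F) (hc : c ∈ chevF4.group F)
    (h : ((c * t * c⁻¹ : GL chevF4.Idx F) : Matrix chevF4.Idx chevF4.Idx F) =
      xProd F chevF4 [27, 32, 44]) :
    ∃ c' ∈ chevF4.group F, ∃ Y ∈ f4Std,
      ((c' * t * c'⁻¹ : GL chevF4.Idx F) : Matrix chevF4.Idx chevF4.Idx F) = xProd F chevF4 Y := by
  have hD : chevF4 ∈ [chevG2, chevB2, chevD4, chevF4, chevE6, chevE7, chevE8] := by simp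
  have hD' : chevF4 ∈ chevList := hD
  obtain ⟨c₁, hc₁, e₁⟩ := conj_fusion (F := F) chevF4 hD' [34, 14, 4]
    [27, 32, 44]
    [44, 32] (by decide) (by decide) (by decide) fus_F4_5 t c hc h
  obtain ⟨c₂, hc₂, e₂⟩ := conj_weyl (F := F) chevF4 hD [0, 1] (by decide)
    [39, 45] (by decide) [44, 32] weyl_F4_5 t c₁ hc₁ e₁
  exact ⟨c₂, hc₂, _, by simp [f4Std], e₂⟩

theorem f4_cls_6 [CharP F 2] (t c : GL chevF4.Idx F) (hc : c ∈ chevF4.group F)
    (h : ((c * t * c⁻¹ : GL chevF4.Idx F) : Matrix chevF4.Idx chevF4.Idx F) =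
      xProd F chevF4 [24, 32, 44]) :
    ∃ c' ∈ chevF4.group F, ∃ Y ∈ f4Std,
      ((c' * t * c'⁻¹ : GL chevF4.Idx F) : Matrix chevF4.Idx chevF4.Idx F) = xProd F chevF4 Y := by
  have hD : chevF4 ∈ [chevG2, chevB2, chevD4, chevF4, chevE6, chevE7, chevE8] := by simp
  have hD' : chevF4 ∈ chevList := hD
  obtain ⟨c₁, hc₁, e₁⟩ := conj_fusion (F := F) chevF4 hD' [42, 19, 6]
    [24, 32, 44]
    [44, 32] (by decide) (by decide) (by decide) fus_F4_6 t c hc h
  obtain ⟨c₂, hc₂, e₂⟩ := conj_weyl (F := F) chevF4 hD [0, 1] (by decide)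
    [39, 45] (by decide) [44, 32] weyl_F4_6 t c₁ hc₁ e₁
  exact ⟨c₂, hc₂, _, by simp [f4Std], e₂⟩

theorem f4_cls_7 [CharP F 2] (t c : GL chevF4.Idx F) (hc : c ∈ chevF4.group F)
    (h : ((c * t * c⁻¹ : GL chevF4.Idx F) : Matrix chevF4.Idx chevF4.Idx F) =
      xProd F chevF4 [24, 27, 32, 44]) :
    ∃ c' ∈ chevF4.group F, ∃ Y ∈ f4Std,
      ((c' * t * c'⁻¹ : GL chevF4.Idx F) : Matrix chevF4.Idx chevF4.Idx F) = xProd F chevF4 Y := by
  have hD : chevF4 ∈ [chevG2, chevB2, chevD4, chevF4, chevE6, chevE7, chevE8] := by simp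
  have hD' : chevF4 ∈ chevList := hD
  obtain ⟨c₁, hc₁, e₁⟩ := conj_fusion (F := F) chevF4 hD' [37, 12, 4]
    [24, 27, 32, 44]
    [24, 32, 44] (by decide) (by decide) (by decide) fus_F4_7 t c hc h
  obtain ⟨c₂, hc₂, e₂⟩ := conj_weyl (F := F) chevF4 hD [] (by decide)
    [24, 32, 44] (by decide) [24, 32, 44] weyl_F4_7 t c₁ hc₁ e₁
  exact f4_cls_6 t c₂ hc₂ e₂

/-- Every involution of `F₄(2^a)` is conjugate to one of the standard products. -/
theorem f4_class [Fintype F] [CharP F 2] (t : GL chevF4.Idx F) (ht : t ∈ chevF4.group F)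
    (h2 : orderOf t = 2) :
    ∃ c ∈ chevF4.group F, ∃ Y ∈ f4Std,
      ((c * t * c⁻¹ : GL chevF4.Idx F) : Matrix chevF4.Idx chevF4.Idx F) = xProd F chevF4 Y := by
  have hD : chevF4 ∈ [chevG2, chevB2, chevD4, chevF4, chevE6, chevE7, chevE8] := by simp
  have hD' : chevF4 ∈ chevList := hD
  have htt : t * t = 1 := by
    have := pow_orderOf_eq_one t
    rw [h2, pow_two] at this
    exact this
  obtain ⟨c, hc, Y, hY, hcY⟩ := inv_chev_classes_tab2 (F := F) chevF4 hD CoxeterMatrix.F₄ rfl weyl_F4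
    f4ML f4Cart f4Levels (by decide) (by intro i j; fin_cases i <;> fin_cases j <;> rfl)
    chainOK_F4 posChk_F4 f4Cls f4Tab prune_F4 f4Tab_chk t ht htt
  simp only [f4Cls, List.mem_cons, List.not_mem_nil, or_false] at hY
  rcases hY with rfl | rfl | rfl | rfl | rfl | rfl | rfl | rfl | rfl
  · exact ⟨c, hc, _, by simp [f4Std], hcY⟩
  · exact ⟨c, hc, _, by simp [f4Std], hcY⟩
  · exact ⟨c, hc, _, by simp [f4Std], hcY⟩
  · exact ⟨c, hc, _, by simp [f4Std], hcY⟩
  · exact f4_cls_4 t c hc hcY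
  · exact f4_cls_5 t c hc hcY
  · exact f4_cls_6 t c hc hcY
  · exact f4_cls_7 t c hc hcY
  · -- the identity: impossible
    exfalso
    have h1 : c * t * c⁻¹ = 1 := by
      apply Units.ext
      rw [hcY]
      simp [xProd]
    have h3 : t = 1 := by
      have : t = c⁻¹ * (c * t * c⁻¹) * c := by group
      rw [this, h1]
      group
    rw [h3, orderOf_one] at h2
    omega

/-- The standard products lie in the group and have order two. -/
theorem f4_part1 [CharP F 2] (Y : List ℕ) (hY : Y ∈ f4Std) (y : GL chevF4.Idx F)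
    (hy : (y : Matrix chevF4.Idx chevF4.Idx F) = xProd F chevF4 Y) :
    y ∈ chevF4.group F ∧ orderOf y = 2 := by
  have hD : chevF4 ∈ [chevG2, chevB2, chevD4, chevF4, chevE6, chevE7, chevE8] := by simp
  have hD' : chevF4 ∈ chevList := hD
  simp only [f4Std, List.mem_cons, List.not_mem_nil, or_false] at hY
  obtain ⟨g, hg, eg⟩ := exists_xProdGL (F := F) chevF4 hD' Y
  have hyg : y = g := Units.ext (hy.trans eg.symm)
  refine ⟨hyg ▸ hg, ?_⟩
  have hB : ∀ b ∈ Y, b < chevF4.nroots := by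
    rcases hY with rfl | rfl | rfl | rfl <;> decide
  have hsq : xProd F chevF4 Y * xProd F chevF4 Y = 1 := by
    have h0 : xProd F chevF4 (Y ++ Y) = xProd F chevF4 [] := by
      apply wordEq2_sound (F := F) chevF4 (Y ++ Y) []
      · intro r hr
        rcases List.mem_append.1 hr with hr | hr <;> exact hB r hr
      · intro r hr
        simp at hr
      · rcases hY with rfl | rfl | rfl | rfl
        · exact f4_sq_1
        · exact f4_sq_2
        · exact f4_sq_3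
        · exact f4_sq_4
    rw [xProd_append] at h0
    rw [h0]
    simp [xProd]
  have hne : xProd F chevF4 Y ≠ 1 := by
    rcases hY with rfl | rfl | rfl | rfl
    · exact xProd_ne_one_of_bit chevF4 _ hB 4 0 (by decide) (by decide) f4_bit_1
    · exact xProd_ne_one_of_bit chevF4 _ hB 7 1 (by decide) (by decide) f4_bit_2
    · exact xProd_ne_one_of_bit chevF4 _ hB 4 0 (by decide) (by decide) f4_bit_3
    · exact xProd_ne_one_of_bit chevF4 _ hB 6 3 (by decide) (by decide) f4_bit_4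
  have : Fact (Nat.Prime 2) := ⟨Nat.prime_two⟩
  apply orderOf_eq_prime
  · apply Units.ext
    rw [pow_two, Units.val_mul, hy, hsq, Units.val_one]
  · intro h1
    apply hne
    rw [← hy, h1, Units.val_one]

theorem f4_nc_1_3 [CharP F 2] (P : GL chevF4.Idx F) :
    (P : Matrix chevF4.Idx chevF4.Idx F) * xProd F chevF4 [47] ≠
      xProd F chevF4 [47, 44] * (P : Matrix chevF4.Idx chevF4.Idx F) :=
  inv_chev_not_conj chevF4 [47] [47, 44] (by decide) (by decide) f4K1 f4R3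
    f4K1_chk f4R3_chk (by rw [f4K1_len, f4R3_len]; decide) P

theorem f4_nc_1_4 [CharP F 2] (P : GL chevF4.Idx F) :
    (P : Matrix chevF4.Idx chevF4.Idx F) * xProd F chevF4 [47] ≠
      xProd F chevF4 [39, 45] * (P : Matrix chevF4.Idx chevF4.Idx F) :=
  inv_chev_not_conj chevF4 [47] [39, 45] (by decide) (by decide) f4K1 f4R4
    f4K1_chk f4R4_chk (by rw [f4K1_len, f4R4_len]; decide) P

theorem f4_nc_2_3 [CharP F 2] (P : GL chevF4.Idx F) :
    (P : Matrix chevF4.Idx chevF4.Idx F) * xProd F chevF4 [44] ≠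
      xProd F chevF4 [47, 44] * (P : Matrix chevF4.Idx chevF4.Idx F) :=
  inv_chev_not_conj chevF4 [44] [47, 44] (by decide) (by decide) f4K2 f4R3
    f4K2_chk f4R3_chk (by rw [f4K2_len, f4R3_len]; decide) P

theorem f4_nc_2_4 [CharP F 2] (P : GL chevF4.Idx F) :
    (P : Matrix chevF4.Idx chevF4.Idx F) * xProd F chevF4 [44] ≠
      xProd F chevF4 [39, 45] * (P : Matrix chevF4.Idx chevF4.Idx F) :=
  inv_chev_not_conj chevF4 [44] [39, 45] (by decide) (by decide) f4K2 f4R4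
    f4K2_chk f4R4_chk (by rw [f4K2_len, f4R4_len]; decide) P

theorem f4_nc_3_4 [CharP F 2] (P : GL chevF4.Idx F) :
    (P : Matrix chevF4.Idx chevF4.Idx F) * xProd F chevF4 [47, 44] ≠
      xProd F chevF4 [39, 45] * (P : Matrix chevF4.Idx chevF4.Idx F) :=
  inv_chev_not_conj chevF4 [47, 44] [39, 45] (by decide) (by decide) f4K3 f4R4
    f4K3_chk f4R4_chk (by rw [f4K3_len, f4R4_len]; decide) P

/-- A long root element and a short root element are not conjugate in the group: the rank of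
`y - 1` on the stable subspace spanned by the short root vectors differs. -/
theorem f4_nc_1_2 [CharP F 2] (P : GL chevF4.Idx F) (hP : P ∈ chevF4.group F) :
    (P : Matrix chevF4.Idx chevF4.Idx F) * xProd F chevF4 [47] ≠
      xProd F chevF4 [44] * (P : Matrix chevF4.Idx chevF4.Idx F) :=
  inv_chev_not_conj_ideal chevF4 f4Short [47] [44] (by decide) (by decide) f4KI f4RI
    f4KI_chk f4KI_sup f4RI_chk f4RI_sup (by rw [f4KI_len, f4RI_len, f4Short_len]; decide) P
    (inv_ideal_blockTriangular chevF4 f4Short idealChk_F4 P hP)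

theorem f4_conj_swap (P : GL chevF4.Idx F) (A B : Matrix chevF4.Idx chevF4.Idx F)
    (h : (P : Matrix chevF4.Idx chevF4.Idx F) * A = B * (P : Matrix chevF4.Idx chevF4.Idx F)) :
    ((P⁻¹ : GL chevF4.Idx F) : Matrix chevF4.Idx chevF4.Idx F) * B =
      A * ((P⁻¹ : GL chevF4.Idx F) : Matrix chevF4.Idx chevF4.Idx F) := by
  have h1 : ((P⁻¹ : GL chevF4.Idx F) : Matrix chevF4.Idx chevF4.Idx F) *
      (P : Matrix chevF4.Idx chevF4.Idx F) = 1 := by
    rw [← Units.val_mul, inv_mul_cancel, Units.val_one]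
  have h2 : (P : Matrix chevF4.Idx chevF4.Idx F) *
      ((P⁻¹ : GL chevF4.Idx F) : Matrix chevF4.Idx chevF4.Idx F) = 1 := by
    rw [← Units.val_mul, mul_inv_cancel, Units.val_one]
  calc ((P⁻¹ : GL chevF4.Idx F) : Matrix chevF4.Idx chevF4.Idx F) * B
      = ((P⁻¹ : GL chevF4.Idx F) : Matrix chevF4.Idx chevF4.Idx F) * B *
          ((P : Matrix chevF4.Idx chevF4.Idx F) *
            ((P⁻¹ : GL chevF4.Idx F) : Matrix chevF4.Idx chevF4.Idx F)) := by
        rw [h2, Matrix.mul_one]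
    _ = ((P⁻¹ : GL chevF4.Idx F) : Matrix chevF4.Idx chevF4.Idx F) *
          (B * (P : Matrix chevF4.Idx chevF4.Idx F)) *
            ((P⁻¹ : GL chevF4.Idx F) : Matrix chevF4.Idx chevF4.Idx F) := by
        simp only [Matrix.mul_assoc]
    _ = (((P⁻¹ : GL chevF4.Idx F) : Matrix chevF4.Idx chevF4.Idx F) *
          (P : Matrix chevF4.Idx chevF4.Idx F)) * A *
            ((P⁻¹ : GL chevF4.Idx F) : Matrix chevF4.Idx chevF4.Idx F) := by
        rw [← h]
        simp only [Matrix.mul_assoc]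
    _ = A * ((P⁻¹ : GL chevF4.Idx F) : Matrix chevF4.Idx chevF4.Idx F) := by
        rw [h1, Matrix.one_mul]

/-- Distinct standard products are not conjugate. -/
theorem f4_not_conj [CharP F 2] (Y₁ : List ℕ) (h₁ : Y₁ ∈ f4Std) (Y₂ : List ℕ) (h₂ : Y₂ ∈ f4Std)
    (hne : Y₁ ≠ Y₂) (P : GL chevF4.Idx F) (hP : P ∈ chevF4.group F) :
    (P : Matrix chevF4.Idx chevF4.Idx F) * xProd F chevF4 Y₁ ≠
      xProd F chevF4 Y₂ * (P : Matrix chevF4.Idx chevF4.Idx F) := by
  simp only [f4Std, List.mem_cons, List.not_mem_nil, or_false] at h₁ h₂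
  rcases h₁ with rfl | rfl | rfl | rfl <;> rcases h₂ with rfl | rfl | rfl | rfl
  · exact absurd rfl hne
  · exact f4_nc_1_2 P hP
  · exact f4_nc_1_3 P
  · exact f4_nc_1_4 P
  · exact fun h => f4_nc_1_2 P⁻¹ (inv_mem hP) (f4_conj_swap P _ _ h)
  · exact absurd rfl hne
  · exact f4_nc_2_3 P
  · exact f4_nc_2_4 P
  · exact fun h => f4_nc_1_3 P⁻¹ (f4_conj_swap P _ _ h)
  · exact fun h => f4_nc_2_3 P⁻¹ (f4_conj_swap P _ _ h)
  · exact absurd rfl hne
  · exact f4_nc_3_4 P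
  · exact fun h => f4_nc_1_4 P⁻¹ (f4_conj_swap P _ _ h)
  · exact fun h => f4_nc_2_4 P⁻¹ (f4_conj_swap P _ _ h)
  · exact fun h => f4_nc_3_4 P⁻¹ (f4_conj_swap P _ _ h)
  · exact absurd rfl hne

end

end Cfsg.Agent.Lib.Helper25
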